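import Mathlib
import Cfsg.Agent.Lib.Char.BlichfeldtB

set_option autoImplicit false
open Cfsg

namespace Cfsg.Agent.Lib.Char.BlichfeldtC

open Cfsg.Agent.Lib.Char.BlichfeldtA Cfsg.Agent.Lib.Char.BlichfeldtB Cfsg.Agent.Lib.Char.Ortho

variable {G : Type*} [Group G] [Fintype G]

attribute [local instance] finH

variable {P C D N : Subgroup G} {Q e : ℕ}

/-- Conjugation on `C` by an element of `N`. -/
def ccMap (hS : BSetup P C D N Q e) (g : ↥N) : ↥C ≃* ↥C where
  toFun c := ⟨(g : G) * c * (g : G)⁻¹, hS.conjC g g.2 c c.2⟩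
  invFun c := ⟨(g : G)⁻¹ * c * g, by simpa using hS.conjC _ (N.inv_mem g.2) c c.2⟩
  left_inv c := Subtype.ext (by simp [mul_assoc])
  right_inv c := Subtype.ext (by simp [mul_assoc])
  map_mul' a b := Subtype.ext (by simp [mul_assoc])

@[simp] theorem ccMap_val (hS : BSetup P C D N Q e) (g : ↥N) (c : ↥C) :
    ((ccMap hS g c : ↥C) : G) = g * c * (g : G)⁻¹ := rfl

/-- The action of `N` on the irreducible characters of `C`. -/
@[reducible] noncomputable def irrAct (hS : BSetup P C D N Q e) : MulAction ↥N (IrrCharacter ↥C) where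
  smul g ζ := ⟨fun c => ζ.1 (ccMap hS g⁻¹ c),
    Cfsg.Agent.Lib.Char.Basic.isIrrCharacter_comp_surjective ζ.2 (ccMap hS g⁻¹).toMonoidHom
      (ccMap hS g⁻¹).surjective⟩
  one_smul ζ := Subtype.ext (funext fun c => by
    show ζ.1 (ccMap hS 1⁻¹ c) = ζ.1 c
    exact congrArg ζ.1 (Subtype.ext (by simp)))
  mul_smul g h ζ := Subtype.ext (funext fun c => by
    show ζ.1 (ccMap hS (g * h)⁻¹ c) = ζ.1 (ccMap hS h⁻¹ (ccMap hS g⁻¹ c))
    exact congrArg ζ.1 (Subtype.ext (by simp [mul_assoc])))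

theorem irrAct_apply (hS : BSetup P C D N Q e) (g : ↥N) (ζ : IrrCharacter ↥C) (c : ↥C) :
    ((irrAct hS).smul g ζ).1 c = ζ.1 (ccMap hS g⁻¹ c) := rfl

/-- The action of `N` on `P`. -/
@[reducible] def pAct (hS : BSetup P C D N Q e) : MulAction ↥N ↥P where
  smul g u := ⟨(g : G) * u * (g : G)⁻¹, hS.conjP g g.2 u u.2⟩
  one_smul u := Subtype.ext (by
    show ((1 : ↥N) : G) * u * ((1 : ↥N) : G)⁻¹ = u
    simp)
  mul_smul g h u := Subtype.ext (by
    show ((g * h : ↥N) : G) * u * ((g * h : ↥N) : G)⁻¹ = g * (h * u * (h : G)⁻¹) * (g : G)⁻¹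
    simp [mul_assoc])

theorem card_stab (hS : BSetup P C D N Q e) (T : Subgroup ↥N) (hT : ∀ g : ↥N, g ∈ T ↔ (g : G) ∈ C) :
    Nat.card T * e = Nat.card N := by
  have h1 : T = C.subgroupOf N := by
    ext g
    rw [hT, Subgroup.mem_subgroupOf]
  subst h1
  rw [Nat.card_congr (Subgroup.subgroupOfEquivOfLe hS.hCN).toEquiv, hS.cardN, mul_comm]

theorem e_dvd (hS : BSetup P C D N Q e) : e ∣ Q - 1 := by
  classical
  letI := pAct hS
  have key := orbit_dvd (H := ↥N) (X := ↥P) (fun u => if u = 1 then 0 else 1)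
    (by
      intro g u
      by_cases hu : u = 1
      · subst hu
        have : g • (1 : ↥P) = 1 := Subtype.ext (by
          show (g : G) * ((1 : ↥P) : G) * (g : G)⁻¹ = 1
          simp)
        simp [this]
      · have : g • u ≠ 1 := by
          intro h
          apply hu
          have h2 : (g : G) * u * (g : G)⁻¹ = 1 := congrArg Subtype.val h
          apply Subtype.ext
          have h3 : (u : G) = 1 := by
            have : (g : G) * u = g := by
              calc (g : G) * u = ((g : G) * u * (g : G)⁻¹) * g := by group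
                _ = g := by rw [h2, one_mul]
            simpa using this
          exact h3
        simp [this, hu])
    e
    (by
      intro u hu
      have hu1 : u ≠ 1 := by
        intro h
        simp [h] at hu
      apply card_stab hS
      intro g
      constructor
      · intro hg
        have hg' : g • u = u := hg
        have h2 : (g : G) * u * (g : G)⁻¹ = u := congrArg Subtype.val hg'
        exact hS.free g g.2 u u.2 (fun h => hu1 (Subtype.ext h)) h2
      · intro hg
        have : g • u = u := Subtype.ext (by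
          show (g : G) * u * (g : G)⁻¹ = u
          have h3 := hS.central u u.2 g hg
          rw [← h3]
          simp)
        exact this)
  convert key using 1
  rw [Finset.sum_ite, Finset.sum_const_zero, zero_add, Finset.sum_const, smul_eq_mul, mul_one,
    Finset.filter_ne', Finset.card_erase_of_mem (Finset.mem_univ _), Finset.card_univ,
    ← Nat.card_eq_fintype_card, hS.cardQ]

/-- The characters of `C` trivial on `P`. -/
def InZ (hS : BSetup P C D N Q e) (ζ : ↥C → ℂ) : Prop := ∀ u : ↥P, ζ (inP hS u) = ζ 1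

theorem free_lemma (hS : BSetup P C D N Q e) {ζ : ↥C → ℂ} (hζ : IsIrrCharacter ↥C ζ) (h : ↥N)
    (hh : (h : G) ∉ C) (hinv : ∀ c : ↥C, ζ (ccMap hS h c) = ζ c) : InZ hS ζ := by
  have hz : ζ 1 ≠ 0 := irr_apply_one_ne_zero hζ
  let ω : ↥P → ℂ := fun u => ζ (inP hS u) / ζ 1
  have ω_mul : ∀ u v, ω (u * v) = ω u * ω v := by
    intro u v
    simp only [ω]
    rw [inP_mul, zeta_mul hS hζ]
    ring
  have ω_one : ω 1 = 1 := by
    simp only [ω]
    have : inP hS (1 : ↥P) = 1 := rfl
    rw [this, div_self hz]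
  let act : ↥P → ↥P := fun u => ⟨(h : G) * u * (h : G)⁻¹, hS.conjP h h.2 u u.2⟩
  have ω_act : ∀ u, ω (act u) = ω u := by
    intro u
    simp only [ω]
    have : inP hS (act u) = ccMap hS h (inP hS u) := rfl
    rw [this, hinv]
  let φ : ↥P → ↥P := fun u => u⁻¹ * act u
  have φ_inj : Function.Injective φ := by
    intro u v huv
    have h1 : (u : G)⁻¹ * ((h : G) * u * (h : G)⁻¹) = (v : G)⁻¹ * ((h : G) * v * (h : G)⁻¹) :=
      congrArg Subtype.val huv
    by_contra hne
    have hw : (v : G) * (u : G)⁻¹ ≠ 1 := by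
      intro hw
      apply hne
      apply Subtype.ext
      exact (mul_inv_eq_one.1 hw).symm
    apply hh
    refine hS.free h h.2 _ (P.mul_mem v.2 (P.inv_mem u.2)) hw ?_
    have h2 : (h : G) * v * (h : G)⁻¹ = (v : G) * (u : G)⁻¹ * ((h : G) * u * (h : G)⁻¹) := by
      calc (h : G) * v * (h : G)⁻¹ = (v : G) * ((v : G)⁻¹ * ((h : G) * v * (h : G)⁻¹)) := by group
        _ = (v : G) * ((u : G)⁻¹ * ((h : G) * u * (h : G)⁻¹)) := by rw [h1]
        _ = _ := by group
    calc (h : G) * ((v : G) * (u : G)⁻¹) * (h : G)⁻¹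
        = ((h : G) * v * (h : G)⁻¹) * ((h : G) * u * (h : G)⁻¹)⁻¹ := by group
      _ = (v : G) * (u : G)⁻¹ := by rw [h2]; group
  have φ_surj : Function.Surjective φ := Finite.injective_iff_surjective.1 φ_inj
  intro v
  obtain ⟨u, rfl⟩ := φ_surj v
  have h1 : ω (φ u) = 1 := by
    simp only [φ]
    rw [ω_mul, ω_act, ← ω_mul, inv_mul_cancel, ω_one]
  simp only [ω] at h1
  exact (div_eq_one_iff_eq hz).1 h1

theorem stab_iff (hS : BSetup P C D N Q e) (ζ : IrrCharacter ↥C) (hζ : ¬ InZ hS ζ.1) (g : ↥N) :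
    letI := irrAct hS
    g ∈ MulAction.stabilizer ↥N ζ ↔ (g : G) ∈ C := by
  letI := irrAct hS
  constructor
  · intro hg
    have hg' : g • ζ = ζ := hg
    by_contra hgC
    apply hζ
    refine free_lemma hS ζ.2 g⁻¹ (fun hc => hgC ?_) (fun c => ?_)
    · have : (g : G)⁻¹ ∈ C := hc
      simpa using C.inv_mem this
    · have := congrFun (congrArg Subtype.val hg') c
      exact this
  · intro hg
    have : g • ζ = ζ := by
      apply Subtype.ext
      funext c
      show ζ.1 (ccMap hS g⁻¹ c) = ζ.1 c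
      have hcl := Cfsg.Agent.Lib.Char.Basic.isClassFunction_of_isCharacter
        (Cfsg.Agent.Lib.Char.Basic.isCharacter_of_isIrrCharacter ζ.2)
      have h1 := hcl c ⟨(g : G), hg⟩⁻¹
      rw [← h1]
      exact congrArg ζ.1 (Subtype.ext (by simp))
    exact this

theorem InZ_act (hS : BSetup P C D N Q e) (ζ : IrrCharacter ↥C) (g : ↥N) (hζ : InZ hS ζ.1) :
    InZ hS ((irrAct hS).smul g ζ).1 := by
  intro u
  rw [irrAct_apply, irrAct_apply]
  have h1 : ccMap hS g⁻¹ (inP hS u) =
      inP hS ⟨((g⁻¹ : ↥N) : G) * u * ((g⁻¹ : ↥N) : G)⁻¹, hS.conjP _ (g⁻¹ : ↥N).2 u u.2⟩ := rfl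
  rw [h1, hζ]
  exact congrArg ζ.1 (map_one (ccMap hS g⁻¹)).symm

theorem mult_classInner_eq {hS : BSetup P C D N Q e} {ξ : G → ℂ} {m n} (h : Mult hS ξ m n)
    (ζ : IrrCharacter ↥C) : classInner (fun c : ↥C => ξ c) ζ.1 = m ζ := by
  have hξ : (fun c : ↥C => ξ c) = ∑ χ : IrrCharacter ↥C, (m χ : ℂ) • (χ : ↥C → ℂ) := by
    funext k
    rw [h.hm k, Finset.sum_apply]
    rfl
  rw [hξ]
  exact classInner_sum_irr _ ζ

theorem mult_m_act {hS : BSetup P C D N Q e} {ξ : G → ℂ} {m n} (h : Mult hS ξ m n)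
    (hcl : IsClassFunction G ξ) (g : ↥N) (ζ : IrrCharacter ↥C) :
    m ((irrAct hS).smul g ζ) = m ζ := by
  have h1 := mult_classInner_eq h ((irrAct hS).smul g ζ)
  have h2 := mult_classInner_eq h ζ
  have h3 := Cfsg.Agent.Lib.Char.Clifford.classInner_comp_equiv (ccMap hS g)
    (fun c : ↥C => ξ c) ((irrAct hS).smul g ζ).1
  have h4 : (fun a : ↥C => ξ (ccMap hS g a)) = fun c : ↥C => ξ c := by
    funext a
    rw [ccMap_val]
    exact hcl _ _
  have h5 : (fun a : ↥C => ((irrAct hS).smul g ζ).1 (ccMap hS g a)) = ζ.1 := by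
    funext a
    rw [irrAct_apply]
    exact congrArg ζ.1 (Subtype.ext (by simp [mul_assoc]))
  rw [h4, h5, h2, h1] at h3
  exact_mod_cast h3.symm

end Cfsg.Agent.Lib.Char.BlichfeldtC
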