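import Mathlib
import Cfsg.Agent.Lib.Char.BlichfeldtC

set_option autoImplicit false
open Cfsg

namespace Cfsg.Agent.Lib.Char.BlichfeldtD

open Cfsg.Agent.Lib.Char.BlichfeldtA Cfsg.Agent.Lib.Char.BlichfeldtB
  Cfsg.Agent.Lib.Char.BlichfeldtC Cfsg.Agent.Lib.Char.Ortho

open scoped ComplexConjugate

section Expand

variable {K : Type*} [Group K] [Fintype K]

theorem norm_sq_expand (t : ℝ) (z : ℂ) : ‖(t : ℂ) * z + 1‖ ^ 2 = t ^ 2 * ‖z‖ ^ 2 + 2 * t * z.re + 1 := by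
  rw [Complex.sq_norm, Complex.sq_norm, Complex.normSq_apply, Complex.normSq_apply]
  simp
  ring

theorem mean_expand (t : ℝ) (F : K → ℂ) :
    (Nat.card K : ℝ)⁻¹ * ∑ k, ‖(t : ℂ) * F k + 1‖ ^ 2 =
      t ^ 2 * ((Nat.card K : ℝ)⁻¹ * ∑ k, ‖F k‖ ^ 2) + 2 * t * ((Nat.card K : ℝ)⁻¹ * ∑ k, (F k).re) + 1 := by
  have hK : (Nat.card K : ℝ) ≠ 0 := by exact_mod_cast Nat.card_pos.ne'
  simp only [norm_sq_expand, Finset.sum_add_distrib, Finset.sum_const, Finset.card_univ,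
    nsmul_eq_mul, mul_one, ← Finset.mul_sum]
  rw [← Nat.card_eq_fintype_card]
  field_simp

theorem re_classInner_one (F : K → ℂ) :
    (classInner F (fun _ => 1)).re = (Nat.card K : ℝ)⁻¹ * ∑ k, (F k).re := by
  have h : (Nat.card K : ℂ)⁻¹ = (((Nat.card K : ℝ)⁻¹ : ℝ) : ℂ) := by push_cast; rfl
  simp only [classInner, map_one, mul_one]
  rw [h, Complex.re_ofReal_mul, Complex.re_sum]

end Expand

variable {G : Type*} [Group G] [Fintype G]

attribute [local instance] finH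

variable {P C D N : Subgroup G} {Q e : ℕ}

theorem Sg_irr {χ : G → ℂ} (hχ : IsIrrCharacter G χ) : Sg χ = 1 := by
  have h1 := classInner_irr_self hχ
  rw [classInner_self_eq] at h1
  have h2 : ((Nat.card G : ℝ)⁻¹ * ∑ c, ‖χ c‖ ^ 2) = 1 := by exact_mod_cast h1
  exact h2

theorem exists_nonInZ {hS : BSetup P C D N Q e} {ξ : G → ℂ} {m n} (h : Mult hS ξ m n)
    (hne : ∃ u : ↥P, ξ u ≠ ξ 1) : ∃ ζ : IrrCharacter ↥C, ¬ InZ hS ζ.1 ∧ m ζ ≠ 0 := by
  by_contra hcon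
  push Not at hcon
  obtain ⟨u, hu⟩ := hne
  apply hu
  have h1 := h.hm (inP hS u)
  have h2 := h.hm 1
  have e1 : ξ ((inP hS u : ↥C) : G) = ξ u := rfl
  have e2 : ξ (((1 : ↥C) : G)) = ξ 1 := rfl
  rw [e1] at h1
  rw [e2] at h2
  rw [h1, h2]
  refine Finset.sum_congr rfl fun ζ _ => ?_
  by_cases hζ : InZ hS ζ.1
  · rw [hζ u]
  · rw [hcon ζ hζ]
    simp

open Classical in
theorem card_R {hS : BSetup P C D N Q e} {ξ : G → ℂ} {m n} (h : Mult hS ξ m n)
    (hcl : IsClassFunction G ξ) (hne : ∃ u : ↥P, ξ u ≠ ξ 1) :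
    e ≤ (Finset.univ.filter (fun ζ : IrrCharacter ↥C => ¬ InZ hS ζ.1 ∧ m ζ ≠ 0)).card := by
  letI := irrAct hS
  obtain ⟨ζ₀, h₀, h₀'⟩ := exists_nonInZ h hne
  let w : IrrCharacter ↥C → ℕ := fun ζ => if InZ hS ζ.1 then 0 else m ζ
  have hw : ∀ (g : ↥N) ζ, w (g • ζ) = w ζ := by
    intro g ζ
    have hiff : InZ hS (g • ζ).1 ↔ InZ hS ζ.1 := by
      constructor
      · intro hh
        have := InZ_act hS (g • ζ) g⁻¹ hh
        have h3 : (irrAct hS).smul g⁻¹ (g • ζ) = ζ := inv_smul_smul g ζ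
        rwa [h3] at this
      · exact InZ_act hS ζ g
    simp only [w, hiff]
    rw [show m (g • ζ) = m ζ from mult_m_act h hcl g ζ]
  have hstab : ∀ ζ, w ζ ≠ 0 →
      Nat.card (MulAction.stabilizer ↥N ζ) * e = Nat.card ↥N := by
    intro ζ hζ
    have hnz : ¬ InZ hS ζ.1 := by
      intro hh
      simp [w, hh] at hζ
    exact card_stab hS _ (stab_iff hS ζ hnz)
  have := orbit_le_support w hw e hstab ζ₀ (by simp [w, h₀, h₀'])
  convert this using 2
  ext ζ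
  simp only [Finset.mem_filter, Finset.mem_univ, true_and, w]
  by_cases hh : InZ hS ζ.1 <;> simp [hh]

theorem Q_A_lt {hS : BSetup P C D N Q e} {η : G → ℂ} (hη : IsIrrCharacter G η) {m n}
    (h : Mult hS η m n) :
    (∑ ζ, (m ζ) ^ 2) * Q < e * Q + ∑ δ, (n δ) ^ 2 := by
  have hch := Cfsg.Agent.Lib.Char.Basic.isCharacter_of_isIrrCharacter hη
  have h1 := star_lt hS η (Cfsg.Agent.Lib.Char.Basic.isClassFunction_of_isCharacter hch)
    (irr_apply_one_ne_zero hη)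
  rw [Sg_irr hη, h.S_C, h.S_D] at h1
  have h2 : (((∑ ζ, (m ζ) ^ 2) * Q : ℕ) : ℝ) < ((e * Q + ∑ δ, (n δ) ^ 2 : ℕ) : ℝ) := by
    push_cast
    linarith
  exact_mod_cast h2

theorem degree_cast (ζ : G → ℂ) (hζ : IsIrrCharacter G ζ) : (charDegree ζ : ℂ) = ζ 1 :=
  Cfsg.Agent.Lib.Char.Values.IsCharacter.charDegree_cast
    (Cfsg.Agent.Lib.Char.Basic.isCharacter_of_isIrrCharacter hζ)

theorem m_le_sq (k : ℕ) : k ≤ k ^ 2 := by
  rcases Nat.eq_zero_or_pos k with rfl | h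
  · simp
  · nlinarith

theorem chi_part (hS : BSetup P C D N Q e) {χ : G → ℂ} (hχ : IsIrrCharacter G χ) {x : ℕ}
    (hx : χ 1 = x) (hdeg : x ^ 2 + 1 < Q) (hne : ∃ u : ↥P, χ u ≠ χ 1) {m n}
    (h : Mult hS χ m n) : ∑ ζ, (m ζ) ^ 2 = e ∧ e ∣ x ∧ e ≤ x := by
  classical
  have hch := Cfsg.Agent.Lib.Char.Basic.isCharacter_of_isIrrCharacter hχ
  have hcl := Cfsg.Agent.Lib.Char.Basic.isClassFunction_of_isCharacter hch
  have hQ : 0 < Q := Q_pos hS
  -- upper bound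
  have hup : ∑ ζ, (m ζ) ^ 2 ≤ e := by
    have h1 := star_lt hS χ hcl (irr_apply_one_ne_zero hχ)
    rw [Sg_irr hχ, h.S_C] at h1
    have h2 : S D χ ≤ (x : ℝ) ^ 2 := by
      unfold S
      have hD : (0 : ℝ) < Nat.card D := by exact_mod_cast Nat.card_pos
      rw [inv_mul_le_iff₀ hD]
      have : ∀ d : ↥D, ‖χ d‖ ^ 2 ≤ (x : ℝ) ^ 2 := by
        intro d
        have h3 := Cfsg.Agent.Lib.Char.Values.IsCharacter.norm_le hch d
        rw [hx, Complex.norm_natCast] at h3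
        gcongr
      calc ∑ d : ↥D, ‖χ d‖ ^ 2 ≤ ∑ _d : ↥D, (x : ℝ) ^ 2 := Finset.sum_le_sum fun d _ => this d
        _ = (Nat.card D : ℝ) * (x : ℝ) ^ 2 := by
          rw [Finset.sum_const, Finset.card_univ, nsmul_eq_mul, ← Nat.card_eq_fintype_card]
    have h3 : (((Q * ∑ ζ, (m ζ) ^ 2 : ℕ) : ℝ)) < ((Q * e + x ^ 2 : ℕ) : ℝ) := by
      push_cast
      linarith
    have h4 : Q * ∑ ζ, (m ζ) ^ 2 < Q * e + x ^ 2 := by exact_mod_cast h3
    have h5 : Q * ∑ ζ, (m ζ) ^ 2 < Q * (e + 1) := by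
      rw [mul_add, mul_one]
      omega
    have h6 := lt_of_mul_lt_mul_left h5 (Nat.zero_le _)
    omega
  set R := Finset.univ.filter (fun ζ : IrrCharacter ↥C => ¬ InZ hS ζ.1 ∧ m ζ ≠ 0) with hR
  have hRe : e ≤ R.card := card_R h hcl hne
  have hsq : R.card ≤ ∑ ζ ∈ R, (m ζ) ^ 2 := by
    rw [Finset.card_eq_sum_ones]
    refine Finset.sum_le_sum fun ζ hζ => ?_
    have := (Finset.mem_filter.1 hζ).2.2
    exact Nat.one_le_pow _ _ (Nat.pos_of_ne_zero this)
  have hZ : ∀ ζ : IrrCharacter ↥C, InZ hS ζ.1 → m ζ = 0 := by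
    intro ζ hζ
    by_contra hne0
    have hnot : ζ ∉ R := by
      intro hmem
      exact (Finset.mem_filter.1 hmem).2.1 hζ
    have h1 : ∑ z ∈ insert ζ R, (m z) ^ 2 ≤ ∑ z, (m z) ^ 2 :=
      Finset.sum_le_sum_of_subset (Finset.subset_univ _)
    rw [Finset.sum_insert hnot] at h1
    have h2 : 1 ≤ (m ζ) ^ 2 := Nat.one_le_pow _ _ (Nat.pos_of_ne_zero hne0)
    omega
  have hA : ∑ ζ, (m ζ) ^ 2 = e := by
    apply le_antisymm hup
    calc e ≤ R.card := hRe
      _ ≤ ∑ ζ ∈ R, (m ζ) ^ 2 := hsq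
      _ ≤ ∑ ζ, (m ζ) ^ 2 := Finset.sum_le_sum_of_subset (Finset.subset_univ _)
  -- the degree
  have hxeq : x = ∑ ζ, m ζ * charDegree ζ.1 := by
    have h1 := h.hm 1
    have e2 : χ (((1 : ↥C) : G)) = χ 1 := rfl
    rw [e2, hx] at h1
    have h2 : (x : ℂ) = ((∑ ζ, m ζ * charDegree ζ.1 : ℕ) : ℂ) := by
      rw [h1]
      push_cast
      refine Finset.sum_congr rfl fun ζ _ => ?_
      rw [degree_cast ζ.1 ζ.2]
    exact_mod_cast h2
  refine ⟨hA, ?_, ?_⟩
  · letI := irrAct hS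
    let w : IrrCharacter ↥C → ℕ := fun ζ => if InZ hS ζ.1 then 0 else m ζ * charDegree ζ.1
    have hw : ∀ (g : ↥N) ζ, w (g • ζ) = w ζ := by
      intro g ζ
      have hiff : InZ hS (g • ζ).1 ↔ InZ hS ζ.1 := by
        constructor
        · intro hh
          have := InZ_act hS (g • ζ) g⁻¹ hh
          have h3 : (irrAct hS).smul g⁻¹ (g • ζ) = ζ := inv_smul_smul g ζ
          rwa [h3] at this
        · exact InZ_act hS ζ g
      have hdeg' : charDegree (g • ζ).1 = charDegree ζ.1 := by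
        have h1 : ((charDegree (g • ζ).1 : ℕ) : ℂ) = ((charDegree ζ.1 : ℕ) : ℂ) := by
          rw [degree_cast _ (g • ζ).2, degree_cast _ ζ.2]
          show ζ.1 (ccMap hS g⁻¹ 1) = ζ.1 1
          rw [map_one]
        exact_mod_cast h1
      simp only [w, hiff, hdeg']
      rw [show m (g • ζ) = m ζ from mult_m_act h hcl g ζ]
    have hstab : ∀ ζ, w ζ ≠ 0 →
        Nat.card (MulAction.stabilizer ↥N ζ) * e = Nat.card ↥N := by
      intro ζ hζ
      have hnz : ¬ InZ hS ζ.1 := by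
        intro hh
        simp [w, hh] at hζ
      exact card_stab hS _ (stab_iff hS ζ hnz)
    have key := orbit_dvd w hw e hstab
    have hsum : ∑ ζ, w ζ = x := by
      rw [hxeq]
      refine Finset.sum_congr rfl fun ζ _ => ?_
      by_cases hh : InZ hS ζ.1
      · simp [w, hh, hZ ζ hh]
      · simp [w, hh]
    rwa [hsum] at key
  · have h1 : R.card ≤ ∑ ζ, m ζ * charDegree ζ.1 := by
      rw [Finset.card_eq_sum_ones]
      calc ∑ _z ∈ R, 1 ≤ ∑ z ∈ R, m z * charDegree z.1 := by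
            refine Finset.sum_le_sum fun ζ hζ => ?_
            have h2 := (Finset.mem_filter.1 hζ).2.2
            have h3 : 0 < charDegree ζ.1 := Cfsg.Agent.Lib.Char.Codegree.charDegree_pos ζ.2
            exact Nat.mul_pos (Nat.pos_of_ne_zero h2) h3
        _ ≤ ∑ z, m z * charDegree z.1 := Finset.sum_le_sum_of_subset (Finset.subset_univ _)
    rw [← hxeq] at h1
    omega

theorem exists_eta (_hS : BSetup P C D N Q e) {χ : G → ℂ} (hχ : IsIrrCharacter G χ) {x : ℕ}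
    (hx : χ 1 = x) (hA : S C χ = e) (he : 2 ≤ e) :
    ∃ η : IrrCharacter G, η.1 ≠ (fun _ => 1) ∧ classInner (fun c : ↥C => η.1 c) (fun _ => 1) ≠ 0 ∧
      charDegree η.1 + 1 ≤ x ^ 2 := by
  classical
  have hch := Cfsg.Agent.Lib.Char.Basic.isCharacter_of_isIrrCharacter hχ
  let ψ : G → ℂ := fun g => χ g * conj (χ g)
  have hψ : IsCharacter G ψ := Cfsg.Agent.Lib.Char.Basic.isCharacter_mul hch (isCharacter_conj hch)
  obtain ⟨c, hc⟩ := exists_nat_decomp hψ
  have hc' : ψ = ∑ η : IrrCharacter G, (c η : ℂ) • (η : G → ℂ) := by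
    rw [hc]
    refine Finset.sum_congr rfl fun η _ => ?_
    exact (Nat.cast_smul_eq_nsmul ℂ (c η) _).symm
  let one : IrrCharacter G := ⟨fun _ => 1, Cfsg.Agent.Lib.Char.Burnside2.isIrrCharacter_one⟩
  have hcone : c one = 1 := by
    have h1 : classInner ψ one.1 = c one := by
      rw [hc']
      exact classInner_sum_irr _ one
    have h2 : classInner ψ one.1 = classInner χ χ := by
      simp [classInner, ψ, one]
    rw [h2, classInner_irr_self hχ] at h1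
    exact_mod_cast h1.symm
  -- the mean over `C`
  have hLψ : classInner (fun c : ↥C => ψ c) (fun _ => 1) = e := by
    have h2 : classInner (fun c : ↥C => ψ c) (fun _ => 1) =
        classInner (fun c : ↥C => χ c) (fun c : ↥C => χ c) := by
      simp [classInner, ψ]
    rw [h2, classInner_self_eq]
    have : ((Nat.card C : ℝ)⁻¹ * ∑ g : ↥C, ‖χ g‖ ^ 2) = e := hA
    rw [this]
    simp
  have hsplit : (fun c : ↥C => ψ c) = ∑ η : IrrCharacter G, (c η : ℂ) • (fun g : ↥C => η.1 g) := by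
    funext g
    have := congrFun hc' (g : G)
    rw [Finset.sum_apply] at this
    rw [Finset.sum_apply]
    exact this
  have hLsum : (e : ℂ) = ∑ η : IrrCharacter G, (c η : ℂ) * classInner (fun g : ↥C => η.1 g) (fun _ => 1) := by
    rw [← hLψ, hsplit, classInner_sum_left]
    refine Finset.sum_congr rfl fun η _ => ?_
    rw [classInner_smul_left]
  have hLone : classInner (fun g : ↥C => one.1 g) (fun _ => 1) = 1 :=
    classInner_irr_self (Cfsg.Agent.Lib.Char.Burnside2.isIrrCharacter_one (G := ↥C))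
  -- find `η`
  have hex : ∃ η : IrrCharacter G, η ≠ one ∧ c η ≠ 0 ∧
      classInner (fun g : ↥C => η.1 g) (fun _ => 1) ≠ 0 := by
    by_contra hcon
    push Not at hcon
    have h3 : (e : ℂ) = 1 := by
      rw [hLsum, Finset.sum_eq_single one]
      · rw [hcone, hLone]
        simp
      · intro η _ hη
        by_cases hη0 : c η = 0
        · simp [hη0]
        · rw [hcon η hη hη0, mul_zero]
      · simp
    have h4 : e = 1 := by exact_mod_cast h3
    omega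
  obtain ⟨η, hη1, hη2, hη3⟩ := hex
  refine ⟨η, fun h => hη1 (Subtype.ext h), hη3, ?_⟩
  -- the degree bound
  have hdeg : x ^ 2 = ∑ η : IrrCharacter G, c η * charDegree η.1 := by
    have h1 := congrFun hc' 1
    rw [Finset.sum_apply] at h1
    have h2 : ψ 1 = ((x ^ 2 : ℕ) : ℂ) := by
      simp only [ψ, hx]
      simp [sq]
    rw [h2] at h1
    have h3 : ((x ^ 2 : ℕ) : ℂ) = ((∑ η : IrrCharacter G, c η * charDegree η.1 : ℕ) : ℂ) := by
      rw [h1]
      push_cast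
      refine Finset.sum_congr rfl fun ζ _ => ?_
      simp only [Pi.smul_apply, smul_eq_mul]
      rw [degree_cast ζ.1 ζ.2]
    exact_mod_cast h3
  have hsub : ({one, η} : Finset (IrrCharacter G)) ⊆ Finset.univ := Finset.subset_univ _
  have h5 := Finset.sum_le_sum_of_subset (f := fun η : IrrCharacter G => c η * charDegree η.1) hsub
  rw [Finset.sum_pair (Ne.symm hη1), ← hdeg] at h5
  have h6 : 0 < charDegree one.1 := Cfsg.Agent.Lib.Char.Codegree.charDegree_pos one.2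
  have h7 : charDegree η.1 ≤ c η * charDegree η.1 := Nat.le_mul_of_pos_left _ (Nat.pos_of_ne_zero hη2)
  rw [hcone, one_mul] at h5
  omega

theorem eta_false (hS : BSetup P C D N Q e) (he : 2 ≤ e) {x : ℕ} (hdx : e ∣ x) (hxe : e ≤ x)
    (hxQ : x ^ 2 + 1 < Q) {η : G → ℂ} (hη : IsIrrCharacter G η) (hne : ∃ u : ↥P, η u ≠ η 1)
    (hone : η ≠ fun _ => 1) (hdx2 : charDegree η + 1 ≤ x ^ 2)
    (hL : classInner (fun c : ↥C => η c) (fun _ => 1) ≠ 0) : False := by
  classical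
  have hch := Cfsg.Agent.Lib.Char.Basic.isCharacter_of_isIrrCharacter hη
  have hcl := Cfsg.Agent.Lib.Char.Basic.isClassFunction_of_isCharacter hch
  obtain ⟨m, n, h⟩ := exists_mult hS hch
  let oneC : IrrCharacter ↥C := ⟨fun _ => 1, Cfsg.Agent.Lib.Char.Burnside2.isIrrCharacter_one⟩
  let oneD : IrrCharacter ↥D := ⟨fun _ => 1, Cfsg.Agent.Lib.Char.Burnside2.isIrrCharacter_one⟩
  have hm1 : classInner (fun c : ↥C => η c) (fun _ => 1) = (m oneC : ℂ) := mult_classInner_eq h oneC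
  have hm1' : m oneC ≠ 0 := by
    intro h0
    apply hL
    rw [hm1, h0]
    simp
  have hres : resD hS oneC = oneD := rfl
  have hn1 : m oneC ≤ n oneD := by
    have := h.hle oneC
    rwa [hres] at this
  -- the counting
  set R := Finset.univ.filter (fun ζ : IrrCharacter ↥C => ¬ InZ hS ζ.1 ∧ m ζ ≠ 0) with hR
  have hRe : e ≤ R.card := card_R h hcl hne
  have honeR : oneC ∉ R := by
    intro hmem
    apply (Finset.mem_filter.1 hmem).2.1
    intro u
    rfl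
  have hsum : e + 1 ≤ ∑ ζ, m ζ := by
    have h1 : ∑ z ∈ insert oneC R, m z ≤ ∑ z, m z :=
      Finset.sum_le_sum_of_subset (Finset.subset_univ _)
    rw [Finset.sum_insert honeR] at h1
    have h2 : R.card ≤ ∑ z ∈ R, m z := by
      rw [Finset.card_eq_sum_ones]
      refine Finset.sum_le_sum fun ζ hζ => ?_
      exact Nat.pos_of_ne_zero (Finset.mem_filter.1 hζ).2.2
    have h3 : 1 ≤ m oneC := Nat.pos_of_ne_zero hm1'
    omega
  have hsumn : e + 1 ≤ ∑ δ, n δ := by rw [← h.hmn]; exact hsum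
  have hdn : ∑ δ, n δ + 1 ≤ x ^ 2 := by
    have h1 : charDegree η = ∑ δ, n δ * charDegree δ.1 := by
      have h2 := h.hn 1
      have e2 : η (((1 : ↥D) : G)) = η 1 := rfl
      rw [e2, ← degree_cast η hη] at h2
      have h3 : ((charDegree η : ℕ) : ℂ) = ((∑ δ, n δ * charDegree δ.1 : ℕ) : ℂ) := by
        rw [h2]
        push_cast
        refine Finset.sum_congr rfl fun δ _ => ?_
        rw [degree_cast δ.1 δ.2]
      exact_mod_cast h3
    have h4 : ∑ δ, n δ ≤ ∑ δ, n δ * charDegree δ.1 := by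
      refine Finset.sum_le_sum fun δ _ => ?_
      exact Nat.le_mul_of_pos_right _ (Cfsg.Agent.Lib.Char.Codegree.charDegree_pos δ.2)
    omega
  have hAsum : ∑ δ, n δ ≤ ∑ ζ, (m ζ) ^ 2 := by
    rw [← h.hmn]
    exact Finset.sum_le_sum fun ζ _ => m_le_sq _
  have hlt := Q_A_lt hη h
  obtain ⟨hQeq, i₀, hi₀, hrest⟩ :=
    numeric n e x Q (∑ ζ, (m ζ) ^ 2) he hdx hxe (e_dvd hS) hxQ hsumn hdn hAsum hlt
  have hi : i₀ = oneD := by
    by_contra hne'
    have := hrest oneD (Ne.symm hne')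
    have h3 : 1 ≤ m oneC := Nat.pos_of_ne_zero hm1'
    omega
  subst hi
  -- `η` on `D`
  have hηD : ∀ d : ↥D, η d = ((e + 1 : ℕ) : ℂ) := by
    intro d
    rw [h.hn d, Finset.sum_eq_single oneD]
    · rw [hi₀]
      simp [oneD]
    · intro δ _ hδ
      rw [hrest δ hδ]
      simp
    · simp
  -- the final test function
  let f : G → ℂ := fun g => ((e : ℝ) : ℂ) * η g + 1
  have hfcl : IsClassFunction G f := by
    intro g y
    simp only [f]
    rw [hcl g y]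
  have hf1 : f 1 ≠ 0 := by
    simp only [f]
    rw [← degree_cast η hη]
    have : (((e : ℝ) : ℂ) * ((charDegree η : ℕ) : ℂ) + 1) = ((e * charDegree η + 1 : ℕ) : ℂ) := by
      push_cast
      ring
    rw [this]
    exact Nat.cast_ne_zero.2 (Nat.succ_ne_zero _)
  have hstar := star_lt hS f hfcl hf1
  have hSD : S D f = (Q : ℝ) ^ 2 := by
    have h1 : ∀ d : ↥D, ‖f d‖ ^ 2 = (Q : ℝ) ^ 2 := by
      intro d
      simp only [f]
      rw [hηD d, hQeq]
      have : (((e : ℝ) : ℂ) * ((e + 1 : ℕ) : ℂ) + 1) = ((e ^ 2 + e + 1 : ℕ) : ℂ) := by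
        push_cast
        ring
      rw [this, Complex.norm_natCast]
    unfold S
    simp only [h1, Finset.sum_const, Finset.card_univ, nsmul_eq_mul]
    rw [← Nat.card_eq_fintype_card]
    have hD : (Nat.card D : ℝ) ≠ 0 := by exact_mod_cast Nat.card_pos.ne'
    field_simp
  have hSg : Sg f = (e : ℝ) ^ 2 + 1 := by
    unfold Sg
    simp only [f]
    rw [mean_expand]
    have h1 : (Nat.card G : ℝ)⁻¹ * ∑ k, ‖η k‖ ^ 2 = 1 := Sg_irr hη
    have h2 : (Nat.card G : ℝ)⁻¹ * ∑ k, (η k).re = 0 := by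
      rw [← re_classInner_one]
      have h3 : classInner η (fun _ => 1) = 0 :=
        classInner_irr_of_ne hη Cfsg.Agent.Lib.Char.Burnside2.isIrrCharacter_one hone
      rw [h3]
      simp
    rw [h1, h2]
    ring
  have hSC : (e : ℝ) ^ 2 * ((e : ℝ) + 1) + 2 * e + 1 ≤ S C f := by
    unfold S
    have h0 := mean_expand (K := ↥C) (e : ℝ) (fun c : ↥C => η c)
    have h0' : (Nat.card C : ℝ)⁻¹ * ∑ h : ↥C, ‖f h‖ ^ 2 =
        (e : ℝ) ^ 2 * ((Nat.card C : ℝ)⁻¹ * ∑ k : ↥C, ‖η k‖ ^ 2) +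
          2 * e * ((Nat.card C : ℝ)⁻¹ * ∑ k : ↥C, (η k).re) + 1 := h0
    rw [h0']
    have h1 : (Nat.card C : ℝ)⁻¹ * ∑ k : ↥C, ‖η k‖ ^ 2 = ((∑ ζ, (m ζ) ^ 2 : ℕ) : ℝ) := by
      have := h.S_C
      unfold S at this
      rw [this]
      push_cast
      rfl
    have h2 : (Nat.card C : ℝ)⁻¹ * ∑ k : ↥C, (η k).re = (m oneC : ℝ) := by
      have := re_classInner_one (K := ↥C) (fun c : ↥C => η c)
      rw [← this, hm1]
      simp
    rw [h1, h2]
    have h3 : (e : ℝ) + 1 ≤ ((∑ ζ, (m ζ) ^ 2 : ℕ) : ℝ) := by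
      exact_mod_cast le_trans hsumn hAsum
    have h4 : (1 : ℝ) ≤ (m oneC : ℝ) := by
      exact_mod_cast Nat.pos_of_ne_zero hm1'
    have he0 : (0 : ℝ) ≤ e := by positivity
    have h5 := mul_le_mul_of_nonneg_left h3 (sq_nonneg (e : ℝ))
    have h6 := mul_le_mul_of_nonneg_left h4 he0
    nlinarith
  have hQpos : (0 : ℝ) < Q := by exact_mod_cast Q_pos hS
  rw [hSD, hSg] at hstar
  have hQr : (Q : ℝ) = (e : ℝ) ^ 2 + e + 1 := by
    rw [hQeq]
    push_cast
    ring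
  have h8 : (Q : ℝ) * ((e : ℝ) ^ 2 * ((e : ℝ) + 1) + 2 * e + 1) ≤ (Q : ℝ) * S C f :=
    mul_le_mul_of_nonneg_left hSC hQpos.le
  have h9 : (Q : ℝ) * ((e : ℝ) ^ 2 * ((e : ℝ) + 1) + 2 * e + 1) - (Q : ℝ) ^ 2 =
      (Q : ℝ) * e * ((e : ℝ) ^ 2 + 1) := by
    rw [hQr]
    ring
  linarith

theorem exists_ne_of_ne_one {K₀ : Subgroup G} (hnn : ∀ K : Subgroup G, K.Normal → K₀ ≤ K → K = ⊤)
    {η : G → ℂ} (hη : IsIrrCharacter G η) (hone : η ≠ fun _ => 1) :
    ∃ u : ↥K₀, η u ≠ η 1 := by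
  by_contra hcon
  push Not at hcon
  obtain ⟨k, ρ, hρ, rfl⟩ := id hη
  have hle : K₀ ≤ Cfsg.Agent.Lib.Char.Codegree.repKer ρ := by
    intro u hu
    exact (Cfsg.Agent.Lib.Char.Codegree.character_eq_one_iff ρ u).1 (hcon ⟨u, hu⟩)
  have htop := hnn _ (Cfsg.Agent.Lib.Char.Codegree.repKer_normal ρ) hle
  have hall : ∀ g, ρ.character g = ρ.character 1 := by
    intro g
    apply (Cfsg.Agent.Lib.Char.Codegree.character_eq_one_iff ρ g).2
    rw [htop]
    exact Subgroup.mem_top g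
  apply hone
  have h1 := Sg_irr hη
  unfold Sg at h1
  simp only [hall] at h1
  obtain ⟨n, hn, hv⟩ := irr_degree_pos hη
  rw [hv, Finset.sum_const, Finset.card_univ, nsmul_eq_mul, ← Nat.card_eq_fintype_card,
    Complex.norm_natCast] at h1
  have hG : (Nat.card G : ℝ) ≠ 0 := by exact_mod_cast Nat.card_pos.ne'
  rw [inv_mul_cancel_left₀ hG] at h1
  have hn1 : n = 1 := by
    have : n ^ 2 = 1 := by exact_mod_cast h1
    nlinarith
  funext g
  rw [hall, hv, hn1]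
  simp

theorem e_one (hS : BSetup P C D N Q e) (hnn : ∀ K : Subgroup G, K.Normal → P ≤ K → K = ⊤)
    {χ : G → ℂ} (hχ : IsIrrCharacter G χ) {x : ℕ} (hx : χ 1 = x) {m n}
    (h : Mult hS χ m n) (hA : ∑ ζ, (m ζ) ^ 2 = 1) : x = 1 := by
  classical
  have hch := Cfsg.Agent.Lib.Char.Basic.isCharacter_of_isIrrCharacter hχ
  -- one constituent
  obtain ⟨ζ₀, hζ₀⟩ : ∃ ζ₀, m ζ₀ ≠ 0 := by
    by_contra hcon
    push Not at hcon
    simp [hcon] at hA
  have h1 : (m ζ₀) ^ 2 + ∑ z ∈ Finset.univ.erase ζ₀, (m z) ^ 2 = 1 := by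
    rw [Finset.add_sum_erase _ (fun z => (m z) ^ 2) (Finset.mem_univ ζ₀), hA]
  have h2 : 1 ≤ (m ζ₀) ^ 2 := Nat.one_le_pow _ _ (Nat.pos_of_ne_zero hζ₀)
  have h3 : ∑ z ∈ Finset.univ.erase ζ₀, (m z) ^ 2 = 0 := by omega
  have h4 : ∀ z, z ≠ ζ₀ → m z = 0 := by
    intro z hz
    have := (Finset.sum_eq_zero_iff.1 h3) z (Finset.mem_erase.2 ⟨hz, Finset.mem_univ z⟩)
    exact pow_eq_zero_iff (by norm_num) |>.1 this
  have h5 : m ζ₀ = 1 := by
    have : (m ζ₀) ^ 2 = 1 := by omega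
    nlinarith
  have hres : ∀ c : ↥C, χ c = ζ₀.1 c := by
    intro c
    rw [h.hm c, Finset.sum_eq_single ζ₀]
    · rw [h5]; simp
    · intro z _ hz
      rw [h4 z hz]; simp
    · simp
  have hnorm : ∀ u : ↥P, ‖χ u‖ = x := by
    intro u
    have h6 := hres (inP hS u)
    have h7 := hres 1
    have e1 : χ ((inP hS u : ↥C) : G) = χ u := rfl
    have e2 : χ (((1 : ↥C) : G)) = χ 1 := rfl
    rw [e1] at h6
    rw [e2, hx] at h7
    rw [h6, zeta_norm hS ζ₀.2, ← h7, Complex.norm_natCast]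
  -- the kernel of χ χ̄
  have hψ : IsCharacter G (χ * fun g => conj (χ g)) :=
    Cfsg.Agent.Lib.Char.Basic.isCharacter_mul hch (isCharacter_conj hch)
  obtain ⟨k, ρ, hρ⟩ := hψ
  have hval : ∀ g, ρ.character g = ((‖χ g‖ ^ 2 : ℝ) : ℂ) := by
    intro g
    rw [hρ]
    show χ g * conj (χ g) = _
    rw [Complex.mul_conj, Complex.normSq_eq_norm_sq]
  have hle : P ≤ Cfsg.Agent.Lib.Char.Codegree.repKer ρ := by
    intro u hu
    apply (Cfsg.Agent.Lib.Char.Codegree.character_eq_one_iff ρ u).1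
    rw [hval, hval, hnorm ⟨u, hu⟩, hx, Complex.norm_natCast]
  have htop := hnn _ (Cfsg.Agent.Lib.Char.Codegree.repKer_normal ρ) hle
  have hall : ∀ g, ‖χ g‖ ^ 2 = (x : ℝ) ^ 2 := by
    intro g
    have h8 : ρ.character g = ρ.character 1 := by
      apply (Cfsg.Agent.Lib.Char.Codegree.character_eq_one_iff ρ g).2
      rw [htop]
      exact Subgroup.mem_top g
    rw [hval, hval, hx, Complex.norm_natCast] at h8
    exact_mod_cast h8
  have h9 := Sg_irr hχ
  unfold Sg at h9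
  simp only [hall] at h9
  rw [Finset.sum_const, Finset.card_univ, nsmul_eq_mul, ← Nat.card_eq_fintype_card] at h9
  have hG : (Nat.card G : ℝ) ≠ 0 := by exact_mod_cast Nat.card_pos.ne'
  rw [inv_mul_cancel_left₀ hG] at h9
  have : x ^ 2 = 1 := by exact_mod_cast h9
  nlinarith

/-- The core of the Blichfeldt-type bound. -/
theorem core (hS : BSetup P C D N Q e) (hnn : ∀ K : Subgroup G, K.Normal → P ≤ K → K = ⊤)
    {χ : G → ℂ} (hχ : IsIrrCharacter G χ) (h1 : χ ≠ fun _ => 1) {x : ℕ} (hx : χ 1 = x)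
    (hdeg : x ^ 2 + 1 < Q) : e = 1 ∧ x = 1 := by
  have hch := Cfsg.Agent.Lib.Char.Basic.isCharacter_of_isIrrCharacter hχ
  obtain ⟨m, n, h⟩ := exists_mult hS hch
  have hne := exists_ne_of_ne_one hnn hχ h1
  obtain ⟨hA, hdx, hxe⟩ := chi_part hS hχ hx hdeg hne h
  have he : e = 1 := by
    by_contra hcon
    have he0 : 0 < e := e_pos hS
    have he2 : 2 ≤ e := by omega
    have hSC : S C χ = e := by
      rw [h.S_C, ← hA]
      push_cast
      rfl
    obtain ⟨η, hη1, hη2, hη3⟩ := exists_eta hS hχ hx hSC he2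
    exact eta_false hS he2 hdx hxe hdeg η.2 (exists_ne_of_ne_one hnn η.2 hη1) hη1 hη3 hη2
  refine ⟨he, ?_⟩
  subst he
  exact e_one hS hnn hχ hx h hA

end Cfsg.Agent.Lib.Char.BlichfeldtD
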