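import Mathlib
import Cfsg.Agent.Lib.Char.GlaubRel

/-!
# Numerical lemmas for the Dade-Glauberman-Nagao correspondence

Sums of `n`-th roots of unity whose Galois conjugates all have absolute value at most one.
-/

set_option autoImplicit false
set_option linter.style.haveILetI false

namespace Cfsg.Agent.Lib.Char.DGNNum

open scoped ComplexConjugate

/-- The norm trick: a sum of roots of unity all of whose conjugates have absolute value at most
one is zero or has absolute value one. -/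
theorem norm_trick {ι : Type*} [Fintype ι] {n : ℕ} (hn : 0 < n) (z : ι → ℂ)
    (hz : ∀ l, z l ^ n = 1)
    (hle : ∀ j : ℕ, j.Coprime n → Complex.normSq (∑ l, z l ^ j) ≤ 1) :
    (∑ l, z l) = 0 ∨ Complex.normSq (∑ l, z l) = 1 := by
  classical
  haveI : NeZero n := ⟨hn.ne'⟩
  by_cases h0 : ∑ l, z l = 0
  · exact Or.inl h0
  right
  set a : ℕ → ℂ := fun j => ∑ l, z l ^ j with ha
  have ha1 : a 1 = ∑ l, z l := by simp [ha]
  have hamod : ∀ j : ℕ, a (j % n) = a j := by
    intro j
    simp only [ha]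
    refine Finset.sum_congr rfl fun l _ => ?_
    exact (pow_eq_pow_mod j (hz l)).symm
  have hamul : ∀ u v : (ZMod n)ˣ,
      a ((u : ZMod n).val * (v : ZMod n).val) = a ((u * v : (ZMod n)ˣ) : ZMod n).val := by
    intro u v
    rw [Units.val_mul, ZMod.val_mul, hamod]
  set P : ℂ := ∏ u : (ZMod n)ˣ, a (u : ZMod n).val with hP
  -- expansion
  have hexp : ∀ e : ℕ, ∏ u : (ZMod n)ˣ, a ((u : ZMod n).val * e) =
      ∑ f : (ZMod n)ˣ → ι, (∏ u, z (f u) ^ (u : ZMod n).val) ^ e := by
    intro e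
    simp only [ha]
    rw [Finset.prod_univ_sum, Fintype.piFinset_univ]
    refine Finset.sum_congr rfl fun f _ => ?_
    rw [← Finset.prod_pow]
    refine Finset.prod_congr rfl fun u _ => ?_
    rw [pow_mul]
  have hz' : ∀ f : (ZMod n)ˣ → ι, (∏ u, z (f u) ^ (u : ZMod n).val) ^ n = 1 := by
    intro f
    rw [← Finset.prod_pow]
    refine Finset.prod_eq_one fun u _ => ?_
    rw [← pow_mul, mul_comm, pow_mul, hz, one_pow]
  have hPsum : P = ∑ f : (ZMod n)ˣ → ι, (∏ u, z (f u) ^ (u : ZMod n).val) := by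
    have := hexp 1
    simp only [mul_one, pow_one] at this
    exact this
  have hfix : ∀ v : (ZMod n)ˣ, ∑ f : (ZMod n)ˣ → ι,
      (∏ u, z (f u) ^ (u : ZMod n).val) ^ (v : ZMod n).val =
      ∑ f : (ZMod n)ˣ → ι, (∏ u, z (f u) ^ (u : ZMod n).val) := by
    intro v
    rw [← hexp, ← hPsum]
    simp only [hamul]
    exact Fintype.prod_equiv (Equiv.mulRight v) _ _ (fun u => rfl)
  obtain ⟨q, hq⟩ := Cfsg.Agent.Lib.Char.Galois.rat_of_fixed n _ hz' hfix
  have hint : IsIntegral ℤ (q : ℂ) := by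
    rw [← hq]
    exact IsIntegral.sum _ (fun f _ =>
      Cfsg.Agent.Lib.Char.GaloisB.isIntegral_of_pow_eq_one hn (hz' f))
  have hint2 : IsIntegral ℤ q := by
    have : IsIntegral ℤ (algebraMap ℚ ℂ q) := hint
    exact (isIntegral_algebraMap_iff (algebraMap ℚ ℂ).injective).1 this
  obtain ⟨b, hb⟩ := IsIntegrallyClosed.isIntegral_iff.1 hint2
  have hPb : P = (b : ℂ) := by
    rw [hPsum, hq, ← hb]
    simp
  -- nonvanishing
  have hne : ∀ u : (ZMod n)ˣ, a (u : ZMod n).val ≠ 0 := by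
    intro u
    obtain ⟨τ, hτ⟩ := Cfsg.Agent.Lib.Char.Galois.exists_ringHom_pow n hn (u : ZMod n).val
      (ZMod.val_coe_unit_coprime u)
    have h1 : a (u : ZMod n).val = τ (∑ l, z l) := by
      rw [map_sum]
      refine Finset.sum_congr rfl fun l _ => ?_
      exact (hτ _ (hz l)).symm
    rw [h1]
    intro h2
    exact h0 (τ.injective (by rw [h2, map_zero]))
  have hP0 : P ≠ 0 := Finset.prod_ne_zero_iff.2 fun u _ => hne u
  have hb0 : b ≠ 0 := by
    rintro rfl
    apply hP0
    rw [hPb]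
    simp
  -- sizes
  have hsize : 1 ≤ Complex.normSq P := by
    rw [hPb, Complex.normSq_intCast]
    have h1 : (1 : ℤ) ≤ b * b := by
      have := Int.one_le_abs hb0
      nlinarith [abs_mul_abs_self b]
    exact_mod_cast h1
  have hfac : ∀ u : (ZMod n)ˣ, Complex.normSq (a (u : ZMod n).val) ≤ 1 := fun u =>
    hle _ (ZMod.val_coe_unit_coprime u)
  have hone : a ((1 : (ZMod n)ˣ) : ZMod n).val = ∑ l, z l := by
    rw [Units.val_one, ZMod.val_one_eq_one_mod, hamod, ha1]
  have hprod : Complex.normSq P = Complex.normSq (∑ l, z l) *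
      ∏ u ∈ Finset.univ.erase (1 : (ZMod n)ˣ), Complex.normSq (a (u : ZMod n).val) := by
    rw [hP, map_prod, ← Finset.mul_prod_erase Finset.univ _ (Finset.mem_univ (1 : (ZMod n)ˣ)), hone]
  have hle1 : ∏ u ∈ Finset.univ.erase (1 : (ZMod n)ˣ), Complex.normSq (a (u : ZMod n).val) ≤ 1 :=
    Finset.prod_le_one (fun _ _ => Complex.normSq_nonneg _) (fun u _ => hfac u)
  have h3 : Complex.normSq (∑ l, z l) ≤ 1 := by
    have := hle 1 (Nat.coprime_one_left n)
    simpa using this
  have h4 : 0 ≤ Complex.normSq (∑ l, z l) := Complex.normSq_nonneg _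
  apply le_antisymm h3
  calc (1 : ℝ) ≤ Complex.normSq P := hsize
    _ = _ := hprod
    _ ≤ Complex.normSq (∑ l, z l) * 1 := mul_le_mul_of_nonneg_left hle1 h4
    _ = _ := mul_one _

/-- A sum of roots of unity of `p`-power order with absolute value one has `±1` summands
modulo `p`. -/
theorem card_modEq_of_normSq_one {p k : ℕ} (hp : p.Prime) {ι : Type*} [Fintype ι] (z : ι → ℂ)
    (hz : ∀ l, z l ^ (p ^ k) = 1) (h : Complex.normSq (∑ l, z l) = 1) :
    (Fintype.card ι : ℤ) ≡ 1 [ZMOD p] ∨ (Fintype.card ι : ℤ) ≡ -1 [ZMOD p] := by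
  classical
  haveI : Fact p.Prime := ⟨hp⟩
  let w : ι × ι → ℂ := fun q => z q.1 * conj (z q.2)
  have hw : ∀ q, w q ^ (p ^ k) = 1 := by
    intro q
    simp only [w]
    rw [mul_pow, ← map_pow, hz, hz]
    simp
  have hsum : ∑ q, w q = ((1 : ℤ) : ℂ) := by
    simp only [w]
    rw [Fintype.sum_prod_type]
    have h1 : ∑ x, ∑ y, z x * conj (z y) = (∑ x, z x) * conj (∑ y, z y) := by
      rw [map_sum, Finset.sum_mul_sum]
    rw [h1, Complex.mul_conj, h]
    simp
  have h1 := Cfsg.Agent.Lib.Char.GlaubRel.card_modEq_of_sum_roots hp w hw 1 hsum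
  rw [Fintype.card_prod] at h1
  have h2 : ((Fintype.card ι : ℤ) : ZMod p) * ((Fintype.card ι : ℤ) : ZMod p) = 1 := by
    have h3 := (ZMod.intCast_eq_intCast_iff _ _ p).2 h1
    push_cast at h3 ⊢
    exact h3
  rcases mul_self_eq_one_iff.1 h2 with h3 | h3
  · left
    apply (ZMod.intCast_eq_intCast_iff _ _ p).1
    simpa using h3
  · right
    apply (ZMod.intCast_eq_intCast_iff _ _ p).1
    simpa using h3

end Cfsg.Agent.Lib.Char.DGNNum
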