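import Mathlib
import Cfsg.Agent.Lib.Char.GlaubRel
import Cfsg.Agent.Lib.Char.DGNNum
import Cfsg.Agent.Lib.Char.AbelianQuot

/-!
# Coset expansions for a normal subgroup with cyclic quotient

`A = B ⟨t⟩`, `B` normal.  A character of `A` is expanded on a generating coset of `A/B` in terms of
extensions of the `t`-invariant irreducible characters of `B`.
-/

set_option autoImplicit false
set_option linter.style.haveILetI false

namespace Cfsg.Agent.Lib.Char.DGNAbs

open Cfsg Module Cfsg.Agent.Lib.Char.Basic Cfsg.Agent.Lib.Char.Ortho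
open Cfsg.Agent.Lib.Char.GlaubCoset Cfsg.Agent.Lib.Char.GlaubCyclic
open scoped ComplexConjugate

universe u

variable {A : Type u} [Group A] [Fintype A] (B : Subgroup A) [hB : B.Normal] [Fintype B]

/-- The inner product on the coset `B x`. -/
noncomputable def avgc (θ φ : A → ℂ) (x : A) : ℂ :=
  (Nat.card B : ℂ)⁻¹ * ∑ b : B, θ ((b : A) * x) * conj (φ ((b : A) * x))

omit [Fintype A] hB in
theorem avgc_conj (θ φ : A → ℂ) (x : A) : conj (avgc B θ φ x) = avgc B φ θ x := by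
  unfold avgc
  rw [map_mul, map_inv₀, map_natCast, map_sum]
  refine congrArg _ (Finset.sum_congr rfl fun b _ => ?_)
  rw [map_mul, Complex.conj_conj, mul_comm]

omit [Fintype A] hB in
theorem avgc_add_left (θ₁ θ₂ φ : A → ℂ) (x : A) :
    avgc B (θ₁ + θ₂) φ x = avgc B θ₁ φ x + avgc B θ₂ φ x := by
  unfold avgc
  rw [← mul_add, ← Finset.sum_add_distrib]
  refine congrArg _ (Finset.sum_congr rfl fun b _ => ?_)
  rw [Pi.add_apply, add_mul]

omit [Fintype A] hB in
theorem avgc_one (θ φ : A → ℂ) :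
    avgc B θ φ 1 = classInner (fun n : B => θ n) (fun n : B => φ n) := by
  unfold avgc classInner
  simp

theorem avgc_eq_zero {φ₁ φ₂ : A → ℂ} (h₁ : IsCharacter A φ₁) (h₂ : IsCharacter A φ₂)
    (h : classInner (fun n : B => φ₁ n) (fun n : B => φ₂ n) = 0) (x : A) : avgc B φ₁ φ₂ x = 0 := by
  unfold avgc
  rw [sum_coset_ne B h₁ h₂ h x, mul_zero]

theorem avgc_self {φ : A → ℂ} (h : IsCharacter A φ)
    (h1 : classInner (fun n : B => φ n) (fun n : B => φ n) = 1) (x : A) : avgc B φ φ x = 1 := by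
  unfold avgc
  rw [sum_coset_self B h h1 x]
  exact inv_mul_cancel₀ (by exact_mod_cast Nat.card_pos.ne')

omit [Fintype A] hB in
/-- Multiplying by a linear character trivial on `B`. -/
theorem avgc_lin (l : A →* ℂˣ) (hl : ∀ b : B, l b = 1) (φ₁ φ₂ : A → ℂ) (x : A) :
    avgc B (fun y => ((l y : ℂˣ) : ℂ) * φ₁ y) φ₂ x = ((l x : ℂˣ) : ℂ) * avgc B φ₁ φ₂ x := by
  unfold avgc
  rw [mul_left_comm ((l x : ℂˣ) : ℂ), Finset.mul_sum (a := ((l x : ℂˣ) : ℂ))]
  refine congrArg _ (Finset.sum_congr rfl fun b _ => ?_)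
  show ((l ((b : A) * x) : ℂˣ) : ℂ) * φ₁ ((b : A) * x) * _ = _
  rw [map_mul, hl b, one_mul, mul_assoc]

/-- `t`-invariance. -/
def TI (t : A) (ξ : B → ℂ) : Prop := ∀ n : B, ξ ⟨t * n * t⁻¹, hB.conj_mem n n.2 t⟩ = ξ n

/-- The `t`-invariant irreducible characters of `B`. -/
abbrev TIrr (t : A) : Type u := {ξ : IrrCharacter B // TI B t (ξ : B → ℂ)}

noncomputable instance instFintypeTIrr (t : A) : Fintype (TIrr B t) := by
  classical
  haveI : Fintype (IrrCharacter B) := Fintype.ofFinite _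
  infer_instance

variable {B} {t : A}

omit [Fintype B] in
/-- Extensions exist. -/
theorem exists_ext (htop : B ⊔ Subgroup.zpowers t = ⊤) {ξ : B → ℂ} (hξ : IsIrrCharacter B ξ)
    (h : TI B t ξ) : ∃ E : A → ℂ, IsIrrCharacter A E ∧ ∀ b : B, E b = ξ b :=
  Cfsg.Agent.S0886.result B (isCyclic_quotient htop) ξ hξ
    (fun x n => invariant_all htop hξ h x n)

/-- An irreducible character over an invariant constituent is a linear twist of any extension. -/
theorem exists_lin (htop : B ⊔ Subgroup.zpowers t = ⊤) {ψ E : A → ℂ} {χ₀ : B → ℂ}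
    (hψ : IsIrrCharacter A ψ) (hχ₀ : IsIrrCharacter B χ₀) (hinv : TI B t χ₀)
    (hE : IsIrrCharacter A E) (hext : ∀ b : B, E b = χ₀ b)
    (hcon : classInner (fun n : B => ψ n) χ₀ ≠ 0) :
    ∃ l : A →* ℂˣ, (∀ b : B, l b = 1) ∧ ψ = fun x => ((l x : ℂˣ) : ℂ) * E x := by
  classical
  have hψc := isCharacter_of_isIrrCharacter hψ
  have hinvall := invariant_all htop hχ₀ hinv
  have hone : IsIrrCharacter B (fun _ => 1) := Cfsg.Agent.Lib.Char.Burnside2.isIrrCharacter_one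
  have h2 : (fun _ => (1 : ℂ)) * χ₀ = χ₀ := by
    funext n
    simp
  have hprod : IsIrrCharacter B ((fun _ => (1 : ℂ)) * χ₀) := by
    rw [h2]
    exact hχ₀
  have hG := Cfsg.Agent.Lib.Char.Gallagher.gallagher_bijOn (G := A) B (φ := fun _ => 1) (ϑ := χ₀)
    hone (fun _ _ => rfl) hinvall hprod hE hext
  have hψin : ψ ∈ {ψ : A → ℂ | IsIrrCharacter A ψ ∧
      classInner (indFun B ((fun _ => (1 : ℂ)) * χ₀)) ψ ≠ 0} := by
    refine ⟨hψ, ?_⟩
    rw [h2, Cfsg.Agent.Lib.Char.Induced.frobenius_reciprocity B χ₀ _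
      (isClassFunction_of_isCharacter hψc)]
    intro h0
    apply hcon
    rw [← classInner_conj_symm, h0]
    simp
  obtain ⟨β', ⟨hβ', hβ'in⟩, hβ'ψ⟩ := hG.surjOn hψin
  have hβ'c := isClassFunction_of_isCharacter (isCharacter_of_isIrrCharacter hβ')
  rw [Cfsg.Agent.Lib.Char.Induced.frobenius_reciprocity B _ _ hβ'c] at hβ'in
  have hin : classInner (fun n : B => β' n) (fun _ => 1) ≠ 0 := by
    intro h0
    apply hβ'in
    rw [← classInner_conj_symm, h0]
    simp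
  have hab : ∀ x y : A, x * y * x⁻¹ * y⁻¹ ∈ B := by
    intro x y
    rw [← QuotientGroup.eq_one_iff]
    simp only [QuotientGroup.mk_mul, QuotientGroup.mk_inv]
    rw [quotient_comm (G := B) htop (x : A) (y : A)]
    group
  obtain ⟨h3, -, -⟩ := Cfsg.Agent.Lib.Char.AbelianQuot.linear_of_over_one B hab hβ' hin
  have h4 : β' 1 = 1 := by
    have := h3 1
    simpa using this
  obtain ⟨l, hl⟩ := Cfsg.Agent.Lib.Char.LinearChars.exists_hom_of_isCharacter_one
    (isCharacter_of_isIrrCharacter hβ') h4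
  refine ⟨l, ?_, ?_⟩
  · intro b
    apply Units.ext
    have := h3 b
    rw [hl] at this
    exact this
  · rw [← hβ'ψ, hl]
    rfl

/-- A character over a non-invariant constituent vanishes on generating cosets. -/
theorem vanish_of_not_inv {ψ : A → ℂ} {χ₀ : B → ℂ}
    (hψ : IsIrrCharacter A ψ) (hχ₀ : IsIrrCharacter B χ₀)
    (hcon : classInner (fun n : B => ψ n) χ₀ ≠ 0) (hnot : ¬ TI B t χ₀)
    (htop : B ⊔ Subgroup.zpowers t = ⊤)
    {x : A} (hx : B ⊔ Subgroup.zpowers x = ⊤) (b : B) : ψ ((b : A) * x) = 0 := by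
  classical
  have hcl₀ := isClassFunction_of_isCharacter (isCharacter_of_isIrrCharacter hχ₀)
  -- the inertia group of `χ₀`
  let T : Subgroup A :=
    { carrier := {x | ∀ n : B, χ₀ ⟨x * n * x⁻¹, hB.conj_mem n n.2 x⟩ = χ₀ n}
      one_mem' := fun n => by
        congr 1
        apply Subtype.ext
        simp
      mul_mem' := fun {a b} ha hb n => by
        rw [← hb n, ← ha ⟨b * n * b⁻¹, hB.conj_mem n n.2 b⟩]
        congr 1
        apply Subtype.ext
        simp only [mul_inv_rev]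
        group
      inv_mem' := fun {a} ha n => by
        have := ha ⟨a⁻¹ * n * a⁻¹⁻¹, hB.conj_mem n n.2 a⁻¹⟩
        rw [← this]
        congr 1
        apply Subtype.ext
        simp only [inv_inv]
        group }
  haveI : Fintype T := Fintype.ofFinite _
  have hT : ∀ g : A, g ∈ T ↔ ∀ n : B, χ₀ ⟨g * n * g⁻¹, hB.conj_mem (n : A) n.2 g⟩ = χ₀ n :=
    fun g => Iff.rfl
  have hBT : B ≤ T := by
    intro m hm n
    exact hcl₀ n ⟨m, hm⟩
  have hxT : x ∉ T := by
    intro hxT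
    have h1 : (⊤ : Subgroup A) ≤ T := by
      rw [← hx]
      refine sup_le hBT ?_
      rw [Subgroup.zpowers_le]
      exact hxT
    exact hnot (h1 (Subgroup.mem_top t))
  obtain ⟨ψ', hψ', hind, _⟩ :=
    Cfsg.Agent.Lib.Char.CliffordCorr.exists_indFun_eq B χ₀ T hBT hχ₀ hT hψ hcon
  rw [← hind]
  apply Cfsg.Agent.Lib.Char.FrobeniusKernel.indFun_eq_zero_of_notMem
  intro y hy
  apply hxT
  set w : A := y⁻¹ * ((b : A) * x) * y with hw
  have h3 : w * x⁻¹ ∈ B := by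
    rw [← QuotientGroup.eq_one_iff, hw]
    have hcm : (((b : B) : A) : A ⧸ B) = 1 := (QuotientGroup.eq_one_iff _).2 b.2
    simp only [QuotientGroup.mk_mul, QuotientGroup.mk_inv, hcm, one_mul]
    have h4 := quotient_comm (G := B) htop (x : A) (y : A)
    rw [mul_assoc _ _ ((y : A) : A ⧸ B), h4]
    group
  have h5 : x = (w * x⁻¹)⁻¹ * w := by group
  rw [h5]
  exact T.mul_mem (T.inv_mem (hBT h3)) hy

/-- Dichotomy for irreducible characters of `A`. -/
theorem vanish_or_lin (htop : B ⊔ Subgroup.zpowers t = ⊤) (E : IrrCharacter B → A → ℂ)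
    (hE : ∀ ξ : IrrCharacter B, TI B t (ξ : B → ℂ) →
      IsIrrCharacter A (E ξ) ∧ ∀ b : B, E ξ b = (ξ : B → ℂ) b)
    {ψ : A → ℂ} (hψ : IsIrrCharacter A ψ) :
    (∀ x : A, B ⊔ Subgroup.zpowers x = ⊤ → ∀ b : B, ψ ((b : A) * x) = 0) ∨
    ∃ ξ : IrrCharacter B, TI B t (ξ : B → ℂ) ∧ ∃ l : A →* ℂˣ, (∀ b : B, l b = 1) ∧
      ψ = fun x => ((l x : ℂˣ) : ℂ) * E ξ x := by
  classical
  have hψc := isCharacter_of_isIrrCharacter hψ
  have hres := isCharacter_restrict hψc B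
  have h1 : (fun n : B => ψ n) 1 ≠ 0 := by
    simpa using Cfsg.Agent.Lib.Char.Virtual.irr_one_ne_zero hψ
  obtain ⟨χ₀, hχ₀, hcon⟩ := Cfsg.Agent.Lib.Char.CliffordCorr.exists_irr_constituent hres h1
  by_cases hinv : TI B t χ₀
  · right
    refine ⟨⟨χ₀, hχ₀⟩, hinv, ?_⟩
    exact exists_lin htop hψ hχ₀ hinv (hE ⟨χ₀, hχ₀⟩ hinv).1 (hE ⟨χ₀, hχ₀⟩ hinv).2 hcon
  · left
    intro x hx b
    exact vanish_of_not_inv hψ hχ₀ hcon hinv htop hx b

/-- The roots of unity attached to a character and an extension. -/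
theorem exists_roots_ext (htop : B ⊔ Subgroup.zpowers t = ⊤) {ξ : B → ℂ}
    (hξ : IsIrrCharacter B ξ) (hinv : TI B t ξ) {E : A → ℂ}
    (hE : IsIrrCharacter A E) (hext : ∀ b : B, E b = ξ b) {n : ℕ} (htn : t ^ n = 1)
    {θ : A → ℂ} (hθ : IsCharacter A θ) :
    ∃ (ι : Type) (_ : Fintype ι) (z : ι → ℂ), (∀ l, z l ^ n = 1) ∧
      ∀ j : ℕ, avgc B θ E (t ^ j) = ∑ l, z l ^ j := by
  classical
  have hEc := isCharacter_of_isIrrCharacter hE
  have hres : (fun n : B => E n) = ξ := funext hext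
  refine isCharacter_induction_on_irr (P := fun θ => ∃ (ι : Type) (_ : Fintype ι) (z : ι → ℂ),
    (∀ l, z l ^ n = 1) ∧ ∀ j : ℕ, avgc B θ E (t ^ j) = ∑ l, z l ^ j) ?_ ?_ ?_ hθ
  · refine ⟨Empty, inferInstance, Empty.elim, fun l => l.elim, fun j => ?_⟩
    simp [avgc]
  · intro ψ hψ
    have hψc := isCharacter_of_isIrrCharacter hψ
    by_cases h0 : classInner (fun n : B => ψ n) ξ = 0
    · refine ⟨Empty, inferInstance, Empty.elim, fun l => l.elim, fun j => ?_⟩
      rw [avgc_eq_zero B hψc hEc (by rw [hres]; exact h0)]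
      simp
    · obtain ⟨l, hl, rfl⟩ := exists_lin htop hψ hξ hinv hE hext h0
      refine ⟨Unit, inferInstance, fun _ => ((l t : ℂˣ) : ℂ), fun _ => ?_, fun j => ?_⟩
      · rw [← Units.val_pow_eq_pow_val, ← map_pow, htn, map_one, Units.val_one]
      · rw [avgc_lin B l hl, avgc_self B hEc (by rw [hres]; exact classInner_irr_self hξ)]
        simp [map_pow]
  · intro χ ψ _ _ hχ hψ
    obtain ⟨ι₁, _, z₁, h₁, e₁⟩ := hχ
    obtain ⟨ι₂, _, z₂, h₂, e₂⟩ := hψ
    refine ⟨ι₁ ⊕ ι₂, inferInstance, Sum.elim z₁ z₂, ?_, fun j => ?_⟩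
    · rintro (l | l)
      · exact h₁ l
      · exact h₂ l
    · rw [avgc_add_left, e₁, e₂, Fintype.sum_sum_type]
      simp

variable (E : IrrCharacter B → A → ℂ)

/-- Expansion on a generating coset. -/
theorem expansion (htop : B ⊔ Subgroup.zpowers t = ⊤)
    (hE : ∀ ξ : IrrCharacter B, TI B t (ξ : B → ℂ) →
      IsIrrCharacter A (E ξ) ∧ ∀ b : B, E ξ b = (ξ : B → ℂ) b)
    {θ : A → ℂ} (hθ : IsCharacter A θ) {x : A} (hx : B ⊔ Subgroup.zpowers x = ⊤) (b : B) :
    θ ((b : A) * x) = ∑ ξ : TIrr B t, avgc B θ (E ξ.1) x * E ξ.1 ((b : A) * x) := by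
  classical
  refine isCharacter_induction_on_irr (P := fun θ => θ ((b : A) * x) =
    ∑ ξ : TIrr B t, avgc B θ (E ξ.1) x * E ξ.1 ((b : A) * x)) ?_ ?_ ?_ hθ
  · simp [avgc]
  · intro ψ hψ
    rcases vanish_or_lin htop E hE hψ with hv | ⟨ξ₁, h₁, l, hl, rfl⟩
    · rw [hv x hx b]
      symm
      refine Finset.sum_eq_zero fun ξ _ => ?_
      have : avgc B ψ (E ξ.1) x = 0 := by
        unfold avgc
        refine mul_eq_zero_of_right _ (Finset.sum_eq_zero fun b' _ => ?_)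
        rw [hv x hx b', zero_mul]
      rw [this, zero_mul]
    · have hE₁ := hE ξ₁ h₁
      have hc₁ := isCharacter_of_isIrrCharacter hE₁.1
      have hv : ∀ ξ : TIrr B t, avgc B (fun y => ((l y : ℂˣ) : ℂ) * E ξ₁ y) (E ξ.1) x =
          if ξ.1 = ξ₁ then ((l x : ℂˣ) : ℂ) else 0 := by
        intro ξ
        rw [avgc_lin B l hl]
        have hEξ := hE ξ.1 ξ.2
        split_ifs with h
        · rw [h, avgc_self B hc₁]
          · simp
          · have : (fun n : B => E ξ₁ n) = (ξ₁ : B → ℂ) := funext hE₁.2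
            rw [this]
            exact classInner_irr_self ξ₁.2
        · rw [avgc_eq_zero B hc₁ (isCharacter_of_isIrrCharacter hEξ.1)]
          · simp
          · have h1 : (fun n : B => E ξ₁ n) = (ξ₁ : B → ℂ) := funext hE₁.2
            have h2 : (fun n : B => E ξ.1 n) = (ξ.1 : B → ℂ) := funext hEξ.2
            rw [h1, h2]
            exact classInner_irr_of_ne ξ₁.2 ξ.1.2 (fun h' => h (Subtype.ext h'.symm))
      simp only [hv, ite_mul, zero_mul]
      rw [Finset.sum_ite, Finset.sum_const_zero, add_zero]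
      have hfilter : Finset.univ.filter (fun ξ : TIrr B t => ξ.1 = ξ₁) = {⟨ξ₁, h₁⟩} := by
        ext ξ
        simp only [Finset.mem_filter, Finset.mem_univ, true_and, Finset.mem_singleton]
        constructor
        · intro h
          exact Subtype.ext h
        · rintro rfl
          rfl
      rw [hfilter, Finset.sum_singleton, map_mul, hl b, one_mul]
  · intro χ ψ _ _ hχ hψ
    simp only [Pi.add_apply]
    rw [hχ, hψ, ← Finset.sum_add_distrib]
    refine Finset.sum_congr rfl fun ξ _ => ?_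
    rw [avgc_add_left, add_mul]

/-- Parseval on a generating coset. -/
theorem parseval (htop : B ⊔ Subgroup.zpowers t = ⊤)
    (hE : ∀ ξ : IrrCharacter B, TI B t (ξ : B → ℂ) →
      IsIrrCharacter A (E ξ) ∧ ∀ b : B, E ξ b = (ξ : B → ℂ) b)
    {θ : A → ℂ} (hθ : IsCharacter A θ) {x : A} (hx : B ⊔ Subgroup.zpowers x = ⊤) :
    avgc B θ θ x = ∑ ξ : TIrr B t, (Complex.normSq (avgc B θ (E ξ.1) x) : ℂ) := by
  classical
  have h1 : ∀ b : B, conj (θ ((b : A) * x)) =
      ∑ ξ : TIrr B t, conj (avgc B θ (E ξ.1) x) * conj (E ξ.1 ((b : A) * x)) := by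
    intro b
    rw [expansion E htop hE hθ hx b, map_sum]
    refine Finset.sum_congr rfl fun ξ _ => ?_
    rw [map_mul]
  have h2 : avgc B θ θ x = ∑ ξ : TIrr B t, conj (avgc B θ (E ξ.1) x) * avgc B θ (E ξ.1) x := by
    conv_lhs => unfold avgc
    simp only [h1, Finset.mul_sum]
    rw [Finset.sum_comm]
    refine Finset.sum_congr rfl fun ξ _ => ?_
    unfold avgc
    rw [Finset.mul_sum, Finset.mul_sum]
    refine Finset.sum_congr rfl fun b _ => ?_
    ring
  rw [h2]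
  refine Finset.sum_congr rfl fun ξ _ => ?_
  rw [mul_comm, Complex.mul_conj]

omit [Fintype A] hB [Fintype B] in
/-- Generators of the quotient. -/
theorem gen_pow [Finite A] (htop : B ⊔ Subgroup.zpowers t = ⊤) {j : ℕ}
    (hj : j.Coprime (orderOf t)) : B ⊔ Subgroup.zpowers (t ^ j) = ⊤ := by
  obtain ⟨m, hm⟩ := exists_pow_eq_self_of_coprime (x := t) hj
  rw [eq_top_iff, ← htop]
  refine sup_le le_sup_left ?_
  rw [Subgroup.zpowers_le]
  apply (le_sup_right : Subgroup.zpowers (t ^ j) ≤ B ⊔ Subgroup.zpowers (t ^ j))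
  have h1 : (t ^ j) ^ m ∈ Subgroup.zpowers (t ^ j) :=
    Subgroup.pow_mem _ (Subgroup.mem_zpowers (t ^ j)) m
  rwa [hm] at h1

/-- The key theorem on characters with coset norm one. -/
theorem cyc_abs {p k : ℕ} (hp : p.Prime) (hpk : orderOf t = p ^ k)
    (htop : B ⊔ Subgroup.zpowers t = ⊤)
    (hE : ∀ ξ : IrrCharacter B, TI B t (ξ : B → ℂ) →
      IsIrrCharacter A (E ξ) ∧ ∀ b : B, E ξ b = (ξ : B → ℂ) b)
    {θ : A → ℂ} (hθ : IsCharacter A θ)
    (hnorm : ∀ j : ℕ, j.Coprime (orderOf t) → avgc B θ θ (t ^ j) = 1) :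
    ∃ (ξ₀ : TIrr B t) (a : ℂ) (ε : ℤ), Complex.normSq a = 1 ∧
      (∀ b : B, θ ((b : A) * t) = a * E ξ₀.1 ((b : A) * t)) ∧ (ε = 1 ∨ ε = -1) ∧
      ∀ ξ : TIrr B t, ∃ m : ℕ, classInner (fun n : B => θ n) (ξ.1 : B → ℂ) = m ∧
        (m : ℤ) ≡ (if ξ = ξ₀ then ε else 0) [ZMOD p] := by
  classical
  have hex : ∀ ξ : TIrr B t, ∃ (ι : Type) (_ : Fintype ι) (z : ι → ℂ), (∀ l, z l ^ orderOf t = 1) ∧
      ∀ j : ℕ, avgc B θ (E ξ.1) (t ^ j) = ∑ l, z l ^ j := fun ξ =>
    exists_roots_ext htop ξ.1.2 ξ.2 (hE ξ.1 ξ.2).1 (hE ξ.1 ξ.2).2 (pow_orderOf_eq_one t) hθ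
  choose ι hι z hz hj using hex
  have hsum : ∀ j : ℕ, j.Coprime (orderOf t) →
      ∑ ξ : TIrr B t, Complex.normSq (∑ l, z ξ l ^ j) = 1 := by
    intro j hjc
    have h1 := parseval E htop hE hθ (gen_pow htop hjc)
    rw [hnorm j hjc] at h1
    simp only [hj] at h1
    exact_mod_cast h1.symm
  have hle : ∀ ξ : TIrr B t, ∀ j : ℕ, j.Coprime (orderOf t) →
      Complex.normSq (∑ l, z ξ l ^ j) ≤ 1 := by
    intro ξ j hjc
    rw [← hsum j hjc]
    exact Finset.single_le_sum (f := fun ξ => Complex.normSq (∑ l, z ξ l ^ j))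
      (fun _ _ => Complex.normSq_nonneg _) (Finset.mem_univ ξ)
  have hdich : ∀ ξ : TIrr B t, (∑ l, z ξ l) = 0 ∨ Complex.normSq (∑ l, z ξ l) = 1 := fun ξ =>
    Cfsg.Agent.Lib.Char.DGNNum.norm_trick (orderOf_pos t) (z ξ) (hz ξ) (hle ξ)
  have hs1 := hsum 1 (Nat.coprime_one_left _)
  simp only [pow_one] at hs1
  -- a nonzero coefficient
  have hexists : ∃ ξ₀ : TIrr B t, Complex.normSq (∑ l, z ξ₀ l) = 1 := by
    by_contra hcon
    push Not at hcon
    have : ∑ ξ : TIrr B t, Complex.normSq (∑ l, z ξ l) = 0 := by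
      refine Finset.sum_eq_zero fun ξ _ => ?_
      rcases hdich ξ with h | h
      · rw [h, map_zero]
      · exact absurd h (hcon ξ)
    rw [this] at hs1
    exact zero_ne_one hs1
  obtain ⟨ξ₀, hξ₀⟩ := hexists
  have hother : ∀ ξ : TIrr B t, ξ ≠ ξ₀ → ∑ l, z ξ l = 0 := by
    intro ξ hne
    rcases hdich ξ with h | h
    · exact h
    · exfalso
      have h1 := Finset.sum_le_sum_of_subset_of_nonneg (s := {ξ, ξ₀}) (t := Finset.univ)
        (f := fun ξ => Complex.normSq (∑ l, z ξ l)) (Finset.subset_univ _)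
        (fun _ _ _ => Complex.normSq_nonneg _)
      rw [Finset.sum_pair hne, hs1, h, hξ₀] at h1
      norm_num at h1
  have hpt : (∑ l, z ξ₀ l) = avgc B θ (E ξ₀.1) (t ^ 1) := by
    rw [hj]
    simp
  have hz' : ∀ ξ, ∀ l, z ξ l ^ (p ^ k) = 1 := by
    intro ξ l
    rw [← hpk]
    exact hz ξ l
  obtain ⟨ε, hε, hm⟩ : ∃ ε : ℤ, (ε = 1 ∨ ε = -1) ∧ (Fintype.card (ι ξ₀) : ℤ) ≡ ε [ZMOD p] := by
    rcases Cfsg.Agent.Lib.Char.DGNNum.card_modEq_of_normSq_one hp (z ξ₀) (hz' ξ₀) hξ₀ with hm | hm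
    · exact ⟨1, Or.inl rfl, hm⟩
    · exact ⟨-1, Or.inr rfl, hm⟩
  refine ⟨ξ₀, ∑ l, z ξ₀ l, ε, hξ₀, ?_, hε, ?_⟩
  · intro b
    have h1 := expansion E htop hE hθ (x := t) (by simpa using gen_pow htop (Nat.coprime_one_left _)) b
    rw [h1, Finset.sum_eq_single ξ₀]
    · rw [hpt, pow_one]
    · intro ξ _ hne
      have h2 : avgc B θ (E ξ.1) t = 0 := by
        have := hj ξ 1
        rw [pow_one] at this
        rw [this]
        simpa using hother ξ hne
      rw [h2, zero_mul]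
    · exact fun h => absurd (Finset.mem_univ _) h
  · intro ξ
    refine ⟨Fintype.card (ι ξ), ?_, ?_⟩
    · have h1 := hj ξ 0
      rw [pow_zero, avgc_one] at h1
      have h2 : (fun n : B => E ξ.1 n) = (ξ.1 : B → ℂ) := funext (hE ξ.1 ξ.2).2
      rw [h2] at h1
      rw [h1]
      simp
    · by_cases hξ : ξ = ξ₀
      · subst hξ
        rw [if_pos rfl]
        exact hm
      · rw [if_neg hξ]
        exact Cfsg.Agent.Lib.Char.GlaubRel.card_modEq_of_sum_roots hp (z ξ) (hz' ξ) 0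
          (by simpa using hother ξ hξ)

end Cfsg.Agent.Lib.Char.DGNAbs
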