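import Mathlib
import Cfsg.Agent.Lib.Char.GlaubCoset

/-!
# Cosets for the Dade-Glauberman-Nagao correspondence

`Γ = K ⟨s⟩` with `K, Q` normal, `Q ≤ K`, the order of `K/Q` prime to `p`, `s` a `p`-element and
`C/Q = C_{K/Q}(s)`.  Every element of `K s` is `K`-conjugate to an element of `C s`, and two
elements of `C s` are `K`-conjugate only under `C`.
-/

set_option autoImplicit false
set_option linter.style.haveILetI false

namespace Cfsg.Agent.Lib.Char.DGNCoset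

open Cfsg.Agent.Lib.Char.GlaubCoset

universe u

variable {Γ : Type u} [Group Γ]

/-- The coset data. -/
structure CD (K C : Subgroup Γ) (s : Γ) : Prop where
  hCK : C ≤ K
  hsK : ∀ g ∈ K, s * g * s⁻¹ ∈ K
  hsC : ∀ c ∈ C, s * c * s⁻¹ ∈ C
  conj : ∀ g ∈ K, ∃ y ∈ K, ∃ c ∈ C, g * s = y * (c * s) * y⁻¹
  inn : ∀ y ∈ K, ∀ c ∈ C, ∀ c' ∈ C, y * (c * s) * y⁻¹ = c' * s → y ∈ C

/-- The coset summation formula. -/
theorem CD.sum {K C : Subgroup Γ} {s : Γ} (hD : CD K C s) [Fintype K] [Fintype C]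
    (F : Γ → ℂ) (hF : ∀ y ∈ K, ∀ x, F (y * x * y⁻¹) = F x) :
    (Nat.card C : ℂ) * ∑ g : K, F (g * s) = (Nat.card K : ℂ) * ∑ c : C, F (c * s) := by
  classical
  obtain ⟨hCK, hsK, hsC, hconj, hinn⟩ := hD
  have hmem : ∀ p : K × C, (p.1 : Γ) * ((p.2 : Γ) * s) * (p.1 : Γ)⁻¹ * s⁻¹ ∈ K := by
    intro p
    have h1 : (p.1 : Γ) * ((p.2 : Γ) * s) * (p.1 : Γ)⁻¹ * s⁻¹ =
        (p.1 : Γ) * p.2 * (s * (p.1 : Γ)⁻¹ * s⁻¹) := by group
    rw [h1]
    exact K.mul_mem (K.mul_mem p.1.2 (hCK p.2.2)) (hsK _ (K.inv_mem p.1.2))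
  let φ : K × C → K := fun p => ⟨_, hmem p⟩
  have hφ : ∀ p : K × C, ((φ p : K) : Γ) * s = (p.1 : Γ) * ((p.2 : Γ) * s) * (p.1 : Γ)⁻¹ := by
    intro p
    show (p.1 : Γ) * ((p.2 : Γ) * s) * (p.1 : Γ)⁻¹ * s⁻¹ * s = _
    group
  -- the double sum
  have h1 : ∑ p : K × C, F (((φ p : K) : Γ) * s) = (Nat.card K : ℂ) * ∑ c : C, F (c * s) := by
    rw [Fintype.sum_prod_type]
    have : ∀ y : K, ∑ c : C, F (((φ (y, c) : K) : Γ) * s) = ∑ c : C, F (c * s) := by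
      intro y
      refine Finset.sum_congr rfl (fun c _ => ?_)
      rw [hφ]
      exact hF _ y.2 _
    simp only [this, Finset.sum_const, Finset.card_univ, nsmul_eq_mul, Nat.card_eq_fintype_card]
  -- the fibres
  have h2 : ∀ g : K, (Finset.univ.filter (fun p : K × C => φ p = g)).card = Nat.card C := by
    intro g
    obtain ⟨y₀, hy₀, c₀, hc₀C, hg⟩ := hconj g g.2
    rw [Nat.card_eq_fintype_card, ← Finset.card_univ]
    symm
    have hmemC : ∀ z : C, (z : Γ) * c₀ * (s * (z : Γ)⁻¹ * s⁻¹) ∈ C := fun z =>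
      C.mul_mem (C.mul_mem z.2 hc₀C) (hsC _ (C.inv_mem z.2))
    refine Finset.card_bij
      (fun z _ => ((⟨y₀ * (z : Γ)⁻¹, K.mul_mem hy₀ (K.inv_mem (hCK z.2))⟩ : K),
        (⟨(z : Γ) * c₀ * (s * (z : Γ)⁻¹ * s⁻¹), hmemC z⟩ : C))) ?_ ?_ ?_
    · intro z _
      rw [Finset.mem_filter]
      refine ⟨Finset.mem_univ _, ?_⟩
      apply Subtype.ext
      show y₀ * (z : Γ)⁻¹ * ((z : Γ) * c₀ * (s * (z : Γ)⁻¹ * s⁻¹) * s) * (y₀ * (z : Γ)⁻¹)⁻¹ * s⁻¹ = g
      have h4 : y₀ * (z : Γ)⁻¹ * ((z : Γ) * c₀ * (s * (z : Γ)⁻¹ * s⁻¹) * s) * (y₀ * (z : Γ)⁻¹)⁻¹ =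
          y₀ * (c₀ * s) * y₀⁻¹ := by group
      rw [h4, ← hg]
      group
    · intro a _ b _ hab
      have h3 := congrArg (fun p : K × C => ((p.1 : K) : Γ)) hab
      simp only at h3
      apply Subtype.ext
      have h4 := mul_left_cancel h3
      exact inv_injective h4
    · rintro ⟨y, c⟩ hp
      rw [Finset.mem_filter] at hp
      have hp2 := hp.2
      have h3 : (y : Γ) * ((c : Γ) * s) * (y : Γ)⁻¹ = y₀ * (c₀ * s) * y₀⁻¹ := by
        have h7 := hφ (y, c)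
        rw [hp2] at h7
        exact h7.symm.trans hg
      set z : Γ := (y : Γ)⁻¹ * y₀ with hz
      have hzG : z ∈ K := K.mul_mem (K.inv_mem y.2) hy₀
      have h4 : z * (c₀ * s) * z⁻¹ = (c : Γ) * s := by
        have : z * (c₀ * s) * z⁻¹ = (y : Γ)⁻¹ * (y₀ * (c₀ * s) * y₀⁻¹) * y := by
          rw [hz]; group
        rw [this, ← h3]
        group
      have hzC : z ∈ C := hinn z hzG c₀ hc₀C c c.2 h4
      refine ⟨⟨z, hzC⟩, Finset.mem_univ _, ?_⟩
      apply Prod.ext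
      · apply Subtype.ext
        show y₀ * z⁻¹ = y
        rw [hz]
        group
      · apply Subtype.ext
        show z * c₀ * (s * z⁻¹ * s⁻¹) = c
        have h5 : z * c₀ * (s * z⁻¹ * s⁻¹) = z * (c₀ * s) * z⁻¹ * s⁻¹ := by group
        rw [h5, h4]
        group
  have h3 : ∑ p : K × C, F (((φ p : K) : Γ) * s) =
      (Nat.card C : ℂ) * ∑ g : K, F (g * s) := by
    rw [← Finset.sum_fiberwise (Finset.univ : Finset (K × C)) φ, Finset.mul_sum]
    refine Finset.sum_congr rfl (fun g _ => ?_)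
    rw [Finset.sum_congr rfl (g := fun _ => F ((g : Γ) * s))]
    · rw [Finset.sum_const, h2, nsmul_eq_mul]
    · intro p hp
      rw [Finset.mem_filter] at hp
      rw [hp.2]
  rw [← h3, h1]

/-- The image of `K` in `Γ/Q` has order the index of `Q` in `K`. -/
theorem card_map_mk {K Q : Subgroup Γ} [hQ : Q.Normal] :
    Nat.card (K.map (QuotientGroup.mk' Q)) = Q.relIndex K := by
  have h1 : ((QuotientGroup.mk' Q).comp K.subtype).ker = Q.subgroupOf K := by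
    ext x
    simp [Subgroup.mem_subgroupOf, MonoidHom.mem_ker, QuotientGroup.eq_one_iff]
  have h2 := Subgroup.index_ker ((QuotientGroup.mk' Q).comp K.subtype)
  rw [h1, MonoidHom.range_comp, Subgroup.range_subtype] at h2
  exact h2.symm

/-- The coset lemma. -/
theorem cd_of [Finite Γ] {K Q C : Subgroup Γ} [hK : K.Normal] [hQ : Q.Normal] {p : ℕ} (hp : p.Prime)
    (hsyl : ¬ p ∣ Q.relIndex K) {s : Γ} {k : ℕ} (hpk : orderOf s ∣ p ^ k)
    (htop : K ⊔ Subgroup.zpowers s = ⊤) (hC : ∀ x, x ∈ C ↔ x ∈ K ∧ s * x * s⁻¹ * x⁻¹ ∈ Q) :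
    CD K C s := by
  classical
  set π : Γ →* Γ ⧸ Q := QuotientGroup.mk' Q with hπ
  have hπs : Function.Surjective π := QuotientGroup.mk'_surjective Q
  have hπ1 : ∀ x, π x = 1 ↔ x ∈ Q := fun x => QuotientGroup.eq_one_iff x
  set K₁ : Subgroup (Γ ⧸ Q) := K.map π with hK₁
  haveI hK₁n : K₁.Normal := hK.map π hπs
  have hcop : (Nat.card K₁).Coprime (orderOf (π s)) := by
    rw [hK₁, card_map_mk]
    have h1 : orderOf (π s) ∣ p ^ k := (orderOf_map_dvd π s).trans hpk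
    have h2 : (Q.relIndex K).Coprime (p ^ k) :=
      Nat.Coprime.pow_right _ ((Nat.Prime.coprime_iff_not_dvd hp).2 hsyl).symm
    exact h2.coprime_dvd_right h1
  have htop₁ : K₁ ⊔ Subgroup.zpowers (π s) = ⊤ := by
    rw [hK₁, ← MonoidHom.map_zpowers, ← Subgroup.map_sup, htop, Subgroup.map_top_of_surjective _ hπs]
  have hcomm : ∀ x, s * x * s⁻¹ * x⁻¹ ∈ Q ↔ π x * π s = π s * π x := by
    intro x
    rw [← hπ1]
    simp only [map_mul, map_inv]
    constructor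
    · intro h
      have h2 : π s * π x = π x * π s := by
        calc π s * π x = π s * π x * (π s)⁻¹ * (π x)⁻¹ * (π x * π s) := by group
          _ = π x * π s := by rw [h, one_mul]
      exact h2.symm
    · intro h
      rw [← h]
      group
  have hsK : ∀ g ∈ K, s * g * s⁻¹ ∈ K := fun g hg => hK.conj_mem g hg s
  refine ⟨fun x hx => ((hC x).1 hx).1, hsK, ?_, ?_, ?_⟩
  · intro c hc
    obtain ⟨h1, h2⟩ := (hC c).1 hc
    refine (hC _).2 ⟨hsK c h1, ?_⟩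
    rw [hcomm] at h2 ⊢
    simp only [map_mul, map_inv]
    have h3 : π s * π c * (π s)⁻¹ = π c := by
      rw [← h2]
      group
    rw [h3]
    exact h2
  · intro g hg
    have hgK₁ : π g ∈ K₁ := Subgroup.mem_map_of_mem π hg
    obtain ⟨y₁, hy₁, c₁, hc₁, hc₁s, hg₁⟩ := exists_conj_coset hcop htop₁ hgK₁
    obtain ⟨y, hy, rfl⟩ := hy₁
    refine ⟨y, hy, y⁻¹ * (g * s) * y * s⁻¹, ?_, by group⟩
    have hmem : y⁻¹ * (g * s) * y * s⁻¹ ∈ K := by
      have h1 : y⁻¹ * (g * s) * y * s⁻¹ = y⁻¹ * g * (s * y * s⁻¹) := by group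
      rw [h1]
      exact K.mul_mem (K.mul_mem (K.inv_mem hy) hg) (hsK y hy)
    refine (hC _).2 ⟨hmem, ?_⟩
    rw [hcomm]
    have h2 : π (y⁻¹ * (g * s) * y * s⁻¹) = c₁ := by
      simp only [map_mul, map_inv]
      rw [hg₁]
      group
    rw [h2]
    exact hc₁s
  · intro y hy c hc c' hc' h
    obtain ⟨h1, h2⟩ := (hC c).1 hc
    obtain ⟨h3, h4⟩ := (hC c').1 hc'
    rw [hcomm] at h2 h4
    have h5 := congrArg π h
    simp only [map_mul, map_inv] at h5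
    obtain ⟨h6, -⟩ := conj_eq_imp hcop (Subgroup.mem_map_of_mem π h1) (Subgroup.mem_map_of_mem π h3)
      h2 h4 h5
    exact (hC y).2 ⟨hy, (hcomm y).2 h6⟩

/-- The description of `C` for a power of `s`. -/
theorem hC_pow [Finite Γ] {K Q C : Subgroup Γ} [hQ : Q.Normal] {s : Γ}
    (hC : ∀ x, x ∈ C ↔ x ∈ K ∧ s * x * s⁻¹ * x⁻¹ ∈ Q) {j : ℕ} (hj : j.Coprime (orderOf s)) :
    ∀ x, x ∈ C ↔ x ∈ K ∧ s ^ j * x * (s ^ j)⁻¹ * x⁻¹ ∈ Q := by
  classical
  set π : Γ →* Γ ⧸ Q := QuotientGroup.mk' Q with hπ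
  have hπ1 : ∀ x, π x = 1 ↔ x ∈ Q := fun x => QuotientGroup.eq_one_iff x
  have hcomm : ∀ u x : Γ, u * x * u⁻¹ * x⁻¹ ∈ Q ↔ Commute (π u) (π x) := by
    intro u x
    rw [← hπ1]
    simp only [map_mul, map_inv]
    constructor
    · intro h
      show π u * π x = π x * π u
      calc π u * π x = π u * π x * (π u)⁻¹ * (π x)⁻¹ * (π x * π u) := by group
        _ = π x * π u := by rw [h, one_mul]
    · intro h
      have h' : π u * π x = π x * π u := h
      rw [h']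
      group
  intro x
  rw [hC x, hcomm, hcomm, map_pow]
  refine and_congr_right fun _ => ⟨fun h => h.pow_left j, fun h => ?_⟩
  obtain ⟨m, hm⟩ := exists_pow_eq_self_of_coprime (x := s) hj
  have h1 := h.pow_left m
  rw [← pow_mul, ← map_pow, pow_mul, hm] at h1
  exact h1

end Cfsg.Agent.Lib.Char.DGNCoset
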