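import Mathlib
import Cfsg.Agent.Lib.Char.DGNAbs
import Cfsg.Agent.Lib.Char.DGNCoset
import Cfsg.Agent.Lib.Char.GlaubP

/-!
# The Dade-Glauberman-Nagao correspondence for a cyclic group of operators

`Γ = K ⟨s⟩`, `s` a `p`-element, `K, Q` normal, `Q` a normal Sylow `p`-subgroup of `K`,
`C/Q = C_{K/Q}(s)`.
-/

set_option autoImplicit false
set_option linter.style.haveILetI false
set_option linter.unusedSectionVars false
set_option linter.unusedVariables false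

namespace Cfsg.Agent.Lib.Char.DGNCyc

open Cfsg Module Cfsg.Agent.Lib.Char.Basic Cfsg.Agent.Lib.Char.Ortho
open Cfsg.Agent.Lib.Char.GlaubCoset Cfsg.Agent.Lib.Char.GlaubCyclic
open Cfsg.Agent.Lib.Char.DGNAbs Cfsg.Agent.Lib.Char.DGNCoset Cfsg.Agent.Lib.Char.GlaubRel
open scoped ComplexConjugate

universe u

section Rel

variable {C : Type u} [Group C] [Fintype C]

/-- `f` is `± ξ` modulo `p` on the multiplicities of invariant characters. -/
def IRel (p : ℕ) (Inv : IrrCharacter C → Prop) (f : C → ℂ) (ξ : IrrCharacter C) : Prop :=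
  ∃ ε : ℤ, (ε = 1 ∨ ε = -1) ∧ ∀ ξ' : IrrCharacter C, Inv ξ' → ∃ m : ℕ,
    classInner f (ξ' : C → ℂ) = m ∧ (m : ℤ) ≡ (if ξ' = ξ then ε else 0) [ZMOD p]

theorem IRel.unique {p : ℕ} (hp : p.Prime) {Inv : IrrCharacter C → Prop} {f : C → ℂ}
    {ξ₁ ξ₂ : IrrCharacter C} (h₁ : IRel p Inv f ξ₁) (h₂ : IRel p Inv f ξ₂) (hi₁ : Inv ξ₁)
    (hi₂ : Inv ξ₂) : ξ₁ = ξ₂ := by
  by_contra hne
  obtain ⟨ε₁, hε₁, H₁⟩ := h₁
  obtain ⟨ε₂, hε₂, H₂⟩ := h₂
  obtain ⟨m₁, a₁, b₁⟩ := H₁ ξ₂ hi₂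
  obtain ⟨m₂, a₂, b₂⟩ := H₂ ξ₂ hi₂
  rw [if_neg (Ne.symm hne)] at b₁
  rw [if_pos rfl] at b₂
  have hm : m₁ = m₂ := by
    have := a₁.symm.trans a₂
    exact_mod_cast this
  subst hm
  have h3 := b₁.symm.trans b₂
  have h4 : (p : ℤ) ∣ ε₂ := by
    have := Int.ModEq.dvd h3
    simpa using this
  have hp1 : ¬ (p : ℤ) ∣ 1 := by
    rw [Int.natCast_dvd]
    simpa using hp.one_lt.ne'
  rcases hε₂ with rfl | rfl
  · exact hp1 h4
  · exact hp1 (by simpa using h4)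

end Rel

section Abstract

variable {Γ : Type u} [Group Γ] [Fintype Γ] {K C : Subgroup Γ} [hK : K.Normal] [Fintype K]
  [Fintype C] {s : Γ}
variable {A : Type u} [Group A] [Fintype A] {B : Subgroup A} [hB : B.Normal] [Fintype B] {t : A}

/-- An embedding of the pair `(A, B)` in `(Γ, C)`. -/
structure Emb (i : A →* Γ) (e : B ≃* C) (t : A) (s : Γ) : Prop where
  inj : Function.Injective i
  hit : i t = s
  he : ∀ b : B, ((e b : C) : Γ) = i b

variable {i : A →* Γ} {e : B ≃* C}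

omit [Fintype Γ] [Fintype A] in
theorem Emb.sum (h : Emb i e t s) (f : Γ → ℂ) : ∑ b : B, f (i b) = ∑ c : C, f c := by
  refine Fintype.sum_equiv e.toEquiv _ _ fun b => ?_
  show f (i b) = f ((e b : C) : Γ)
  rw [h.he]

theorem card_eq (e : B ≃* C) : Nat.card B = Nat.card C := Nat.card_congr e.toEquiv

/-- The coset norm of a character with norm one on `K`. -/
theorem sum_C_self (hD : CD K C s) {χh : Γ → ℂ} (hχ : IsCharacter Γ χh)
    (h1 : classInner (fun n : K => χh n) (fun n : K => χh n) = 1) :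
    ∑ c : C, χh (c * s) * conj (χh (c * s)) = Nat.card C := by
  have hcl := isClassFunction_of_isCharacter hχ
  have h2 := hD.sum (fun x => χh x * conj (χh x)) (by
    intro y hy x
    simp only [hcl x y])
  have h3 := sum_coset_self K hχ h1 s
  rw [h3] at h2
  have hK0 : (Nat.card K : ℂ) ≠ 0 := by exact_mod_cast Nat.card_pos.ne'
  have h4 : (Nat.card K : ℂ) * ∑ c : C, χh (c * s) * conj (χh (c * s)) =
      (Nat.card K : ℂ) * (Nat.card C : ℂ) := by
    rw [← h2]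
    ring
  exact mul_left_cancel₀ hK0 h4

/-- Orthogonality on the coset `C s`. -/
theorem sum_C_ne (hD : CD K C s) {χ₁ χ₂ : Γ → ℂ} (h₁ : IsCharacter Γ χ₁) (h₂ : IsCharacter Γ χ₂)
    (h0 : classInner (fun n : K => χ₁ n) (fun n : K => χ₂ n) = 0) :
    ∑ c : C, χ₁ (c * s) * conj (χ₂ (c * s)) = 0 := by
  have hcl₁ := isClassFunction_of_isCharacter h₁
  have hcl₂ := isClassFunction_of_isCharacter h₂
  have h2 := hD.sum (fun x => χ₁ x * conj (χ₂ x)) (by
    intro y hy x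
    simp only [hcl₁ x y, hcl₂ x y])
  have h3 := sum_coset_ne K h₁ h₂ h0 s
  rw [h3, mul_zero] at h2
  have hK0 : (Nat.card K : ℂ) ≠ 0 := by exact_mod_cast Nat.card_pos.ne'
  rcases mul_eq_zero.1 h2.symm with h4 | h4
  · exact absurd h4 hK0
  · exact h4

/-- The restriction of a character with norm one on `K` has norm one on generating cosets. -/
theorem norm_one (hEmb : Emb i e t s)
    (hD : ∀ j : ℕ, j.Coprime (orderOf s) → CD K C (s ^ j)) {χh : Γ → ℂ} (hχ : IsCharacter Γ χh)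
    (h1 : classInner (fun n : K => χh n) (fun n : K => χh n) = 1) :
    ∀ j : ℕ, j.Coprime (orderOf t) →
      avgc B (fun x => χh (i x)) (fun x => χh (i x)) (t ^ j) = 1 := by
  intro j hj
  have hord : orderOf t = orderOf s := by
    rw [← hEmb.hit, orderOf_injective i hEmb.inj]
  rw [hord] at hj
  have h2 := sum_C_self (hD j hj) hχ h1
  unfold avgc
  have h3 : ∑ b : B, χh (i ((b : A) * t ^ j)) * conj (χh (i ((b : A) * t ^ j))) =
      ∑ c : C, χh (c * s ^ j) * conj (χh (c * s ^ j)) := by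
    have := hEmb.sum (fun c => χh (c * s ^ j) * conj (χh (c * s ^ j)))
    rw [← this]
    refine Finset.sum_congr rfl fun b _ => ?_
    rw [map_mul, map_pow, hEmb.hit]
  rw [h3, h2, card_eq e]
  exact inv_mul_cancel₀ (by exact_mod_cast Nat.card_pos.ne')

variable (E : IrrCharacter B → A → ℂ)

/-- The main consequence on `A`. -/
theorem key_a {p k : ℕ} (hp : p.Prime) (hpk : orderOf s = p ^ k) (hEmb : Emb i e t s)
    (htopA : B ⊔ Subgroup.zpowers t = ⊤)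
    (hE : ∀ ξ : IrrCharacter B, TI B t (ξ : B → ℂ) →
      IsIrrCharacter A (E ξ) ∧ ∀ b : B, E ξ b = (ξ : B → ℂ) b)
    (hD : ∀ j : ℕ, j.Coprime (orderOf s) → CD K C (s ^ j)) {χh : Γ → ℂ} (hχ : IsCharacter Γ χh)
    (h1 : classInner (fun n : K => χh n) (fun n : K => χh n) = 1) :
    ∃ (ξ₀ : TIrr B t) (a : ℂ) (ε : ℤ), Complex.normSq a = 1 ∧
      (∀ b : B, χh (i b * s) = a * E ξ₀.1 ((b : A) * t)) ∧ (ε = 1 ∨ ε = -1) ∧
      ∀ ξ : TIrr B t, ∃ m : ℕ, classInner (fun n : B => χh (i n)) (ξ.1 : B → ℂ) = m ∧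
        (m : ℤ) ≡ (if ξ = ξ₀ then ε else 0) [ZMOD p] := by
  have hord : orderOf t = orderOf s := by
    rw [← hEmb.hit, orderOf_injective i hEmb.inj]
  obtain ⟨ξ₀, a, ε, ha, hv, hε, hm⟩ := cyc_abs E hp (hord.trans hpk) htopA hE
    (isCharacter_comp_hom hχ i) (norm_one hEmb hD hχ h1)
  refine ⟨ξ₀, a, ε, ha, fun b => ?_, hε, hm⟩
  have := hv b
  rw [← this, map_mul, hEmb.hit]

/-- Fusion in the coset `C s` is controlled by `A`. -/
theorem fusion (hEmb : Emb i e t s) (htop : K ⊔ Subgroup.zpowers s = ⊤) (hD : CD K C s)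
    {φ : A → ℂ} (hφ : IsCharacter A φ) (b₀ b : B) (h : IsConj (i b₀ * s) (i b * s)) :
    φ ((b₀ : A) * t) = φ ((b : A) * t) := by
  obtain ⟨g, hg⟩ := isConj_iff.1 h
  obtain ⟨y, hy, j, rfl⟩ := exists_eq_mul_pow (G := K) htop g
  -- the conjugate `c₁`
  have hpowC : ∀ (j : ℕ), ∀ c ∈ C, s ^ j * c * (s ^ j)⁻¹ ∈ C := by
    intro j
    induction j with
    | zero => simp
    | succ j ih =>
      intro c hc
      have h1 := ih _ (hD.hsC c hc)
      have h2 : s ^ (j + 1) * c * (s ^ (j + 1))⁻¹ = s ^ j * (s * c * s⁻¹) * (s ^ j)⁻¹ := by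
        rw [pow_succ]
        group
      rw [h2]
      exact h1
  have hc₀ : i b₀ ∈ C := by
    rw [← hEmb.he]
    exact (e b₀).2
  have hc : i b ∈ C := by
    rw [← hEmb.he]
    exact (e b).2
  have hc₁ := hpowC j (i b₀) hc₀
  have h1 : y * ((s ^ j * i b₀ * (s ^ j)⁻¹) * s) * y⁻¹ = i b * s := by
    rw [← hg]
    have h2 : s ^ j * s = s * s ^ j := (Commute.pow_self s j).eq
    calc y * ((s ^ j * i b₀ * (s ^ j)⁻¹) * s) * y⁻¹
        = y * (s ^ j * i b₀ * ((s ^ j)⁻¹ * s * s ^ j) * (s ^ j)⁻¹) * y⁻¹ := by group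
      _ = y * (s ^ j * (i b₀ * s) * (s ^ j)⁻¹) * y⁻¹ := by
          have h3 : (s ^ j)⁻¹ * s * s ^ j = s := by
            rw [mul_assoc, ← h2]
            group
          rw [h3]
          group
      _ = y * s ^ j * (i b₀ * s) * (y * s ^ j)⁻¹ := by group
  have hyC : y ∈ C := hD.inn y hy _ hc₁ _ hc h1
  -- the element of `A`
  let y' : B := e.symm ⟨y, hyC⟩
  have hy' : i (y' : A) = y := by
    rw [← hEmb.he]
    simp [y']
  have h2 : (y' * t ^ j : A) * ((b₀ : A) * t) * (y' * t ^ j : A)⁻¹ = (b : A) * t := by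
    apply hEmb.inj
    simp only [map_mul, map_inv, map_pow, hEmb.hit, hy']
    rw [← hg]
  rw [← h2]
  exact (isClassFunction_of_isCharacter hφ _ _).symm

/-- Some irreducible character of `Γ` has a nonzero coefficient on the coset. -/
theorem exists_irr_ne (hEmb : Emb i e t s) (htop : K ⊔ Subgroup.zpowers s = ⊤) (hD : CD K C s)
    {φ : A → ℂ} (hφ : IsCharacter A φ)
    (h1 : classInner (fun n : B => φ n) (fun n : B => φ n) = 1) :
    ∃ ψ : IrrCharacter Γ, ∑ b : B, φ ((b : A) * t) * conj ((ψ : Γ → ℂ) (i b * s)) ≠ 0 := by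
  classical
  haveI : Fintype (IrrCharacter Γ) := Fintype.ofFinite _
  by_contra hcon
  push Not at hcon
  have hav := avgc_self B hφ h1 t
  obtain ⟨b₀, hb₀⟩ : ∃ b₀ : B, φ ((b₀ : A) * t) ≠ 0 := by
    by_contra hc
    push Not at hc
    unfold avgc at hav
    simp [hc] at hav
  set y : Γ := i b₀ * s with hy
  have h2 : ∑ ψ : IrrCharacter Γ, (ψ : Γ → ℂ) y *
      ∑ b : B, φ ((b : A) * t) * conj ((ψ : Γ → ℂ) (i b * s)) = 0 := by
    refine Finset.sum_eq_zero fun ψ _ => ?_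
    rw [hcon ψ, mul_zero]
  have h3 : ∑ ψ : IrrCharacter Γ, (ψ : Γ → ℂ) y *
      ∑ b : B, φ ((b : A) * t) * conj ((ψ : Γ → ℂ) (i b * s)) =
      ∑ b : B, φ ((b : A) * t) *
        ∑ ψ : IrrCharacter Γ, (ψ : Γ → ℂ) y * conj ((ψ : Γ → ℂ) (i b * s)) := by
    simp only [Finset.mul_sum]
    rw [Finset.sum_comm]
    refine Finset.sum_congr rfl fun b _ => Finset.sum_congr rfl fun ψ _ => ?_
    ring
  rw [h3] at h2
  have h4 : ∀ b : B, φ ((b : A) * t) *
      ∑ ψ : IrrCharacter Γ, (ψ : Γ → ℂ) y * conj ((ψ : Γ → ℂ) (i b * s)) =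
      (if IsConj y (i b * s) then (1 : ℂ) else 0) *
        (φ ((b₀ : A) * t) * (Nat.card (Subgroup.centralizer ({y} : Set Γ)) : ℂ)) := by
    intro b
    by_cases hb : IsConj y (i b * s)
    · rw [if_pos hb, one_mul, Cfsg.Agent.Lib.Char.CompleteCor.column_orth_conj hb,
        fusion hEmb htop hD hφ b₀ b hb]
    · rw [if_neg hb, zero_mul, Cfsg.Agent.Lib.Char.CompleteCor.column_orth_not_conj hb, mul_zero]
  simp only [h4] at h2
  rw [← Finset.sum_mul, Finset.sum_boole] at h2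
  have h5 : ((Finset.univ.filter (fun b : B => IsConj y (i b * s))).card : ℂ) ≠ 0 := by
    have : (Finset.univ.filter (fun b : B => IsConj y (i b * s))).card ≠ 0 := by
      apply Finset.card_ne_zero.2
      exact ⟨b₀, Finset.mem_filter.2 ⟨Finset.mem_univ _, IsConj.refl _⟩⟩
    exact_mod_cast this
  have h6 : (Nat.card (Subgroup.centralizer ({y} : Set Γ)) : ℂ) ≠ 0 := by
    exact_mod_cast Nat.card_pos.ne'
  exact (mul_ne_zero h5 (mul_ne_zero hb₀ h6)) h2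

/-- Injectivity at the level of values. -/
theorem inj_of_val (hEmb : Emb i e t s) (hD : CD K C s) {χ₁ χ₂ : Γ → ℂ} (h₁ : IsCharacter Γ χ₁)
    (h₂ : IsCharacter Γ χ₂) (h0 : classInner (fun n : K => χ₁ n) (fun n : K => χ₂ n) = 0)
    {φ : A → ℂ} (hφ : IsCharacter A φ) (h1 : classInner (fun n : B => φ n) (fun n : B => φ n) = 1)
    {a₁ a₂ : ℂ} (ha₁ : Complex.normSq a₁ = 1) (ha₂ : Complex.normSq a₂ = 1)
    (hv₁ : ∀ b : B, χ₁ (i b * s) = a₁ * φ ((b : A) * t))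
    (hv₂ : ∀ b : B, χ₂ (i b * s) = a₂ * φ ((b : A) * t)) : False := by
  have h2 := sum_C_ne hD h₁ h₂ h0
  have h3 := hEmb.sum (fun c => χ₁ (c * s) * conj (χ₂ (c * s)))
  rw [h2] at h3
  have h4 : ∑ b : B, χ₁ (i b * s) * conj (χ₂ (i b * s)) =
      a₁ * conj a₂ * ∑ b : B, φ ((b : A) * t) * conj (φ ((b : A) * t)) := by
    rw [Finset.mul_sum]
    refine Finset.sum_congr rfl fun b _ => ?_
    rw [hv₁, hv₂, map_mul]
    ring
  rw [h4, sum_coset_self B hφ h1 t] at h3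
  have hB0 : (Nat.card B : ℂ) ≠ 0 := by exact_mod_cast Nat.card_pos.ne'
  have ha₁0 : a₁ ≠ 0 := by
    rintro rfl
    simp at ha₁
  have ha₂0 : conj a₂ ≠ 0 := by
    intro h
    have : a₂ = 0 := by simpa using h
    subst this
    simp at ha₂
  exact mul_ne_zero (mul_ne_zero ha₁0 ha₂0) hB0 h3

/-- Every invariant character of `B` arises. -/
theorem key_c {p k : ℕ} (hp : p.Prime) (hpk : orderOf s = p ^ k) (hEmb : Emb i e t s)
    (htop : K ⊔ Subgroup.zpowers s = ⊤) (htopA : B ⊔ Subgroup.zpowers t = ⊤)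
    (hE : ∀ ξ : IrrCharacter B, TI B t (ξ : B → ℂ) →
      IsIrrCharacter A (E ξ) ∧ ∀ b : B, E ξ b = (ξ : B → ℂ) b)
    (EK : IrrCharacter K → Γ → ℂ)
    (hEK : ∀ ξ : IrrCharacter K, TI K s (ξ : K → ℂ) →
      IsIrrCharacter Γ (EK ξ) ∧ ∀ b : K, EK ξ b = (ξ : K → ℂ) b)
    (hCK : C ≤ K)
    (hD : ∀ j : ℕ, j.Coprime (orderOf s) → CD K C (s ^ j)) (ξ : TIrr B t) :
    ∃ χ₀ : TIrr K s, ∃ (a : ℂ) (ε : ℤ), Complex.normSq a = 1 ∧
      (∀ b : B, EK χ₀.1 (i b * s) = a * E ξ.1 ((b : A) * t)) ∧ (ε = 1 ∨ ε = -1) ∧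
      ∀ ξ' : TIrr B t, ∃ m : ℕ, classInner (fun n : B => EK χ₀.1 (i n)) (ξ'.1 : B → ℂ) = m ∧
        (m : ℤ) ≡ (if ξ' = ξ then ε else 0) [ZMOD p] := by
  classical
  have hD1 : CD K C s := by simpa using hD 1 (Nat.coprime_one_left _)
  have hEξ := hE ξ.1 ξ.2
  have hφc := isCharacter_of_isIrrCharacter hEξ.1
  have hres : (fun n : B => E ξ.1 n) = (ξ.1 : B → ℂ) := funext hEξ.2
  have h1 : classInner (fun n : B => E ξ.1 n) (fun n : B => E ξ.1 n) = 1 := by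
    rw [hres]
    exact classInner_irr_self ξ.1.2
  obtain ⟨ψ, hψ⟩ := exists_irr_ne hEmb htop hD1 hφc h1
  have hmemK : ∀ b : B, i b ∈ K := by
    intro b
    rw [← hEmb.he]
    exact hCK (e b).2
  rcases vanish_or_lin htop EK hEK ψ.2 with hv | ⟨χ₀, hχ₀, l, hl, hψl⟩
  · exfalso
    apply hψ
    refine Finset.sum_eq_zero fun b _ => ?_
    have := hv s htop ⟨i b, hmemK b⟩
    simp only at this
    rw [this]
    simp
  · have hEχ := hEK χ₀ hχ₀
    have hχc := isCharacter_of_isIrrCharacter hEχ.1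
    have hresχ : (fun n : K => EK χ₀ n) = (χ₀ : K → ℂ) := funext hEχ.2
    have h1χ : classInner (fun n : K => EK χ₀ n) (fun n : K => EK χ₀ n) = 1 := by
      rw [hresχ]
      exact classInner_irr_self χ₀.2
    obtain ⟨ξ₁, a, ε, ha, hval, hε, hm⟩ := key_a E hp hpk hEmb htopA hE hD hχc h1χ
    have hξ : ξ₁ = ξ := by
      by_contra hne
      apply hψ
      have hE₁ := hE ξ₁.1 ξ₁.2
      have hc₁ := isCharacter_of_isIrrCharacter hE₁.1
      have hres₁ : (fun n : B => E ξ₁.1 n) = (ξ₁.1 : B → ℂ) := funext hE₁.2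
      have hz := sum_coset_ne B hφc hc₁ (by
        rw [hres, hres₁]
        refine classInner_irr_of_ne ξ.1.2 ξ₁.1.2 ?_
        intro h
        exact hne (Subtype.ext (Subtype.ext h.symm))) t
      have h2 : ∑ b : B, E ξ.1 ((b : A) * t) * conj ((ψ : Γ → ℂ) (i b * s)) =
          conj ((l s : ℂˣ) : ℂ) * conj a * ∑ b : B, E ξ.1 ((b : A) * t) * conj (E ξ₁.1 ((b : A) * t)) := by
        rw [Finset.mul_sum]
        refine Finset.sum_congr rfl fun b _ => ?_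
        have h3 : (ψ : Γ → ℂ) (i b * s) = ((l s : ℂˣ) : ℂ) * (a * E ξ₁.1 ((b : A) * t)) := by
          rw [hψl, ← hval b]
          show ((l (i b * s) : ℂˣ) : ℂ) * _ = _
          rw [map_mul]
          have h4 : l (i b) = 1 := hl ⟨i b, hmemK b⟩
          rw [h4, one_mul]
        rw [h3, map_mul, map_mul]
        ring
      rw [h2, hz, mul_zero]
    subst hξ
    exact ⟨⟨χ₀, hχ₀⟩, a, ε, ha, hval, hε, hm⟩

end Abstract

section Main

variable {Γ : Type u} [Group Γ] [Fintype Γ] {K Q C : Subgroup Γ} [hK : K.Normal] [hQ : Q.Normal]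
  [Fintype K] [Fintype C] {s : Γ} {p k : ℕ}

/-- Invariance of a character of `C`. -/
def InvC (s : Γ) {C : Subgroup Γ} (hsC : ∀ c ∈ C, s * c * s⁻¹ ∈ C) (ξ : IrrCharacter C) : Prop :=
  ∀ c : C, (ξ : C → ℂ) ⟨s * c * s⁻¹, hsC c c.2⟩ = (ξ : C → ℂ) c

/-- The correspondence for a cyclic `p`-group of operators. -/
theorem cyc_main (hp : p.Prime) (hpk : orderOf s = p ^ k) (hsyl : ¬ p ∣ Q.relIndex K)
    (htop : K ⊔ Subgroup.zpowers s = ⊤)
    (hC : ∀ x, x ∈ C ↔ x ∈ K ∧ s * x * s⁻¹ * x⁻¹ ∈ Q) (hCK : C ≤ K)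
    (hsC : ∀ c ∈ C, s * c * s⁻¹ ∈ C) :
    (∀ χ : IrrCharacter K, TI K s (χ : K → ℂ) → ∃ ξ : IrrCharacter C, InvC s hsC ξ ∧
      IRel p (InvC s hsC) (fun c : C => (χ : K → ℂ) ⟨c, hCK c.2⟩) ξ) ∧
    (∀ χ χ' : IrrCharacter K, TI K s (χ : K → ℂ) → TI K s (χ' : K → ℂ) → ∀ ξ : IrrCharacter C,
      InvC s hsC ξ → IRel p (InvC s hsC) (fun c : C => (χ : K → ℂ) ⟨c, hCK c.2⟩) ξ →
      IRel p (InvC s hsC) (fun c : C => (χ' : K → ℂ) ⟨c, hCK c.2⟩) ξ → χ = χ') ∧
    (∀ ξ : IrrCharacter C, InvC s hsC ξ → ∃ χ : IrrCharacter K, TI K s (χ : K → ℂ) ∧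
      IRel p (InvC s hsC) (fun c : C => (χ : K → ℂ) ⟨c, hCK c.2⟩) ξ) := by
  classical
  set N : Subgroup Γ := C ⊔ Subgroup.zpowers s with hN
  have hCN : C ≤ N := le_sup_left
  have hsN : s ∈ N := (le_sup_right : Subgroup.zpowers s ≤ N) (Subgroup.mem_zpowers s)
  haveI : Fintype N := Fintype.ofFinite _
  set B : Subgroup N := C.subgroupOf N with hB
  haveI : Fintype B := Fintype.ofFinite _
  set t : N := ⟨s, hsN⟩ with ht
  haveI hBn : B.Normal := by
    rw [hB, Subgroup.normal_subgroupOf_iff_le_normalizer hCN, hN, sup_le_iff]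
    refine ⟨Subgroup.le_normalizer, ?_⟩
    rw [Subgroup.zpowers_le, Subgroup.mem_normalizer_iff]
    intro h
    refine ⟨hsC h, fun h2 => ?_⟩
    have := Cfsg.Agent.Lib.Char.GlaubP.conj_inv_mem hsC _ h2
    simpa [mul_assoc] using this
  let e : B ≃* C := Subgroup.subgroupOfEquivOfLe hCN
  let i : N →* Γ := N.subtype
  have hEmb : Emb i e t s := ⟨N.subtype_injective, rfl, fun b => rfl⟩
  have htopA : B ⊔ Subgroup.zpowers t = ⊤ := by
    apply Subgroup.map_injective N.subtype_injective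
    rw [Subgroup.map_sup, MonoidHom.map_zpowers, hB, Subgroup.map_subgroupOf_eq_of_le hCN,
      ← MonoidHom.range_eq_map, Subgroup.range_subtype]
    rfl
  have hD : ∀ j : ℕ, j.Coprime (orderOf s) → CD K C (s ^ j) := by
    intro j hj
    exact cd_of (k := k) hp hsyl (by rw [← hpk]; exact orderOf_pow_dvd j) (gen_pow htop hj)
      (hC_pow hC hj)
  -- extensions
  have hExt : ∀ ξ : IrrCharacter B, ∃ E : N → ℂ, TI B t (ξ : B → ℂ) →
      IsIrrCharacter N E ∧ ∀ b : B, E b = (ξ : B → ℂ) b := by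
    intro ξ
    by_cases h : TI B t (ξ : B → ℂ)
    · obtain ⟨E, h1, h2⟩ := exists_ext htopA ξ.2 h
      exact ⟨E, fun _ => ⟨h1, h2⟩⟩
    · exact ⟨0, fun h' => absurd h' h⟩
  choose E hE using hExt
  have hExtK : ∀ ξ : IrrCharacter K, ∃ E : Γ → ℂ, TI K s (ξ : K → ℂ) →
      IsIrrCharacter Γ E ∧ ∀ b : K, E b = (ξ : K → ℂ) b := by
    intro ξ
    by_cases h : TI K s (ξ : K → ℂ)
    · obtain ⟨E, h1, h2⟩ := exists_ext htop ξ.2 h
      exact ⟨E, fun _ => ⟨h1, h2⟩⟩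
    · exact ⟨0, fun h' => absurd h' h⟩
  choose EK hEK using hExtK
  -- translation of invariance
  have hinvB : ∀ ξ : IrrCharacter C, InvC s hsC ξ → TI B t (irrComp e ξ : B → ℂ) := by
    intro ξ h n
    have h1 := h (e n)
    refine Eq.trans ?_ h1
    show (ξ : C → ℂ) _ = (ξ : C → ℂ) _
    exact congrArg _ (Subtype.ext rfl)
  have hinvC : ∀ ξ : TIrr B t, InvC s hsC (irrComp e.symm ξ.1) := by
    intro ξ c
    have h1 := ξ.2 (e.symm c)
    refine Eq.trans ?_ h1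
    show (ξ.1 : B → ℂ) _ = (ξ.1 : B → ℂ) _
    exact congrArg _ (Subtype.ext (Subtype.ext rfl))
  -- translation of multiplicities
  have hmult : ∀ (χ : IrrCharacter K) (ξ : IrrCharacter C),
      classInner (fun n : B => EK χ (i n)) (irrComp e ξ : B → ℂ) =
        classInner (fun c : C => EK χ c) (ξ : C → ℂ) := by
    intro χ ξ
    exact Cfsg.Agent.Lib.Char.Clifford.classInner_comp_equiv e (fun c : C => EK χ c) (ξ : C → ℂ)
  have hres : ∀ χ : IrrCharacter K, TI K s (χ : K → ℂ) →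
      (fun c : C => (χ : K → ℂ) ⟨c, hCK c.2⟩) = fun c : C => EK χ c := by
    intro χ h
    funext c
    exact ((hEK χ h).2 ⟨c, hCK c.2⟩).symm
  -- the relation from the key data
  have hrel : ∀ (χ : IrrCharacter K), TI K s (χ : K → ℂ) → ∀ (ξ₀ : TIrr B t) (ε : ℤ),
      (ε = 1 ∨ ε = -1) → (∀ ξ : TIrr B t, ∃ m : ℕ,
        classInner (fun n : B => EK χ (i n)) (ξ.1 : B → ℂ) = m ∧
        (m : ℤ) ≡ (if ξ = ξ₀ then ε else 0) [ZMOD p]) →
      IRel p (InvC s hsC) (fun c : C => (χ : K → ℂ) ⟨c, hCK c.2⟩) (irrComp e.symm ξ₀.1) := by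
    intro χ hχ ξ₀ ε hε H
    refine ⟨ε, hε, fun ξ' hξ' => ?_⟩
    obtain ⟨m, h1, h2⟩ := H ⟨irrComp e ξ', hinvB ξ' hξ'⟩
    refine ⟨m, ?_, ?_⟩
    · rw [hres χ hχ, ← hmult]
      exact h1
    · have hiff : ((⟨irrComp e ξ', hinvB ξ' hξ'⟩ : TIrr B t) = ξ₀) ↔ ξ' = irrComp e.symm ξ₀.1 := by
        constructor
        · intro h
          rw [← h]
          exact (irrComp_symm_irrComp e ξ').symm
        · intro h
          apply Subtype.ext
          show irrComp e ξ' = ξ₀.1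
          rw [h]
          exact irrComp_irrComp_symm e ξ₀.1
      simp only [hiff] at h2
      exact h2
  have hnorm : ∀ χ : IrrCharacter K, TI K s (χ : K → ℂ) →
      classInner (fun n : K => EK χ n) (fun n : K => EK χ n) = 1 := by
    intro χ h
    have : (fun n : K => EK χ n) = (χ : K → ℂ) := funext (hEK χ h).2
    rw [this]
    exact classInner_irr_self χ.2
  refine ⟨?_, ?_, ?_⟩
  · intro χ hχ
    obtain ⟨ξ₀, a, ε, ha, hv, hε, hm⟩ := key_a E hp hpk hEmb htopA hE hD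
      (isCharacter_of_isIrrCharacter (hEK χ hχ).1) (hnorm χ hχ)
    exact ⟨irrComp e.symm ξ₀.1, hinvC ξ₀, hrel χ hχ ξ₀ ε hε hm⟩
  · intro χ χ' hχ hχ' ξ hξ h1 h2
    by_contra hne
    obtain ⟨ξ₀, a, ε, ha, hv, hε, hm⟩ := key_a E hp hpk hEmb htopA hE hD
      (isCharacter_of_isIrrCharacter (hEK χ hχ).1) (hnorm χ hχ)
    obtain ⟨ξ₀', a', ε', ha', hv', hε', hm'⟩ := key_a E hp hpk hEmb htopA hE hD
      (isCharacter_of_isIrrCharacter (hEK χ' hχ').1) (hnorm χ' hχ')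
    have e1 := h1.unique hp (hrel χ hχ ξ₀ ε hε hm) hξ (hinvC ξ₀)
    have e2 := h2.unique hp (hrel χ' hχ' ξ₀' ε' hε' hm') hξ (hinvC ξ₀')
    have e3 : ξ₀.1 = ξ₀'.1 := by
      have h3 := e1.symm.trans e2
      have h4 := congrArg (irrComp e) h3
      rwa [irrComp_irrComp_symm, irrComp_irrComp_symm] at h4
    have e4 : ξ₀ = ξ₀' := Subtype.ext e3
    subst e4
    have hEξ := hE ξ₀.1 ξ₀.2
    have hresξ : (fun n : B => E ξ₀.1 n) = (ξ₀.1 : B → ℂ) := funext hEξ.2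
    refine inj_of_val hEmb (by simpa using hD 1 (Nat.coprime_one_left _))
      (isCharacter_of_isIrrCharacter (hEK χ hχ).1) (isCharacter_of_isIrrCharacter (hEK χ' hχ').1)
      ?_ (isCharacter_of_isIrrCharacter hEξ.1) ?_ ha ha' hv hv'
    · have h5 : (fun n : K => EK χ n) = (χ : K → ℂ) := funext (hEK χ hχ).2
      have h6 : (fun n : K => EK χ' n) = (χ' : K → ℂ) := funext (hEK χ' hχ').2
      rw [h5, h6]
      exact classInner_irr_of_ne χ.2 χ'.2 (fun h => hne (Subtype.ext h))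
    · rw [hresξ]
      exact classInner_irr_self ξ₀.1.2
  · intro ξ hξ
    obtain ⟨χ₀, a, ε, ha, hv, hε, hm⟩ := key_c E hp hpk hEmb htop htopA hE EK hEK hCK hD
      ⟨irrComp e ξ, hinvB ξ hξ⟩
    refine ⟨χ₀.1, χ₀.2, ?_⟩
    have h1 := hrel χ₀.1 χ₀.2 _ ε hε hm
    rw [show irrComp e.symm (irrComp e ξ) = ξ from irrComp_symm_irrComp e ξ] at h1
    exact h1

end Main

section Transport

theorem IRel.comp_equiv {K H : Type u} [Group K] [Group H] [Fintype K] [Fintype H] {p : ℕ}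
    (e : K ≃* H) {Inv : IrrCharacter H → Prop} {Inv' : IrrCharacter K → Prop}
    (hInv : ∀ β', Inv' β' → Inv (irrComp e.symm β')) {f : H → ℂ} {β : IrrCharacter H}
    (h : IRel p Inv f β) : IRel p Inv' (fun k => f (e k)) (irrComp e β) := by
  obtain ⟨ε, hε, H₀⟩ := h
  refine ⟨ε, hε, fun β' hβ' => ?_⟩
  obtain ⟨m, h1, h2⟩ := H₀ (irrComp e.symm β') (hInv β' hβ')
  refine ⟨m, ?_, ?_⟩
  · rw [← h1]
    have := Cfsg.Agent.Lib.Char.Clifford.classInner_comp_equiv e f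
      (irrComp e.symm β' : H → ℂ)
    rw [← this]
    refine congrArg _ ?_
    funext k
    simp [irrComp]
  · have hiff : (β' = irrComp e β) ↔ (irrComp e.symm β' = β) := by
      constructor
      · rintro rfl
        exact irrComp_symm_irrComp e β
      · rintro rfl
        exact (irrComp_irrComp_symm e β').symm
    simp only [hiff]
    exact h2

variable {Γ : Type u} [Group Γ] [Finite Γ] {K Q C : Subgroup Γ} [Fintype K] [Fintype C] {s : Γ}
  {p k : ℕ}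

/-- The correspondence for a cyclic `p`-group of operators, for `s` merely normalising `K`. -/
theorem cyc_general (hp : p.Prime) (hpk : orderOf s = p ^ k) (hsyl : ¬ p ∣ Q.relIndex K)
    (hQK : Q ≤ K) (hQn : ∀ g ∈ K, ∀ q ∈ Q, g * q * g⁻¹ ∈ Q) (hsQ : ∀ q ∈ Q, s * q * s⁻¹ ∈ Q)
    (hsK : ∀ g ∈ K, s * g * s⁻¹ ∈ K)
    (hC : ∀ x, x ∈ C ↔ x ∈ K ∧ s * x * s⁻¹ * x⁻¹ ∈ Q) (hCK : C ≤ K)
    (hsC : ∀ c ∈ C, s * c * s⁻¹ ∈ C) :
    (∀ χ : IrrCharacter K, InvC s hsK χ → ∃ ξ : IrrCharacter C, InvC s hsC ξ ∧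
      IRel p (InvC s hsC) (fun c : C => (χ : K → ℂ) ⟨c, hCK c.2⟩) ξ) ∧
    (∀ χ χ' : IrrCharacter K, InvC s hsK χ → InvC s hsK χ' → ∀ ξ : IrrCharacter C,
      InvC s hsC ξ → IRel p (InvC s hsC) (fun c : C => (χ : K → ℂ) ⟨c, hCK c.2⟩) ξ →
      IRel p (InvC s hsC) (fun c : C => (χ' : K → ℂ) ⟨c, hCK c.2⟩) ξ → χ = χ') ∧
    (∀ ξ : IrrCharacter C, InvC s hsC ξ → ∃ χ : IrrCharacter K, InvC s hsK χ ∧
      IRel p (InvC s hsC) (fun c : C => (χ : K → ℂ) ⟨c, hCK c.2⟩) ξ) := by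
  classical
  haveI : Fintype Γ := Fintype.ofFinite Γ
  set L : Subgroup Γ := K ⊔ Subgroup.zpowers s with hL
  have hKL : K ≤ L := le_sup_left
  have hsL : s ∈ L := (le_sup_right : Subgroup.zpowers s ≤ L) (Subgroup.mem_zpowers s)
  have hCL : C ≤ L := hCK.trans hKL
  have hQL : Q ≤ L := hQK.trans hKL
  haveI : Fintype L := Fintype.ofFinite _
  set K' : Subgroup L := K.subgroupOf L with hK'
  set C' : Subgroup L := C.subgroupOf L with hC'
  set Q' : Subgroup L := Q.subgroupOf L with hQ'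
  set s' : L := ⟨s, hsL⟩ with hs'
  haveI : Fintype K' := Fintype.ofFinite _
  haveI : Fintype C' := Fintype.ofFinite _
  haveI hKn : K'.Normal := by
    rw [hK', Subgroup.normal_subgroupOf_iff_le_normalizer hKL, hL, sup_le_iff]
    refine ⟨Subgroup.le_normalizer, ?_⟩
    rw [Subgroup.zpowers_le, Subgroup.mem_normalizer_iff]
    intro h
    refine ⟨hsK h, fun h2 => ?_⟩
    have := Cfsg.Agent.Lib.Char.GlaubP.conj_inv_mem hsK _ h2
    simpa [mul_assoc] using this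
  haveI hQn' : Q'.Normal := by
    rw [hQ', Subgroup.normal_subgroupOf_iff_le_normalizer hQL, hL, sup_le_iff]
    constructor
    · intro g hg
      rw [Subgroup.mem_normalizer_iff]
      intro h
      refine ⟨hQn g hg h, fun h2 => ?_⟩
      have := Cfsg.Agent.Lib.Char.GlaubP.conj_inv_mem (a := g) (fun q hq => hQn g hg q hq) _ h2
      simpa [mul_assoc] using this
    · rw [Subgroup.zpowers_le, Subgroup.mem_normalizer_iff]
      intro h
      refine ⟨hsQ h, fun h2 => ?_⟩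
      have := Cfsg.Agent.Lib.Char.GlaubP.conj_inv_mem hsQ _ h2
      simpa [mul_assoc] using this
  let eK : K' ≃* K := Subgroup.subgroupOfEquivOfLe hKL
  let eC : C' ≃* C := Subgroup.subgroupOfEquivOfLe hCL
  have hord : orderOf s' = orderOf s := Subgroup.orderOf_mk s hsL
  have hpk' : orderOf s' = p ^ k := hord.trans hpk
  have hsyl' : ¬ p ∣ Q'.relIndex K' := by
    rw [hQ', hK', Subgroup.relIndex_subgroupOf hKL]
    exact hsyl
  have htop' : K' ⊔ Subgroup.zpowers s' = ⊤ := by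
    apply Subgroup.map_injective L.subtype_injective
    rw [Subgroup.map_sup, MonoidHom.map_zpowers, hK', Subgroup.map_subgroupOf_eq_of_le hKL,
      ← MonoidHom.range_eq_map, Subgroup.range_subtype]
    rfl
  have hC'' : ∀ x : L, x ∈ C' ↔ x ∈ K' ∧ s' * x * s'⁻¹ * x⁻¹ ∈ Q' := by
    intro x
    rw [hC', hK', hQ', Subgroup.mem_subgroupOf, Subgroup.mem_subgroupOf, Subgroup.mem_subgroupOf, hC]
    rfl
  have hCK' : C' ≤ K' := fun x hx => ((hC'' x).1 hx).1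
  have hsC' : ∀ c ∈ C', s' * c * s'⁻¹ ∈ C' := by
    intro c hc
    rw [hC', Subgroup.mem_subgroupOf] at hc ⊢
    exact hsC _ hc
  have hsK' : ∀ g ∈ K', s' * g * s'⁻¹ ∈ K' := fun g hg => hKn.conj_mem g hg s'
  obtain ⟨ha, hb, hc⟩ := cyc_main hp hpk' hsyl' htop' hC'' hCK' hsC'
  -- invariance
  have hK₁ : ∀ χ : IrrCharacter K, InvC s hsK χ → TI K' s' (irrComp eK χ : K' → ℂ) := by
    intro χ h n
    exact h (eK n)
  have hK₂ : ∀ χ' : IrrCharacter K', TI K' s' (χ' : K' → ℂ) → InvC s hsK (irrComp eK.symm χ') := by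
    intro χ' h n
    exact h (eK.symm n)
  have hC₁ : ∀ ξ : IrrCharacter C, InvC s hsC ξ → InvC s' hsC' (irrComp eC ξ) := by
    intro ξ h n
    exact h (eC n)
  have hC₂ : ∀ ξ' : IrrCharacter C', InvC s' hsC' ξ' → InvC s hsC (irrComp eC.symm ξ') := by
    intro ξ' h n
    exact h (eC.symm n)
  have hresto : ∀ χ : IrrCharacter K,
      (fun c : C' => (irrComp eK χ : K' → ℂ) ⟨c, hCK' c.2⟩) =
      fun c : C' => (fun c : C => (χ : K → ℂ) ⟨c, hCK c.2⟩) (eC c) := fun χ => rfl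
  have hresof : ∀ χ' : IrrCharacter K',
      (fun c : C => (irrComp eK.symm χ' : K → ℂ) ⟨c, hCK c.2⟩) =
      fun c : C => (fun c' : C' => (χ' : K' → ℂ) ⟨c', hCK' c'.2⟩) (eC.symm c) := fun χ' => rfl
  refine ⟨?_, ?_, ?_⟩
  · intro χ h
    obtain ⟨ξ', hξ', hrel⟩ := ha (irrComp eK χ) (hK₁ χ h)
    refine ⟨irrComp eC.symm ξ', hC₂ ξ' hξ', ?_⟩
    have h1 := IRel.comp_equiv eC.symm (Inv := InvC s' hsC') (Inv' := InvC s hsC)
      (fun β' hβ' => hC₁ β' hβ') hrel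
    exact h1
  · intro χ₁ χ₂ h₁ h₂ ξ hξ hr₁ hr₂
    have hb₁ := IRel.comp_equiv eC (Inv := InvC s hsC) (Inv' := InvC s' hsC')
      (fun β' hβ' => hC₂ β' hβ') hr₁
    have hb₂ := IRel.comp_equiv eC (Inv := InvC s hsC) (Inv' := InvC s' hsC')
      (fun β' hβ' => hC₂ β' hβ') hr₂
    have h3 := hb (irrComp eK χ₁) (irrComp eK χ₂) (hK₁ χ₁ h₁) (hK₁ χ₂ h₂) (irrComp eC ξ) (hC₁ ξ hξ)
      hb₁ hb₂
    apply Subtype.ext
    funext g
    have h4 := congrFun (congrArg Subtype.val h3) (eK.symm g)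
    simpa [irrComp] using h4
  · intro ξ hξ
    obtain ⟨χ', hinv, hβ'⟩ := hc (irrComp eC ξ) (hC₁ ξ hξ)
    refine ⟨irrComp eK.symm χ', hK₂ χ' hinv, ?_⟩
    have h1 := IRel.comp_equiv eC.symm (Inv := InvC s' hsC') (Inv' := InvC s hsC)
      (fun β' hβ' => hC₁ β' hβ') hβ'
    rw [irrComp_symm_irrComp] at h1
    exact h1

end Transport

end Cfsg.Agent.Lib.Char.DGNCyc
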