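import Mathlib
import Cfsg.Agent.Lib.Char.DGNCyc
import Cfsg.Agent.Lib.Char.GlaubOver

/-!
# The Dade-Glauberman-Nagao correspondence

`P` a `p`-group normalising `K`, `Q` a normal Sylow `p`-subgroup of `K`, `C/Q = C_{K/Q}(P)`.
-/

set_option autoImplicit false
set_option linter.style.haveILetI false
set_option linter.unusedSectionVars false
set_option linter.unusedVariables false

namespace Cfsg.Agent.Lib.Char.DGNMain

open Cfsg Module Cfsg.Agent.Lib.Char.Basic Cfsg.Agent.Lib.Char.Ortho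
open Cfsg.Agent.Lib.Char.GlaubRel Cfsg.Agent.Lib.Char.GlaubP Cfsg.Agent.Lib.Char.GlaubOver
open Cfsg.Agent.Lib.Char.DGNCyc
open scoped ComplexConjugate

universe u

variable {Γ : Type u} [Group Γ] [Finite Γ]

/-- A `p`-element normalising `K` normalises a normal Sylow `p`-subgroup of `K`. -/
theorem conj_mem_Q {p : ℕ} (hp : p.Prime) {K Q : Subgroup Γ} (hQK : Q ≤ K)
    (hQn : ∀ g ∈ K, ∀ q ∈ Q, g * q * g⁻¹ ∈ Q) (hQp : ∃ a : ℕ, Nat.card Q = p ^ a)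
    (hsyl : ¬ p ∣ Q.relIndex K) {x : Γ} (hxK : ∀ g ∈ K, x * g * x⁻¹ ∈ K) :
    ∀ q ∈ Q, x * q * x⁻¹ ∈ Q := by
  intro q hq
  obtain ⟨a, ha⟩ := hQp
  set Q₁ : Subgroup K := Q.subgroupOf K with hQ₁
  haveI hn : Q₁.Normal := ⟨fun n hn g => by
    rw [hQ₁, Subgroup.mem_subgroupOf] at hn ⊢
    exact hQn g g.2 n hn⟩
  let y : K := ⟨x * q * x⁻¹, hxK q (hQK hq)⟩
  have h1 : y ^ Q₁.index ∈ Q₁ := Subgroup.pow_index_mem Q₁ y
  have h2 : y ^ (p ^ a) = 1 := by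
    apply Subtype.ext
    show (x * q * x⁻¹) ^ (p ^ a) = 1
    rw [conj_pow]
    have h3 : q ^ (p ^ a) = 1 := by
      rw [← ha]
      have := pow_card_eq_one' (x := (⟨q, hq⟩ : Q))
      exact congrArg Subtype.val this
    rw [h3]
    group
  have h3 : (Q₁.index).Coprime (orderOf y) := by
    have h4 : (Q₁.index).Coprime (p ^ a) :=
      Nat.Coprime.pow_right _ ((Nat.Prime.coprime_iff_not_dvd hp).2 hsyl).symm
    exact h4.coprime_dvd_right (orderOf_dvd_of_pow_eq_one h2)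
  obtain ⟨m, hm⟩ := exists_pow_eq_self_of_coprime h3
  have h5 : (y ^ Q₁.index) ^ m ∈ Q₁ := Q₁.pow_mem h1 m
  rw [hm] at h5
  exact h5

/-- The subgroup `{k ∈ K : [T, k] ≤ Q}`. -/
def relC (K Q T : Subgroup Γ) (hQn : ∀ g ∈ K, ∀ q ∈ Q, g * q * g⁻¹ ∈ Q) : Subgroup Γ where
  carrier := {k | k ∈ K ∧ ∀ x ∈ T, x * k * x⁻¹ * k⁻¹ ∈ Q}
  one_mem' := ⟨K.one_mem, fun x _ => by simp [Q.one_mem]⟩
  mul_mem' := by
    rintro k₁ k₂ ⟨h₁, H₁⟩ ⟨h₂, H₂⟩
    refine ⟨K.mul_mem h₁ h₂, fun x hx => ?_⟩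
    have e : x * (k₁ * k₂) * x⁻¹ * (k₁ * k₂)⁻¹ =
        (x * k₁ * x⁻¹ * k₁⁻¹) * (k₁ * (x * k₂ * x⁻¹ * k₂⁻¹) * k₁⁻¹) := by group
    rw [e]
    exact Q.mul_mem (H₁ x hx) (hQn k₁ h₁ _ (H₂ x hx))
  inv_mem' := by
    rintro k ⟨h, H⟩
    refine ⟨K.inv_mem h, fun x hx => ?_⟩
    have e : x * k⁻¹ * x⁻¹ * k⁻¹⁻¹ = k⁻¹ * (x * k * x⁻¹ * k⁻¹)⁻¹ * k⁻¹⁻¹ := by group
    rw [e]
    exact hQn _ (K.inv_mem h) _ (Q.inv_mem (H x hx))

omit [Finite Γ] in
theorem mem_relC {K Q T : Subgroup Γ} {hQn : ∀ g ∈ K, ∀ q ∈ Q, g * q * g⁻¹ ∈ Q} {k : Γ} :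
    k ∈ relC K Q T hQn ↔ k ∈ K ∧ ∀ x ∈ T, x * k * x⁻¹ * k⁻¹ ∈ Q := Iff.rfl

/-- Fixed points: the unique `s`-invariant character with multiplicity prime to `p` is invariant
under all of `P`. -/
theorem trick {p : ℕ} (hp : p.Prime) {H P : Subgroup Γ} [Fintype H] (hP : IsPGroup p P)
    (hPH : ∀ u ∈ P, ∀ h ∈ H, u * h * u⁻¹ ∈ H) {s : Γ} (hs : s ∈ P)
    (w : IrrCharacter H → ℕ)
    (hw : ∀ (a : Γ) (ha : a ∈ P) (θ : IrrCharacter H),
      w (irrComp (conjE H a (hPH a ha)) θ) = w θ)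
    {x₀ : IrrCharacter H} (hx₀ : InvC s (hPH s hs) x₀)
    (h0 : ∀ θ : IrrCharacter H, InvC s (hPH s hs) θ → (¬ p ∣ w θ ↔ θ = x₀)) :
    SInv P (x₀ : H → ℂ) := by
  classical
  haveI : Fact p.Prime := ⟨hp⟩
  set S : Subgroup Γ := Subgroup.zpowers s with hS
  have hSP : S ≤ P := by
    rw [hS, Subgroup.zpowers_le]
    exact hs
  have hPS : ∀ u ∈ S, ∀ h ∈ H, u * h * u⁻¹ ∈ H := fun u hu => hPH u (hSP hu)
  let w' : IrrCharacter H → ℕ := fun θ => if p ∣ w θ then 0 else 1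
  have hw'P : ∀ (a : Γ) (ha : a ∈ P) (θ : IrrCharacter H),
      w' (irrComp (conjE H a (hPH a ha)) θ) = w' θ := by
    intro a ha θ
    simp only [w', hw a ha θ]
  -- the action of `P`
  have h1 : ∑ θ, w' θ ≡ ∑ θ ∈ Finset.univ.filter
      (fun θ : IrrCharacter H => ∀ u : P, (conjAct H P hPH).toSMul.smul u θ = θ), w' θ [MOD p] := by
    letI := conjAct H P hPH
    exact sum_modEq_sum_fixed hP w' (fun u θ => hw'P _ (u⁻¹ : P).2 θ)
  -- the action of `S`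
  have h2 : ∑ θ, w' θ ≡ ∑ θ ∈ Finset.univ.filter
      (fun θ : IrrCharacter H => ∀ u : S, (conjAct H S hPS).toSMul.smul u θ = θ), w' θ [MOD p] := by
    letI := conjAct H S hPS
    exact sum_modEq_sum_fixed (hP.to_le hSP) w' (fun u θ => hw'P _ (hSP (u⁻¹ : S).2) θ)
  -- `S`-fixed means `s`-invariant
  have hSfix : ∀ θ : IrrCharacter H, (∀ u : S, (conjAct H S hPS).toSMul.smul u θ = θ) ↔
      InvC s (hPH s hs) θ := by
    intro θ
    rw [fixed_iff_sinv]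
    constructor
    · intro h c
      exact h s (Subgroup.mem_zpowers s) c _ rfl
    · intro h
      have hpow : ∀ (j : ℕ) (g g' : H), (g' : Γ) = s ^ j * g * (s ^ j)⁻¹ →
          (θ : H → ℂ) g' = (θ : H → ℂ) g := by
        intro j
        induction j with
        | zero =>
          intro g g' hg
          refine congrArg _ (Subtype.ext ?_)
          rw [hg]
          simp
        | succ j ih =>
          intro g g' hg
          have h3 := ih ⟨s * g * s⁻¹, hPH s hs g g.2⟩ g' (by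
            rw [hg, pow_succ]
            group)
          rw [h3]
          exact h g
      intro u hu g g' hg
      have hu2 : u ∈ Submonoid.powers s := (mem_powers_iff_mem_zpowers).2 hu
      obtain ⟨j, rfl⟩ := hu2
      exact hpow j g g' hg
  have hx₀w : ¬ p ∣ w x₀ := (h0 x₀ hx₀).2 rfl
  have hsum : ∑ θ ∈ Finset.univ.filter
      (fun θ : IrrCharacter H => ∀ u : S, (conjAct H S hPS).toSMul.smul u θ = θ), w' θ = 1 := by
    rw [Finset.sum_eq_single_of_mem x₀ (Finset.mem_filter.2 ⟨Finset.mem_univ _, (hSfix x₀).2 hx₀⟩)]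
    · simp only [w', if_neg hx₀w]
    · intro θ hθ hne
      have h3 := (hSfix θ).1 (Finset.mem_filter.1 hθ).2
      have h4 : p ∣ w θ := by
        by_contra hc
        exact hne ((h0 θ h3).1 hc)
      simp only [w', if_pos h4]
  have h3 := h1.symm.trans h2
  rw [hsum] at h3
  have hne : ∑ θ ∈ Finset.univ.filter
      (fun θ : IrrCharacter H => ∀ u : P, (conjAct H P hPH).toSMul.smul u θ = θ), w' θ ≠ 0 := by
    intro h4
    rw [h4] at h3
    have h5 := (Nat.modEq_zero_iff_dvd.1 h3.symm)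
    exact hp.one_lt.ne' (Nat.dvd_one.1 h5)
  obtain ⟨θ, hθ, hθ0⟩ := Finset.exists_ne_zero_of_sum_ne_zero hne
  have hθP : SInv P (θ : H → ℂ) := (fixed_iff_sinv hPH θ).1 (Finset.mem_filter.1 hθ).2
  have hθs : InvC s (hPH s hs) θ := fun c => hθP s hs c _ rfl
  have hθw : ¬ p ∣ w θ := by
    intro h4
    apply hθ0
    simp only [w', if_pos h4]
  rw [← (h0 θ hθs).1 hθw]
  exact hθP

/-- The weighted sum over irreducible characters, modulo `p`. -/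
theorem sum_weight {p : ℕ} (hp : p.Prime) {H P : Subgroup Γ} [Fintype H]
    (hP : IsPGroup p P)
    (hPH : ∀ u ∈ P, ∀ h ∈ H, u * h * u⁻¹ ∈ H) (m n : IrrCharacter H → ℕ)
    (hm : ∀ (a : Γ) (ha : a ∈ P) (θ : IrrCharacter H), m (irrComp (conjE H a (hPH a ha)) θ) = m θ)
    (hn : ∀ (a : Γ) (ha : a ∈ P) (θ : IrrCharacter H), n (irrComp (conjE H a (hPH a ha)) θ) = n θ)
    {x₀ : IrrCharacter H} (hx₀ : SInv P (x₀ : H → ℂ)) {ε : ℤ}
    (h : ∀ τ : IrrCharacter H, SInv P (τ : H → ℂ) → (m τ : ℤ) ≡ (if τ = x₀ then ε else 0) [ZMOD p]) :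
    ((∑ τ, m τ * n τ : ℕ) : ℤ) ≡ ε * n x₀ [ZMOD p] := by
  classical
  haveI : Fact p.Prime := ⟨hp⟩
  have h1 : ∑ θ, m θ * n θ ≡ ∑ θ ∈ Finset.univ.filter
      (fun θ : IrrCharacter H => ∀ u : P, (conjAct H P hPH).toSMul.smul u θ = θ),
        m θ * n θ [MOD p] := by
    letI := conjAct H P hPH
    refine sum_modEq_sum_fixed hP (fun θ => m θ * n θ) (fun u θ => ?_)
    show m (irrComp (conjE H _ (hPH _ (u⁻¹ : P).2)) θ) * n (irrComp (conjE H _ (hPH _ (u⁻¹ : P).2)) θ) = _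
    rw [hm _ (u⁻¹ : P).2, hn _ (u⁻¹ : P).2]
  have h2 : ((∑ θ ∈ Finset.univ.filter
      (fun θ : IrrCharacter H => ∀ u : P, (conjAct H P hPH).toSMul.smul u θ = θ),
        m θ * n θ : ℕ) : ℤ) ≡ ε * n x₀ [ZMOD p] := by
    have hmem : x₀ ∈ Finset.univ.filter
      (fun θ : IrrCharacter H => ∀ u : P, (conjAct H P hPH).toSMul.smul u θ = θ) :=
      Finset.mem_filter.2 ⟨Finset.mem_univ _, (fixed_iff_sinv hPH x₀).2 hx₀⟩
    have h3 : ((∑ θ ∈ Finset.univ.filter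
      (fun θ : IrrCharacter H => ∀ u : P, (conjAct H P hPH).toSMul.smul u θ = θ),
        m θ * n θ : ℕ) : ℤ) ≡ ∑ θ ∈ Finset.univ.filter
      (fun θ : IrrCharacter H => ∀ u : P, (conjAct H P hPH).toSMul.smul u θ = θ),
        (if θ = x₀ then ε * n x₀ else 0) [ZMOD p] := by
      push_cast
      refine Int.ModEq.sum fun θ hθ => ?_
      have h4 := (h θ ((fixed_iff_sinv hPH θ).1 (Finset.mem_filter.1 hθ).2)).mul_right (n θ : ℤ)
      by_cases hθx : θ = x₀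
      · subst hθx
        rw [if_pos rfl] at h4 ⊢
        exact h4
      · rw [if_neg hθx] at h4 ⊢
        simpa using h4
    rwa [Finset.sum_ite_eq' _ x₀, if_pos hmem] at h3
  exact ((Int.natCast_modEq_iff.2 h1)).trans h2

/-- Value of a character in terms of its constituents. -/
theorem apply_eq_sum {H : Type u} [Group H] [Fintype H] {f : H → ℂ}
    (hf : IsCharacter H f) (m : IrrCharacter H → ℕ)
    (hm : ∀ τ : IrrCharacter H, classInner f (τ : H → ℂ) = m τ) (x : H) :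
    f x = ∑ τ : IrrCharacter H, (m τ : ℂ) * (τ : H → ℂ) x := by
  have h := congrFun (decomp_eq_sum_classInner hf) x
  rw [Finset.sum_apply] at h
  rw [h]
  refine Finset.sum_congr rfl fun τ _ => ?_
  rw [Pi.smul_apply, smul_eq_mul, hm]

section Comp

variable {K C₀ C P : Subgroup Γ} [Fintype K] [Fintype C₀] [Fintype C]

/-- Multiplicities of invariant characters are invariant. -/
theorem mult_inv (hCK : C ≤ K) (hPK : ∀ u ∈ P, ∀ h ∈ K, u * h * u⁻¹ ∈ K)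
    (hPC : ∀ u ∈ P, ∀ h ∈ C, u * h * u⁻¹ ∈ C) {χ : K → ℂ} (hχ : SInv P χ) (a : Γ) (ha : a ∈ P)
    (θ : IrrCharacter C) :
    classInner (resC hCK χ) (irrComp (conjE C a (hPC a ha)) θ : C → ℂ) =
      classInner (resC hCK χ) (θ : C → ℂ) := by
  have h1 := classInner_res_conj hCK (hPK a ha) (hPC a ha) χ (θ : C → ℂ)
  have h2 : (fun g => χ (conjE K a (hPK a ha) g)) = χ := funext fun g => hχ a ha g _ rfl
  rw [h2] at h1
  exact h1

/-- Multiplicities of invariant characters are invariant, second form. -/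
theorem mult_inv' (hCK : C ≤ K) (hPK : ∀ u ∈ P, ∀ h ∈ K, u * h * u⁻¹ ∈ K)
    (hPC : ∀ u ∈ P, ∀ h ∈ C, u * h * u⁻¹ ∈ C) {ξ : C → ℂ} (hξ : SInv P ξ) (a : Γ) (ha : a ∈ P)
    (θ : IrrCharacter K) :
    classInner (resC hCK (irrComp (conjE K a (hPK a ha)) θ : K → ℂ)) ξ =
      classInner (resC hCK (θ : K → ℂ)) ξ := by
  have h1 := classInner_res_conj hCK (hPK a ha) (hPC a ha) (θ : K → ℂ) ξ
  have h2 : (fun g => ξ (conjE C a (hPC a ha) g)) = ξ := funext fun g => hξ a ha g _ rfl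
  rw [h2] at h1
  exact h1

/-- The congruence for degrees. -/
theorem deg_modEq {p : ℕ} (hp : p.Prime) (hP : IsPGroup p P) (hCK : C ≤ K)
    (hPK : ∀ u ∈ P, ∀ h ∈ K, u * h * u⁻¹ ∈ K) (hPC : ∀ u ∈ P, ∀ h ∈ C, u * h * u⁻¹ ∈ C)
    {χ : IrrCharacter K} (hχ : SInv P (χ : K → ℂ)) {ξ : IrrCharacter C}
    (hξ : SInv P (ξ : C → ℂ)) {ε : ℤ}
    (h : ∀ τ : IrrCharacter C, SInv P (τ : C → ℂ) → ∃ m : ℕ,
      classInner (resC hCK (χ : K → ℂ)) (τ : C → ℂ) = m ∧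
        (m : ℤ) ≡ (if τ = ξ then ε else 0) [ZMOD p])
    {dχ dξ : ℕ} (hdχ : (χ : K → ℂ) 1 = dχ) (hdξ : (ξ : C → ℂ) 1 = dξ) :
    (dχ : ℤ) ≡ ε * dξ [ZMOD p] := by
  classical
  have hf : IsCharacter C (resC hCK (χ : K → ℂ)) :=
    res_char hCK (isCharacter_of_isIrrCharacter χ.2)
  choose m hm using fun τ : IrrCharacter C => exists_nat_classInner hf τ
  choose n hn using fun τ : IrrCharacter C => (exists_degree_dvd τ.2)
  have hd : dχ = ∑ τ, m τ * n τ := by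
    have h1 := apply_eq_sum hf m hm 1
    have h2 : resC hCK (χ : K → ℂ) 1 = dχ := by
      rw [← hdχ]
      rfl
    rw [h2] at h1
    have h3 : (dχ : ℂ) = ((∑ τ, m τ * n τ : ℕ) : ℂ) := by
      rw [h1]
      push_cast
      refine Finset.sum_congr rfl fun τ _ => ?_
      rw [(hn τ).1]
    exact_mod_cast h3
  have hdξ' : n ξ = dξ := by
    have h1 := (hn ξ).1
    rw [hdξ] at h1
    exact_mod_cast h1.symm
  rw [hd, ← hdξ']
  refine sum_weight hp hP hPC m (fun τ => n τ) ?_ ?_ hξ ?_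
  · intro a ha θ
    have h1 := mult_inv hCK hPK hPC hχ a ha θ
    rw [hm, hm] at h1
    exact_mod_cast h1
  · intro a ha θ
    have h1 : (irrComp (conjE C a (hPC a ha)) θ : C → ℂ) 1 = (θ : C → ℂ) 1 := by
      show (θ : C → ℂ) _ = _
      refine congrArg _ (Subtype.ext ?_)
      simp
    have h2 := (hn (irrComp (conjE C a (hPC a ha)) θ)).1
    rw [h1, (hn θ).1] at h2
    exact_mod_cast h2.symm
  · intro τ hτ
    obtain ⟨m', h1, h2⟩ := h τ hτ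
    have h3 : m τ = m' := by
      have := (hm τ).symm.trans h1
      exact_mod_cast this
    rw [h3]
    exact h2

/-- The congruence for the composition of restrictions. -/
theorem comp_modEq' {p : ℕ} (hp : p.Prime) (hP : IsPGroup p P) (hC₀K : C₀ ≤ K) (hCC₀ : C ≤ C₀)
    (hPK : ∀ u ∈ P, ∀ h ∈ K, u * h * u⁻¹ ∈ K) (hPC₀ : ∀ u ∈ P, ∀ h ∈ C₀, u * h * u⁻¹ ∈ C₀)
    (hPC : ∀ u ∈ P, ∀ h ∈ C, u * h * u⁻¹ ∈ C)
    {χ : IrrCharacter K} (hχ : SInv P (χ : K → ℂ)) {η : IrrCharacter C₀}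
    (hη : SInv P (η : C₀ → ℂ)) {ε₀ : ℤ}
    (h : ∀ τ : IrrCharacter C₀, SInv P (τ : C₀ → ℂ) → ∃ m : ℕ,
      classInner (resC hC₀K (χ : K → ℂ)) (τ : C₀ → ℂ) = m ∧
        (m : ℤ) ≡ (if τ = η then ε₀ else 0) [ZMOD p])
    {ξ' : IrrCharacter C} (hξ' : SInv P (ξ' : C → ℂ)) {A n₀ : ℕ}
    (hA : classInner (resC (hCC₀.trans hC₀K) (χ : K → ℂ)) (ξ' : C → ℂ) = A)
    (hn₀ : classInner (resC hCC₀ (η : C₀ → ℂ)) (ξ' : C → ℂ) = n₀) :
    (A : ℤ) ≡ ε₀ * n₀ [ZMOD p] := by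
  classical
  have hf : IsCharacter C₀ (resC hC₀K (χ : K → ℂ)) :=
    res_char hC₀K (isCharacter_of_isIrrCharacter χ.2)
  choose m hm using fun τ : IrrCharacter C₀ => exists_nat_classInner hf τ
  have hg : ∀ τ : IrrCharacter C₀, ∃ n : ℕ, classInner (resC hCC₀ (τ : C₀ → ℂ)) (ξ' : C → ℂ) = n :=
    fun τ => exists_nat_classInner (res_char hCC₀ (isCharacter_of_isIrrCharacter τ.2)) ξ'
  choose n hn using hg
  have hA' : A = ∑ τ, m τ * n τ := by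
    have h1 : resC (hCC₀.trans hC₀K) (χ : K → ℂ) =
        ∑ τ : IrrCharacter C₀, (m τ : ℂ) • resC hCC₀ (τ : C₀ → ℂ) := by
      funext c
      have h2 := apply_eq_sum hf m hm ⟨c, hCC₀ c.2⟩
      rw [Finset.sum_apply]
      refine Eq.trans h2 ?_
      refine Finset.sum_congr rfl fun τ _ => ?_
      rfl
    have h3 : (A : ℂ) = ((∑ τ, m τ * n τ : ℕ) : ℂ) := by
      rw [← hA, h1, classInner_sum_left]
      push_cast
      refine Finset.sum_congr rfl fun τ _ => ?_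
      rw [classInner_smul_left, hn τ]
    exact_mod_cast h3
  have hn₀' : n η = n₀ := by
    have h1 := (hn η).symm.trans hn₀
    exact_mod_cast h1
  rw [hA', ← hn₀']
  refine sum_weight hp hP hPC₀ m n ?_ ?_ hη ?_
  · intro a ha θ
    have h1 := mult_inv hC₀K hPK hPC₀ hχ a ha θ
    rw [hm, hm] at h1
    exact_mod_cast h1
  · intro a ha θ
    have h1 := mult_inv' hCC₀ hPC₀ hPC hξ' a ha θ
    rw [hn, hn] at h1
    exact_mod_cast h1
  · intro τ hτ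
    obtain ⟨m', h1, h2⟩ := h τ hτ
    have h3 : m τ = m' := by
      have := (hm τ).symm.trans h1
      exact_mod_cast this
    rw [h3]
    exact h2

end Comp

/-- Invariance as a predicate. -/
abbrev SI (S : Subgroup Γ) {H : Subgroup Γ} : IrrCharacter H → Prop := fun τ => SInv S (τ : H → ℂ)

theorem IRel.mono {H : Type u} [Group H] [Fintype H] {p : ℕ} {Inv Inv' : IrrCharacter H → Prop}
    (h : ∀ τ, Inv' τ → Inv τ) {f : H → ℂ} {ξ : IrrCharacter H} (hr : IRel p Inv f ξ) :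
    IRel p Inv' f ξ := by
  obtain ⟨ε, hε, H₀⟩ := hr
  exact ⟨ε, hε, fun τ hτ => H₀ τ (h τ hτ)⟩

/-- A multiplicity is prime to `p` exactly at the partner. -/
theorem not_dvd_iff {H : Type*} {p m : ℕ} (hp : p.Prime) {ε : ℤ} (hε : ε = 1 ∨ ε = -1)
    {θ ξ : H} [Decidable (θ = ξ)] (hm : (m : ℤ) ≡ (if θ = ξ then ε else 0) [ZMOD p]) :
    ¬ p ∣ m ↔ θ = ξ := by
  constructor
  · intro h
    by_contra hne
    rw [if_neg hne] at hm
    exact h (Int.natCast_dvd_natCast.1 (Int.modEq_zero_iff_dvd.1 hm))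
  · rintro rfl h
    rw [if_pos rfl] at hm
    have h1 : (p : ℤ) ∣ m := Int.natCast_dvd_natCast.2 h
    have h2 : (p : ℤ) ∣ ε := by
      have h3 := (Int.modEq_zero_iff_dvd.2 h1)
      have h4 := hm.symm.trans h3
      exact Int.modEq_zero_iff_dvd.1 h4
    have hp1 : ¬ (p : ℤ) ∣ 1 := by
      rw [Int.natCast_dvd]
      simpa using hp.one_lt.ne'
    rcases hε with rfl | rfl
    · exact hp1 h2
    · exact hp1 (by simpa using h2)

/-- Conjugation of the relation. -/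
theorem rel_conj {p : ℕ} {K C T : Subgroup Γ} [Fintype K] [Fintype C] (hCK : C ≤ K) {a : Γ}
    (haK : ∀ g ∈ K, a * g * a⁻¹ ∈ K) (haC : ∀ g ∈ C, a * g * a⁻¹ ∈ C)
    (haT : ∀ t ∈ T, a * t * a⁻¹ ∈ T) {χ : IrrCharacter K} {η : IrrCharacter C}
    (h : IRel p (SI T) (resC hCK (χ : K → ℂ)) η) :
    IRel p (SI T) (resC hCK (irrComp (conjE K a haK) χ : K → ℂ)) (irrComp (conjE C a haC) η) := by
  have hInv : ∀ β' : IrrCharacter C, SI T β' → SI T (irrComp (conjE C a haC).symm β') := by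
    intro β' hβ' t ht g g' hg
    refine hβ' (a⁻¹ * t * a) (conj_inv_mem haT t ht) ((conjE C a haC).symm g)
      ((conjE C a haC).symm g') ?_
    show a⁻¹ * (g' : Γ) * a = (a⁻¹ * t * a) * (a⁻¹ * (g : Γ) * a) * (a⁻¹ * t * a)⁻¹
    rw [hg]
    group
  have h1 := IRel.comp_equiv (conjE C a haC) (Inv := SI T) (Inv' := SI T) hInv h
  have e : resC hCK (irrComp (conjE K a haK) χ : K → ℂ) =
      fun k => resC hCK (χ : K → ℂ) (conjE C a haC k) := by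
    funext k
    rfl
  rw [e]
  exact h1

/-- The main theorem in relational form. -/
theorem main {p : ℕ} (hp : p.Prime) : ∀ (n : ℕ) (P : Subgroup Γ), Nat.card P = n → IsPGroup p P →
    ∀ (K Q C : Subgroup Γ) [Fintype K] [Fintype C], (∀ x ∈ P, ∀ g ∈ K, x * g * x⁻¹ ∈ K) → Q ≤ K →
    (∀ g ∈ K, ∀ q ∈ Q, g * q * g⁻¹ ∈ Q) → (∃ a : ℕ, Nat.card Q = p ^ a) → ¬ p ∣ Q.relIndex K →
    ∀ hCK : C ≤ K, (∀ k, k ∈ C ↔ k ∈ K ∧ ∀ x ∈ P, x * k * x⁻¹ * k⁻¹ ∈ Q) →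
    (∀ χ : IrrCharacter K, SI P χ → ∃ ξ : IrrCharacter C, SI P ξ ∧
      IRel p (SI P) (resC hCK (χ : K → ℂ)) ξ) ∧
    (∀ χ χ' : IrrCharacter K, SI P χ → SI P χ' → ∀ ξ : IrrCharacter C, SI P ξ →
      IRel p (SI P) (resC hCK (χ : K → ℂ)) ξ → IRel p (SI P) (resC hCK (χ' : K → ℂ)) ξ → χ = χ') ∧
    (∀ ξ : IrrCharacter C, SI P ξ → ∃ χ : IrrCharacter K, SI P χ ∧
      IRel p (SI P) (resC hCK (χ : K → ℂ)) ξ) := by
  intro n
  induction n using Nat.strong_induction_on with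
  | _ n ih =>
  intro P hPn hP K Q C _ _ hPK hQK hQn hQp hsyl hCK hC
  classical
  haveI : Fact p.Prime := ⟨hp⟩
  by_cases hbot : P = ⊥
  · subst hbot
    have hC1 : ∀ x, x ∈ C ↔ x ∈ K ∧ (1 : Γ) * x * 1⁻¹ * x⁻¹ ∈ Q := by
      intro x
      rw [hC]
      simp [Q.one_mem]
    have h1K : ∀ g ∈ K, (1 : Γ) * g * 1⁻¹ ∈ K := by simp
    have h1Q : ∀ q ∈ Q, (1 : Γ) * q * 1⁻¹ ∈ Q := by simp
    have h1C : ∀ g ∈ C, (1 : Γ) * g * 1⁻¹ ∈ C := by simp
    obtain ⟨a, b, c⟩ := cyc_general (s := 1) (k := 0) (C := C) hp (by simp) hsyl hQK hQn h1Q h1K hC1 hCK h1C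
    have hInvK : ∀ τ : IrrCharacter K, InvC 1 h1K τ := by
      intro τ c
      refine congrArg _ (Subtype.ext ?_)
      simp
    have hInvC : ∀ τ : IrrCharacter C, InvC 1 h1C τ := by
      intro τ c
      refine congrArg _ (Subtype.ext ?_)
      simp
    have hSIK : ∀ τ : IrrCharacter K, SI (⊥ : Subgroup Γ) τ := by
      intro τ x hx g g' hg
      rw [Subgroup.mem_bot] at hx
      subst hx
      refine congrArg _ (Subtype.ext ?_)
      rw [hg]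
      simp
    have hSIC : ∀ τ : IrrCharacter C, SI (⊥ : Subgroup Γ) τ := by
      intro τ x hx g g' hg
      rw [Subgroup.mem_bot] at hx
      subst hx
      refine congrArg _ (Subtype.ext ?_)
      rw [hg]
      simp
    refine ⟨?_, ?_, ?_⟩
    · intro χ _
      obtain ⟨ξ, -, hξ⟩ := a χ (hInvK χ)
      exact ⟨ξ, hSIC ξ, IRel.mono (fun τ _ => hInvC τ) hξ⟩
    · intro χ χ' _ _ ξ _ h₁ h₂
      exact b χ χ' (hInvK χ) (hInvK χ') ξ (hInvC ξ) (IRel.mono (fun τ _ => hSIC τ) h₁)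
        (IRel.mono (fun τ _ => hSIC τ) h₂)
    · intro ξ _
      obtain ⟨χ, -, hχ⟩ := c ξ (hInvC ξ)
      exact ⟨χ, hSIK χ, IRel.mono (fun τ _ => hInvC τ) hχ⟩
  -- the inductive step
  obtain ⟨T, s, hTP, hsP, hlt, hsT, hstep⟩ := exists_step hp hP hbot
  have hPQ : ∀ x ∈ P, ∀ q ∈ Q, x * q * x⁻¹ ∈ Q := fun x hx =>
    conj_mem_Q hp hQK hQn hQp hsyl (hPK x hx)
  set C₀ : Subgroup Γ := relC K Q T hQn with hC₀
  haveI : Fintype C₀ := Fintype.ofFinite _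
  have hC₀K : C₀ ≤ K := fun k hk => hk.1
  have hCC₀ : C ≤ C₀ := fun k hk => ⟨((hC k).1 hk).1, fun x hx => ((hC k).1 hk).2 x (hTP hx)⟩
  have hQC₀ : Q ≤ C₀ := fun q hq =>
    ⟨hQK hq, fun x hx => Q.mul_mem (hPQ x (hTP hx) q hq) (Q.inv_mem hq)⟩
  obtain ⟨a₀, b₀, c₀⟩ := ih _ (hPn ▸ hlt) T rfl (hP.to_le hTP) K Q C₀
    (fun x hx => hPK x (hTP hx)) hQK hQn hQp hsyl hC₀K (fun k => Iff.rfl)
  -- `P` normalises everything
  have hPT : ∀ y ∈ P, ∀ t ∈ T, y * t * y⁻¹ ∈ T := by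
    intro y hy t ht
    obtain ⟨t₁, ht₁, j, rfl⟩ := hstep y hy
    have h1 := pow_conj_mem hsT j t ht
    have h2 : t₁ * s ^ j * t * (t₁ * s ^ j)⁻¹ = t₁ * (s ^ j * t * (s ^ j)⁻¹) * t₁⁻¹ := by group
    rw [h2]
    exact T.mul_mem (T.mul_mem ht₁ h1) (T.inv_mem ht₁)
  have hPC₀ : ∀ y ∈ P, ∀ k ∈ C₀, y * k * y⁻¹ ∈ C₀ := by
    intro y hy k hk
    refine ⟨hPK y hy k hk.1, fun x hx => ?_⟩
    have h1 := hk.2 _ (conj_inv_mem (hPT y hy) x hx)
    have h2 := hPQ y hy _ h1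
    have h3 : y * (y⁻¹ * x * y * k * (y⁻¹ * x * y)⁻¹ * k⁻¹) * y⁻¹ =
        x * (y * k * y⁻¹) * x⁻¹ * (y * k * y⁻¹)⁻¹ := by group
    rw [h3] at h2
    exact h2
  have hPC : ∀ y ∈ P, ∀ k ∈ C, y * k * y⁻¹ ∈ C := by
    intro y hy k hk
    obtain ⟨hk1, hk2⟩ := (hC k).1 hk
    refine (hC _).2 ⟨hPK y hy k hk1, fun x hx => ?_⟩
    have h1 := hk2 (y⁻¹ * x * y) (P.mul_mem (P.mul_mem (P.inv_mem hy) hx) hy)
    have h2 := hPQ y hy _ h1
    have h3 : y * (y⁻¹ * x * y * k * (y⁻¹ * x * y)⁻¹ * k⁻¹) * y⁻¹ =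
        x * (y * k * y⁻¹) * x⁻¹ * (y * k * y⁻¹)⁻¹ := by group
    rw [h3] at h2
    exact h2
  -- the cyclic step
  have hC' : ∀ x, x ∈ C ↔ x ∈ C₀ ∧ s * x * s⁻¹ * x⁻¹ ∈ Q := by
    intro x
    constructor
    · intro hx
      exact ⟨hCC₀ hx, ((hC x).1 hx).2 s hsP⟩
    · rintro ⟨hx₀, hxs⟩
      refine (hC x).2 ⟨hx₀.1, fun y hy => ?_⟩
      obtain ⟨t, ht, j, rfl⟩ := hstep y hy
      have hj : ∀ j : ℕ, s ^ j * x * (s ^ j)⁻¹ * x⁻¹ ∈ Q := by
        intro j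
        induction j with
        | zero => simp [Q.one_mem]
        | succ j ih' =>
          have h1 := hPQ s hsP _ ih'
          have h2 : s ^ (j + 1) * x * (s ^ (j + 1))⁻¹ * x⁻¹ =
              s * (s ^ j * x * (s ^ j)⁻¹ * x⁻¹) * s⁻¹ * (s * x * s⁻¹ * x⁻¹) := by
            rw [pow_succ']
            group
          rw [h2]
          exact Q.mul_mem h1 hxs
      have h1 := hPQ t (hTP ht) _ (hj j)
      have h2 : t * s ^ j * x * (t * s ^ j)⁻¹ * x⁻¹ =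
          t * (s ^ j * x * (s ^ j)⁻¹ * x⁻¹) * t⁻¹ * (t * x * t⁻¹ * x⁻¹) := by group
      rw [h2]
      exact Q.mul_mem h1 (hx₀.2 t ht)
  have hsyl₀ : ¬ p ∣ Q.relIndex C₀ := by
    intro h
    apply hsyl
    rw [← Subgroup.relIndex_mul_relIndex Q C₀ K hQC₀ hC₀K]
    exact h.mul_right _
  obtain ⟨k, hk⟩ := (IsPGroup.iff_orderOf.1 hP) ⟨s, hsP⟩
  have hpk : orderOf s = p ^ k := (Subgroup.orderOf_mk s hsP).symm.trans hk
  have hsC₀ := hPC₀ s hsP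
  have hsC := hPC s hsP
  obtain ⟨a₁, b₁, c₁⟩ := cyc_general (Q := Q) (C := C) hp hpk hsyl₀ hQC₀
    (fun g hg q hq => hQn g (hC₀K hg) q hq) (hPQ s hsP) hsC₀ hC' hCC₀ hsC
  -- translation of invariance
  have hPs : ∀ {H : Subgroup Γ} (hH : ∀ g ∈ H, s * g * s⁻¹ ∈ H) (τ : IrrCharacter H),
      SI P τ → InvC s hH τ := fun hH τ h c => h s hsP c _ rfl
  have hPTi : ∀ {H : Subgroup Γ} (τ : IrrCharacter H), SI P τ → SI T τ :=
    fun τ h x hx => h x (hTP hx)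
  -- `η` is `P`-invariant (over `χ`)
  have hηP : ∀ (χ : IrrCharacter K) (η : IrrCharacter C₀), SI P χ → SI T η →
      IRel p (SI T) (resC hC₀K (χ : K → ℂ)) η → SI P η := by
    intro χ η hχ hη h a ha g g' hg
    have h1 := rel_conj hC₀K (hPK a ha) (hPC₀ a ha) (hPT a ha) h
    rw [Cfsg.Agent.Lib.Char.GlaubSolv.irrComp_conjE_eq_of_sinv (hPK a ha) ha hχ] at h1
    have h2 : SI T (irrComp (conjE C₀ a (hPC₀ a ha)) η) :=
      Cfsg.Agent.Lib.Char.GlaubSolv.sinv_conj (hPC₀ a ha) (hPT a ha) hη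
    have h3 := h1.unique hp h h2 hη
    have h4 := congrFun (congrArg Subtype.val h3) g
    refine Eq.trans ?_ h4
    show _ = (η : C₀ → ℂ) _
    refine congrArg _ (Subtype.ext ?_)
    exact hg
  -- `ξ` is `P`-invariant (over `η`)
  have hξP : ∀ (η : IrrCharacter C₀) (ξ : IrrCharacter C), SI P η → InvC s hsC ξ →
      IRel p (InvC s hsC) (resC hCC₀ (η : C₀ → ℂ)) ξ → SI P ξ := by
    intro η ξ hη hξ h
    have hf : IsCharacter C (resC hCC₀ (η : C₀ → ℂ)) :=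
      res_char hCC₀ (isCharacter_of_isIrrCharacter η.2)
    choose w hw using fun τ : IrrCharacter C => exists_nat_classInner hf τ
    obtain ⟨ε, hε, H₁⟩ := h
    refine trick hp hP hPC hsP w ?_ hξ ?_
    · intro a ha θ
      have h1 := mult_inv hCC₀ hPC₀ hPC hη a ha θ
      rw [hw, hw] at h1
      exact_mod_cast h1
    · intro θ hθ
      obtain ⟨m, h1, h2⟩ := H₁ θ hθ
      have h3 : w θ = m := by
        have := (hw θ).symm.trans h1
        exact_mod_cast this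
      rw [h3]
      exact not_dvd_iff hp hε h2
  -- `η` is `P`-invariant (under `ξ`)
  have hηP' : ∀ (η : IrrCharacter C₀) (ξ : IrrCharacter C), InvC s hsC₀ η → SI P ξ →
      IRel p (InvC s hsC) (resC hCC₀ (η : C₀ → ℂ)) ξ → SI P η := by
    intro η ξ hη hξ h
    have hg : ∀ τ : IrrCharacter C₀, ∃ n : ℕ, classInner (resC hCC₀ (τ : C₀ → ℂ)) (ξ : C → ℂ) = n :=
      fun τ => exists_nat_classInner (res_char hCC₀ (isCharacter_of_isIrrCharacter τ.2)) ξ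
    choose w hw using hg
    have hξs : InvC s hsC ξ := hPs hsC ξ hξ
    refine trick hp hP hPC₀ hsP w ?_ hη ?_
    · intro a ha θ
      have h1 := mult_inv' hCC₀ hPC₀ hPC hξ a ha θ
      rw [hw, hw] at h1
      exact_mod_cast h1
    · intro θ hθ
      constructor
      · intro hnd
        obtain ⟨ξ', hξ', hrel⟩ := a₁ θ hθ
        have hrel' := hrel
        obtain ⟨ε, hε, H₁⟩ := hrel'
        obtain ⟨m, h1, h2⟩ := H₁ ξ hξs
        have h3 : w θ = m := by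
          have := (hw θ).symm.trans h1
          exact_mod_cast this
        rw [h3] at hnd
        have h4 := (not_dvd_iff hp hε h2).1 hnd
        subst h4
        exact b₁ θ η hθ hη ξ hξs hrel h
      · rintro rfl
        obtain ⟨ε, hε, H₁⟩ := h
        obtain ⟨m, h1, h2⟩ := H₁ ξ hξs
        have h3 : w θ = m := by
          have := (hw θ).symm.trans h1
          exact_mod_cast this
        rw [h3]
        exact (not_dvd_iff hp hε h2).2 rfl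
  -- composition
  have hcomp : ∀ (χ : IrrCharacter K) (η : IrrCharacter C₀) (ξ : IrrCharacter C), SI P χ → SI P η →
      SI P ξ → IRel p (SI T) (resC hC₀K (χ : K → ℂ)) η →
      IRel p (InvC s hsC) (resC hCC₀ (η : C₀ → ℂ)) ξ → IRel p (SI P) (resC hCK (χ : K → ℂ)) ξ := by
    intro χ η ξ hχ hη hξ h₀ h₁
    obtain ⟨ε₀, hε₀, H₀⟩ := h₀
    obtain ⟨ε₁, hε₁, H₁⟩ := h₁
    refine ⟨ε₀ * ε₁, ?_, fun ξ' hξ' => ?_⟩
    · rcases hε₀ with rfl | rfl <;> rcases hε₁ with rfl | rfl <;> simp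
    · obtain ⟨A, hA⟩ := exists_nat_classInner
        (res_char hCK (isCharacter_of_isIrrCharacter χ.2)) ξ'
      obtain ⟨n₀, hn₀, hc⟩ := H₁ ξ' (hPs hsC ξ' hξ')
      refine ⟨A, hA, ?_⟩
      have h1 := comp_modEq' hp hP hC₀K hCC₀ hPK hPC₀ hPC hχ hη
        (fun τ hτ => H₀ τ (hPTi τ hτ)) hξ' hA hn₀
      refine h1.trans ?_
      by_cases hξ'ξ : ξ' = ξ
      · rw [if_pos hξ'ξ] at hc ⊢
        exact hc.mul_left _
      · rw [if_neg hξ'ξ] at hc ⊢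
        simpa using hc.mul_left ε₀
  -- part (a)
  have ha : ∀ χ : IrrCharacter K, SI P χ → ∃ (η : IrrCharacter C₀) (ξ : IrrCharacter C),
      SI P η ∧ SI P ξ ∧ IRel p (SI T) (resC hC₀K (χ : K → ℂ)) η ∧
      IRel p (InvC s hsC) (resC hCC₀ (η : C₀ → ℂ)) ξ ∧ IRel p (SI P) (resC hCK (χ : K → ℂ)) ξ := by
    intro χ hχ
    obtain ⟨η, hηT, h₀⟩ := a₀ χ (hPTi χ hχ)
    have hηp := hηP χ η hχ hηT h₀
    obtain ⟨ξ, hξs, h₁⟩ := a₁ η (hPs hsC₀ η hηp)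
    have hξp := hξP η ξ hηp hξs h₁
    exact ⟨η, ξ, hηp, hξp, h₀, h₁, hcomp χ η ξ hχ hηp hξp h₀ h₁⟩
  refine ⟨?_, ?_, ?_⟩
  · intro χ hχ
    obtain ⟨η, ξ, -, hξp, -, -, h⟩ := ha χ hχ
    exact ⟨ξ, hξp, h⟩
  · intro χ χ' hχ hχ' ξ hξ h h'
    obtain ⟨η, ξ₁, hηp, hξ₁p, h₀, h₁, h₂⟩ := ha χ hχ
    obtain ⟨η', ξ₁', hηp', hξ₁p', h₀', h₁', h₂'⟩ := ha χ' hχ'
    have e₁ : ξ = ξ₁ := h.unique hp h₂ hξ hξ₁p
    have e₂ : ξ = ξ₁' := h'.unique hp h₂' hξ hξ₁p'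
    rw [← e₁] at h₁
    rw [← e₂] at h₁'
    have e₃ : η = η' := b₁ η η' (hPs hsC₀ η hηp) (hPs hsC₀ η' hηp') ξ (hPs hsC ξ hξ) h₁ h₁'
    rw [← e₃] at h₀'
    exact b₀ χ χ' (hPTi χ hχ) (hPTi χ' hχ') η (hPTi η hηp) h₀ h₀'
  · intro ξ hξ
    obtain ⟨η, hηs, h₁⟩ := c₁ ξ (hPs hsC ξ hξ)
    have hηp := hηP' η ξ hηs hξ h₁
    obtain ⟨χ, hχT, h₀⟩ := c₀ η (hPTi η hηp)
    have hχp : SI P χ := by
      intro a ha g g' hg
      have h1 := rel_conj hC₀K (hPK a ha) (hPC₀ a ha) (hPT a ha) h₀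
      rw [Cfsg.Agent.Lib.Char.GlaubSolv.irrComp_conjE_eq_of_sinv (hPC₀ a ha) ha hηp] at h1
      have h2 : SI T (irrComp (conjE K a (hPK a ha)) χ) :=
        Cfsg.Agent.Lib.Char.GlaubSolv.sinv_conj (hPK a ha) (hPT a ha) hχT
      have h3 := b₀ _ _ h2 hχT η (hPTi η hηp) h1 h₀
      have h4 := congrFun (congrArg Subtype.val h3) g
      refine Eq.trans ?_ h4
      show _ = (χ : K → ℂ) _
      refine congrArg _ (Subtype.ext ?_)
      exact hg
    exact ⟨χ, hχp, hcomp χ η ξ hχp hηp hξ h₀ h₁⟩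

end Cfsg.Agent.Lib.Char.DGNMain
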