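import Mathlib
import Cfsg.Agent.Lib.Char.MackeyNormal
import Cfsg.Agent.Lib.Char.GoingDown
import Cfsg.Agent.Lib.Char.AbelianQuot

/-!
# Fully ramified characters

Let `Z` be normal in `H`, `χ ∈ Irr H` and `θ ∈ Irr Z` with `χ_Z = e θ`, `e² = [H:Z]`.

* `vanish_off`: `χ` vanishes off `Z`.
* `invariant`: `θ` is `H`-invariant.
* `indFun_eq_smul`: a character of `Z ≤ L ≤ H` restricting to a multiple of `θ` induces a multiple of
  `χ`.
-/

set_option autoImplicit false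

namespace Cfsg.Agent.Lib.Char.FullyRamified

open Cfsg Cfsg.Agent.Lib.Char.Basic Cfsg.Agent.Lib.Char.Ortho Cfsg.Agent.Lib.Char.Induced
  Cfsg.Agent.Lib.Char.IndRep Cfsg.Agent.Lib.Char.Clifford Cfsg.Agent.Lib.Char.CliffordCorr
  Cfsg.Agent.Lib.Char.MackeyNormal Cfsg.Agent.Lib.Char.GoingDown
open scoped ComplexConjugate

universe u

variable {H : Type u} [Group H] [Fintype H] {Z : Subgroup H} [hZ : Z.Normal] [Fintype Z]
  {χ : H → ℂ} {θ : Z → ℂ} {e : ℕ}

theorem e_ne_zero (he : e ^ 2 = Z.index) : e ≠ 0 := by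
  rintro rfl
  have : Z.index ≠ 0 := Subgroup.index_ne_zero_of_finite
  apply this
  rw [← he]
  simp

/-- A fully ramified character vanishes off `Z`. -/
theorem vanish_off (hχ : IsIrrCharacter H χ) (hθ : IsIrrCharacter Z θ) (he : e ^ 2 = Z.index)
    (hres : ∀ z : Z, χ z = e * θ z) (h : H) (hh : h ∉ Z) : χ h = 0 := by
  classical
  by_contra h0
  have h1 := sum_norm_sq_eq_card hχ
  have h2 := sum_norm_sq_eq_card hθ
  have h3 : ∑ z : Z, ‖χ z‖ ^ 2 = (e : ℝ) ^ 2 * ∑ z : Z, ‖θ z‖ ^ 2 := by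
    rw [Finset.mul_sum]
    refine Finset.sum_congr rfl (fun z _ => ?_)
    rw [hres, norm_mul]
    simp [mul_pow]
  have h4 : ((e : ℝ)) ^ 2 * (Nat.card Z : ℝ) = (Nat.card H : ℝ) := by
    rw [← Subgroup.index_mul_card Z, ← he]
    push_cast
    ring
  have h5 : ∑ z : Z, ‖χ z‖ ^ 2 < ∑ x : H, ‖χ x‖ ^ 2 := by
    have h6 : ∑ z : Z, ‖χ z‖ ^ 2 =
        ∑ x ∈ Finset.univ.map (Function.Embedding.subtype (· ∈ Z)), ‖χ x‖ ^ 2 := by
      rw [Finset.sum_map]
      rfl
    rw [h6]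
    refine Finset.sum_lt_sum_of_subset (Finset.subset_univ _) (Finset.mem_univ h) ?_ ?_ ?_
    · simp only [Finset.mem_map, Finset.mem_univ, true_and, not_exists]
      intro z hz
      exact hh (hz ▸ z.2)
    · positivity
    · intro j _ _
      positivity
  rw [h3, h2, h4, h1] at h5
  exact lt_irrefl _ h5

/-- The character `θ` is invariant. -/
theorem invariant (hχ : IsIrrCharacter H χ) (he : e ^ 2 = Z.index)
    (hres : ∀ z : Z, χ z = e * θ z) (g : H) (n : Z) :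
    θ ⟨g * n * g⁻¹, hZ.conj_mem (n : H) n.2 g⟩ = θ n := by
  have h1 := hres ⟨g * n * g⁻¹, hZ.conj_mem (n : H) n.2 g⟩
  have h2 := hres n
  have h3 : χ (g * n * g⁻¹) = χ n :=
    isClassFunction_of_isCharacter (isCharacter_of_isIrrCharacter hχ) (n : H) g
  have he0 : (e : ℂ) ≠ 0 := by exact_mod_cast e_ne_zero he
  apply mul_left_cancel₀ he0
  rw [← h2, ← h3]
  exact h1.symm

/-- A character of `L ≥ Z` restricting to a multiple of `θ` induces a multiple of `χ`. -/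
theorem indFun_eq_smul (hχ : IsIrrCharacter H χ) (hθ : IsIrrCharacter Z θ) (he : e ^ 2 = Z.index)
    (hres : ∀ z : Z, χ z = e * θ z) (L : Subgroup H) [Fintype L] (hZL : Z ≤ L) {ψ : L → ℂ}
    (hψ : IsCharacter L ψ) (d : ℂ) (hd : ∀ (y : L) (hy : (y : H) ∈ Z), ψ y = d * θ ⟨y, hy⟩) :
    ∃ f : ℕ, indFun L ψ = (f : ℂ) • χ := by
  classical
  have hind := isCharacter_indFun L hψ
  have hχc := isCharacter_of_isIrrCharacter hχ
  obtain ⟨f, hf⟩ := exists_nat_classInner_of_isCharacter hind hχc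
  refine ⟨f, eq_smul_of_degree hind hχ hf ?_⟩
  -- compute `f`
  have h1 := frobenius_reciprocity L ψ χ (isClassFunction_of_isCharacter hχc)
  rw [hf, classInner_def] at h1
  have h2 : ∑ y : L, ψ y * conj (χ y) = ∑ z : Z, (d * θ z) * conj ((e : ℂ) * θ z) := by
    symm
    refine Finset.sum_of_injOn (fun z : Z => (⟨z, hZL z.2⟩ : L)) ?_ (fun _ _ => Finset.mem_univ _)
      ?_ ?_
    · intro a _ b _ hab
      exact Subtype.ext (congrArg (fun y : L => (y : H)) hab)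
    · intro y _ hy
      have hyZ : (y : H) ∉ Z := fun hm => hy ⟨⟨y, hm⟩, by simp, rfl⟩
      rw [vanish_off hχ hθ he hres y hyZ]
      simp
    · intro z _
      have h3 := hd ⟨z, hZL z.2⟩ z.2
      have h4 := hres z
      simp only
      rw [h3, h4]
  have h5 : ∑ z : Z, (d * θ z) * conj ((e : ℂ) * θ z) =
      d * e * ∑ z : Z, θ z * conj (θ z) := by
    rw [Finset.mul_sum]
    refine Finset.sum_congr rfl (fun z _ => ?_)
    simp only [map_mul, Complex.conj_natCast]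
    ring
  have h6 := classInner_irr_self hθ
  rw [classInner_def] at h6
  have hZc : (Nat.card Z : ℂ) ≠ 0 := natCard_ne_zero_complex
  have h7 : ∑ z : Z, θ z * conj (θ z) = Nat.card Z := by
    field_simp at h6
    linear_combination h6
  rw [h2, h5, h7] at h1
  have hLc : (Nat.card L : ℂ) ≠ 0 := natCard_ne_zero_complex
  have h8 : (f : ℂ) = (Nat.card L : ℂ)⁻¹ * (d * e * Nat.card Z) := h1
  rw [indFun_one]
  have h9 : ψ 1 = d * θ 1 := hd 1 Z.one_mem
  have h10 : χ 1 = e * θ 1 := hres 1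
  rw [h8, h9, h10]
  have h11 : (L.index : ℂ) * (Nat.card L : ℂ) = (e : ℂ) ^ 2 * (Nat.card Z : ℂ) := by
    have h12 : L.index * Nat.card L = Z.index * Nat.card Z := by
      rw [Subgroup.index_mul_card, Subgroup.index_mul_card]
    rw [← he] at h12
    exact_mod_cast h12
  field_simp
  linear_combination (d * θ 1) * h11

/-- A character of `L ≥ Z` restricting to a multiple of `θ` induces a character that vanishes
off `Z`. -/
theorem indFun_eq_zero (hχ : IsIrrCharacter H χ) (hθ : IsIrrCharacter Z θ) (he : e ^ 2 = Z.index)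
    (hres : ∀ z : Z, χ z = e * θ z) (L : Subgroup H) [Fintype L] (hZL : Z ≤ L) {ψ : L → ℂ}
    (hψ : IsCharacter L ψ) (d : ℂ) (hd : ∀ (y : L) (hy : (y : H) ∈ Z), ψ y = d * θ ⟨y, hy⟩)
    (h : H) (hh : h ∉ Z) : indFun L ψ h = 0 := by
  obtain ⟨f, hf⟩ := indFun_eq_smul hχ hθ he hres L hZL hψ d hd
  rw [hf, Pi.smul_apply, vanish_off hχ hθ he hres h hh, smul_zero]

section Coset
variable {K : Type u} [Group K] [Fintype K] (N : Subgroup K) [hN : N.Normal] [Fintype N]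

/-- The character induced from `1_N`, `N` normal, vanishes off `N`. -/
theorem indFun_one_of_notMem {w : K} (hw : w ∉ N) : indFun N (fun _ => (1 : ℂ)) w = 0 := by
  rw [indFun_apply]
  have : ∀ x : K, extendByZero N (fun _ => (1 : ℂ)) (x⁻¹ * w * x) = 0 := by
    intro x
    apply extendByZero_of_notMem
    intro h
    apply hw
    have h2 := hN.conj_mem _ h x
    have h3 : x * (x⁻¹ * w * x) * x⁻¹ = w := by group
    rwa [h3] at h2
  simp [this]

/-- The value of the character induced from `1_N`, `N` normal, on `N`. -/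
theorem indFun_one_of_mem {w : K} (hw : w ∈ N) :
    indFun N (fun _ => (1 : ℂ)) w = (N.index : ℂ) := by
  have h1 := congrFun (Cfsg.Agent.Lib.Char.Gallagher.res_indFun_of_invariant N (fun _ => (1 : ℂ))
    (fun _ _ => rfl)) ⟨w, hw⟩
  simpa using h1

/-- If the restriction of `ψ ∈ Irr K` to `N` is irreducible, `K/N` abelian, then `ψ` does not vanish
on any coset of `N`. -/
theorem exists_coset_ne_zero (hab : ∀ x y : K, x * y * x⁻¹ * y⁻¹ ∈ N) {ψ : K → ℂ}
    (hψ : IsIrrCharacter K ψ) (hψN : IsIrrCharacter N (fun n : N => ψ n)) (x : K) :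
    ∃ y : K, x⁻¹ * y ∈ N ∧ ψ y ≠ 0 := by
  classical
  by_contra hcon
  have hcon' : ∀ y : K, x⁻¹ * y ∈ N → ψ y = 0 := by
    intro y hy
    by_contra h
    exact hcon ⟨y, hy, h⟩
  have hψc := isCharacter_of_isIrrCharacter hψ
  have hψcl := isClassFunction_of_isCharacter hψc
  obtain ⟨Ξ, hΞ, hdec, hcard⟩ := exists_indFun_one_eq_sum N hab
  have hlin : ∀ ξ ∈ Ξ, (∀ n : N, (ξ : K → ℂ) n = 1) ∧
      (∀ a b : K, (ξ : K → ℂ) (a * b) = (ξ : K → ℂ) a * (ξ : K → ℂ) b) ∧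
      ∀ a : K, conj ((ξ : K → ℂ) a) * (ξ : K → ℂ) a = 1 := fun ξ hξ =>
    Cfsg.Agent.Lib.Char.AbelianQuot.linear_of_over_one N hab ξ.2 ((hΞ ξ).mp hξ)
  -- the total multiplicity
  have h1 : ∑ ξ ∈ Ξ, classInner (ψ * (ξ : K → ℂ)) ψ = 1 := by
    have h2 : classInner (indFun N (fun _ => (1 : ℂ)) * ψ) ψ = 1 := by
      rw [Cfsg.Agent.Lib.Char.Gallagher.indFun_mul_res N _ hψcl, frobenius_reciprocity N _ ψ hψcl]
      have h0 : (fun _ : N => (1 : ℂ)) * (fun n : N => ψ n) = (fun n : N => ψ n) := by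
        funext n
        exact one_mul _
      rw [h0]
      exact classInner_irr_self hψN
    rw [hdec] at h2
    rw [← h2, Finset.sum_mul, classInner_sum_left]
    refine Finset.sum_congr rfl (fun ξ _ => ?_)
    rw [mul_comm]
  have hirr : ∀ ξ ∈ Ξ, IsIrrCharacter K (ψ * (ξ : K → ℂ)) := fun ξ hξ =>
    isIrr_mul_of_norm_one hψ (isCharacter_of_isIrrCharacter ξ.2) (hlin ξ hξ).2.2
  have hS : ∀ ξ ∈ Ξ, classInner (ψ * (ξ : K → ℂ)) ψ = if ψ * (ξ : K → ℂ) = ψ then 1 else 0 := by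
    intro ξ hξ
    split_ifs with h
    · rw [h]
      exact classInner_irr_self hψ
    · exact classInner_irr_of_ne (hirr ξ hξ) hψ h
  let one : IrrCharacter K := ⟨fun _ => 1, Cfsg.Agent.Lib.Char.Burnside2.isIrrCharacter_one⟩
  have hone : IsIrrCharacter N (fun _ => (1 : ℂ)) := Cfsg.Agent.Lib.Char.Burnside2.isIrrCharacter_one
  have hone_mem : one ∈ Ξ := by
    rw [hΞ]
    change classInner (fun _ : N => (1 : ℂ)) (fun _ => 1) ≠ 0
    rw [classInner_irr_self hone]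
    exact one_ne_zero
  have hoS : ψ * (one : K → ℂ) = ψ := by
    funext a
    simp [one]
  -- only the trivial character contributes
  have h3 : ∀ ξ ∈ Ξ, ξ ≠ one → ψ * (ξ : K → ℂ) ≠ ψ := by
    intro ξ hξ hne heq
    rw [Finset.sum_congr rfl hS, ← Finset.add_sum_erase _ _ hone_mem, if_pos hoS,
      ← Finset.add_sum_erase _ _ (Finset.mem_erase.mpr ⟨hne, hξ⟩), if_pos heq] at h1
    set T := ((Ξ.erase one).erase ξ).filter (fun ξ' : IrrCharacter K => ψ * (ξ' : K → ℂ) = ψ) with hT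
    have h4 : ∑ ξ' ∈ (Ξ.erase one).erase ξ,
        (if ψ * (ξ' : K → ℂ) = ψ then (1 : ℂ) else 0) = (T.card : ℂ) := by
      rw [Finset.sum_boole]
    rw [h4] at h1
    have h6 : 1 + (1 + T.card) = 1 := by exact_mod_cast h1
    omega
  -- the twisted sum
  have h7 : ∑ ξ ∈ Ξ, (ξ : K → ℂ) x⁻¹ * classInner (ψ * (ξ : K → ℂ)) ψ = 1 := by
    rw [Finset.sum_eq_single one]
    · rw [hoS, classInner_irr_self hψ]
      simp [one]
    · intro ξ hξ hne
      rw [classInner_irr_of_ne (hirr ξ hξ) hψ (h3 ξ hξ hne), mul_zero]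
    · intro h
      exact absurd hone_mem h
  have h8 : ∑ ξ ∈ Ξ, (ξ : K → ℂ) x⁻¹ * classInner (ψ * (ξ : K → ℂ)) ψ = 0 := by
    have h9 : ∀ ξ ∈ Ξ, (ξ : K → ℂ) x⁻¹ * classInner (ψ * (ξ : K → ℂ)) ψ =
        (Nat.card K : ℂ)⁻¹ * ∑ y : K, (ξ : K → ℂ) (x⁻¹ * y) * (ψ y * conj (ψ y)) := by
      intro ξ hξ
      rw [classInner_def]
      rw [mul_left_comm, Finset.mul_sum]
      congr 1
      refine Finset.sum_congr rfl (fun y _ => ?_)
      rw [(hlin ξ hξ).2.1]
      simp only [Pi.mul_apply]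
      ring
    rw [Finset.sum_congr rfl h9, ← Finset.mul_sum]
    rw [Finset.sum_comm]
    have h10 : ∀ y : K, ∑ ξ ∈ Ξ, (ξ : K → ℂ) (x⁻¹ * y) * (ψ y * conj (ψ y)) = 0 := by
      intro y
      rw [← Finset.sum_mul]
      have h11 : ∑ ξ ∈ Ξ, (ξ : K → ℂ) (x⁻¹ * y) = indFun N (fun _ => (1 : ℂ)) (x⁻¹ * y) := by
        rw [hdec, Finset.sum_apply]
      rw [h11]
      by_cases hy : x⁻¹ * y ∈ N
      · rw [hcon' y hy]
        simp
      · rw [indFun_one_of_notMem N hy, zero_mul]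
    rw [Finset.sum_eq_zero (fun y _ => h10 y), mul_zero]
  rw [h7] at h8
  exact one_ne_zero h8

end Coset

end Cfsg.Agent.Lib.Char.FullyRamified
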