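import Mathlib
import Cfsg.Agent.Lib.Char.FullyRamified
import Cfsg.Agent.Lib.Char.GallagherAvg

/-!
# Fully ramified characters induced from a normal subgroup

* `sum_sq`: `∑ [b_Z, θ]² = |D : Z|` for `θ` invariant.
* `inner_res`: `[χ_D, a] |D : Z| = e d` for `χ` fully ramified over `Z` and `a_Z = d θ`.
* `dvd_inner`: `|K A : K|` divides `[χ_D, a]` for `χ = φ^H` with `K` normal and `A` stabilizing `a`.
-/

set_option autoImplicit false
set_option linter.style.haveILetI false

namespace Cfsg.Agent.Lib.Char.FRHall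

open Cfsg Cfsg.Agent.Lib.Char.Basic Cfsg.Agent.Lib.Char.Ortho Cfsg.Agent.Lib.Char.Induced
  Cfsg.Agent.Lib.Char.IndRep Cfsg.Agent.Lib.Char.Clifford Cfsg.Agent.Lib.Char.CliffordCorr
  Cfsg.Agent.Lib.Char.GallagherAvg
open scoped ComplexConjugate

universe u

section Abstract

variable {D : Type*} [Group D] [Fintype D] (Z₁ : Subgroup D) [hZ₁ : Z₁.Normal] [Fintype Z₁] {θ₁ : Z₁ → ℂ}

/-- The sum of the squares of the multiplicities. -/
theorem sum_sq (hθ₁ : IsIrrCharacter Z₁ θ₁)
    (hinv : ∀ (g : D) (n : Z₁), θ₁ ⟨g * n * g⁻¹, hZ₁.conj_mem (n : D) n.2 g⟩ = θ₁ n)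
    (d : IrrCharacter D → ℕ) (hd : ∀ b : IrrCharacter D, classInner (fun n : Z₁ => (b : D → ℂ) n) θ₁ = d b) :
    ∑ b, (d b) ^ 2 = Z₁.index := by
  classical
  have hθc := isCharacter_of_isIrrCharacter hθ₁
  have hΞ : IsCharacter D (indFun Z₁ θ₁) := isCharacter_indFun Z₁ hθc
  have h1 := congrFun (decomp_eq_sum_classInner hΞ) 1
  rw [indFun_one, Finset.sum_apply] at h1
  have h2 : ∀ b : IrrCharacter D, (classInner (indFun Z₁ θ₁) (b : D → ℂ) • (b : D → ℂ)) 1 =
      ((d b : ℂ) ^ 2) * θ₁ 1 := by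
    intro b
    have hbcl := isClassFunction_of_isCharacter (isCharacter_of_isIrrCharacter b.2)
    have h3 : classInner (indFun Z₁ θ₁) (b : D → ℂ) = d b := by
      rw [frobenius_reciprocity Z₁ θ₁ _ hbcl, ← classInner_conj_symm, hd]
      simp
    simp only [Pi.smul_apply, smul_eq_mul]
    rw [h3]
    by_cases h0 : d b = 0
    · simp [h0]
    · have h4 : classInner (fun n : Z₁ => (b : D → ℂ) n) θ₁ ≠ 0 := by
        rw [hd]
        exact_mod_cast h0
      have h5 := congrFun (res_eq_smul_of_invariant Z₁ b.2 hθ₁ h4 hinv) 1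
      simp only [Pi.smul_apply, smul_eq_mul] at h5
      rw [hd] at h5
      have h6 : (b : D → ℂ) 1 = d b * θ₁ 1 := h5
      rw [h6]
      ring
  rw [Finset.sum_congr rfl fun b _ => h2 b, ← Finset.sum_mul] at h1
  have h3 : θ₁ 1 ≠ 0 := irr_apply_one_ne_zero hθ₁
  have h4 := mul_right_cancel₀ h3 h1
  have h5 : ((∑ b, (d b) ^ 2 : ℕ) : ℂ) = (Z₁.index : ℂ) := by
    push_cast
    exact h4.symm
  exact_mod_cast h5

end Abstract

section Main

variable {H : Type u} [Group H] [Fintype H] {Z : Subgroup H} [hZ : Z.Normal] [Fintype Z]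
  {χ : H → ℂ} {θ : Z → ℂ} {e : ℕ}

/-- The multiplicity of an irreducible character over `θ` in `χ`. -/
theorem inner_res (hχ : IsIrrCharacter H χ) (hθ : IsIrrCharacter Z θ) (he : e ^ 2 = Z.index)
    (hres : ∀ z : Z, χ z = e * θ z) (D : Subgroup H) [Fintype D] (hZD : Z ≤ D) (a : D → ℂ) (d : ℕ)
    (ha : ∀ z : Z, a ⟨z, hZD z.2⟩ = d * θ z) :
    classInner (fun x : D => χ x) a * (Z.relIndex D : ℂ) = e * d := by
  classical
  have h1 : ∑ x : D, χ x * conj (a x) = (e * d : ℂ) * Nat.card Z := by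
    have hsub : ∑ x : D, χ x * conj (a x) =
        ∑ x ∈ (Finset.univ : Finset Z).map ⟨fun z : Z => (⟨z, hZD z.2⟩ : D), by
          intro x y h
          apply Subtype.ext
          exact congrArg (fun w : D => (w : H)) h⟩, χ x * conj (a x) := by
      symm
      apply Finset.sum_subset (Finset.subset_univ _)
      intro x _ hx
      have hxZ : (x : H) ∉ Z := by
        intro hmem
        apply hx
        simp only [Finset.mem_map, Finset.mem_univ, true_and]
        exact ⟨⟨x, hmem⟩, rfl⟩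
      rw [Cfsg.Agent.Lib.Char.FullyRamified.vanish_off hχ hθ he hres _ hxZ, zero_mul]
    rw [hsub, Finset.sum_map]
    have h2 : ∀ z : Z, χ z * conj (a ⟨z, hZD z.2⟩) = (e * d : ℂ) * (θ z * conj (θ z)) := by
      intro z
      rw [hres, ha, map_mul, map_natCast]
      ring
    refine (Finset.sum_congr rfl fun z _ => h2 z).trans ?_
    rw [← Finset.mul_sum]
    congr 1
    have h3 := classInner_irr_self hθ
    rw [classInner_def] at h3
    have h4 : (Nat.card Z : ℂ) ≠ 0 := natCard_ne_zero_complex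
    field_simp at h3
    exact h3
  rw [classInner_def, h1]
  have h2 : (Z.relIndex D : ℂ) * Nat.card Z = Nat.card D := by
    have h3 : Z.relIndex D * Nat.card (Z.subgroupOf D) = Nat.card D := by
      exact Subgroup.index_mul_card _
    have h4 : Nat.card (Z.subgroupOf D) = Nat.card Z :=
      Nat.card_congr (Subgroup.subgroupOfEquivOfLe hZD).toEquiv
    rw [h4] at h3
    exact_mod_cast h3
  rw [← h2]
  have h4 : (Nat.card Z : ℂ) ≠ 0 := natCard_ne_zero_complex
  have h5 : (Z.relIndex D : ℂ) ≠ 0 := by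
    exact_mod_cast Subgroup.index_ne_zero_of_finite
  field_simp

/-- The divisibility coming from the stabilizer. -/
theorem dvd_inner (K : Subgroup H) [hK : K.Normal] [Fintype K] (φ : K → ℂ) (hφ : IsCharacter K φ)
    (D : Subgroup H) [Fintype D] (hDK : D ≤ K) (a : IrrCharacter D) (A : Subgroup H)
    (hAD : ∀ y ∈ A, ∀ x : H, x ∈ D ↔ y * x * y⁻¹ ∈ D)
    (hAa : ∀ y ∈ A, ∀ (x : H) (hx : x ∈ D) (hy : y * x * y⁻¹ ∈ D),
      (a : D → ℂ) ⟨y * x * y⁻¹, hy⟩ = (a : D → ℂ) ⟨x, hx⟩) :
    ∃ s T : ℕ, classInner (fun x : D => indFun K φ x) (a : D → ℂ) = s ∧ s = K.relIndex (K ⊔ A) * T := by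
  classical
  set φh : H → ℂ := extendByZero K φ with hφh
  have hφcl := isClassFunction_of_isCharacter hφ
  have hval : ∀ (y : H) (hy : y ∈ K), φh y = φ ⟨y, hy⟩ := fun y hy => extendByZero_of_mem K φ hy
  let F : H → ℂ := fun g => classInner (fun x : D => φh (g * x * g⁻¹)) (a : D → ℂ)
  have hmem : ∀ (g : H) (x : D), g * (x : H) * g⁻¹ ∈ K := fun g x => hK.conj_mem x (hDK x.2) g
  have hFnat : ∀ g, ∃ n : ℕ, F g = n := by
    intro g
    let ψ : D →* K :=
      { toFun := fun x => ⟨g * x * g⁻¹, hmem g x⟩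
        map_one' := by
          apply Subtype.ext
          simp
        map_mul' := by
          intro x y
          apply Subtype.ext
          simp [mul_assoc] }
    have h1 : IsCharacter D (fun x : D => φh (g * x * g⁻¹)) := by
      have h2 : (fun x : D => φh (g * x * g⁻¹)) = fun x : D => φ (ψ x) := by
        funext x
        exact hval _ (hmem g x)
      rw [h2]
      exact isCharacter_comp_hom hφ ψ
    exact exists_nat_classInner h1 a
  have hsum : classInner (fun x : D => indFun K φ x) (a : D → ℂ) = (Nat.card K : ℂ)⁻¹ * ∑ g, F g := by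
    simp only [F, classInner_def, indFun_apply]
    rw [Finset.mul_sum, Finset.mul_sum]
    have h1 : ∀ x : D, (Nat.card K : ℂ)⁻¹ * ∑ g : H, extendByZero K φ (g⁻¹ * (x : H) * g) * conj ((a : D → ℂ) x) = _ :=
      fun x => rfl
    simp only [Finset.mul_sum, Finset.sum_mul]
    rw [Finset.sum_comm]
    rw [← Equiv.sum_comp (Equiv.inv H)]
    refine Finset.sum_congr rfl fun g _ => Finset.sum_congr rfl fun x _ => ?_
    simp only [Equiv.inv_apply, inv_inv]
    ring
  -- right invariance
  let W : Subgroup H :=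
    { carrier := {u | ∀ g, F (g * u) = F g}
      mul_mem' := by
        intro u v hu hv g
        rw [← mul_assoc, hv, hu]
      one_mem' := by
        intro g
        rw [mul_one]
      inv_mem' := by
        intro u hu g
        have := hu (g * u⁻¹)
        rw [inv_mul_cancel_right] at this
        exact this.symm }
  have hKW : K ≤ W := by
    intro u hu g
    show classInner _ _ = classInner _ _
    congr 1
    funext x
    have h1 := hmem g x
    have h2 : g * u * g⁻¹ ∈ K := hK.conj_mem u hu g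
    have h3 : g * u * (x : H) * (g * u)⁻¹ = (g * u * g⁻¹) * (g * x * g⁻¹) * (g * u * g⁻¹)⁻¹ := by
      group
    rw [h3, hval _ (K.mul_mem (K.mul_mem h2 h1) (K.inv_mem h2)), hval _ h1]
    exact hφcl ⟨_, h1⟩ ⟨_, h2⟩
  have hAW : A ≤ W := by
    intro y hy g
    simp only [F, classInner_def]
    congr 1
    let c : D ≃ D :=
      { toFun := fun x => ⟨y * x * y⁻¹, (hAD y hy x).mp x.2⟩
        invFun := fun x => ⟨y⁻¹ * x * y, by
          rw [hAD y hy]
          have : y * (y⁻¹ * (x : H) * y) * y⁻¹ = x := by group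
          rw [this]
          exact x.2⟩
        left_inv := fun x => by
          apply Subtype.ext
          show y⁻¹ * (y * x * y⁻¹) * y = x
          group
        right_inv := fun x => by
          apply Subtype.ext
          show y * (y⁻¹ * x * y) * y⁻¹ = x
          group }
    conv_rhs => rw [← Equiv.sum_comp c]
    refine Finset.sum_congr rfl fun x _ => ?_
    have h1 : (a : D → ℂ) (c x) = (a : D → ℂ) x := hAa y hy x x.2 _
    rw [h1]
    congr 2
    show g * y * x * (g * y)⁻¹ = g * (y * x * y⁻¹) * g⁻¹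
    group
  set U := K ⊔ A with hU
  have hUW : U ≤ W := sup_le hKW hAW
  letI : Fintype U := Fintype.ofFinite _
  letI : Fintype (H ⧸ U) := Fintype.ofFinite _
  have h2 := sum_eq_card_mul_sum_quotient (H := U) F (fun x u => hUW u.2 x)
  choose n hn using hFnat
  have h3 : ∑ c : H ⧸ U, F (Quotient.out c) = ((∑ c : H ⧸ U, n (Quotient.out c) : ℕ) : ℂ) := by
    push_cast
    exact Finset.sum_congr rfl fun c _ => hn _
  have hKU : K ≤ U := le_sup_left
  have h4 : K.relIndex U * Nat.card K = Nat.card U := by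
    have h5 : Nat.card (K.subgroupOf U) = Nat.card K :=
      Nat.card_congr (Subgroup.subgroupOfEquivOfLe hKU).toEquiv
    rw [← h5]
    exact Subgroup.index_mul_card _
  refine ⟨_, ∑ c : H ⧸ U, n (Quotient.out c), ?_, rfl⟩
  rw [hsum, h2, h3, ← h4]
  have h5 : (Nat.card K : ℂ) ≠ 0 := natCard_ne_zero_complex
  push_cast
  field_simp

end Main

section Orbit

variable {D : Type*} [Group D] {Γ : Type*} [Group Γ] (f : Γ →* MulAut D)

/-- The conjugate of an irreducible character. -/
def cjI (g : Γ) (a : IrrCharacter D) : IrrCharacter D :=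
  ⟨fun x => (a : D → ℂ) ((f g)⁻¹ x), isIrrCharacter_comp_surjective a.2 ((f g)⁻¹ : MulAut D).toMonoidHom
    ((f g)⁻¹ : MulAut D).surjective⟩

/-- The stabilizer of a function under automorphisms. -/
def stabSub (a : D → ℂ) : Subgroup Γ where
  carrier := {g | ∀ x, a (f g x) = a x}
  mul_mem' := by
    intro g h hg hh x
    rw [map_mul, MulAut.mul_apply, hg, hh]
  one_mem' := by
    intro x
    simp
  inv_mem' := by
    intro g hg x
    have := hg ((f g)⁻¹ x)
    rw [map_inv]
    rw [← this]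
    simp

theorem mem_stabSub (a : D → ℂ) (g : Γ) : g ∈ stabSub f a ↔ ∀ x, a (f g x) = a x := Iff.rfl

theorem cjI_eq_iff (a : IrrCharacter D) (g h : Γ) : cjI f g a = cjI f h a ↔ g⁻¹ * h ∈ stabSub f (a : D → ℂ) := by
  constructor
  · intro hgh x
    have h1 := congrFun (congrArg Subtype.val hgh) (f g (f (g⁻¹ * h) x))
    simp only [cjI] at h1
    have h2 : (f h)⁻¹ (f g (f (g⁻¹ * h) x)) = x := by
      rw [map_mul, map_inv]
      simp
    have h3 : (f g)⁻¹ (f g (f (g⁻¹ * h) x)) = f (g⁻¹ * h) x := by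
      simp
    rw [h2, h3] at h1
    exact h1
  · intro hgh
    apply Subtype.ext
    funext x
    simp only [cjI]
    have h1 := hgh ((f h)⁻¹ x)
    have h2 : f (g⁻¹ * h) ((f h)⁻¹ x) = (f g)⁻¹ x := by
      rw [map_mul, map_inv]
      simp
    rw [h2] at h1
    exact h1

variable [Fintype D] [Finite Γ]

/-- The orbit of an irreducible character and the sum of squares. -/
theorem orbit_sum (a : IrrCharacter D) (d : IrrCharacter D → ℕ) (n : ℕ) (hd : ∑ b, (d b) ^ 2 = n)
    (hconst : ∀ g, d (cjI f g a) = d a) :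
    (stabSub f (a : D → ℂ)).index * (d a) ^ 2 ≤ n ∧
      ∀ b₀, (∀ g, b₀ ≠ cjI f g a) → (stabSub f (a : D → ℂ)).index * (d a) ^ 2 + (d b₀) ^ 2 ≤ n := by
  classical
  set I := stabSub f (a : D → ℂ) with hI
  letI : Fintype (Γ ⧸ I) := Fintype.ofFinite _
  let Φ : Γ ⧸ I → IrrCharacter D := fun q => cjI f (Quotient.out q) a
  have hΦ : Function.Injective Φ := by
    intro q q' h
    have h1 := (cjI_eq_iff f a _ _).mp h
    have h2 : ((Quotient.out q : Γ) : Γ ⧸ I) = ((Quotient.out q' : Γ) : Γ ⧸ I) := QuotientGroup.eq.mpr h1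
    rwa [QuotientGroup.out_eq', QuotientGroup.out_eq'] at h2
  have hsum : ∑ b ∈ Finset.univ.image Φ, (d b) ^ 2 = I.index * (d a) ^ 2 := by
    rw [Finset.sum_image (fun x _ y _ h => hΦ h)]
    have h1 : ∀ q : Γ ⧸ I, (d (Φ q)) ^ 2 = (d a) ^ 2 := fun q => by rw [hconst]
    rw [Finset.sum_congr rfl fun q _ => h1 q, Finset.sum_const, Finset.card_univ, smul_eq_mul]
    congr 1
    rw [Subgroup.index_eq_card, Nat.card_eq_fintype_card]
  constructor
  · rw [← hsum, ← hd]
    exact Finset.sum_le_sum_of_subset (Finset.subset_univ _)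
  · intro b₀ hb₀
    have hnot : b₀ ∉ Finset.univ.image Φ := by
      intro h
      obtain ⟨q, -, hq⟩ := Finset.mem_image.mp h
      exact hb₀ _ hq.symm
    have h2 : ∑ b ∈ insert b₀ (Finset.univ.image Φ), (d b) ^ 2 =
        (d b₀) ^ 2 + ∑ b ∈ Finset.univ.image Φ, (d b) ^ 2 := Finset.sum_insert hnot
    rw [← hsum, ← hd, add_comm, ← h2]
    exact Finset.sum_le_sum_of_subset (Finset.subset_univ _)

end Orbit

end Cfsg.Agent.Lib.Char.FRHall
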