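import Mathlib
import Cfsg.Agent.Lib.Char.FullyRamified
import Cfsg.Agent.Lib.Char.ItoMichler
import Cfsg.Agent.S0886
import Cfsg.Agent.Lib.Nilpotent.Fitting

/-!
# Fully ramified characters, part 2

* `uniq_over`: if `θ ∈ Irr A` is invariant in `C` and some character `φ` of `C` vanishes off `A`, with
  `φ_A = e θ`, `[C:A] = p^(2α)`, `e = p^α e'`, `p ∤ e'`, then at most one irreducible character of `C`
  lies over `θ`.
* `over_trans`: transitivity of "lying over".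
* `mem_of_stabilizes`: if only one irreducible character of `S` lies over `ν ∈ Irr S₀`, `S/S₀` cyclic,
  then the inertia group of `ν` is `S₀`.
-/

set_option autoImplicit false

namespace Cfsg.Agent.Lib.Char.FullyRamified2

open Cfsg Cfsg.Agent.Lib.Char.Basic Cfsg.Agent.Lib.Char.Ortho Cfsg.Agent.Lib.Char.Induced
  Cfsg.Agent.Lib.Char.IndRep Cfsg.Agent.Lib.Char.Clifford Cfsg.Agent.Lib.Char.CliffordCorr
  Cfsg.Agent.Lib.Char.MackeyNormal Cfsg.Agent.Lib.Char.GoingDown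
  Cfsg.Agent.Lib.Char.FullyRamified Cfsg.Agent.Lib.Char.Monomial
open scoped ComplexConjugate

universe u

section Uniq
variable {C : Type u} [Group C] [Fintype C] (A : Subgroup C) [hA : A.Normal] [Fintype A]

/-- The multiplicity of an irreducible character over `θ` is divisible by `p^α`. -/
theorem dvd_mult {θ : A → ℂ} (hθ : IsIrrCharacter A θ)
    (hinv : ∀ (g : C) (n : A), θ ⟨g * n * g⁻¹, hA.conj_mem (n : C) n.2 g⟩ = θ n)
    {φ : C → ℂ} (hφ : IsCharacter C φ) {e p α e' : ℕ} (hφ1 : ∀ a : A, φ a = e * θ a)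
    (hφ0 : ∀ c, c ∉ A → φ c = 0) (hidx : A.index = p ^ (2 * α)) (he : e = p ^ α * e') (hp : p.Prime)
    (he' : ¬ p ∣ e') {ψ : C → ℂ} (hψ : IsIrrCharacter C ψ)
    (ho : classInner (fun a : A => ψ a) θ ≠ 0) {d : ℕ}
    (hd : classInner (fun a : A => ψ a) θ = d) : p ^ α ∣ d := by
  classical
  have hRes := Cfsg.Agent.Lib.Char.GallagherAvg.res_eq_smul_of_invariant A hψ hθ ho hinv
  rw [hd] at hRes
  have hψc := isCharacter_of_isIrrCharacter hψ
  obtain ⟨m, hm⟩ := exists_nat_classInner_of_isCharacter hφ hψc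
  rw [classInner_def] at hm
  have h1 : ∑ c : C, φ c * conj (ψ c) = ∑ a : A, ((e : ℂ) * θ a) * conj ((d : ℂ) * θ a) := by
    symm
    refine Finset.sum_of_injOn (fun a : A => (a : C)) Subtype.val_injective.injOn
      (fun _ _ => Finset.mem_univ _) ?_ ?_
    · intro c _ hc
      have hcA : c ∉ A := fun hm => hc ⟨⟨c, hm⟩, by simp, rfl⟩
      rw [hφ0 c hcA, zero_mul]
    · intro a _
      have h2 := congrFun hRes a
      simp only [Pi.smul_apply, smul_eq_mul] at h2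
      rw [hφ1, h2]
  have h2 : ∑ a : A, ((e : ℂ) * θ a) * conj ((d : ℂ) * θ a) =
      (e : ℂ) * d * ∑ a : A, θ a * conj (θ a) := by
    rw [Finset.mul_sum]
    refine Finset.sum_congr rfl (fun a _ => ?_)
    simp only [map_mul, Complex.conj_natCast]
    ring
  have h3 := classInner_irr_self hθ
  rw [classInner_def] at h3
  have hAc : (Nat.card A : ℂ) ≠ 0 := natCard_ne_zero_complex
  have h4 : ∑ a : A, θ a * conj (θ a) = Nat.card A := by
    field_simp at h3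
    linear_combination h3
  rw [h1, h2, h4] at hm
  have hCc : (Nat.card C : ℂ) ≠ 0 := natCard_ne_zero_complex
  have h5 : (m : ℂ) * (Nat.card C : ℂ) = (e : ℂ) * d * Nat.card A := by
    rw [← hm]
    field_simp
  have h6 : m * Nat.card C = e * d * Nat.card A := by exact_mod_cast h5
  have h7 : Nat.card C = p ^ (2 * α) * Nat.card A := by
    rw [← hidx, Subgroup.index_mul_card]
  rw [h7, he] at h6
  have hApos : 0 < Nat.card A := Nat.card_pos
  have h8 : m * p ^ (2 * α) = p ^ α * e' * d := by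
    apply Nat.eq_of_mul_eq_mul_right hApos
    rw [← h6]
    ring
  have hppos : 0 < p ^ α := pow_pos hp.pos _
  have h9 : m * p ^ α = e' * d := by
    apply Nat.eq_of_mul_eq_mul_left hppos
    calc p ^ α * (m * p ^ α) = m * p ^ (2 * α) := by ring
      _ = p ^ α * e' * d := h8
      _ = p ^ α * (e' * d) := by ring
  have h10 : Nat.Coprime (p ^ α) e' :=
    Nat.Coprime.pow_left _ ((Nat.Prime.coprime_iff_not_dvd hp).mpr he')
  exact h10.dvd_of_dvd_mul_left (Dvd.intro_left m h9)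

/-- At most one irreducible character lies over `θ`. -/
theorem uniq_over {θ : A → ℂ} (hθ : IsIrrCharacter A θ)
    (hinv : ∀ (g : C) (n : A), θ ⟨g * n * g⁻¹, hA.conj_mem (n : C) n.2 g⟩ = θ n)
    {φ : C → ℂ} (hφ : IsCharacter C φ) {e p α e' : ℕ} (hφ1 : ∀ a : A, φ a = e * θ a)
    (hφ0 : ∀ c, c ∉ A → φ c = 0) (hidx : A.index = p ^ (2 * α)) (he : e = p ^ α * e') (hp : p.Prime)
    (he' : ¬ p ∣ e') {ψ₁ ψ₂ : C → ℂ} (h₁ : IsIrrCharacter C ψ₁) (h₂ : IsIrrCharacter C ψ₂)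
    (o₁ : classInner (fun a : A => ψ₁ a) θ ≠ 0) (o₂ : classInner (fun a : A => ψ₂ a) θ ≠ 0) :
    ψ₁ = ψ₂ := by
  classical
  by_contra hne
  have hθc := isCharacter_of_isIrrCharacter hθ
  have hind := isCharacter_indFun A hθc
  have hnorm := Cfsg.Agent.Lib.Char.Gallagher.classInner_indFun_self_of_invariant A hθ hinv
  have hirrc : ∀ i : IrrCharacter C, IsCharacter C (i : C → ℂ) := fun i =>
    isCharacter_of_isIrrCharacter i.2
  choose m hm using fun i : IrrCharacter C => exists_nat_classInner_of_isCharacter hind (hirrc i)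
  have hsum : ∑ i : IrrCharacter C, m i * m i = p ^ (2 * α) := by
    have h1 := classInner_eq_sum_mul hind hind
    rw [hnorm, hidx] at h1
    have h2 : ((∑ i : IrrCharacter C, m i * m i : ℕ) : ℂ) = ((p ^ (2 * α) : ℕ) : ℂ) := by
      rw [h1]
      push_cast
      refine Finset.sum_congr rfl (fun i _ => ?_)
      rw [← hm, ← classInner_conj_symm (indFun A θ), hm]
      simp
    exact_mod_cast h2
  -- the two multiplicities
  have hmult : ∀ (ψ : C → ℂ) (hψ : IsIrrCharacter C ψ),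
      classInner (fun a : A => ψ a) θ ≠ 0 → p ^ α ≤ m ⟨ψ, hψ⟩ := by
    intro ψ hψ ho
    have h1 := hm ⟨ψ, hψ⟩
    simp only at h1
    have hψcl := isClassFunction_of_isCharacter (isCharacter_of_isIrrCharacter hψ)
    rw [frobenius_reciprocity A θ ψ hψcl] at h1
    have h2 : classInner (fun a : A => ψ a) θ = (m ⟨ψ, hψ⟩ : ℂ) := by
      rw [← classInner_conj_symm, h1]
      simp
    have h3 := dvd_mult A hθ hinv hφ hφ1 hφ0 hidx he hp he' hψ ho h2
    refine Nat.le_of_dvd (Nat.pos_of_ne_zero ?_) h3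
    intro h0
    rw [h0] at h2
    exact ho (by simpa using h2)
  have h1 := hmult ψ₁ h₁ o₁
  have h2 := hmult ψ₂ h₂ o₂
  have hne' : (⟨ψ₁, h₁⟩ : IrrCharacter C) ≠ ⟨ψ₂, h₂⟩ := fun h => hne (congrArg Subtype.val h)
  have h3 : ∑ i ∈ ({⟨ψ₁, h₁⟩, ⟨ψ₂, h₂⟩} : Finset (IrrCharacter C)), m i * m i ≤
      ∑ i : IrrCharacter C, m i * m i :=
    Finset.sum_le_sum_of_subset (Finset.subset_univ _)
  rw [Finset.sum_pair hne', hsum] at h3
  have hp2 : p ^ (2 * α) = p ^ α * p ^ α := by ring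
  have h4 : p ^ α * p ^ α ≤ m ⟨ψ₁, h₁⟩ * m ⟨ψ₁, h₁⟩ := Nat.mul_le_mul h1 h1
  have h5 : p ^ α * p ^ α ≤ m ⟨ψ₂, h₂⟩ * m ⟨ψ₂, h₂⟩ := Nat.mul_le_mul h2 h2
  have hpos : 0 < p ^ α * p ^ α := by
    have := pow_pos hp.pos α
    positivity
  omega

end Uniq

section Trans
variable {S : Type u} [Group S] [Fintype S]

/-- Transitivity of lying over. -/
theorem over_trans (Z S₀ : Subgroup S) [Fintype Z] [Fintype S₀] (hZ : Z ≤ S₀) {ρ : S → ℂ}
    (hρ : IsCharacter S ρ) {ν : S₀ → ℂ} (hν : IsIrrCharacter S₀ ν) {θ : Z → ℂ}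
    (hθ : IsCharacter Z θ) (h1 : classInner (fun n : S₀ => ρ n) ν ≠ 0)
    (h2 : classInner (fun z : Z => ν ⟨z, hZ z.2⟩) θ ≠ 0) :
    classInner (fun z : Z => ρ z) θ ≠ 0 := by
  classical
  obtain ⟨Ξ, hΞ, hadd⟩ := exists_char_add (isCharacter_restrict hρ S₀) hν h1
  have hc : IsCharacter Z (fun z : Z => ν ⟨z, hZ z.2⟩) :=
    isCharacter_comp_hom (isCharacter_of_isIrrCharacter hν) (Subgroup.inclusion hZ)
  have hc2 : IsCharacter Z (fun z : Z => Ξ ⟨z, hZ z.2⟩) :=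
    isCharacter_comp_hom hΞ (Subgroup.inclusion hZ)
  have h3 : (fun z : Z => ρ z) = (fun z : Z => ν ⟨z, hZ z.2⟩) + (fun z : Z => Ξ ⟨z, hZ z.2⟩) := by
    funext z
    have := congrFun hadd ⟨z, hZ z.2⟩
    exact this
  rw [h3, classInner_add_left]
  obtain ⟨a, ha⟩ := exists_nat_classInner_of_isCharacter hc hθ
  obtain ⟨b, hb⟩ := exists_nat_classInner_of_isCharacter hc2 hθ
  rw [ha] at h2 ⊢
  rw [hb]
  have h4 : a ≠ 0 := by
    rintro rfl
    simp at h2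
  exact_mod_cast (by omega : a + b ≠ 0)

/-- If only one irreducible character of `S` lies over `ν ∈ Irr S₀` and `S / S₀` is cyclic, the
inertia group of `ν` is `S₀`. -/
theorem mem_of_stabilizes (S₀ : Subgroup S) [hS₀ : S₀.Normal] [Fintype S₀]
    (hcyc : IsCyclic (S ⧸ S₀)) {ν : S₀ → ℂ} (hν : IsIrrCharacter S₀ ν)
    (huniq : ∀ ρ₁ ρ₂ : S → ℂ, IsIrrCharacter S ρ₁ → IsIrrCharacter S ρ₂ →
      classInner (fun n : S₀ => ρ₁ n) ν ≠ 0 → classInner (fun n : S₀ => ρ₂ n) ν ≠ 0 → ρ₁ = ρ₂)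
    (t : S) (ht : ∀ n : S₀, ν ⟨t * n * t⁻¹, hS₀.conj_mem (n : S) n.2 t⟩ = ν n) : t ∈ S₀ := by
  classical
  by_contra htS
  set T : Subgroup S := inertiaOf S₀ ν with hTdef
  letI : Fintype T := Fintype.ofFinite _
  have hST : S₀ ≤ T := by
    intro a ha n
    have hcl := isClassFunction_of_isCharacter (isCharacter_of_isIrrCharacter hν)
    exact hcl n ⟨a, ha⟩
  have htT : t ∈ T := ht
  let t' : T := ⟨t, htT⟩
  let N : Subgroup T := S₀.subgroupOf T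
  haveI hNn : N.Normal := Subgroup.normal_subgroupOf
  letI : Fintype N := Fintype.ofFinite _
  have ht' : t' ∉ N := fun h => htS (Subgroup.mem_subgroupOf.mp h)
  let ν' : N → ℂ := fun n => ν ⟨n.1.1, Subgroup.mem_subgroupOf.mp n.2⟩
  have hν' : IsIrrCharacter N ν' :=
    isIrrCharacter_comp_surjective hν (Subgroup.subgroupOfEquivOfLe hST).toMonoidHom
      (Subgroup.subgroupOfEquivOfLe hST).surjective
  have hinv' : ∀ (g : T) (n : N), ν' ⟨g * n * g⁻¹, hNn.conj_mem (n : T) n.2 g⟩ = ν' n := by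
    intro g n
    exact g.2 ⟨n.1.1, Subgroup.mem_subgroupOf.mp n.2⟩
  -- commutators and cyclicity
  have hcomm : ∀ a b : S ⧸ S₀, a * b = b * a := by
    letI := IsCyclic.commGroup (α := S ⧸ S₀)
    exact mul_comm
  have hab : ∀ x y : T, x * y * x⁻¹ * y⁻¹ ∈ N := by
    intro x y
    rw [Subgroup.mem_subgroupOf]
    have h1 := hcomm ((x : S) : S ⧸ S₀) ((y : S) : S ⧸ S₀)
    rw [← QuotientGroup.eq_one_iff]
    simp only [Subgroup.coe_mul, Subgroup.coe_inv, QuotientGroup.mk_mul, QuotientGroup.mk_inv]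
    rw [h1]
    group
  let f : T →* S ⧸ S₀ := (QuotientGroup.mk' S₀).comp T.subtype
  have hker : N ≤ f.ker := by
    intro n hn
    rw [MonoidHom.mem_ker]
    exact (QuotientGroup.eq_one_iff _).mpr (Subgroup.mem_subgroupOf.mp hn)
  have hcycT : IsCyclic (T ⧸ N) := by
    let F : T ⧸ N →* S ⧸ S₀ := QuotientGroup.lift N f hker
    have hF : Function.Injective F := by
      rw [injective_iff_map_eq_one]
      intro q
      obtain ⟨x, rfl⟩ := QuotientGroup.mk_surjective q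
      intro hx
      have h1 : f x = 1 := hx
      rw [QuotientGroup.eq_one_iff]
      exact Subgroup.mem_subgroupOf.mpr ((QuotientGroup.eq_one_iff _).mp h1)
    exact isCyclic_of_injective F hF
  obtain ⟨ν₁, hν₁, hext⟩ := Cfsg.Agent.S0886.result N hcycT ν' hν' hinv'
  have hν₁c := isCharacter_of_isIrrCharacter hν₁
  have hν₁irr : IsIrrCharacter N (fun n : N => ν₁ n) := by
    rwa [show (fun n : N => ν₁ n) = ν' from funext hext]
  obtain ⟨Ξ, hΞ, hdec, hcard⟩ := exists_indFun_one_eq_sum N hab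
  have hlin : ∀ ξ ∈ Ξ, (∀ n : N, (ξ : T → ℂ) n = 1) ∧
      (∀ a b : T, (ξ : T → ℂ) (a * b) = (ξ : T → ℂ) a * (ξ : T → ℂ) b) ∧
      ∀ a : T, conj ((ξ : T → ℂ) a) * (ξ : T → ℂ) a = 1 := fun ξ hξ =>
    Cfsg.Agent.Lib.Char.AbelianQuot.linear_of_over_one N hab ξ.2 ((hΞ ξ).mp hξ)
  -- a linear character nontrivial at `t`
  have hex : ∃ ξ ∈ Ξ, (ξ : T → ℂ) t' ≠ 1 := by
    by_contra hcon
    push Not at hcon
    have h1 : ∑ ξ ∈ Ξ, (ξ : T → ℂ) t' = 0 := by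
      rw [← Finset.sum_apply, ← hdec]
      exact indFun_one_of_notMem N ht'
    rw [Finset.sum_congr rfl hcon] at h1
    simp only [Finset.sum_const, nsmul_eq_mul, mul_one] at h1
    rw [hcard] at h1
    have h2 : N.index ≠ 0 := Subgroup.index_ne_zero_of_finite
    exact h2 (by exact_mod_cast h1)
  obtain ⟨ξ, hξ, hξt⟩ := hex
  have hν₂ : IsIrrCharacter T (ν₁ * (ξ : T → ℂ)) :=
    isIrr_mul_of_norm_one hν₁ (isCharacter_of_isIrrCharacter ξ.2) (hlin ξ hξ).2.2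
  -- the two characters differ
  have hne : ν₁ ≠ ν₁ * (ξ : T → ℂ) := by
    intro h0
    obtain ⟨y, hy, hy0⟩ := exists_coset_ne_zero N hab hν₁ hν₁irr t'
    have h1 : (ξ : T → ℂ) y = (ξ : T → ℂ) t' := by
      have h2 : y = t' * (t'⁻¹ * y) := by group
      have h3 := (hlin ξ hξ).1 ⟨_, hy⟩
      rw [h2, (hlin ξ hξ).2.1]
      have h4 : (ξ : T → ℂ) (t'⁻¹ * y) = 1 := h3
      rw [show t' * (t'⁻¹ * y) = y by group] at *
      rw [h4, mul_one]
    have h2 := congrFun h0 y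
    simp only [Pi.mul_apply] at h2
    apply hξt
    rw [← h1]
    have h3 : ν₁ y * 1 = ν₁ y * (ξ : T → ℂ) y := by rw [mul_one]; exact h2
    exact (mul_left_cancel₀ hy0 h3).symm
  -- both induce over `ν`
  have hres₁ : resT S₀ T hST ν₁ = ν := by
    funext n
    exact hext ⟨⟨n, hST n.2⟩, Subgroup.mem_subgroupOf.mpr n.2⟩
  have hres₂ : resT S₀ T hST (ν₁ * (ξ : T → ℂ)) = ν := by
    funext n
    have h1 := (hlin ξ hξ).1 ⟨⟨n, hST n.2⟩, Subgroup.mem_subgroupOf.mpr n.2⟩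
    have h2 := congrFun hres₁ n
    simp only [resT, Pi.mul_apply] at h2 ⊢
    rw [h2]
    rw [show (ξ : T → ℂ) ⟨n, hST n.2⟩ = 1 from h1, mul_one]
  have hone : classInner ν ν ≠ 0 := by
    rw [classInner_irr_self hν]
    exact one_ne_zero
  have h₁ : classInner (resT S₀ T hST ν₁) ν ≠ 0 := by rwa [hres₁]
  have h₂ : classInner (resT S₀ T hST (ν₁ * (ξ : T → ℂ))) ν ≠ 0 := by rwa [hres₂]
  have hT := mem_inertiaOf S₀ ν
  have hγ₁ := isIrr_indFun S₀ ν T hST hν hT hν₁ h₁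
  have hγ₂ := isIrr_indFun S₀ ν T hST hν hT hν₂ h₂
  have hγc₁ : classInner (indFun T ν₁) (indFun T ν₁) ≠ 0 := by
    rw [classInner_irr_self hγ₁]
    exact one_ne_zero
  have hγc₂ : classInner (indFun T (ν₁ * (ξ : T → ℂ))) (indFun T (ν₁ * (ξ : T → ℂ))) ≠ 0 := by
    rw [classInner_irr_self hγ₂]
    exact one_ne_zero
  have ho₁ := (core S₀ ν T hST hν hT hν₁ h₁ hγ₁ hγc₁).2
  have ho₂ := (core S₀ ν T hST hν hT hν₂ h₂ hγ₂ hγc₂).2
  have heq := huniq _ _ hγ₁ hγ₂ (by rwa [← ho₁]) (by rwa [← ho₂])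
  exact hne (eq_of_indFun_eq S₀ ν T hST hν hT hν₁ hν₂ h₁ h₂ heq)

end Trans

section Main
variable {Γ : Type u} [Group Γ] [Fintype Γ]

/-- If `C U = Γ` then `[Γ:U] = [C:C∩U]`. -/
theorem index_eq_relIndex_of_forall_mul (C U : Subgroup Γ)
    (h : ∀ g : Γ, ∃ c ∈ C, ∃ u ∈ U, g = c * u) : U.index = U.relIndex C := by
  classical
  have h1 : MulAction.orbit C ((1 : Γ) : Γ ⧸ U) = Set.univ := by
    rw [Set.eq_univ_iff_forall]
    intro q
    obtain ⟨g, rfl⟩ := QuotientGroup.mk_surjective q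
    obtain ⟨c, hc, u, hu, rfl⟩ := h g
    refine ⟨⟨c, hc⟩, ?_⟩
    show (c • ((1 : Γ) : Γ ⧸ U)) = ((c * u : Γ) : Γ ⧸ U)
    rw [MulAction.Quotient.smul_coe, smul_eq_mul, mul_one]
    exact QuotientGroup.eq.mpr (by simpa using hu)
  have h2 : MulAction.stabilizer C ((1 : Γ) : Γ ⧸ U) = U.subgroupOf C := by
    ext c
    rw [MulAction.mem_stabilizer_iff, Subgroup.mem_subgroupOf]
    show ((c : Γ) • ((1 : Γ) : Γ ⧸ U)) = ((1 : Γ) : Γ ⧸ U) ↔ _
    rw [MulAction.Quotient.smul_coe, smul_eq_mul, mul_one, QuotientGroup.eq]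
    simp
  have h3 := MulAction.index_stabilizer C ((1 : Γ) : Γ ⧸ U)
  rw [h1, h2] at h3
  rw [Subgroup.relIndex, h3, Set.ncard_univ]
  rfl

/-- The key lemma: the stabilizer of a character of `B`. -/
theorem exists_stabilizer (A B C N₀ : Subgroup Γ) [hA : A.Normal] [hB : B.Normal] [hN₀ : N₀.Normal]
    (hAB : A ≤ B) (hBC : B ≤ C) (hBN : B ≤ N₀) {θ : A → ℂ} [Fintype A] (hθ : IsIrrCharacter A θ)
    (hinv : ∀ (g : Γ) (n : A), θ ⟨g * n * g⁻¹, hA.conj_mem (n : Γ) n.2 g⟩ = θ n)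
    {φ : C → ℂ} (hφ : IsCharacter C φ) {e p α e' : ℕ}
    (hφ1 : ∀ a : A, φ ⟨a, hBC (hAB a.2)⟩ = e * θ a)
    (hφ0 : ∀ c : C, (c : Γ) ∉ A → φ c = 0) (hidx : A.relIndex C = p ^ (2 * α))
    (he : e = p ^ α * e') (hp : p.Prime) (he' : ¬ p ∣ e')
    (hcyc : IsCyclic (C ⧸ B.subgroupOf C)) (hNp : ¬ p ∣ B.relIndex N₀) :
    ∃ U : Subgroup Γ, N₀ ≤ U ∧ (∀ g : Γ, ∃ c ∈ C, ∃ u ∈ U, g = c * u) ∧ ∀ c ∈ C, c ∈ U → c ∈ B := by
  classical
  letI : Fintype C := Fintype.ofFinite _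
  letI : Fintype B := Fintype.ofFinite _
  have hAC : A ≤ C := hAB.trans hBC
  -- the level of `C`
  let Z : Subgroup C := A.subgroupOf C
  let S₀ : Subgroup C := B.subgroupOf C
  haveI hZn : Z.Normal := Subgroup.normal_subgroupOf
  haveI hS₀n : S₀.Normal := Subgroup.normal_subgroupOf
  letI : Fintype Z := Fintype.ofFinite _
  letI : Fintype S₀ := Fintype.ofFinite _
  have hZS₀ : Z ≤ S₀ := fun z hz => hAB hz
  let eZ : Z ≃* A := Subgroup.subgroupOfEquivOfLe hAC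
  let θ' : Z → ℂ := fun z => θ (eZ z)
  have hθ' : IsIrrCharacter Z θ' :=
    isIrrCharacter_comp_surjective hθ eZ.toMonoidHom eZ.surjective
  have hθ'c := isCharacter_of_isIrrCharacter hθ'
  have hinv' : ∀ (g : C) (n : Z), θ' ⟨g * n * g⁻¹, hZn.conj_mem (n : C) n.2 g⟩ = θ' n := by
    intro g n
    exact hinv (g : Γ) (eZ n)
  -- uniqueness in `C`
  have huniq : ∀ ρ₁ ρ₂ : C → ℂ, IsIrrCharacter C ρ₁ → IsIrrCharacter C ρ₂ →
      classInner (fun z : Z => ρ₁ z) θ' ≠ 0 → classInner (fun z : Z => ρ₂ z) θ' ≠ 0 → ρ₁ = ρ₂ := by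
    intro ρ₁ ρ₂ h₁ h₂ o₁ o₂
    refine uniq_over Z hθ' hinv' hφ ?_ ?_ hidx he hp he' h₁ h₂ o₁ o₂
    · intro a
      exact hφ1 (eZ a)
    · intro c hc
      exact hφ0 c hc
  -- transfer of `B`-level statements
  let eB : S₀ ≃* B := Subgroup.subgroupOfEquivOfLe hBC
  let toC : (B → ℂ) → (S₀ → ℂ) := fun ν n => ν (eB n)
  have htoC : ∀ {ν : B → ℂ}, IsIrrCharacter B ν → IsIrrCharacter S₀ (toC ν) := fun hν =>
    isIrrCharacter_comp_surjective hν eB.toMonoidHom eB.surjective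
  have hover : ∀ {ν : B → ℂ}, classInner (fun a : A => ν ⟨a, hAB a.2⟩) θ ≠ 0 →
      classInner (fun z : Z => toC ν ⟨z, hZS₀ z.2⟩) θ' ≠ 0 := by
    intro ν hν
    have h1 := classInner_comp_equiv eZ (fun a : A => ν ⟨a, hAB a.2⟩) θ
    intro h0
    apply hν
    rw [← h1]
    exact h0
  have hover2 : ∀ {ν : B → ℂ} {ρ : C → ℂ}, IsIrrCharacter B ν → IsIrrCharacter C ρ →
      classInner (fun a : A => ν ⟨a, hAB a.2⟩) θ ≠ 0 →
      classInner (fun n : S₀ => ρ n) (toC ν) ≠ 0 → classInner (fun z : Z => ρ z) θ' ≠ 0 := by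
    intro ν ρ hν hρ ho h
    exact over_trans Z S₀ hZS₀ (isCharacter_of_isIrrCharacter hρ) (htoC hν) hθ'c h (hover ho)
  -- a character of `B` over `θ`
  obtain ⟨ν, hν, ho⟩ : ∃ ν : B → ℂ, IsIrrCharacter B ν ∧
      classInner (fun a : A => ν ⟨a, hAB a.2⟩) θ ≠ 0 := by
    letI : Fintype (A.subgroupOf B) := Fintype.ofFinite _
    haveI : (A.subgroupOf B).Normal := Subgroup.normal_subgroupOf
    let eA : A.subgroupOf B ≃* A := Subgroup.subgroupOfEquivOfLe hAB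
    obtain ⟨ν, hν, h⟩ := Cfsg.Agent.Lib.Char.ItoMichler.exists_irr_over (A.subgroupOf B)
      (isIrrCharacter_comp_surjective hθ eA.toMonoidHom eA.surjective)
    refine ⟨ν, hν, ?_⟩
    have h1 := classInner_comp_equiv eA (fun a : A => ν ⟨a, hAB a.2⟩) θ
    intro h0
    apply h
    rw [h0] at h1
    exact h1
  have hνcl := isClassFunction_of_isCharacter (isCharacter_of_isIrrCharacter hν)
  let U : Subgroup Γ := inertiaOf B ν
  have hBU : B ≤ U := by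
    intro a ha n
    exact hνcl n ⟨a, ha⟩
  have hAU : A ≤ U := hAB.trans hBU
  -- elements of `C ∩ U` lie in `B`
  have hCU : ∀ c ∈ C, c ∈ U → c ∈ B := by
    intro c hc hcU
    have h1 := mem_of_stabilizes S₀ hcyc (htoC hν) (by
      intro ρ₁ ρ₂ h₁ h₂ o₁ o₂
      exact huniq ρ₁ ρ₂ h₁ h₂ (hover2 hν h₁ ho o₁) (hover2 hν h₂ ho o₂))
      ⟨c, hc⟩ (by
        intro n
        exact hcU (eB n))
    exact h1
  -- transitivity
  have htrans : ∀ g : Γ, ∃ c ∈ C, ∃ u ∈ U, g = c * u := by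
    intro g
    set ν₂ : B → ℂ := conjFun B g⁻¹ ν with hν₂
    have hν₂i : IsIrrCharacter B ν₂ := isIrr_conjFun B g⁻¹ hν
    have ho₂ : classInner (fun a : A => ν₂ ⟨a, hAB a.2⟩) θ ≠ 0 := by
      have h1 := classInner_conjFun A g⁻¹ (fun a : A => ν ⟨a, hAB a.2⟩) θ
      have h2 : conjFun A g⁻¹ θ = θ := by
        funext n
        exact hinv g⁻¹ n
      rw [h2] at h1
      have h3 : conjFun A g⁻¹ (fun a : A => ν ⟨a, hAB a.2⟩) =
          fun a : A => ν₂ ⟨a, hAB a.2⟩ := rfl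
      rw [h3] at h1
      rw [h1]
      exact ho
    obtain ⟨ρ₁, hρ₁, h₁⟩ := Cfsg.Agent.Lib.Char.ItoMichler.exists_irr_over S₀ (htoC hν)
    obtain ⟨ρ₂, hρ₂, h₂⟩ := Cfsg.Agent.Lib.Char.ItoMichler.exists_irr_over S₀ (htoC hν₂i)
    have hρ := huniq ρ₁ ρ₂ hρ₁ hρ₂ (hover2 hν hρ₁ ho h₁) (hover2 hν₂i hρ₂ ho₂ h₂)
    rw [← hρ] at h₂
    obtain ⟨c', hc'⟩ := exists_conj_of_classInner_ne_zero S₀ hρ₁ (htoC hν) (htoC hν₂i) h₁ h₂
    -- `c = c'⁻¹`
    refine ⟨(c' : Γ)⁻¹, C.inv_mem c'.2, c' * g, ?_, by group⟩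
    intro m
    have hmem : g * (m : Γ) * g⁻¹ ∈ B := hB.conj_mem (m : Γ) m.2 g
    have h3 := congrFun hc' ⟨⟨g * (m : Γ) * g⁻¹, hBC hmem⟩, Subgroup.mem_subgroupOf.mpr hmem⟩
    have hmem2 : g⁻¹ * (g * (m : Γ) * g⁻¹) * g⁻¹⁻¹ ∈ B := hB.conj_mem _ hmem g⁻¹
    have hmem3 : (c' : Γ) * (g * (m : Γ) * g⁻¹) * (c' : Γ)⁻¹ ∈ B := hB.conj_mem _ hmem c'
    have h4 : ν ⟨g⁻¹ * (g * (m : Γ) * g⁻¹) * g⁻¹⁻¹, hmem2⟩ =
        ν ⟨(c' : Γ) * (g * (m : Γ) * g⁻¹) * (c' : Γ)⁻¹, hmem3⟩ := h3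
    have h5 : (⟨g⁻¹ * (g * (m : Γ) * g⁻¹) * g⁻¹⁻¹, hmem2⟩ : B) = m :=
      Subtype.ext (by simp only; group)
    have h6 : (⟨((c' : Γ) * g) * (m : Γ) * ((c' : Γ) * g)⁻¹,
        hB.conj_mem (m : Γ) m.2 ((c' : Γ) * g)⟩ : B) =
        ⟨(c' : Γ) * (g * (m : Γ) * g⁻¹) * (c' : Γ)⁻¹, hmem3⟩ :=
      Subtype.ext (by simp only; group)
    rw [h5] at h4
    rw [h4]
    exact congrArg ν h6
  refine ⟨U, ?_, htrans, hCU⟩
  -- the index computation
  have h1 : U.index = U.relIndex C := index_eq_relIndex_of_forall_mul C U htrans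
  have h2 : U.relIndex C ∣ p ^ (2 * α) := by
    rw [← hidx]
    exact Subgroup.relIndex_dvd_of_le_left C hAU
  have h3 : U.relIndex N₀ ∣ U.index :=
    Cfsg.Agent.Lib.Nilpotent.Fitting.relIndex_dvd_index_of_normal_right U
  have h4 : U.relIndex N₀ ∣ B.relIndex N₀ := Subgroup.relIndex_dvd_of_le_left N₀ hBU
  rw [h1] at h3
  obtain ⟨j, -, hj⟩ := (Nat.dvd_prime_pow hp).mp (h3.trans h2)
  rw [← Subgroup.relIndex_eq_one]
  rw [hj] at h4 ⊢
  rcases Nat.eq_zero_or_pos j with rfl | hjpos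
  · simp
  · exact absurd ((dvd_pow_self p hjpos.ne').trans h4) hNp

end Main

end Cfsg.Agent.Lib.Char.FullyRamified2
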