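import Mathlib
import Cfsg.Agent.Lib.Char.FRHall
import Cfsg.Agent.Lib.Basic.SylowUtil
import Cfsg.Agent.Lib.Char.FullyRamified2

set_option autoImplicit false
set_option linter.style.haveILetI false

namespace Cfsg.Agent.Lib.Char.FRHall

open Cfsg Cfsg.Agent.Lib.Char.Basic Cfsg.Agent.Lib.Char.Ortho Cfsg.Agent.Lib.Char.Induced
  Cfsg.Agent.Lib.Char.IndRep Cfsg.Agent.Lib.Char.Clifford Cfsg.Agent.Lib.Char.CliffordCorr
  Cfsg.Agent.Lib.Char.GallagherAvg
open scoped ComplexConjugate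

universe u

theorem relIndex_comap_mk {H : Type*} [Group H] (Z : Subgroup H) [Z.Normal] (A : Subgroup (H ⧸ Z)) :
    Z.relIndex (A.comap (QuotientGroup.mk' Z)) = Nat.card A := by
  let f : (A.comap (QuotientGroup.mk' Z)) →* (H ⧸ Z) := (QuotientGroup.mk' Z).comp (Subgroup.subtype _)
  have hker : f.ker = Z.subgroupOf (A.comap (QuotientGroup.mk' Z)) := by
    ext x
    show ((x : H) : H ⧸ Z) = 1 ↔ (x : H) ∈ Z
    exact QuotientGroup.eq_one_iff _
  have hrange : f.range = A := by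
    ext y
    constructor
    · rintro ⟨x, rfl⟩
      exact x.2
    · intro hy
      obtain ⟨g, rfl⟩ := QuotientGroup.mk'_surjective Z y
      exact ⟨⟨g, hy⟩, rfl⟩
  show (Z.subgroupOf _).index = _
  rw [← hker, Subgroup.index_ker, hrange]

variable {H : Type u} [Group H] [Fintype H] {Z : Subgroup H} [hZ : Z.Normal] [Fintype Z]
  {χ : H → ℂ} {θ : Z → ℂ} {e : ℕ}

/-- The `r`-complement. -/
theorem exists_complement (hχ : IsIrrCharacter H χ) (hθ : IsIrrCharacter Z θ) (he : e ^ 2 = Z.index)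
    (hres : ∀ z : Z, χ z = e * θ z) (K : Subgroup H) [hKn : K.Normal] [Fintype K] (hZK : Z ≤ K)
    (φ : K → ℂ) (hφ : IsCharacter K φ) (hind : indFun K φ = χ) (r : ℕ) (hr : r.Prime) :
    ∃ U : Subgroup H, K ≤ U ∧ ¬ r ∣ K.relIndex U ∧ ∃ n, U.index = r ^ n := by
  classical
  haveI : Fact r.Prime := ⟨hr⟩
  let π : H →* H ⧸ Z := QuotientGroup.mk' Z
  have hπ : Function.Surjective π := QuotientGroup.mk'_surjective Z
  have hπker : ∀ x, π x = 1 ↔ x ∈ Z := fun x => QuotientGroup.eq_one_iff x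
  let Kh : Subgroup (H ⧸ Z) := K.map π
  haveI hKh : Kh.Normal := Subgroup.Normal.map hKn π hπ
  obtain ⟨Q₀⟩ : Nonempty (Sylow r Kh) := Sylow.nonempty
  let Qh : Subgroup (H ⧸ Z) := (Q₀ : Subgroup Kh).map Kh.subtype
  have hQhp : IsPGroup r Qh := Q₀.isPGroup'.map _
  obtain ⟨Lh, hQL⟩ := hQhp.exists_le_sylow
  let D : Subgroup H := Qh.comap π
  let L : Subgroup H := (Lh : Subgroup (H ⧸ Z)).comap π
  have hZD : Z ≤ D := by
    intro z hz
    show π z ∈ Qh
    rw [(hπker z).mpr hz]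
    exact Qh.one_mem
  have hDL : D ≤ L := fun x hx => hQL hx
  have hDK : D ≤ K := by
    intro x hx
    obtain ⟨q, -, hq⟩ := hx
    obtain ⟨k, hk, hkq⟩ := q.2
    have h1 : π (k⁻¹ * x) = 1 := by
      rw [map_mul, map_inv, hkq]
      have : π x = (q : H ⧸ Z) := hq.symm
      rw [this]
      simp
    have h2 := hZK ((hπker _).mp h1)
    have h3 := K.mul_mem hk h2
    simpa using h3
  have hLK : ∀ x ∈ L, x ∈ K → x ∈ D := by
    intro x hxL hxK
    have hM : IsPGroup r ((Lh : Subgroup (H ⧸ Z)).subgroupOf Kh) :=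
      Lh.isPGroup'.comap_of_injective Kh.subtype Kh.subtype_injective
    have hle : (Q₀ : Subgroup Kh) ≤ (Lh : Subgroup (H ⧸ Z)).subgroupOf Kh := by
      intro q hq
      exact hQL ⟨q, hq, rfl⟩
    have heq := Q₀.is_maximal' hM hle
    have hmem : (⟨π x, ⟨x, hxK, rfl⟩⟩ : Kh) ∈ (Lh : Subgroup (H ⧸ Z)).subgroupOf Kh := hxL
    rw [heq] at hmem
    exact ⟨_, hmem, rfl⟩
  -- the numbers
  have hQcard : ∃ δ, Z.relIndex D = r ^ δ := by
    obtain ⟨δ, hδ⟩ := IsPGroup.iff_card.mp hQhp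
    exact ⟨δ, by rw [relIndex_comap_mk, hδ]⟩
  obtain ⟨δ, hδ⟩ := hQcard
  set w := e.factorization r with hw
  have he0 : e ≠ 0 := Cfsg.Agent.Lib.Char.FullyRamified.e_ne_zero he
  have hLcard : Z.relIndex L = r ^ (2 * w) := by
    have h1 : Z.relIndex L = Nat.card (Lh : Subgroup (H ⧸ Z)) := relIndex_comap_mk Z _
    rw [h1, Sylow.card_eq_multiplicity, ← Subgroup.index_eq_card, ← he, Nat.factorization_pow]
    simp [hw]
  have hmulZ : Z.relIndex D * D.relIndex L = Z.relIndex L := Subgroup.relIndex_mul_relIndex Z D L hZD hDL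
  obtain ⟨c, hc, hc2⟩ : ∃ c, D.relIndex L = r ^ c ∧ δ + c = 2 * w := by
    have h1 : D.relIndex L ∣ r ^ (2 * w) := ⟨r ^ δ, by rw [← hLcard, ← hmulZ, hδ, mul_comm]⟩
    obtain ⟨c, -, hc⟩ := (Nat.dvd_prime_pow hr).mp h1
    refine ⟨c, hc, ?_⟩
    rw [hδ, hc, hLcard, ← pow_add] at hmulZ
    exact Nat.pow_right_injective hr.two_le hmulZ
  letI : Fintype D := Fintype.ofFinite D
  letI : Fintype L := Fintype.ofFinite L
  -- level of `D`
  let Z₁ : Subgroup D := Z.subgroupOf D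
  haveI hZ₁ : Z₁.Normal := Subgroup.Normal.subgroupOf hZ D
  letI : Fintype Z₁ := Fintype.ofFinite Z₁
  let E : Z₁ ≃* Z := Subgroup.subgroupOfEquivOfLe hZD
  let θ₁ : Z₁ → ℂ := fun z => θ (E z)
  have hθ₁ : IsIrrCharacter Z₁ θ₁ := isIrrCharacter_comp_surjective hθ E.toMonoidHom E.surjective
  have hθinv := Cfsg.Agent.Lib.Char.FullyRamified.invariant (θ := θ) hχ he hres
  have hinv₁ : ∀ (g : D) (n : Z₁), θ₁ ⟨g * n * g⁻¹, hZ₁.conj_mem (n : D) n.2 g⟩ = θ₁ n := by
    intro g n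
    exact hθinv g (E n)
  choose d hd using fun b : IrrCharacter D => exists_nat_classInner
    (isCharacter_restrict (isCharacter_of_isIrrCharacter b.2) Z₁) ⟨θ₁, hθ₁⟩
  have hsum := sum_sq Z₁ hθ₁ hinv₁ d hd
  have hZ₁idx : Z₁.index = r ^ δ := hδ
  rw [hZ₁idx] at hsum
  have hbres : ∀ b : IrrCharacter D, d b ≠ 0 → ∀ z : Z, (b : D → ℂ) ⟨z, hZD z.2⟩ = d b * θ z := by
    intro b hb z
    have h4 : classInner (fun n : Z₁ => (b : D → ℂ) n) θ₁ ≠ 0 := by
      rw [hd]
      exact_mod_cast hb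
    have h5 := congrFun (Cfsg.Agent.Lib.Char.GallagherAvg.res_eq_smul_of_invariant Z₁ b.2 hθ₁ h4 hinv₁) (E.symm z)
    simp only [Pi.smul_apply, smul_eq_mul] at h5
    rw [hd] at h5
    have h6 : θ₁ (E.symm z) = θ z := by
      show θ (E (E.symm z)) = θ z
      rw [MulEquiv.apply_symm_apply]
    rw [h6] at h5
    exact h5
  have hχD : IsCharacter D (fun x : D => χ x) := isCharacter_restrict (isCharacter_of_isIrrCharacter hχ) D
  have hs : ∀ b : IrrCharacter D, d b ≠ 0 → ∃ s : ℕ, classInner (fun x : D => χ x) (b : D → ℂ) = s ∧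
      s * r ^ δ = e * d b := by
    intro b hb
    obtain ⟨s, hs⟩ := exists_nat_classInner hχD b
    refine ⟨s, hs, ?_⟩
    have h1 := inner_res hχ hθ he hres D hZD (b : D → ℂ) (d b) (hbres b hb)
    rw [hs, hδ] at h1
    exact_mod_cast h1
  -- a constituent
  obtain ⟨a, ha⟩ : ∃ a, d a ≠ 0 := by
    by_contra hcon
    push Not at hcon
    have h1 : ∑ b, (d b) ^ 2 = 0 := Finset.sum_eq_zero fun b _ => by rw [hcon b]; simp
    rw [h1] at hsum
    exact (pow_pos hr.pos δ).ne hsum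
  -- the normalizer
  let Nm : Subgroup H := Subgroup.normalizer (D : Set H)
  have hLN : L ≤ Nm := by
    intro x hx
    rw [Subgroup.mem_normalizer_iff]
    intro y
    constructor
    · intro hy
      exact hLK _ (L.mul_mem (L.mul_mem hx (hDL hy)) (L.inv_mem hx)) (hKn.conj_mem y (hDK hy) x)
    · intro hy
      have h1 : y = x⁻¹ * (x * y * x⁻¹) * x⁻¹⁻¹ := by group
      rw [h1]
      exact hLK _ (L.mul_mem (L.mul_mem (L.inv_mem hx) (hDL hy)) (L.inv_mem (L.inv_mem hx)))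
        (hKn.conj_mem _ (hDK hy) x⁻¹)
  let cn : Nm →* MulAut D := D.normalizerMonoidHom
  let A : Subgroup H := (stabSub cn (a : D → ℂ)).map Nm.subtype
  have hAN : A ≤ Nm := Subgroup.map_subtype_le _
  have hAD : ∀ y ∈ A, ∀ x : H, x ∈ D ↔ y * x * y⁻¹ ∈ D :=
    fun y hy x => (Subgroup.mem_normalizer_iff.mp (hAN hy)) x
  have hAa : ∀ y ∈ A, ∀ (x : H) (hx : x ∈ D) (hy : y * x * y⁻¹ ∈ D),
      (a : D → ℂ) ⟨y * x * y⁻¹, hy⟩ = (a : D → ℂ) ⟨x, hx⟩ := by
    rintro _ ⟨y, hy, rfl⟩ x hx hyx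
    exact hy ⟨x, hx⟩
  -- the divisibility
  obtain ⟨s', T, hs', hsT⟩ := dvd_inner K φ hφ D hDK a A hAD hAa
  rw [hind] at hs'
  obtain ⟨s, hs1, hs2⟩ := hs a ha
  have hss : s' = s := by
    rw [hs1] at hs'
    exact_mod_cast hs'.symm
  rw [hss] at hsT
  set U := K ⊔ A with hU
  have hKU : K ≤ U := le_sup_left
  have hAU : A ≤ U := le_sup_right
  -- the action of `L`
  let ιL : L →* Nm := Subgroup.inclusion hLN
  let fL : L →* MulAut D := cn.comp ιL
  have hstab : stabSub fL (a : D → ℂ) = A.subgroupOf L := by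
    ext l
    constructor
    · intro h
      exact ⟨ιL l, h, rfl⟩
    · rintro ⟨y, hy, hyl⟩
      have : y = ιL l := Subtype.ext hyl
      rw [this] at hy
      exact hy
  -- constants
  have hconst : ∀ y : Nm, d (cjI cn y a) = d a := by
    intro y
    have h1 : (fun n : Z₁ => ((cjI cn y a : IrrCharacter D) : D → ℂ) n) = (d a : ℂ) • θ₁ := by
      funext n
      show (a : D → ℂ) ((cn y)⁻¹ n) = _
      have hmem : (((cn y)⁻¹ (n : D) : D) : H) = (y : H)⁻¹ * (n : H) * y := by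
        have h2 : (cn y)⁻¹ = cn y⁻¹ := (map_inv cn y).symm
        rw [h2]
        show (y⁻¹ : Nm).1 * (n : H) * ((y⁻¹ : Nm).1)⁻¹ = _
        simp
      have hz : (y : H)⁻¹ * (n : H) * y ∈ Z := by
        have := hZ.conj_mem (n : H) n.2 (y : H)⁻¹
        simpa using this
      have h3 : (cn y)⁻¹ (n : D) = ⟨(y : H)⁻¹ * (n : H) * y, hZD hz⟩ := Subtype.ext hmem
      rw [h3, hbres a ha ⟨_, hz⟩]
      simp only [Pi.smul_apply, smul_eq_mul]
      congr 1
      have h4 := hθinv (y : H)⁻¹ (E n)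
      have h5 : θ₁ n = θ (E n) := rfl
      rw [h5, ← h4]
      congr 1
      apply Subtype.ext
      show (y : H)⁻¹ * (n : H) * y = (y : H)⁻¹ * (n : H) * (y : H)⁻¹⁻¹
      rw [inv_inv]
    have h2 := hd (cjI cn y a)
    rw [h1, classInner_smul_left, classInner_irr_self hθ₁, mul_one] at h2
    exact_mod_cast h2.symm
  have hconstL : ∀ g : L, d (cjI fL g a) = d a := fun g => hconst (ιL g)
  obtain ⟨hOrb1, hOrb2⟩ := orbit_sum fL a d (r ^ δ) hsum hconstL
  rw [hstab] at hOrb1 hOrb2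
  have htt : (A.subgroupOf L).index = A.relIndex L := rfl
  rw [htt] at hOrb1 hOrb2
  -- the subgroup `I`
  let I : Subgroup H := A ⊓ L
  have hDA : D ≤ A := by
    intro x hx
    refine ⟨⟨x, ?_⟩, ?_, rfl⟩
    · exact Subgroup.le_normalizer hx
    · intro w
      have hcl := isClassFunction_of_isCharacter (isCharacter_of_isIrrCharacter a.2)
      exact hcl w ⟨x, hx⟩
  have hDI : D ≤ I := le_inf hDA hDL
  have hIL : I ≤ L := inf_le_right
  have hmulI : D.relIndex I * I.relIndex L = D.relIndex L := Subgroup.relIndex_mul_relIndex D I L hDI hIL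
  have hIrel : I.relIndex L = A.relIndex L := Subgroup.inf_relIndex_right A L
  rw [hIrel, hc] at hmulI
  obtain ⟨τ, -, hτ⟩ := (Nat.dvd_prime_pow hr).mp (Dvd.intro_left _ hmulI)
  obtain ⟨i, -, hi⟩ := (Nat.dvd_prime_pow hr).mp (Dvd.intro _ hmulI)
  have hτi : i + τ = c := by
    rw [hτ, hi, ← pow_add] at hmulI
    exact Nat.pow_right_injective hr.two_le hmulI
  have hKI : K ⊓ I = D := by
    apply le_antisymm
    · rintro x ⟨hxK, hxI⟩
      exact hLK x hxI.2 hxK
    · exact le_inf hDK hDI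
  have hdvdU : D.relIndex I ∣ K.relIndex U := by
    have h1 : K.relIndex (K ⊔ I) = K.relIndex I := Subgroup.relIndex_sup_left I K
    have h2 : (K ⊓ I).relIndex I = K.relIndex I := Subgroup.inf_relIndex_right K I
    rw [hKI] at h2
    rw [h2, ← h1]
    exact Dvd.intro _ (Subgroup.relIndex_mul_relIndex K (K ⊔ I) U le_sup_left
      (sup_le hKU (inf_le_left.trans hAU)))
  -- valuations
  have hda0 : d a ≠ 0 := ha
  have hs0 : s ≠ 0 := by
    rintro rfl
    rw [zero_mul] at hs2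
    exact (mul_ne_zero he0 ha) hs2.symm
  have hv1 : s.factorization r + δ = w + (d a).factorization r := by
    have h1 := congrArg (fun n => n.factorization r) hs2
    rw [Nat.factorization_mul hs0 (pow_ne_zero _ hr.ne_zero), Nat.factorization_mul he0 ha] at h1
    simpa [hr.factorization_self, Nat.Prime.factorization_pow hr] using h1
  have hv2 : i ≤ s.factorization r := by
    have h1 : r ^ i ∣ s := by
      rw [← hi]
      rw [hsT]
      exact Dvd.dvd.mul_right hdvdU T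
    exact (hr.pow_dvd_iff_le_factorization hs0).mp h1
  have hv3 : τ + 2 * (d a).factorization r ≤ δ := by
    have h1 : r ^ (d a).factorization r ≤ d a := Nat.le_of_dvd (Nat.pos_of_ne_zero ha) (Nat.ordProj_dvd _ _)
    have h2 : r ^ (τ + 2 * (d a).factorization r) ≤ r ^ δ := by
      calc r ^ (τ + 2 * (d a).factorization r) = r ^ τ * (r ^ (d a).factorization r) ^ 2 := by
            rw [pow_add, mul_comm 2, pow_mul]
        _ ≤ r ^ τ * (d a) ^ 2 := Nat.mul_le_mul_left _ (Nat.pow_le_pow_left h1 2)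
        _ ≤ r ^ δ := by
            rw [← hτ]
            exact hOrb1
    exact (Nat.pow_le_pow_iff_right hr.one_lt).mp h2
  have hvs : s.factorization r = 0 := by omega
  have hi0 : i = 0 := by omega
  have hτc : τ = c := by omega
  have hδc : δ = c + 2 * (d a).factorization r := by omega
  have hnr : ¬ r ∣ K.relIndex U := by
    intro h
    have h1 : r ∣ s := by
      rw [hsT]
      exact Dvd.dvd.mul_right h T
    have h2 := (hr.dvd_iff_one_le_factorization hs0).mp h1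
    omega
  refine ⟨U, hKU, hnr, ?_⟩
  -- transitivity
  have htrans : ∀ b : IrrCharacter D, d b ≠ 0 → ∃ l : L, b = cjI fL l a := by
    intro b hb
    by_contra hcon
    push Not at hcon
    have h1 := hOrb2 b hcon
    have h2 : r ^ δ ≤ A.relIndex L * (d a) ^ 2 := by
      have h3 : r ^ (d a).factorization r ≤ d a := Nat.le_of_dvd (Nat.pos_of_ne_zero ha) (Nat.ordProj_dvd _ _)
      rw [hτ, hτc]
      calc r ^ δ = r ^ c * (r ^ (d a).factorization r) ^ 2 := by
            rw [hδc, pow_add, mul_comm 2, pow_mul]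
        _ ≤ r ^ c * d a ^ 2 := Nat.mul_le_mul_left _ (Nat.pow_le_pow_left h3 2)
    have h4 : 0 < (d b) ^ 2 := pow_pos (Nat.pos_of_ne_zero hb) 2
    omega
  -- the Frattini argument
  have hfr : ∀ g : H, ∃ k ∈ K, ∃ y ∈ Nm, g = k * y := by
    intro g
    obtain ⟨n, hn, h', hh', hg⟩ := Cfsg.Agent.Lib.Basic.SylowUtil.frattini_argument' Q₀ (π g)
    obtain ⟨k, hk, rfl⟩ := hn
    obtain ⟨y₀, rfl⟩ := hπ h'
    have hy₀ : y₀ ∈ Nm := by
      rw [Subgroup.mem_normalizer_iff]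
      intro x
      have h1 := (Subgroup.mem_normalizer_iff.mp hh') (π x)
      have h2 : π y₀ * π x * (π y₀)⁻¹ = π (y₀ * x * y₀⁻¹) := by simp
      rw [h2] at h1
      exact h1
    have hz : (k * y₀)⁻¹ * g ∈ Z := by
      rw [← hπker, map_mul, map_inv, map_mul, hg]
      simp
    refine ⟨k * (y₀ * ((k * y₀)⁻¹ * g) * y₀⁻¹), K.mul_mem hk (hZK (hZ.conj_mem _ hz y₀)), y₀, hy₀, ?_⟩
    group
  have hUL : ∀ g : H, ∃ l ∈ L, ∃ u ∈ U, g = l * u := by
    intro g
    obtain ⟨k, hk, y, hy, rfl⟩ := hfr g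
    have hb : d (cjI cn ⟨y, hy⟩ a) ≠ 0 := by
      rw [hconst]
      exact ha
    obtain ⟨l, hl⟩ := htrans _ hb
    have h1 : cjI cn ⟨y, hy⟩ a = cjI cn (ιL l) a := hl
    have h2 := (cjI_eq_iff cn a _ _).mp h1
    have h3 : y⁻¹ * (l : H) ∈ A := ⟨_, h2, rfl⟩
    refine ⟨l, l.2, (l : H)⁻¹ * k * l * (y⁻¹ * (l : H))⁻¹, ?_, ?_⟩
    · refine U.mul_mem (hKU ?_) (hAU (A.inv_mem h3))
      have := hKn.conj_mem k hk (l : H)⁻¹
      simpa using this
    · group
  have hidx := Cfsg.Agent.Lib.Char.FullyRamified2.index_eq_relIndex_of_forall_mul L U hUL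
  have hdvdL : U.relIndex L ∣ r ^ (2 * w) := by
    rw [← hLcard]
    exact Subgroup.relIndex_dvd_of_le_left L (hZK.trans hKU)
  obtain ⟨n, -, hn⟩ := (Nat.dvd_prime_pow hr).mp hdvdL
  exact ⟨n, by rw [hidx, hn]⟩

end Cfsg.Agent.Lib.Char.FRHall
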