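import Mathlib
import Cfsg.Agent.Lib.Char.Galois
import Cfsg.Agent.Lib.Char.Values

/-!
# Frobenius congruences for character values

`χ(g)^(p^k) ≡ χ(g^(p^k))` modulo `p` in the ring of algebraic integers, and the consequence
`χ(a y) ≡ χ(y)` modulo any maximal ideal above `p` for a `p`-element `a` commuting with `y`.
-/

set_option autoImplicit false

namespace Cfsg.Agent.Lib.Char.FrobCong

open Cfsg

universe u

variable {G : Type u} [Group G] [Finite G]

/-- A character value as an algebraic integer. -/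
noncomputable def val {χ : G → ℂ} (hχ : IsCharacter G χ) (g : G) : AlgInt :=
  ⟨χ g, Cfsg.Agent.Lib.Char.Values.IsCharacter.isIntegral hχ g⟩

omit [Finite G] in
theorem sum_pow_sub_mem {ι : Type*} (p : ℕ) (hp : p.Prime) (s : Finset ι) (z : ι → AlgInt) :
    (∑ i ∈ s, z i) ^ p - ∑ i ∈ s, z i ^ p ∈ Ideal.span {(p : AlgInt)} := by
  classical
  induction s using Finset.induction_on with
  | empty =>
    simp [zero_pow hp.ne_zero]
  | insert a s ha ih =>
    rw [Finset.sum_insert ha, Finset.sum_insert ha]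
    obtain ⟨r, hr⟩ := exists_add_pow_prime_eq hp (z a) (∑ i ∈ s, z i)
    have h1 : (z a + ∑ i ∈ s, z i) ^ p - (z a ^ p + ∑ i ∈ s, z i ^ p) =
        ((∑ i ∈ s, z i) ^ p - ∑ i ∈ s, z i ^ p) + (p : AlgInt) * (z a * (∑ i ∈ s, z i) * r) := by
      rw [hr]; ring
    rw [h1]
    exact Ideal.add_mem _ ih (Ideal.mul_mem_right _ _ (Ideal.mem_span_singleton_self _))

/-- `χ(g)^p ≡ χ(g^p)` modulo `p`. -/
theorem val_pow_sub_mem {χ : G → ℂ} (hχ : IsCharacter G χ) (p : ℕ) (hp : p.Prime) (g : G) :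
    val hχ g ^ p - val hχ (g ^ p) ∈ Ideal.span {(p : AlgInt)} := by
  classical
  obtain ⟨n, ρ, rfl⟩ := hχ
  have hord : 0 < orderOf g := orderOf_pos g
  obtain ⟨ι, hι, z, h1, h2⟩ := Cfsg.Agent.Lib.Char.Galois.character_eigen ρ g hord
    (pow_orderOf_eq_one g)
  have hint : ∀ i, IsIntegral ℤ (z i) := fun i =>
    ⟨Polynomial.X ^ (orderOf g) - 1, Polynomial.monic_X_pow_sub_C 1 hord.ne', by
      simp [h1 i]⟩
  let z' : ι → AlgInt := fun i => ⟨z i, hint i⟩
  have e1 : val ⟨n, ρ, rfl⟩ g = ∑ i, z' i := by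
    apply Subtype.ext
    have := h2 1
    rw [pow_one] at this
    simp only [pow_one] at this
    show ρ.character g = ((∑ i, z' i : AlgInt) : ℂ)
    rw [this]
    push_cast
    rfl
  have e2 : val ⟨n, ρ, rfl⟩ (g ^ p) = ∑ i, z' i ^ p := by
    apply Subtype.ext
    show ρ.character (g ^ p) = ((∑ i, z' i ^ p : AlgInt) : ℂ)
    rw [h2 p]
    push_cast
    rfl
  rw [e1, e2]
  exact sum_pow_sub_mem p hp _ z'

/-- `χ(g)^(p^k) ≡ χ(g^(p^k))` modulo `p`. -/
theorem val_pow_pow_sub_mem {χ : G → ℂ} (hχ : IsCharacter G χ) (p : ℕ) (hp : p.Prime) (g : G)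
    (k : ℕ) : val hχ g ^ (p ^ k) - val hχ (g ^ (p ^ k)) ∈ Ideal.span {(p : AlgInt)} := by
  induction k with
  | zero => simp
  | succ k ih =>
    have h1 : val hχ g ^ (p ^ (k + 1)) - val hχ (g ^ (p ^ (k + 1))) =
        ((val hχ g ^ (p ^ k)) ^ p - (val hχ (g ^ (p ^ k))) ^ p) +
        ((val hχ (g ^ (p ^ k))) ^ p - val hχ ((g ^ (p ^ k)) ^ p)) := by
      rw [pow_succ p k, pow_mul, pow_mul]
      ring
    rw [h1]
    refine Ideal.add_mem _ ?_ (val_pow_sub_mem hχ p hp _)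
    exact Ideal.mem_of_dvd _ (sub_dvd_pow_sub_pow _ _ _) ih

/-- In a quotient of `AlgInt` by a maximal ideal containing `p`, `p`-power maps are additive. -/
theorem sub_mem_of_pow_sub_mem (p : ℕ) (hp : p.Prime) (M : Ideal AlgInt) [hM : M.IsMaximal]
    (hpM : (p : AlgInt) ∈ M) (A B : AlgInt) (k : ℕ) (h : A ^ (p ^ k) - B ^ (p ^ k) ∈ M) :
    A - B ∈ M := by
  letI : Field (AlgInt ⧸ M) := Ideal.Quotient.field M
  haveI : Fact p.Prime := ⟨hp⟩
  have hchar0 : ((p : ℕ) : AlgInt ⧸ M) = 0 := by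
    have := (Ideal.Quotient.eq_zero_iff_mem (I := M)).2 hpM
    simpa using this
  haveI : CharP (AlgInt ⧸ M) p := by
    obtain ⟨q, hq⟩ := CharP.exists (AlgInt ⧸ M)
    have hqp : q ∣ p := (CharP.cast_eq_zero_iff (AlgInt ⧸ M) q p).1 hchar0
    rcases (Nat.dvd_prime hp).1 hqp with h1 | h1
    · subst h1
      haveI := hq
      exact absurd (CharP.CharOne.subsingleton (R := AlgInt ⧸ M)) (not_subsingleton _)
    · rwa [h1] at hq
  have h2 : (Ideal.Quotient.mk M A - Ideal.Quotient.mk M B) ^ (p ^ k) = 0 := by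
    rw [sub_pow_char_pow, ← map_pow, ← map_pow, ← map_sub]
    exact (Ideal.Quotient.eq_zero_iff_mem (I := M)).2 h
  have h3 := pow_eq_zero_iff (pow_pos hp.pos k).ne' |>.1 h2
  rw [← map_sub] at h3
  exact (Ideal.Quotient.eq_zero_iff_mem (I := M)).1 h3

/-- For `a` of order `p^k` commuting with `y`, `χ(a * y) ≡ χ(y)` modulo every maximal ideal
above `p`. -/
theorem val_mul_sub_mem {χ : G → ℂ} (hχ : IsCharacter G χ) (p : ℕ) (hp : p.Prime)
    (M : Ideal AlgInt) [hM : M.IsMaximal] (hpM : (p : AlgInt) ∈ M) (a y : G) (hc : Commute a y)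
    (k : ℕ) (hk : orderOf a = p ^ k) : val hχ (a * y) - val hχ y ∈ M := by
  have hle : Ideal.span {(p : AlgInt)} ≤ M := (Ideal.span_singleton_le_iff_mem _).2 hpM
  apply sub_mem_of_pow_sub_mem p hp M hpM _ _ k
  have h1 := val_pow_pow_sub_mem hχ p hp (a * y) k
  have h2 := val_pow_pow_sub_mem hχ p hp y k
  have h3 : (a * y) ^ (p ^ k) = y ^ (p ^ k) := by
    rw [hc.mul_pow, ← hk, pow_orderOf_eq_one, one_mul]
  rw [h3] at h1
  have h4 : val hχ (a * y) ^ (p ^ k) - val hχ y ^ (p ^ k) =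
      (val hχ (a * y) ^ (p ^ k) - val hχ (y ^ (p ^ k))) -
      (val hχ y ^ (p ^ k) - val hχ (y ^ (p ^ k))) := by ring
  rw [h4]
  exact Ideal.sub_mem _ (hle h1) (hle h2)

end Cfsg.Agent.Lib.Char.FrobCong
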