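import Mathlib
import Cfsg.Agent.Lib.Char.Gagola
import Cfsg.Agent.S0199
import Cfsg.Agent.Lib.Char.FrobeniusKernel
import Cfsg.Prelude.Def_Solvable

set_option autoImplicit false

/-!
# Gagola: the support of `χ` is `O_p(G)` iff `G` is a doubly transitive Frobenius group
-/

namespace Cfsg.Agent.Lib.Char.Gagola

open Cfsg
open scoped Pointwise

universe u

/-- In an abelian group with automorphisms generating a dihedral group whose rotation is fixed point
free of odd order, the fixed points of the reflection are norms. -/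
lemma exists_mul_apply_eq {V : Type*} [CommGroup V] (W A : MulAut V)
    (hA : A * A = 1) (hAW : A * W * A = W⁻¹) (k : ℕ) (hm : W ^ (2 * k + 1) = 1)
    (hfix : ∀ v, W v = v → v = 1) (v : V) (hv : A v = v) : ∃ u, u * A u = v := by
  have hAinv : A⁻¹ = A := by
    rw [inv_eq_iff_mul_eq_one]
    exact hA
  have hAWn : ∀ (n : ℕ) (x : V), A ((W ^ n) x) = ((W ^ n)⁻¹) (A x) := by
    intro n x
    have h1 : A * W * A⁻¹ = W⁻¹ := by rw [hAinv]; exact hAW
    have h2 : A * W ^ n * A⁻¹ = (W ^ n)⁻¹ := by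
      rw [← conj_pow, h1, inv_pow]
    have h3 : A * W ^ n = (W ^ n)⁻¹ * A := by
      rw [← h2]
      group
    have := congrArg (fun φ : MulAut V => φ x) h3
    exact this
  let F : ℕ → V := fun j => ∏ i ∈ Finset.range j, (W ^ (i + 1)) v
  have hF : ∀ j, (W ^ j) (v * F j * A (F j)) = ∏ i ∈ Finset.range (2 * j + 1), (W ^ i) v := by
    intro j
    induction j with
    | zero => simp [F]
    | succ j ih =>
      have h1 : F (j + 1) = F j * (W ^ (j + 1)) v := Finset.prod_range_succ _ _
      have h2 : (W ^ (j + 1)) (v * F j * A (F j)) =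
          ∏ i ∈ Finset.range (2 * j + 1), (W ^ (i + 1)) v := by
        rw [pow_succ', MulAut.mul_apply, ih, map_prod]
        refine Finset.prod_congr rfl fun i _ => ?_
        rw [pow_succ' W i, MulAut.mul_apply]
      have h3 : (W ^ (j + 1)) (A ((W ^ (j + 1)) v)) = v := by
        rw [hAWn, hv, MulAut.apply_inv_self]
      have h4 : (W ^ (j + 1)) ((W ^ (j + 1)) v) = (W ^ (2 * j + 2)) v := by
        rw [← MulAut.mul_apply, ← pow_add]
        congr 2
        ring
      have e : 2 * (j + 1) + 1 = (2 * j + 2) + 1 := by ring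
      rw [e, Finset.prod_range_succ', pow_zero, MulAut.one_apply, Finset.prod_range_succ, ← h2, h1]
      have h5 : (W ^ (j + 1)) (v * (F j * (W ^ (j + 1)) v) * A (F j * (W ^ (j + 1)) v)) =
          (W ^ (j + 1)) (v * F j * A (F j)) *
            ((W ^ (j + 1)) ((W ^ (j + 1)) v) * (W ^ (j + 1)) (A ((W ^ (j + 1)) v))) := by
        rw [← map_mul (W ^ (j + 1)), ← map_mul (W ^ (j + 1))]
        congr 1
        rw [map_mul A]
        ac_rfl
      rw [h5, h3, h4, show 2 * j + 1 + 1 = 2 * j + 2 from rfl]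
      ac_rfl
  set T := ∏ i ∈ Finset.range (2 * k + 1), (W ^ i) v with hT
  have hTfix : W T = T := by
    have h1 : W T = ∏ i ∈ Finset.range (2 * k + 1), (W ^ (i + 1)) v := by
      rw [hT, map_prod]
      refine Finset.prod_congr rfl fun i _ => ?_
      rw [pow_succ' W i, MulAut.mul_apply]
    rw [h1, hT, Finset.prod_range_succ, Finset.prod_range_succ' (fun i => (W ^ i) v), hm,
      pow_zero, MulAut.one_apply]
  have hT1 : T = 1 := hfix T hTfix
  have h2 : v * F k * A (F k) = 1 := by
    have := hF k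
    rw [← hT, hT1] at this
    exact (map_eq_one_iff (W ^ k) (MulEquiv.injective _)).mp this
  refine ⟨(F k)⁻¹, ?_⟩
  rw [map_inv]
  have h3 : v = (F k * A (F k))⁻¹ := by
    rw [eq_inv_iff_mul_eq_one, ← mul_assoc]
    exact h2
  rw [h3, mul_inv_rev, mul_comm]


variable {G : Type u} [Group G] [Finite G] {χ : IrrCharacter G} {N : Subgroup G}

namespace TwoClass

variable {p : ℕ} [hp : Fact p.Prime]

/-- If `N` is `O_p(G)` then it is self-centralizing. -/
theorem mem_of_commute (h : TwoClass χ N) (hNp : IsPGroup p N) (hO : N = pCore p G) {g : G}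
    (hg : ∀ x ∈ N, g * x = x * g) : g ∈ N := by
  rw [hO, Cfsg.Agent.Lib.Basic.PCore.mem_pCore_iff]
  intro P
  obtain ⟨x, hx, hx1, hc⟩ := h.exists_central hNp P
  show g ∈ (P : Subgroup G)
  rw [h.sylow_eq_centralizer hNp P hx hx1 hc]
  exact Subgroup.mem_centralizer_singleton_iff.mpr (hg x hx)

/-- The case of odd `p`. -/
theorem sylow_le_of_odd (h : TwoClass χ N) (hNp : IsPGroup p N) (hO : N = pCore p G) (hp2 : p ≠ 2)
    (P : Sylow p G) : (P : Subgroup G) ≤ N := by
  classical
  have hp' : p.Prime := hp.out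
  have hNn := h.normal
  obtain ⟨x₀, hx₀, hx₀1⟩ := h.exists_ne_one
  obtain ⟨e, he0, hcard⟩ := h.card_eq hNp
  have hoddp : Odd p := hp'.odd_of_ne_two hp2
  have hoddN : Odd (p ^ e) := hoddp.pow
  -- the involution
  have h2G : 2 ∣ Nat.card G := by
    have h1 : (Subgroup.centralizer ({x₀} : Set G)).index ∣ Nat.card G := Subgroup.index_dvd_card _
    rw [h.index_centralizer hx₀ hx₀1, hcard] at h1
    refine Dvd.dvd.trans ?_ h1
    obtain ⟨r, hr⟩ := hoddN
    rw [hr]
    simp
  haveI : Fact (Nat.Prime 2) := ⟨Nat.prime_two⟩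
  obtain ⟨t, ht⟩ := exists_prime_orderOf_dvd_card' 2 h2G
  have htt : t * t = 1 := by
    have := pow_orderOf_eq_one t
    rwa [ht, pow_two] at this
  have htinv : t⁻¹ = t := inv_eq_of_mul_eq_one_left htt
  have ht1 : t ≠ 1 := by
    rintro rfl
    rw [orderOf_one] at ht
    omega
  have hpnd : ¬ p ∣ orderOf t := by
    rw [ht]
    intro hd
    exact hp2 ((Nat.prime_dvd_prime_iff_eq hp' Nat.prime_two).mp hd)
  have hfixt : ∀ n ∈ N, t * n = n * t → n = 1 := fun n hn hc => h.fix_eq_one hNp hpnd ht1 hn hc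
  have hinv : ∀ n ∈ N, t * n * t⁻¹ = n⁻¹ := by
    intro n hn
    have hm : n * (t * n * t⁻¹) ∈ N := N.mul_mem hn (hNn.conj_mem n hn t)
    have hcomm := h.comm _ hn _ (hNn.conj_mem n hn t)
    have h1 : t * (n * (t * n * t⁻¹)) = (n * (t * n * t⁻¹)) * t := by
      rw [htinv] at hcomm ⊢
      calc t * (n * (t * n * t)) = (t * n * t) * n * t := by simp only [mul_assoc]
        _ = (n * (t * n * t)) * t := by rw [← hcomm]
    have h2 := hfixt _ hm h1
    exact (eq_inv_of_mul_eq_one_right h2)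
  -- conjugates of `t` are `N`-conjugate to `t`
  have hcentral : ∀ g : G, g * t * g⁻¹ * t⁻¹ ∈ N := by
    intro g
    apply h.mem_of_commute hNp hO
    intro x hx
    have hy : g⁻¹ * x * g ∈ N := by simpa using hNn.conj_mem x hx g⁻¹
    have hty := hinv _ hy
    have hx2 := hinv x hx
    rw [htinv] at hty hx2
    have h3 : t * x * t = x⁻¹ := hx2
    have h4 : t * (g⁻¹ * x⁻¹ * g) * t = g⁻¹ * x * g := by
      have hy' : g⁻¹ * x⁻¹ * g = (g⁻¹ * x * g)⁻¹ := by group
      have hy2 : (g⁻¹ * x⁻¹ * g) ∈ N := by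
        rw [hy']; exact N.inv_mem hy
      have := hinv _ hy2
      rw [htinv] at this
      rw [this, hy', inv_inv]
    calc g * t * g⁻¹ * t⁻¹ * x = g * t * g⁻¹ * (t * x * t) * t := by
          rw [htinv]
          simp only [mul_assoc, htt, mul_one]
      _ = g * t * g⁻¹ * x⁻¹ * t := by rw [h3]
      _ = g * (t * (g⁻¹ * x⁻¹ * g) * t) * t * g⁻¹ * t := by
          simp only [mul_assoc, htt, mul_one]
          group
      _ = g * (g⁻¹ * x * g) * t * g⁻¹ * t := by rw [h4]
      _ = x * (g * t * g⁻¹ * t⁻¹) := by rw [htinv]; group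
  have hsqrt : ∀ s ∈ N, ∃ u ∈ N, u * u = s := by
    intro s hs
    obtain ⟨r, hr⟩ := hoddN
    refine ⟨s ^ (r + 1), N.pow_mem hs _, ?_⟩
    have h1 : s ^ (p ^ e) = 1 := by
      have := pow_card_eq_one' (x := (⟨s, hs⟩ : N))
      rw [hcard] at this
      simpa using congrArg Subtype.val this
    rw [← pow_add]
    have h2 : r + 1 + (r + 1) = p ^ e + 1 := by omega
    rw [h2, pow_succ, h1, one_mul]
  have hdecomp : ∀ g : G, ∃ u ∈ N, ∃ c : G, g = u * c ∧ c * t = t * c := by
    intro g
    obtain ⟨u, hu, huu⟩ := hsqrt _ (hcentral g)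
    refine ⟨u, hu, u⁻¹ * g, by group, ?_⟩
    have h1 : t * u⁻¹ * t⁻¹ = u := by
      rw [hinv _ (N.inv_mem hu), inv_inv]
    have h2 : g * t * g⁻¹ = u * t * u⁻¹ := by
      have h3 : g * t * g⁻¹ = (u * u) * t := by
        rw [huu]
        group
      rw [h3]
      calc u * u * t = u * (t * u⁻¹ * t⁻¹) * t := by rw [h1]
        _ = u * t * u⁻¹ := by group
    calc u⁻¹ * g * t = u⁻¹ * (g * t * g⁻¹) * g := by group
      _ = u⁻¹ * (u * t * u⁻¹) * g := by rw [h2]
      _ = t * (u⁻¹ * g) := by group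
  -- now the main argument
  intro z hz
  by_contra hzN
  obtain ⟨u, hu, c, rfl, hct⟩ := hdecomp z
  have hle := h.le_sylow hNp P
  have hcP : c ∈ (P : Subgroup G) := by
    have := (P : Subgroup G).mul_mem ((P : Subgroup G).inv_mem (hle hu)) hz
    simpa using this
  have hcN : c ∉ N := by
    intro hc
    exact hzN (N.mul_mem hu hc)
  let φ : N → N := fun v => ⟨c⁻¹ * v * c * (v : G)⁻¹, by
    have h1 : c⁻¹ * (v : G) * c ∈ N := by simpa using hNn.conj_mem v v.2 c⁻¹
    exact N.mul_mem h1 (N.inv_mem v.2)⟩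
  have hsurj : Function.Surjective φ := by
    rintro ⟨n, hn⟩
    obtain ⟨k, hk⟩ := isConj_iff.mp (h.isConj_mul hcN hn)
    obtain ⟨v, hv, c₁, rfl, hc₁⟩ := hdecomp k
    have hc₂ : (c₁ * c * c₁⁻¹) * t = t * (c₁ * c * c₁⁻¹) := by
      have h1 : c₁⁻¹ * t = t * c₁⁻¹ := by
        calc c₁⁻¹ * t = c₁⁻¹ * (t * c₁) * c₁⁻¹ := by group
          _ = c₁⁻¹ * (c₁ * t) * c₁⁻¹ := by rw [hc₁]
          _ = t * c₁⁻¹ := by group
      calc c₁ * c * c₁⁻¹ * t = c₁ * c * (c₁⁻¹ * t) := by group
        _ = c₁ * c * (t * c₁⁻¹) := by rw [h1]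
        _ = c₁ * (c * t) * c₁⁻¹ := by group
        _ = c₁ * (t * c) * c₁⁻¹ := by rw [hct]
        _ = (c₁ * t) * c * c₁⁻¹ := by group
        _ = (t * c₁) * c * c₁⁻¹ := by rw [hc₁]
        _ = t * (c₁ * c * c₁⁻¹) := by group
    set c₂ := c₁ * c * c₁⁻¹ with hc₂def
    have hk2 : v * c₂ * v⁻¹ = c * n := by
      rw [← hk, hc₂def]
      group
    have h3 : c⁻¹ * c₂ ∈ N := by
      have h4 : c⁻¹ * c₂ = (c⁻¹ * v⁻¹ * c) * n * v := by
        have h5 : c₂ = v⁻¹ * (c * n) * v := by
          rw [← hk2]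
          group
        rw [h5]
        group
      rw [h4]
      have h6 : c⁻¹ * v⁻¹ * c ∈ N := by simpa using hNn.conj_mem v⁻¹ (N.inv_mem hv) c⁻¹
      exact N.mul_mem (N.mul_mem h6 hn) hv
    have h7 : t * (c⁻¹ * c₂) = (c⁻¹ * c₂) * t := by
      have h8 : c⁻¹ * t = t * c⁻¹ := by
        calc c⁻¹ * t = c⁻¹ * (t * c) * c⁻¹ := by group
          _ = c⁻¹ * (c * t) * c⁻¹ := by rw [hct]
          _ = t * c⁻¹ := by group
      calc t * (c⁻¹ * c₂) = (t * c⁻¹) * c₂ := by group
        _ = (c⁻¹ * t) * c₂ := by rw [h8]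
        _ = c⁻¹ * (t * c₂) := by group
        _ = c⁻¹ * (c₂ * t) := by rw [hc₂]
        _ = (c⁻¹ * c₂) * t := by group
    have h9 := hfixt _ h3 h7
    have h10 : c₂ = c := by
      have := inv_mul_eq_one.mp h9
      exact this.symm
    rw [h10] at hk2
    refine ⟨⟨v, hv⟩, Subtype.ext ?_⟩
    show c⁻¹ * v * c * v⁻¹ = n
    calc c⁻¹ * v * c * v⁻¹ = c⁻¹ * (v * c * v⁻¹) := by group
      _ = n := by rw [hk2]; group
  have hinj : Function.Injective φ := Finite.injective_iff_surjective.mpr hsurj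
  obtain ⟨x, hx, hx1, hxc⟩ := h.exists_central hNp P
  have hφx : φ ⟨x, hx⟩ = φ 1 := by
    apply Subtype.ext
    show c⁻¹ * x * c * x⁻¹ = c⁻¹ * (1 : G) * c * (1 : G)⁻¹
    have h1 := hxc c hcP
    calc c⁻¹ * x * c * x⁻¹ = c⁻¹ * (x * c) * x⁻¹ := by group
      _ = c⁻¹ * (c * x) * x⁻¹ := by rw [h1]
      _ = c⁻¹ * (1 : G) * c * (1 : G)⁻¹ := by group
  exact hx1 (congrArg Subtype.val (hinj hφx))

/-- The case `p = 2`. -/
theorem sylow_le_of_even (h : TwoClass χ N) (hNp : IsPGroup 2 N) (hO : N = pCore 2 G)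
    (P : Sylow 2 G) : (P : Subgroup G) ≤ N := by
  classical
  haveI : Fact (Nat.Prime 2) := ⟨Nat.prime_two⟩
  haveI hNn := h.normal
  intro z hzP
  by_contra hzN
  set f : G →* G ⧸ N := QuotientGroup.mk' N with hf
  have hfs : Function.Surjective f := QuotientGroup.mk'_surjective _
  have hfker : ∀ y, f y = 1 ↔ y ∈ N := fun y => QuotientGroup.eq_one_iff y
  -- an element `α` of `P` outside `N` with square in `N`
  obtain ⟨α, hαP, hαN, hαα⟩ : ∃ α ∈ (P : Subgroup G), α ∉ N ∧ α * α ∈ N := by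
    obtain ⟨j, hj⟩ := mem_pow_eq_one (P.2 : IsPGroup 2 (P : Subgroup G)) hzP
    have hex : ∃ k, z ^ 2 ^ k ∈ N := ⟨j, by rw [hj]; exact one_mem _⟩
    have h0 : Nat.find hex ≠ 0 := by
      intro h0
      have := Nat.find_spec hex
      rw [h0] at this
      simp only [pow_zero, pow_one] at this
      exact hzN this
    obtain ⟨k, hk⟩ := Nat.exists_eq_succ_of_ne_zero h0
    refine ⟨z ^ 2 ^ k, (P : Subgroup G).pow_mem hzP _, ?_, ?_⟩
    · exact Nat.find_min hex (by omega)
    · have := Nat.find_spec hex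
      rw [hk, Nat.succ_eq_add_one, pow_succ, pow_mul, pow_two] at this
      exact this
  set a : G ⧸ N := f α with ha
  have ha1 : a ≠ 1 := fun h1 => hαN ((hfker α).mp h1)
  have haa : a * a = 1 := by
    rw [ha, ← map_mul]
    exact (hfker _).mpr hαα
  have hainv : a⁻¹ = a := inv_eq_of_mul_eq_one_left haa
  have hao : orderOf a = 2 := orderOf_eq_prime (by rw [pow_two]; exact haa) ha1
  have hQ : pCore 2 (G ⧸ N) = ⊥ := by
    subst hO
    exact Cfsg.Agent.Lib.Basic.PCore.pCore_quotient_eq_bot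
  have zp : ∀ c : G ⧸ N, ∀ j : ℕ, c ^ 2 ^ j = 1 → IsPGroup 2 (Subgroup.zpowers c) := by
    intro c j hc
    rintro ⟨y, n, rfl⟩
    refine ⟨j, ?_⟩
    apply Subtype.ext
    simp only [Subgroup.coe_pow, Subgroup.coe_one]
    change (c ^ n) ^ 2 ^ j = 1
    rw [← zpow_natCast, ← zpow_mul, mul_comm, zpow_mul, zpow_natCast, hc, one_zpow]
  have hX : IsPGroup 2 (Subgroup.zpowers a) := zp a 1 (by rw [pow_one, pow_two]; exact haa)
  by_cases hall : ∀ g : G ⧸ N, IsPGroup 2 ↥(Subgroup.zpowers a ⊔
      (Subgroup.zpowers a).map (MulAut.conj g).toMonoidHom)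
  · obtain ⟨M, hMn, hMp, hXM⟩ := Cfsg.Agent.S0199.result (Subgroup.zpowers a) hX hall
    have hM : M ≤ pCore 2 (G ⧸ N) := Cfsg.Agent.Lib.Basic.PCore.le_pCore hMn hMp
    have : a ∈ pCore 2 (G ⧸ N) := hM (hXM (Subgroup.mem_zpowers a))
    rw [hQ] at this
    exact ha1 this
  · rw [not_forall] at hall
    obtain ⟨gq, hgq⟩ := hall
    set b : G ⧸ N := gq * a * gq⁻¹ with hb
    have hbb : b * b = 1 := by
      rw [hb]
      calc gq * a * gq⁻¹ * (gq * a * gq⁻¹) = gq * (a * a) * gq⁻¹ := by group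
        _ = 1 := by rw [haa]; group
    have hbinv : b⁻¹ = b := inv_eq_of_mul_eq_one_left hbb
    set r : G ⧸ N := a * b with hr
    have hrinv : a * r * a = r⁻¹ := by
      rw [hr, mul_inv_rev, hainv, hbinv, ← mul_assoc, haa, one_mul]
    have hnot : ∀ j : ℕ, r ^ 2 ^ j ≠ 1 := by
      intro j hj
      apply hgq
      have hmap : (Subgroup.zpowers a).map (MulAut.conj gq).toMonoidHom = Subgroup.zpowers b := by
        rw [MonoidHom.map_zpowers]
        rfl
      rw [hmap]
      have hcon : ∀ y ∈ Subgroup.zpowers r, a * y * a⁻¹ ∈ Subgroup.zpowers r := by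
        rintro _ ⟨n, rfl⟩
        change a * r ^ n * a⁻¹ ∈ _
        rw [← conj_zpow, hainv, hrinv]
        exact Subgroup.zpow_mem _ (Subgroup.inv_mem _ (Subgroup.mem_zpowers r)) n
      have h1 : Subgroup.zpowers a ≤ Subgroup.normalizer (Subgroup.zpowers r : Set (G ⧸ N)) := by
        rw [Subgroup.zpowers_le, Subgroup.mem_normalizer_iff]
        intro y
        constructor
        · exact hcon y
        · intro hy
          have := hcon _ hy
          have h3 : a * (a * y * a⁻¹) * a⁻¹ = y := by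
            rw [hainv]
            calc a * (a * y * a) * a = (a * a) * y * (a * a) := by group
              _ = y := by rw [haa]; group
          rwa [h3] at this
      have h2 := (hX).to_sup_of_normal_right' (zp r j hj) h1
      refine h2.to_le (sup_le le_sup_left ?_)
      rw [Subgroup.zpowers_le]
      have : b = a * r := by
        rw [hr, ← mul_assoc, haa, one_mul]
      rw [this]
      exact Subgroup.mul_mem _ (Subgroup.mem_sup_left (Subgroup.mem_zpowers a))
        (Subgroup.mem_sup_right (Subgroup.mem_zpowers r))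
    -- lift to `G`
    obtain ⟨g, hg⟩ := hfs gq
    set β : G := g * α * g⁻¹ with hβ
    have hfβ : f β = b := by
      rw [hβ, map_mul, map_mul, map_inv, hg, ← ha]
    set ρ : G := α * β with hρ
    have hfρ : f ρ = r := by
      rw [hρ, map_mul, hfβ, ← ha]
    obtain ⟨s, hs⟩ := exists_pow_coprime Nat.prime_two ρ
    set w : G := ρ ^ 2 ^ s with hw
    have hfw : f w = r ^ 2 ^ s := by
      rw [hw, map_pow, hfρ]
    have hw1 : w ≠ 1 := by
      intro h1
      apply hnot s
      rw [← hfw, h1, map_one]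
    have hodd : Odd (orderOf w) := Nat.not_even_iff_odd.mp (fun he => hs he.two_dvd)
    obtain ⟨k, hk⟩ := hodd
    letI instN : CommGroup N :=
      { (inferInstance : Group N) with
        mul_comm := fun a b => Subtype.ext (h.comm a a.2 b b.2) }
    have hsame : ∀ y y' : G, f y = f y' → MulAut.conjNormal y = (MulAut.conjNormal y' : MulAut N) := by
      intro y y' hyy
      have hq : y'⁻¹ * y ∈ N := by
        rw [← hfker, map_mul, map_inv, hyy, inv_mul_cancel]
      ext n
      simp only [MulAut.conjNormal_apply]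
      have hcq := h.comm _ hq _ n.2
      calc y * n * y⁻¹ = y' * ((y'⁻¹ * y) * n) * (y⁻¹ * y') * y'⁻¹ := by group
        _ = y' * (n * (y'⁻¹ * y)) * (y⁻¹ * y') * y'⁻¹ := by rw [hcq]
        _ = y' * n * y'⁻¹ := by group
    let W : MulAut N := MulAut.conjNormal w
    let A : MulAut N := MulAut.conjNormal α
    have hA : A * A = 1 := by
      show MulAut.conjNormal α * MulAut.conjNormal α = 1
      rw [← map_mul, hsame (α * α) 1 (by rw [map_mul, ← ha, haa, map_one]), map_one]
    have hAW : A * W * A = W⁻¹ := by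
      show MulAut.conjNormal α * MulAut.conjNormal w * MulAut.conjNormal α = (MulAut.conjNormal w)⁻¹
      rw [← map_mul, ← map_mul, ← map_inv]
      apply hsame
      rw [map_mul, map_mul, map_inv, hfw, ← ha]
      have h1 : a * r ^ 2 ^ s * a⁻¹ = (a * r * a⁻¹) ^ 2 ^ s := (conj_pow).symm
      rw [hainv] at h1
      rw [h1, hrinv, inv_pow]
    have hm : W ^ (2 * k + 1) = 1 := by
      show (MulAut.conjNormal w) ^ (2 * k + 1) = 1
      rw [← map_pow, ← hk, pow_orderOf_eq_one, map_one]
    have hfix : ∀ v : N, W v = v → v = 1 := by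
      intro v hv
      have h1 : w * v * w⁻¹ = v := by
        have := congrArg Subtype.val hv
        simpa [W, MulAut.conjNormal_apply] using this
      have h2 : w * v = v * w := by
        calc w * v = (w * v * w⁻¹) * w := by group
          _ = v * w := by rw [h1]
      exact Subtype.ext (h.fix_eq_one hNp hs hw1 v.2 h2)
    have Hnorm := exists_mul_apply_eq (V := N) W A hA hAW k hm hfix
    obtain ⟨x, hx, hx1, hxc⟩ := h.exists_central hNp P
    have hxα : α * x = x * α := hxc α hαP
    have hAval : ∀ v : N, ((A v : N) : G) = α * v * α⁻¹ := fun v => MulAut.conjNormal_apply α v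
    let s₁ : N := ⟨(α * α)⁻¹, N.inv_mem hαα⟩
    have hs₁ : A s₁ = s₁ := by
      apply Subtype.ext
      rw [hAval]
      show α * (α * α)⁻¹ * α⁻¹ = (α * α)⁻¹
      group
    let x' : N := ⟨x, hx⟩
    have hx' : A x' = x' := by
      apply Subtype.ext
      rw [hAval]
      show α * x * α⁻¹ = x
      rw [hxα]
      group
    obtain ⟨u₁, hu₁⟩ := Hnorm s₁ hs₁
    obtain ⟨u₂, hu₂⟩ := Hnorm (s₁ * x') (by rw [map_mul, hs₁, hx'])
    have hsq : ∀ u : N, (α * u) * (α * u) = (α * α) * ((u : G) * ((A u : N) : G)) := by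
      intro u
      rw [hAval]
      have hc : α * u * α⁻¹ ∈ N := hNn.conj_mem u u.2 α
      calc (α * u) * (α * u) = (α * u * α⁻¹) * (α * α) * u := by group
        _ = (α * α) * (α * u * α⁻¹) * u := by rw [h.comm _ hc _ hαα]
        _ = (α * α) * ((α * u * α⁻¹) * u) := by rw [mul_assoc]
        _ = (α * α) * (u * (α * u * α⁻¹)) := by rw [h.comm _ hc _ u.2]
    have h1 : (α * u₁) * (α * u₁) = 1 := by
      rw [hsq]
      have : (u₁ : G) * ((A u₁ : N) : G) = (α * α)⁻¹ := congrArg Subtype.val hu₁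
      rw [this, mul_inv_cancel]
    have h2 : (α * u₂) * (α * u₂) = x := by
      rw [hsq]
      have : (u₂ : G) * ((A u₂ : N) : G) = (α * α)⁻¹ * x := congrArg Subtype.val hu₂
      rw [this]
      group
    have hc1 := h.isConj_mul hαN u₁.2
    have hc2 := h.isConj_mul hαN u₂.2
    obtain ⟨g₂, hg₂⟩ := isConj_iff.mp (hc1.symm.trans hc2)
    apply hx1
    rw [← h2, ← hg₂]
    calc g₂ * (α * u₁) * g₂⁻¹ * (g₂ * (α * u₁) * g₂⁻¹) = g₂ * ((α * u₁) * (α * u₁)) * g₂⁻¹ := by group
      _ = 1 := by rw [h1]; group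

/-- If the support of `χ` is `O_p(G)` then it is a Sylow subgroup. -/
theorem sylow_eq_of_eq_pCore (h : TwoClass χ N) (hNp : IsPGroup p N) (hO : N = pCore p G)
    (P : Sylow p G) : (P : Subgroup G) = N := by
  refine le_antisymm ?_ (h.le_sylow hNp P)
  by_cases hp2 : p = 2
  · subst hp2
    exact h.sylow_le_of_even hNp hO P
  · exact h.sylow_le_of_odd hNp hO hp2 P

/-- The Frobenius structure when `N = O_p(G)`. -/
theorem exists_frobenius (hG : 2 < Nat.card G) (h : TwoClass χ N) (hNp : IsPGroup p N)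
    (hO : N = pCore p G) :
    ∃ H : Subgroup G, IsFrobeniusComplement H ∧ frobeniusKernel H = (N : Set G) ∧
      Nat.card H + 1 = Nat.card N := by
  classical
  haveI hNn := h.normal
  have hp' : p.Prime := hp.out
  have hsyl := h.sylow_eq_of_eq_pCore hNp hO
  have hcent : ∀ x ∈ N, x ≠ 1 → Subgroup.centralizer ({x} : Set G) = N := by
    intro x hx hx1
    obtain ⟨Q, hQ⟩ := h.exists_sylow_centralizer hNp hx hx1
    rw [hQ, hsyl]
  obtain ⟨x₀, hx₀, hx₀1⟩ := h.exists_ne_one
  have hidx : N.index = Nat.card N - 1 := by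
    have := h.index_centralizer hx₀ hx₀1
    rwa [hcent x₀ hx₀ hx₀1] at this
  have hNpos : 1 ≤ Nat.card N := Nat.card_pos
  have hcop : Nat.Coprime (Nat.card N) N.index := by
    rw [hidx]
    exact (Nat.coprime_self_sub_right hNpos).mpr (Nat.coprime_one_right _)
  obtain ⟨H, hH⟩ := Subgroup.exists_right_complement'_of_coprime hcop
  have hcard : Nat.card N * Nat.card H = Nat.card G := hH.card_mul_card
  have hcard2 : Nat.card N * N.index = Nat.card G := N.card_mul_index
  have hHcard : Nat.card H = Nat.card N - 1 := by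
    rw [← hidx]
    exact Nat.eq_of_mul_eq_mul_left (by omega) (hcard.trans hcard2.symm)
  have hdisj : ∀ y, y ∈ N → y ∈ H → y = 1 := by
    intro y hyN hyH
    have := hH.disjoint
    exact Subgroup.disjoint_def.mp this hyN hyH
  have hdec : ∀ g : G, ∃ n ∈ N, ∃ k ∈ H, g = n * k := by
    intro g
    obtain ⟨⟨n, k⟩, hnk⟩ := hH.2 g
    exact ⟨n, n.2, k, k.2, hnk.symm⟩
  have hNcard1 : Nat.card N ≠ 1 := fun h1 => h.ne_bot (Subgroup.card_eq_one.mp h1)
  have hHbot : H ≠ ⊥ := by
    rintro rfl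
    rw [Subgroup.card_bot] at hcard hHcard
    have : Nat.card N = 2 := by omega
    rw [this] at hcard
    omega
  have hHtop : H ≠ ⊤ := by
    rintro rfl
    have h1 : Nat.card (⊤ : Subgroup G) = Nat.card G := Nat.card_congr Subgroup.topEquiv.toEquiv
    rw [h1] at hcard
    have hGpos : 0 < Nat.card G := Nat.card_pos
    have : Nat.card N = 1 := by
      have h2 : Nat.card N * Nat.card G = 1 * Nat.card G := by rw [hcard, one_mul]
      exact Nat.eq_of_mul_eq_mul_right hGpos h2
    exact hNcard1 this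
  refine ⟨H, ⟨hHbot, hHtop, ?_⟩, ?_, by omega⟩
  · intro g hg
    rw [eq_bot_iff]
    rintro y ⟨hyH, hyg⟩
    have hyg' : g⁻¹ * y * g ∈ H := Cfsg.Agent.Lib.Char.FrobeniusKernel.mem_conj_smul_iff.mp hyg
    obtain ⟨n, hn, k, hk, rfl⟩ := hdec g
    have hn1 : n ≠ 1 := by
      rintro rfl
      rw [one_mul] at hg
      exact hg hk
    set h'' : G := n⁻¹ * y * n with hh''
    have hh''H : h'' ∈ H := by
      have := H.mul_mem (H.mul_mem hk hyg') (H.inv_mem hk)
      convert this using 1
      rw [hh'']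
      group
    have h1 : h''⁻¹ * y ∈ N := by
      have : h''⁻¹ * y = n⁻¹ * (y⁻¹ * n * y) := by
        rw [hh'']
        group
      rw [this]
      exact N.mul_mem (N.inv_mem hn) (by simpa using hNn.conj_mem n hn y⁻¹)
    have h2 : h''⁻¹ * y ∈ H := H.mul_mem (H.inv_mem hh''H) hyH
    have h3 := hdisj _ h1 h2
    have h4 : y = h'' := (inv_mul_eq_one.mp h3).symm
    have h5 : y * n = n * y := by
      have h6 : n⁻¹ * y * n = y := h4.symm
      calc y * n = n * (n⁻¹ * y * n) := by group
        _ = n * y := by rw [h6]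
    have h6 : y ∈ Subgroup.centralizer ({n} : Set G) := Subgroup.mem_centralizer_singleton_iff.mpr h5
    rw [hcent n hn hn1] at h6
    exact hdisj y h6 hyH
  · ext x
    simp only [frobeniusKernel, Set.mem_ofPred_eq, SetLike.mem_coe]
    constructor
    · rintro (rfl | hx)
      · exact one_mem _
      · by_contra hxN
        obtain ⟨n, hn, k, hk, rfl⟩ := hdec x
        have hkN : k ∉ N := by
          intro hkN
          exact hxN (N.mul_mem hn hkN)
        -- `k` acts without fixed points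
        let F : N → N := fun u => ⟨u * k * (u : G)⁻¹ * k⁻¹, by
          have h1 : k * (u : G)⁻¹ * k⁻¹ ∈ N := hNn.conj_mem _ (N.inv_mem u.2) k
          have h2 : (u : G) * k * (u : G)⁻¹ * k⁻¹ = u * (k * (u : G)⁻¹ * k⁻¹) := by group
          rw [h2]
          exact N.mul_mem u.2 h1⟩
        have hFinj : Function.Injective F := by
          intro u v huv
          have h1 : (u : G) * k * (u : G)⁻¹ * k⁻¹ = v * k * (v : G)⁻¹ * k⁻¹ :=
            congrArg Subtype.val huv
          have h2 : (u : G) * k * (u : G)⁻¹ = v * k * (v : G)⁻¹ := mul_right_cancel h1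
          have h3 : ((v : G)⁻¹ * u) * k = k * ((v : G)⁻¹ * u) := by
            calc ((v : G)⁻¹ * u) * k = (v : G)⁻¹ * ((u : G) * k * (u : G)⁻¹) * u := by group
              _ = (v : G)⁻¹ * ((v : G) * k * (v : G)⁻¹) * u := by rw [h2]
              _ = k * ((v : G)⁻¹ * u) := by group
          by_contra hne
          have hw : (v : G)⁻¹ * u ∈ N := N.mul_mem (N.inv_mem v.2) u.2
          have hw1 : (v : G)⁻¹ * u ≠ 1 := by
            intro h4
            apply hne
            apply Subtype.ext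
            exact (inv_mul_eq_one.mp h4).symm
          have h5 : k ∈ Subgroup.centralizer ({(v : G)⁻¹ * u} : Set G) :=
            Subgroup.mem_centralizer_singleton_iff.mpr h3.symm
          rw [hcent _ hw hw1] at h5
          exact hkN h5
        obtain ⟨⟨u, hu⟩, hun⟩ := (Finite.injective_iff_surjective.mp hFinj) ⟨n, hn⟩
        have h1 : u * k * u⁻¹ * k⁻¹ = n := congrArg Subtype.val hun
        apply hx u
        apply Cfsg.Agent.Lib.Char.FrobeniusKernel.mem_conj_smul_iff.mpr
        have h2 : u⁻¹ * (n * k) * u = k := by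
          rw [← h1]
          group
        rw [h2]
        exact hk
    · intro hx
      by_cases hx1 : x = 1
      · exact Or.inl hx1
      · refine Or.inr fun g hg => hx1 ?_
        have hg' : g⁻¹ * x * g ∈ H := Cfsg.Agent.Lib.Char.FrobeniusKernel.mem_conj_smul_iff.mp hg
        have hgN : g⁻¹ * x * g ∈ N := by simpa using hNn.conj_mem x hx g⁻¹
        have h1 := hdisj _ hgN hg'
        have h2 : x = g * (g⁻¹ * x * g) * g⁻¹ := by group
        rw [h2, h1]
        group

/-- Conversely a Frobenius structure forces `N = O_p(G)`. -/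
theorem eq_pCore_of_frobenius (h : TwoClass χ N) (hNp : IsPGroup p N) {H : Subgroup G}
    (hH : IsFrobeniusComplement H) (hk : frobeniusKernel H = (N : Set G))
    (hc : Nat.card H + 1 = Nat.card N) : N = pCore p G := by
  haveI hNn := h.normal
  have hp' : p.Prime := hp.out
  obtain ⟨N', hN', -, hcomp⟩ := Cfsg.Agent.Lib.Char.FrobeniusKernel.frobenius_theorem H hH
  have hNN' : N' = N := SetLike.coe_injective (hN'.trans hk)
  subst hNN'
  have hcard : Nat.card N' * Nat.card H = Nat.card G := hcomp.card_mul_card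
  have hcard2 : Nat.card N' * N'.index = Nat.card G := N'.card_mul_index
  have hidx : N'.index = Nat.card H :=
    Nat.eq_of_mul_eq_mul_left Nat.card_pos (hcard2.trans hcard.symm)
  refine le_antisymm (Cfsg.Agent.Lib.Basic.PCore.le_pCore hNn hNp) ?_
  have hnd : ¬ p ∣ N'.index := by
    rw [hidx]
    obtain ⟨e, he0, hcardN⟩ := h.card_eq hNp
    intro hd
    have h1 : p ∣ Nat.card N' := by
      rw [hcardN]
      exact dvd_pow_self p he0
    have h2 : p ∣ 1 := by
      have := Nat.dvd_sub h1 hd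
      rw [← hc] at this
      simpa using this
    exact hp'.one_lt.ne' (Nat.dvd_one.mp h2)
  have := Cfsg.Agent.Lib.Basic.PCore.pCore_le_sylow (p := p) (hNp.toSylow hnd)
  simpa using this


end TwoClass

end Cfsg.Agent.Lib.Char.Gagola
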