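import Mathlib
import Cfsg.Agent.Lib.Basic.Q8Act
import Cfsg.Agent.Lib.Basic.QuatAut
import Cfsg.Agent.Lib.Char.NormExt
import Cfsg.Agent.Lib.Basic.PCore
import Cfsg.Agent.Lib.PGroup.QdExt
import Cfsg.Agent.Lib.Components.Fitting
import Cfsg.Agent.Lib.Transfer.Basic
import Cfsg.Agent.Lib.Char.Gagola
import Cfsg.Agent.Lib.Frobenius.SylowFpf

set_option autoImplicit false

namespace Cfsg.Agent.Lib.Char.GagolaSolv

open Equiv Subgroup Cfsg.Agent.Lib.Basic.Q8Act Cfsg.Agent.Lib.Basic.KleinS4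
open scoped commutatorElement

universe u

variable {X : Type u} [Group X] [Finite X]

section RhoGen

variable {Q : Type*} [Group Q] (T : Subgroup X) [hT : T.Normal] (e : T ≃* Q)

/-- The embedding of `Q` as `T`. -/
def iota : Q →* X := T.subtype.comp e.symm.toMonoidHom

lemma iota_inj : Function.Injective (iota T e) := fun a b h =>
  e.symm.injective (T.subtype_injective h)

/-- The conjugation action, transported to `Q`. -/
def rho : X →* MulAut Q := (MulAut.congr e).toMonoidHom.comp MulAut.conjNormal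

lemma iota_rho (h : X) (x : Q) : iota T e (rho T e h x) = h * iota T e x * h⁻¹ := by
  simp [iota, rho, MulAut.congr]

lemma rho_eq_one_iff (h : X) : rho T e h = 1 ↔ ∀ x, h * iota T e x * h⁻¹ = iota T e x := by
  constructor
  · intro h1 x
    rw [← iota_rho, h1]
    rfl
  · intro h1
    ext x
    apply iota_inj T e
    rw [iota_rho, h1]
    rfl

lemma mem_iff (u : X) : u ∈ T ↔ ∃ x, iota T e x = u := by
  constructor
  · intro hu
    exact ⟨e ⟨u, hu⟩, by simp [iota]⟩
  · rintro ⟨x, rfl⟩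
    exact (e.symm x).2

lemma mem_centralizer_of_rho {g : X} (h : rho T e g = 1) : g ∈ centralizer (T : Set X) := by
  rw [mem_centralizer_iff]
  intro u hu
  obtain ⟨x, rfl⟩ := (mem_iff T e u).mp hu
  have := (rho_eq_one_iff T e g).mp h x
  exact (mul_inv_eq_iff_eq_mul.mp this).symm

end RhoGen

section Rho

variable (T : Subgroup X) [hT : T.Normal] (e : T ≃* Q8)

lemma z_central (h : X) : h * iota T e zz * h⁻¹ = iota T e zz := by
  rw [← iota_rho, map_zz]

lemma z_comm (h : X) : h * iota T e zz = iota T e zz * h :=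
  mul_inv_eq_iff_eq_mul.mp (z_central T e h)

lemma z_mul_z : iota T e zz * iota T e zz = 1 := by
  rw [← map_mul, zz_mul_zz, map_one]

lemma z_ne_one : iota T e zz ≠ 1 := by
  intro h
  exact zz_ne_one (iota_inj T e (by rw [h, map_one]))

lemma rho_z : rho T e (iota T e zz) = 1 := by
  rw [rho_eq_one_iff]
  intro x
  have h1 := z_comm T e (iota T e x)
  rw [← h1]
  group

lemma inv_z (hinv : ∀ u v : X, u * u = 1 → v * v = 1 → u ≠ 1 → v ≠ 1 → u * v = v * u → u = v)
    (y : X) (hy : y * y = 1) : y = 1 ∨ y = iota T e zz := by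
  by_cases h : y = 1
  · exact Or.inl h
  · exact Or.inr (hinv y _ hy (z_mul_z T e) h (z_ne_one T e) (z_comm T e y))

/-- A `2`-element centralizing `T ≅ Q₈` lies in `Z(T)`. -/
lemma central_two (hinv : ∀ u v : X, u * u = 1 → v * v = 1 → u ≠ 1 → v ≠ 1 → u * v = v * u → u = v)
    (k : ℕ) : ∀ y : X, rho T e y = 1 → y ^ (2 ^ k) = 1 → y = 1 ∨ y = iota T e zz := by
  induction k with
  | zero =>
    intro y _ hy
    left
    simpa using hy
  | succ k ih =>
    intro y hy1 hy2
    have h1 : (y * y) ^ (2 ^ k) = 1 := by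
      rw [← pow_two, ← pow_mul, ← pow_succ']
      exact hy2
    have h2 : rho T e (y * y) = 1 := by rw [map_mul, hy1, one_mul]
    rcases ih (y * y) h2 h1 with h3 | h3
    · exact inv_z T e hinv y h3
    exfalso
    -- `y² = z`
    set i : X := iota T e (QuaternionGroup.a 1) with hi
    have hii : i * i = iota T e zz := by
      rw [hi, ← map_mul]
      rfl
    have hyi : y * i = i * y := by
      have := (rho_eq_one_iff T e y).mp hy1 (QuaternionGroup.a 1)
      exact mul_inv_eq_iff_eq_mul.mp this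
    have h4 : (y * i) * (y * i) = 1 := by
      calc (y * i) * (y * i) = y * (i * y) * i := by simp only [mul_assoc]
        _ = y * (y * i) * i := by rw [hyi]
        _ = (y * y) * (i * i) := by simp only [mul_assoc]
        _ = 1 := by rw [h3, hii, z_mul_z]
    have h5 : ∃ w : Q8, y = iota T e w := by
      rcases inv_z T e hinv _ h4 with h6 | h6
      · refine ⟨(QuaternionGroup.a 1)⁻¹, ?_⟩
        rw [map_inv]
        exact eq_inv_of_mul_eq_one_left h6
      · refine ⟨zz * (QuaternionGroup.a 1)⁻¹, ?_⟩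
        rw [map_mul, map_inv, ← h6, ← hi]
        group
    obtain ⟨w, rfl⟩ := h5
    have h6 : ∀ u, w * u = u * w := by
      intro u
      have h7 := (rho_eq_one_iff T e (iota T e w)).mp hy1 u
      have h8 := mul_inv_eq_iff_eq_mul.mp h7
      rw [← map_mul, ← map_mul] at h8
      exact iota_inj T e h8
    rcases q_center w h6 with rfl | rfl
    · rw [map_one, one_mul] at h3
      exact z_ne_one T e h3.symm
    · rw [z_mul_z] at h3
      exact z_ne_one T e h3.symm

/-- The action on the classes. -/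
def piT : X →* Perm (Fin 3) := aut3.comp (rho T e)

lemma star (hinv : ∀ u v : X, u * u = 1 → v * v = 1 → u ≠ 1 → v ≠ 1 → u * v = v * u → u = v)
    {y α : X} (hy : piT T e y = 1) (hα : ∀ i, piT T e α i ≠ i)
    {N : ℕ} (hN : Odd N) (hc : (y * α * y⁻¹ * α⁻¹) ^ N = 1) (k : ℕ) (hyk : y ^ (2 ^ k) = 1) :
    y = 1 ∨ y = iota T e zz := by
  have h1 : piT T e (y * α * y⁻¹ * α⁻¹) = 1 := by
    rw [map_mul, map_mul, map_mul, map_inv, map_inv, hy]
    group
  have h2 : rho T e (y * α * y⁻¹ * α⁻¹) = 1 := by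
    apply odd_trivial _ h1 hN
    rw [← map_pow, hc, map_one]
  have h3 : rho T e y * rho T e α = rho T e α * rho T e y := by
    rw [map_mul, map_mul, map_mul, map_inv, map_inv] at h2
    have h4 := mul_inv_eq_one.mp h2
    exact mul_inv_eq_iff_eq_mul.mp h4
  have h5 := commute_trivial _ _ h3 hy hα
  exact central_two T e hinv k y h5 hyk

end Rho

lemma s3_even_pow : ∀ σ : Perm (Fin 3), Perm.sign σ = 1 → σ ^ 3 = 1 := by decide

lemma s3_comm : ∀ a b : Perm (Fin 3), Perm.sign a = 1 → Perm.sign b = 1 → a * b = b * a := by decide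

/-- Bound on the `2`-part. -/
lemma not_eight_dvd (Q : Subgroup X) (π : X →* Perm (Fin 3)) (z : X)
    (h : ∀ y ∈ Q, π y = 1 → (∃ k : ℕ, y ^ (2 ^ k) = 1) → y = 1 ∨ y = z) : ¬ 8 ∣ Nat.card Q := by
  classical
  intro h8
  obtain ⟨Θ, hΘ⟩ := Sylow.exists_subgroup_card_pow_prime (G := Q) 2 (n := 3)
    (by simpa using h8)
  let φ : Θ →* ℤˣ := Perm.sign.comp (π.comp (Q.subtype.comp Θ.subtype))
  have hker : ∀ y : φ.ker, (((y : Θ) : Q) : X) = 1 ∨ (((y : Θ) : Q) : X) = z := by
    intro y
    have h1 : φ (y : Θ) = 1 := y.2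
    have h2 : ((((y : Θ) : Q) : X)) ^ (2 ^ 3) = 1 := by
      have h3 : (y : Θ) ^ Nat.card Θ = 1 := pow_card_eq_one'
      rw [hΘ] at h3
      have h4 := congrArg (fun t : Θ => ((t : Q) : X)) h3
      simpa using h4
    have h5 : π (((y : Θ) : Q) : X) = 1 := by
      have h6 := s3_even_pow _ h1
      have h7 : (π (((y : Θ) : Q) : X)) ^ (2 ^ 3) = 1 := by
        rw [← map_pow, h2, map_one]
      have h8 : π (((y : Θ) : Q) : X) ^ Nat.gcd 3 (2 ^ 3) = 1 := pow_gcd_eq_one.mpr ⟨h6, h7⟩
      simpa using h8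
    exact h _ ((y : Θ) : Q).2 h5 ⟨3, h2⟩
  have hcardker : Nat.card φ.ker ≤ 2 := by
    have hinj : Function.Injective (fun y : φ.ker => decide ((((y : Θ) : Q) : X) = 1)) := by
      intro a b hab
      apply Subtype.ext
      apply Subtype.ext
      apply Subtype.ext
      have h1 : ((((a : Θ) : Q) : X) = 1) ↔ (((b : Θ) : Q) : X) = 1 := by
        simpa using hab
      rcases hker a with ha | ha <;> rcases hker b with hb | hb
      · rw [ha, hb]
      · rw [ha]
        exact (h1.mp ha).symm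
      · rw [hb]
        exact h1.mpr hb
      · rw [ha, hb]
    have := Nat.card_le_card_of_injective _ hinj
    simpa using this
  have hcardrange : Nat.card φ.range ≤ 2 := by
    have h1 : Nat.card φ.range ≤ Nat.card ℤˣ := Subgroup.card_le_card_group _
    have h2 : Nat.card ℤˣ = 2 := by
      rw [Nat.card_eq_fintype_card]
      rfl
    omega
  have h3 := Subgroup.card_mul_index φ.ker
  rw [Subgroup.index_ker, hΘ] at h3
  have h4 : Nat.card φ.ker * Nat.card φ.range ≤ 2 * 2 := Nat.mul_le_mul hcardker hcardrange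
  omega

/-- Arithmetic of the contradiction. -/
lemma arith {c M d : ℕ} (hc : Odd c) (h4 : 4 ∣ c * M) (h8 : ¬ 8 ∣ c * M) (hM : M + 1 = 3 ^ d) :
    False := by
  have h1 : 4 ∣ M := by
    have : Nat.Coprime 4 c := Nat.Coprime.symm (Nat.Coprime.pow_right 2 (Nat.coprime_two_right.mpr hc))
    exact this.dvd_of_dvd_mul_left h4
  have h2 : ∀ d : ℕ, 3 ^ d % 8 = 1 ∨ 3 ^ d % 8 = 3 := by
    intro d
    induction d with
    | zero => left; rfl
    | succ d ih =>
      rw [pow_succ, Nat.mul_mod]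
      rcases ih with h | h <;> rw [h] <;> simp
  have h2' := h2 d
  have h3 : 8 ∣ M := by omega
  exact h8 (h3.trans (dvd_mul_left _ _))


lemma odd_card_sylow {p : ℕ} [hp : Fact p.Prime] (hp2 : p ≠ 2) (P : Sylow p X) :
    Odd (Nat.card (P : Subgroup X)) := by
  obtain ⟨n, hn⟩ := IsPGroup.iff_card.mp P.2
  rw [hn]
  exact (hp.out.odd_of_ne_two hp2).pow

lemma card_normalizer_eq (H : Subgroup X) :
    Nat.card (normalizer (H : Set X)) = Nat.card H * H.relIndex (normalizer (H : Set X)) := by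
  have h1 := Subgroup.card_mul_index (H.subgroupOf (normalizer (H : Set X)))
  have h2 : Nat.card (H.subgroupOf (normalizer (H : Set X))) = Nat.card H :=
    Nat.card_congr (subgroupOfEquivOfLe le_normalizer).toEquiv
  rw [h2] at h1
  exact h1.symm

/-- The case `O₂(X) ≅ Q₈`. -/
theorem q8_case {p : ℕ} [hp : Fact p.Prime] (hp2 : p ≠ 2) (T : Subgroup X) [T.Normal] (e : T ≃* Q8)
    (hinv : ∀ u v : X, u * u = 1 → v * v = 1 → u ≠ 1 → v ≠ 1 → u * v = v * u → u = v)
    (P : Sylow p X) (d : ℕ)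
    (hd : (P : Subgroup X).relIndex (normalizer ((P : Subgroup X) : Set X)) + 1 = p ^ d)
    (g : X) (hg : g ∈ commutator X) (k : ℕ) (hgk : g ^ (p ^ k) = 1) (hgT : rho T e g ≠ 1) :
    False := by
  classical
  have hpodd : Odd p := hp.out.odd_of_ne_two hp2
  have hpkodd : Odd (p ^ k) := hpodd.pow
  have hπg : piT T e g ≠ 1 := by
    intro h
    apply hgT
    apply odd_trivial _ h hpkodd
    rw [← map_pow, hgk, map_one]
  have hπgk : piT T e g ^ (p ^ k) = 1 := by rw [← map_pow, hgk, map_one]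
  have hπg3 : piT T e g ^ 3 = 1 := by
    rcases s3_pow (piT T e g) with h | h
    · exfalso
      have h1 : piT T e g ^ Nat.gcd 2 (p ^ k) = 1 := pow_gcd_eq_one.mpr ⟨h, hπgk⟩
      have h2 : Nat.gcd 2 (p ^ k) = 1 := Nat.coprime_two_left.mpr hpkodd
      rw [h2, pow_one] at h1
      exact hπg h1
    · exact h
  have hp3 : p = 3 := by
    by_contra hne
    have h1 : piT T e g ^ Nat.gcd 3 (p ^ k) = 1 := pow_gcd_eq_one.mpr ⟨hπg3, hπgk⟩
    have h2 : Nat.gcd 3 (p ^ k) = 1 :=
      Nat.Coprime.pow_right _ ((Nat.coprime_primes (by norm_num) hp.out).mpr (Ne.symm hne))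
    rw [h2, pow_one] at h1
    exact hπg h1
  subst hp3
  have hodd : ∃ t, Perm.sign (piT T e t) = -1 := by
    by_contra hcon
    push Not at hcon
    have h1 : ∀ t, Perm.sign (piT T e t) = 1 := fun t =>
      (Int.units_eq_one_or _).resolve_right (hcon t)
    have h2 : commutator X ≤ (piT T e).ker := by
      rw [commutator_def, Subgroup.commutator_le]
      intro a _ b _
      rw [MonoidHom.mem_ker, commutatorElement_def, map_mul, map_mul, map_mul, map_inv, map_inv,
        s3_comm _ _ (h1 a) (h1 b)]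
      group
    exact hπg (h2 hg)
  let K₁ : Subgroup X := (Perm.sign.comp (piT T e)).ker
  have hK₁ : ∀ x, x ∈ K₁ ↔ Perm.sign (piT T e x) = 1 := fun x => Iff.rfl
  have hle : ∀ Q : Sylow 3 X, (Q : Subgroup X) ≤ K₁ := by
    intro Q x hx
    obtain ⟨j, hj⟩ := Q.2 ⟨x, hx⟩
    have hj' : x ^ (3 ^ j) = 1 := by
      simpa using congrArg Subtype.val hj
    rw [hK₁]
    rcases Int.units_eq_one_or (Perm.sign (piT T e x)) with h | h
    · exact h
    exfalso
    have h1 : (Perm.sign (piT T e x)) ^ (3 ^ j) = 1 := by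
      rw [← map_pow, ← map_pow, hj', map_one, map_one]
    have h3 : Odd (3 ^ j) := Odd.pow (by decide)
    rw [h, h3.neg_one_pow] at h1
    exact absurd h1 (by decide)
  obtain ⟨t, ht⟩ := hodd
  obtain ⟨u, hu, huP⟩ := Cfsg.Agent.Lib.Char.NormExt.exists_smul_eq_of_le P (t • P) (hle P) (hle _)
  set n := u⁻¹ * t with hn
  have hnP : n • P = P := by
    rw [hn, mul_smul, ← huP, inv_smul_smul]
  have hnN : n ∈ normalizer ((P : Subgroup X) : Set X) := Sylow.smul_eq_iff_mem_normalizer.mp hnP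
  have hnsign : Perm.sign (piT T e n) = -1 := by
    rw [hn, map_mul, map_mul, map_inv, map_inv, ht, (hK₁ u).mp hu]
    decide
  -- the 2-part
  obtain ⟨a, m, hm, hfac⟩ := Nat.exists_eq_pow_mul_and_not_dvd (orderOf_pos n).ne' 2 (by norm_num)
  have hmodd : Odd m := Nat.odd_iff.mpr (by omega)
  set t' := n ^ m with ht'
  have ht'N : t' ∈ normalizer ((P : Subgroup X) : Set X) := pow_mem hnN m
  have ht'2 : t' ^ (2 ^ a) = 1 := by
    rw [ht', ← pow_mul, mul_comm, ← hfac, pow_orderOf_eq_one]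
  have ht's : Perm.sign (piT T e t') = -1 := by
    rw [ht', map_pow, map_pow, hnsign, hmodd.neg_one_pow]
  have ht'sq : t' * t' ≠ 1 := by
    intro h
    have h1 : piT T e t' = 1 := by
      rcases inv_z T e hinv t' h with h2 | h2
      · rw [h2, map_one]
      · rw [h2]
        change aut3 (rho T e _) = 1
        rw [rho_z, map_one]
    rw [h1, map_one] at ht's
    exact absurd ht's (by decide)
  have h4 : 4 ∣ Nat.card (normalizer ((P : Subgroup X) : Set X)) := by
    have h1 : orderOf t' ∣ 2 ^ a := orderOf_dvd_of_pow_eq_one ht'2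
    obtain ⟨j, -, hj⟩ := (Nat.dvd_prime_pow Nat.prime_two).mp h1
    have hj2 : 2 ≤ j := by
      by_contra hlt
      apply ht'sq
      have h2 : orderOf t' ∣ 2 := by
        rw [hj]
        simpa using pow_dvd_pow 2 (show j ≤ 1 by omega)
      rw [← pow_two]
      exact orderOf_dvd_iff_pow_eq_one.mp h2
    have h2 : orderOf (⟨t', ht'N⟩ : normalizer ((P : Subgroup X) : Set X)) ∣ _ :=
      orderOf_dvd_natCard _
    rw [Subgroup.orderOf_mk, hj] at h2
    exact (pow_dvd_pow 2 hj2).trans h2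
  -- a conjugate of `g` in `P`
  have hzp : IsPGroup 3 (zpowers g) := by
    rintro ⟨x, hx⟩
    obtain ⟨l, rfl⟩ := mem_zpowers_iff.mp hx
    refine ⟨k, Subtype.ext ?_⟩
    simp only [SubgroupClass.coe_pow, OneMemClass.coe_one]
    rw [← zpow_natCast, zpow_comm, zpow_natCast, hgk, one_zpow]
  obtain ⟨Q, hQ⟩ := hzp.exists_le_sylow
  obtain ⟨h, hh⟩ := MulAction.exists_smul_eq X Q P
  set α := h * g * h⁻¹ with hα
  have hαP : α ∈ (P : Subgroup X) := by
    rw [← hh, Sylow.coe_subgroup_smul]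
    exact Subgroup.smul_mem_pointwise_smul g (MulAut.conj h) _ (hQ (mem_zpowers g))
  have hπα : piT T e α = piT T e h * piT T e g * (piT T e h)⁻¹ := by
    rw [hα, map_mul, map_mul, map_inv]
  have hα3 : piT T e α ^ 3 = 1 := by
    rw [hπα, conj_pow, hπg3]
    group
  have hα1 : piT T e α ≠ 1 := by
    intro h1
    rw [hπα] at h1
    apply hπg
    have h2 := mul_inv_eq_one.mp h1
    exact mul_left_cancel (h2.trans (mul_one _).symm)
  have hαfix := s3_nofix _ hα3 hα1
  have hstar : ∀ y ∈ normalizer ((P : Subgroup X) : Set X), piT T e y = 1 →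
      (∃ k : ℕ, y ^ (2 ^ k) = 1) → y = 1 ∨ y = iota T e zz := by
    rintro y hyN hy ⟨k', hk'⟩
    have hc : y * α * y⁻¹ * α⁻¹ ∈ (P : Subgroup X) :=
      mul_mem ((mem_normalizer_iff.mp hyN α).mp hαP) (inv_mem hαP)
    obtain ⟨j, hj⟩ := P.2 ⟨_, hc⟩
    have hj' : (y * α * y⁻¹ * α⁻¹) ^ (3 ^ j) = 1 := by
      simpa using congrArg Subtype.val hj
    exact star T e hinv hy hαfix (Odd.pow (by decide)) hj' k' hk'
  have h8 := not_eight_dvd _ (piT T e) (iota T e zz) hstar
  rw [card_normalizer_eq] at h4 h8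
  exact arith (odd_card_sylow (by norm_num) P) h4 h8 hd


/-- Commuting involutions coincide when all `2`-subgroups are cyclic or quaternion. -/
lemma hinv_of (H2 : ∀ S : Subgroup X, IsPGroup 2 S →
      IsCyclic S ∨ ∃ n : ℕ, Nonempty (S ≃* QuaternionGroup (2 ^ n)))
    (u v : X) (hu : u * u = 1) (hv : v * v = 1) (hu1 : u ≠ 1) (hv1 : v ≠ 1) (huv : u * v = v * u) :
    u = v := by
  classical
  set S := closure ({u, v} : Set X) with hS
  have h1 : S ≤ centralizer ({u, v} : Set X) := by
    rw [hS, closure_le]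
    rintro w (rfl | rfl)
    · rw [SetLike.mem_coe, mem_centralizer_iff]
      rintro t (rfl | rfl)
      · rfl
      · exact huv.symm
    · rw [SetLike.mem_coe, mem_centralizer_iff]
      rintro t (rfl | rfl)
      · exact huv
      · rfl
  have h2 : S ≤ centralizer (S : Set X) := by
    conv_lhs => rw [hS]
    rw [closure_le]
    intro w hw
    rw [SetLike.mem_coe, mem_centralizer_iff]
    intro t ht
    have := (mem_centralizer_iff.mp (h1 ht)) w hw
    exact this.symm
  have hcomm : ∀ a ∈ S, ∀ b ∈ S, a * b = b * a := by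
    intro a ha b hb
    exact (mem_centralizer_iff.mp (h2 hb)) a ha
  have hexp : ∀ x ∈ S, x * x = 1 := by
    intro x hx
    induction hx using closure_induction with
    | mem x hx =>
      rcases hx with rfl | rfl
      · exact hu
      · exact hv
    | one => simp
    | mul x y hx hy ihx ihy =>
      calc x * y * (x * y) = x * (y * x) * y := by simp only [mul_assoc]
        _ = x * (x * y) * y := by rw [hcomm y hy x hx]
        _ = (x * x) * (y * y) := by simp only [mul_assoc]
        _ = 1 := by rw [ihx, ihy, one_mul]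
    | inv x hx ih =>
      rw [← mul_inv_rev, ih, inv_one]
  have hS2 : IsPGroup 2 S := by
    rintro ⟨x, hx⟩
    refine ⟨1, Subtype.ext ?_⟩
    simpa [pow_two] using hexp x hx
  have huS : u ∈ S := subset_closure (by simp)
  have hvS : v ∈ S := subset_closure (by simp)
  rcases H2 S hS2 with hc | ⟨n, ⟨f⟩⟩
  · obtain ⟨w, hw⟩ := hc.exists_generator
    have hww : w * w = 1 := Subtype.ext (hexp w w.2)
    have hall : ∀ x : S, x = 1 ∨ x = w := by
      intro x
      obtain ⟨i, hi⟩ := mem_zpowers_iff.mp (hw x)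
      rcases Int.even_or_odd' i with ⟨c, rfl | rfl⟩
      · left
        rw [← hi, zpow_mul, zpow_two, hww, one_zpow]
      · right
        rw [← hi, zpow_add, zpow_mul, zpow_two, hww, one_zpow, one_mul, zpow_one]
    have hu' : (⟨u, huS⟩ : S) = w :=
      (hall ⟨u, huS⟩).resolve_left (fun h => hu1 (congrArg Subtype.val h))
    have hv' : (⟨v, hvS⟩ : S) = w :=
      (hall ⟨v, hvS⟩).resolve_left (fun h => hv1 (congrArg Subtype.val h))
    exact congrArg Subtype.val (hu'.trans hv'.symm)
  · exfalso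
    haveI : NeZero (2 ^ n) := ⟨by positivity⟩
    set s : S := f.symm (QuaternionGroup.xa 0) with hs
    have h3 : s * s = 1 := Subtype.ext (hexp s s.2)
    have h4 : (QuaternionGroup.xa 0 : QuaternionGroup (2 ^ n)) ^ 2 = 1 := by
      have h5 := congrArg f h3
      rw [map_mul, map_one, hs, MulEquiv.apply_symm_apply] at h5
      rw [pow_two]
      exact h5
    have h6 := orderOf_dvd_of_pow_eq_one h4
    rw [QuaternionGroup.orderOf_xa] at h6
    omega

/-- The solvable core of the theorem: no nontrivial `p`-element lies in the commutator subgroup. -/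
theorem no_p_element {p : ℕ} [hp : Fact p.Prime] [hs : Group.IsSolvable X]
    (H1 : Cfsg.pCore p X = ⊥)
    (H2 : ∀ q : ℕ, q.Prime → q ≠ p → ∀ S : Subgroup X, IsPGroup q S →
      IsCyclic S ∨ (q = 2 ∧ ∃ n : ℕ, Nonempty (S ≃* QuaternionGroup (2 ^ n))))
    (H3 : ∃ (P : Sylow p X) (d : ℕ),
      (P : Subgroup X).relIndex (normalizer ((P : Subgroup X) : Set X)) + 1 = p ^ d)
    (g : X) (hg : g ∈ commutator X) (k : ℕ) (hgk : g ^ (p ^ k) = 1) : g = 1 := by
  classical
  have hcyc : ∀ q : ℕ, q.Prime → q ≠ p → q ≠ 2 → g ∈ centralizer (Cfsg.pCore q X : Set X) := by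
    intro q hq hqp hq2
    haveI : Fact q.Prime := ⟨hq⟩
    rcases H2 q hq hqp _ (Cfsg.Agent.Lib.Basic.PCore.pCore_isPGroup q) with hc | hc
    · exact Cfsg.Agent.Lib.PGroup.QdExt.commutator_le_centralizer_of_isCyclic _ hc hg
    · exact absurd hc.1 hq2
  have hfin : g ∈ centralizer (Cfsg.pCore 2 X : Set X) → g = 1 := by
    intro hgT
    have h1 : g ∈ centralizer (Cfsg.fittingSubgroup X : Set X) := by
      have h2 : Cfsg.fittingSubgroup X ≤ centralizer ({g} : Set X) := by
        rw [Cfsg.Agent.Lib.Basic.PCore.fittingSubgroup_eq_iSup_pCore]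
        apply iSup_le
        rintro ⟨q, hq⟩
        have hq' := Nat.prime_of_mem_primeFactors hq
        intro x hx
        rw [mem_centralizer_singleton_iff]
        have h3 : g ∈ centralizer (Cfsg.pCore q X : Set X) := by
          by_cases hqp : q = p
          · subst hqp
            rw [H1] at hx ⊢
            rw [mem_centralizer_iff]
            intro t ht
            rw [(Subgroup.mem_bot.mp ht)]
            simp
          by_cases hq2 : q = 2
          · subst hq2
            exact hgT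
          exact hcyc q hq' hqp hq2
        exact mem_centralizer_iff.mp h3 x hx
      rw [mem_centralizer_iff]
      intro t ht
      exact (mem_centralizer_singleton_iff.mp (h2 ht))
    have hC : centralizer (Cfsg.fittingSubgroup X : Set X) ≤ Cfsg.fittingSubgroup X := by
      apply Cfsg.Agent.Lib.Components.Fitting.le_fitting_of_solvable_of_le_centralizer _ le_rfl
        Subgroup.le_normalizer
      infer_instance
    have hF := hC h1
    obtain ⟨j, -, hj⟩ := (Nat.dvd_prime_pow hp.out).mp (orderOf_dvd_of_pow_eq_one hgk)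
    have h5 := Cfsg.Agent.Lib.Basic.PCore.mem_pCore_of_normal_nilpotent inferInstance
      Cfsg.Agent.Lib.Basic.PCore.fittingSubgroup_isNilpotent hF hp.out hj
    rw [H1] at h5
    exact Subgroup.mem_bot.mp h5
  by_contra hg1
  have hnot : g ∉ centralizer (Cfsg.pCore 2 X : Set X) := fun h => hg1 (hfin h)
  have hp2 : p ≠ 2 := by
    rintro rfl
    apply hnot
    rw [H1, mem_centralizer_iff]
    intro t ht
    rw [(Subgroup.mem_bot.mp ht)]
    simp
  have H2' : ∀ S : Subgroup X, IsPGroup 2 S →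
      IsCyclic S ∨ ∃ n : ℕ, Nonempty (S ≃* QuaternionGroup (2 ^ n)) :=
    fun S hS => (H2 2 Nat.prime_two hp2.symm S hS).imp id (fun h => h.2)
  have hinv := hinv_of H2'
  rcases H2' _ (Cfsg.Agent.Lib.Basic.PCore.pCore_isPGroup 2 (G := X)) with hc | ⟨n, ⟨f⟩⟩
  · exact hnot (Cfsg.Agent.Lib.PGroup.QdExt.commutator_le_centralizer_of_isCyclic _ hc hg)
  rcases n with _ | _ | n
  · have hc : IsCyclic (Cfsg.pCore 2 X) := by
      haveI : IsCyclic (QuaternionGroup (2 ^ 0)) := QuaternionGroup.quaternionGroup_one_isCyclic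
      exact isCyclic_of_surjective f.symm f.symm.surjective
    exact hnot (Cfsg.Agent.Lib.PGroup.QdExt.commutator_le_centralizer_of_isCyclic _ hc hg)
  · obtain ⟨P, d, hd⟩ := H3
    let f' : Cfsg.pCore 2 X ≃* Q8 := f
    refine q8_case hp2 (Cfsg.pCore 2 X) f' hinv P d hd g hg k hgk ?_
    intro h
    exact hnot (mem_centralizer_of_rho _ f' h)
  · apply hnot
    apply mem_centralizer_of_rho _ f
    have hodd : Odd (p ^ k) := (hp.out.odd_of_ne_two hp2).pow
    have hit : ∀ (σ : MulAut (QuaternionGroup (2 ^ (n + 1 + 1)))) (N : ℕ)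
        (x : QuaternionGroup (2 ^ (n + 1 + 1))), (⇑σ)^[N] x = (σ ^ N) x := by
      intro σ N x
      induction N with
      | zero => rfl
      | succ N ih =>
        rw [Function.iterate_succ_apply', ih, pow_succ' σ N]
        rfl
    have h1 := Cfsg.Agent.Lib.Basic.QuatAut.trivial_of_odd (n := n + 1 + 1) (by omega)
      (rho (Cfsg.pCore 2 X) f g) hodd (fun x => by
        rw [hit, ← map_pow, hgk, map_one]
        rfl)
    ext x
    exact h1 x

/-- Normal complements and abelian Sylow subgroups. -/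
theorem final_of_no_p_element {p : ℕ} [hp : Fact p.Prime]
    (h : ∀ g ∈ commutator X, ∀ k : ℕ, g ^ (p ^ k) = 1 → g = 1) :
    Cfsg.HasNormalPComplement p X ∧ ∀ Q : Sylow p X, IsMulCommutative (Q : Subgroup X) := by
  classical
  constructor
  · rw [Cfsg.Agent.Lib.Transfer.Basic.hasNormalPComplement_iff]
    obtain ⟨a, m, hm, hfac⟩ := Nat.exists_eq_pow_mul_and_not_dvd
      (Nat.card_pos (α := Abelianization X)).ne' p hp.out.ne_one
    let φ : X →* Abelianization X := (powMonoidHom m).comp Abelianization.of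
    have hφ : ∀ x, x ∈ φ.ker ↔ (Abelianization.of x) ^ m = 1 := fun x => Iff.rfl
    refine ⟨φ.ker, inferInstance, ?_, ?_⟩
    · rw [Nat.coprime_comm, hp.out.coprime_iff_not_dvd]
      intro hdvd
      obtain ⟨y, hy⟩ := exists_prime_orderOf_dvd_card' p hdvd
      have hy1 : ((y : X)) ^ p = 1 := by
        have := pow_orderOf_eq_one y
        rw [hy] at this
        simpa using congrArg Subtype.val this
      have hy2 : (Abelianization.of (y : X)) ^ m = 1 := (hφ _).mp y.2
      have hy3 : (Abelianization.of (y : X)) ^ p = 1 := by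
        rw [← map_pow, hy1, map_one]
      have hy4 : (Abelianization.of (y : X)) ^ Nat.gcd m p = 1 := pow_gcd_eq_one.mpr ⟨hy2, hy3⟩
      have hgcd : Nat.gcd m p = 1 :=
        Nat.Coprime.symm ((hp.out.coprime_iff_not_dvd).mpr hm)
      rw [hgcd, pow_one] at hy4
      have hy5 : (y : X) ∈ commutator X := by
        rw [← Abelianization.ker_of]
        exact hy4
      have hy6 := h _ hy5 1 (by rwa [pow_one])
      have hy7 : y = 1 := Subtype.ext hy6
      rw [hy7, orderOf_one] at hy
      exact hp.out.one_lt.ne hy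
    · intro x
      induction x using QuotientGroup.induction_on with
      | H x =>
      refine ⟨a, ?_⟩
      rw [← QuotientGroup.mk_pow, QuotientGroup.eq_one_iff, hφ, map_pow, ← pow_mul, ← hfac]
      exact pow_card_eq_one'
  · intro Q
    refine ⟨⟨fun a b => Subtype.ext ?_⟩⟩
    have hc : ⁅(a : X), (b : X)⁆ ∈ commutator X :=
      Subgroup.commutator_mem_commutator (mem_top _) (mem_top _)
    have hcQ : ⁅(a : X), (b : X)⁆ ∈ (Q : Subgroup X) := by
      rw [commutatorElement_def]
      exact mul_mem (mul_mem (mul_mem a.2 b.2) (inv_mem a.2)) (inv_mem b.2)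
    obtain ⟨j, hj⟩ := Q.2 ⟨_, hcQ⟩
    have hj' : ⁅(a : X), (b : X)⁆ ^ (p ^ j) = 1 := by
      simpa using congrArg Subtype.val hj
    have h1 := h _ hc j hj'
    exact commutatorElement_eq_one_iff_mul_comm.mp h1


section Lift

variable {G : Type u} [Group G] [Finite G]

/-- Subgroups of coprime order lift through a quotient by a normal `p`-subgroup. -/
lemma exists_lift {p q : ℕ} [hp : Fact p.Prime] [hq : Fact q.Prime] (hpq : p ≠ q) (O : Subgroup G)
    [O.Normal] (hO : IsPGroup p O) (S : Subgroup (G ⧸ O)) (hS : IsPGroup q S) :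
    ∃ S₀ : Subgroup G, IsPGroup q S₀ ∧ Nonempty (S₀ ≃* S) := by
  classical
  let mk := QuotientGroup.mk' O
  have hmk : Function.Surjective mk := QuotientGroup.mk'_surjective O
  let Sh : Subgroup G := S.comap mk
  let ψ : Sh →* S := mk.subgroupComap S
  have hψ : Function.Surjective ψ := mk.subgroupComap_surjective_of_surjective S hmk
  let R : Sylow q Sh := default
  have hRtop : ((R.mapSurjective hψ : Sylow q S) : Subgroup S) = ⊤ :=
    ((R.mapSurjective hψ).3 (hS.to_subgroup ⊤) le_top).symm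
  let f : (R : Subgroup Sh) →* S := ψ.comp (R : Subgroup Sh).subtype
  have hR0 : IsPGroup q ((R : Subgroup Sh).map Sh.subtype) := R.2.map _
  have hfinj : Function.Injective f := by
    rw [injective_iff_map_eq_one]
    rintro ⟨r, hr⟩ h1
    have h2 : ((r : Sh) : G) ∈ O := by
      have h3 : ((ψ r : S) : G ⧸ O) = 1 := congrArg Subtype.val h1
      exact (QuotientGroup.eq_one_iff _).mp h3
    have h3 : ((r : Sh) : G) ∈ (R : Subgroup Sh).map Sh.subtype := ⟨r, hr, rfl⟩
    have h4 := IsPGroup.disjoint_of_ne p q hpq O _ hO hR0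
    have h5 := Subgroup.disjoint_def.mp h4 h2 h3
    apply Subtype.ext
    apply Subtype.ext
    exact h5
  have hfsurj : Function.Surjective f := by
    intro s
    have h1 : s ∈ ((R.mapSurjective hψ : Sylow q S) : Subgroup S) := by
      rw [hRtop]
      trivial
    rw [Sylow.coe_mapSurjective] at h1
    obtain ⟨r, hr, rfl⟩ := h1
    exact ⟨⟨r, hr⟩, rfl⟩
  refine ⟨(R : Subgroup Sh).map Sh.subtype, hR0, ⟨?_⟩⟩
  exact ((R : Subgroup Sh).equivMapOfInjective Sh.subtype Sh.subtype_injective).symm.trans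
    (MulEquiv.ofBijective f ⟨hfinj, hfsurj⟩)

open Cfsg.Agent.Lib.Char.Gagola

variable {χ : Cfsg.IrrCharacter G} {N : Subgroup G} {p : ℕ} [hp : Fact p.Prime]

/-- The quotient by the `p`-core inherits the structure of coprime subgroups. -/
lemma H2_of (h : TwoClass χ N) (hNp : IsPGroup p N) (q : ℕ) (hq : q.Prime) (hqp : q ≠ p)
    (S : Subgroup (G ⧸ Cfsg.pCore p G)) (hS : IsPGroup q S) :
    IsCyclic S ∨ (q = 2 ∧ ∃ n : ℕ, Nonempty (S ≃* QuaternionGroup (2 ^ n))) := by
  haveI : Fact q.Prime := ⟨hq⟩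
  haveI := h.normal
  obtain ⟨S₀, hS₀, ⟨f⟩⟩ := exists_lift hqp.symm (Cfsg.pCore p G)
    (Cfsg.Agent.Lib.Basic.PCore.pCore_isPGroup p) S hS
  have hres := Cfsg.Agent.Lib.Frobenius.SylowFpf.isCyclic_or_quaternion_of_fpf (K := N) (P := S₀)
    h.ne_bot (fun x _ => by rw [Subgroup.normalizer_eq_top_iff.mpr h.normal]; trivial) ?_ hS₀
  · rcases hres with hc | ⟨h2, n, ⟨f'⟩⟩
    · exact Or.inl (isCyclic_of_surjective f f.surjective)
    · exact Or.inr ⟨h2, n, ⟨f.symm.trans f'⟩⟩
  · intro a ha ha1 v hv hc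
    refine h.fix_eq_one hNp ?_ ha1 hv hc
    obtain ⟨j, hj⟩ := hS₀ ⟨a, ha⟩
    have hj' : a ^ (q ^ j) = 1 := by
      simpa using congrArg Subtype.val hj
    intro hdvd
    have h1 : p ∣ q ^ j := hdvd.trans (orderOf_dvd_of_pow_eq_one hj')
    have h2 := hp.out.dvd_of_dvd_pow h1
    exact hqp ((Nat.prime_dvd_prime_iff_eq hp.out hq).mp h2).symm

/-- The Brauer-type count in `G`. -/
lemma H3_in (h : TwoClass χ N) (hNp : IsPGroup p N) :
    ∃ (P : Sylow p G) (d : ℕ),
      (P : Subgroup G).relIndex (normalizer ((P : Subgroup G) : Set G)) + 1 = p ^ d := by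
  classical
  haveI := h.normal
  obtain ⟨x₀, hx₀, hx₀1⟩ := h.exists_ne_one
  obtain ⟨P, hP⟩ := h.exists_sylow_centralizer hNp hx₀ hx₀1
  let U : Subgroup G := N ⊓ centralizer ((P : Subgroup G) : Set G)
  have hU : IsPGroup p U := hNp.to_le inf_le_left
  obtain ⟨d, hd⟩ := IsPGroup.iff_card.mp hU
  refine ⟨P, d, ?_⟩
  have hcardB : Nat.card {u : U // u ≠ 1} + 1 = Nat.card U := by
    have := Fintype.ofFinite U
    have h1 : Nat.card U ≠ 0 := Nat.card_pos.ne'
    rw [Nat.card_eq_fintype_card, Nat.card_eq_fintype_card, Fintype.card_subtype_compl,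
      Fintype.card_subtype_eq]
    rw [Nat.card_eq_fintype_card] at h1
    omega
  set A := normalizer ((P : Subgroup G) : Set G) with hA
  have hmemU : ∀ a : A, (a : G) * x₀ * (a : G)⁻¹ ∈ U := by
    intro a
    refine Subgroup.mem_inf.mpr ⟨h.normal.conj_mem _ hx₀ _, ?_⟩
    rw [mem_centralizer_iff]
    intro w hw
    have h1 : (a : G)⁻¹ * w * (a : G) ∈ (P : Subgroup G) := by
      have := (mem_normalizer_iff.mp (inv_mem a.2) w).mp hw
      simpa using this
    rw [← hP, mem_centralizer_singleton_iff] at h1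
    calc w * ((a : G) * x₀ * (a : G)⁻¹)
        = (a : G) * ((a : G)⁻¹ * w * (a : G) * x₀) * (a : G)⁻¹ := by group
      _ = (a : G) * (x₀ * ((a : G)⁻¹ * w * (a : G))) * (a : G)⁻¹ := by rw [h1]
      _ = (a : G) * x₀ * (a : G)⁻¹ * w := by group
  have hne : ∀ a : A, (⟨(a : G) * x₀ * (a : G)⁻¹, hmemU a⟩ : U) ≠ 1 := by
    intro a h1
    have h2 : (a : G) * x₀ * (a : G)⁻¹ = 1 := congrArg Subtype.val h1
    apply hx₀1
    have h3 : (a : G) * x₀ = (a : G) := by
      rw [mul_inv_eq_one] at h2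
      exact h2
    exact mul_left_cancel (h3.trans (mul_one _).symm)
  let F : A → {u : U // u ≠ 1} := fun a => ⟨⟨(a : G) * x₀ * (a : G)⁻¹, hmemU a⟩, hne a⟩
  have hF : ∀ a a' : A, F a = F a' ↔ a⁻¹ * a' ∈ (P : Subgroup G).subgroupOf A := by
    intro a a'
    rw [Subgroup.mem_subgroupOf]
    have e1 : ((a⁻¹ * a' : A) : G) = (a : G)⁻¹ * (a' : G) := by simp
    rw [e1, ← hP, mem_centralizer_singleton_iff]
    constructor
    · intro h1
      have h2 : (a : G) * x₀ * (a : G)⁻¹ = (a' : G) * x₀ * (a' : G)⁻¹ :=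
        congrArg (fun u : {u : U // u ≠ 1} => ((u.1 : U) : G)) h1
      have h3 : (a : G)⁻¹ * (a' : G) * x₀ * ((a : G)⁻¹ * (a' : G))⁻¹ = x₀ := by
        calc (a : G)⁻¹ * (a' : G) * x₀ * ((a : G)⁻¹ * (a' : G))⁻¹
            = (a : G)⁻¹ * ((a' : G) * x₀ * (a' : G)⁻¹) * (a : G) := by group
          _ = (a : G)⁻¹ * ((a : G) * x₀ * (a : G)⁻¹) * (a : G) := by rw [h2]
          _ = x₀ := by group
      exact mul_inv_eq_iff_eq_mul.mp h3
    · intro h1
      apply Subtype.ext
      apply Subtype.ext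
      change (a : G) * x₀ * (a : G)⁻¹ = (a' : G) * x₀ * (a' : G)⁻¹
      have h3 : (a' : G) * x₀ * (a' : G)⁻¹ =
          (a : G) * ((a : G)⁻¹ * (a' : G) * x₀) * (a' : G)⁻¹ := by group
      rw [h3, h1]
      group
  have hs : Function.Surjective F := by
    rintro ⟨⟨u, huU⟩, hu1⟩
    have hu1' : u ≠ 1 := fun h1 => hu1 (Subtype.ext h1)
    obtain ⟨huN, huC⟩ := Subgroup.mem_inf.mp huU
    obtain ⟨c, hc⟩ := isConj_iff.mp (h.all_conj x₀ hx₀ u huN hx₀1 hu1')
    -- `c` normalizes `P`
    have h1 : (P : Subgroup G) = centralizer ({u} : Set G) :=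
      h.sylow_eq_centralizer hNp P huN hu1' (fun w hw => (mem_centralizer_iff.mp huC) w hw)
    have h2 : ((c • P : Sylow p G) : Subgroup G) = centralizer ({u} : Set G) := by
      apply h.sylow_eq_centralizer hNp (c • P) huN hu1'
      intro w hw
      rw [Sylow.coe_subgroup_smul, Subgroup.mem_pointwise_smul_iff_inv_smul_mem] at hw
      have h3 : (MulAut.conj c)⁻¹ • w = c⁻¹ * w * c := by
        simp [MulAut.smul_def]
      rw [h3, ← hP, mem_centralizer_singleton_iff] at hw
      rw [← hc]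
      calc w * (c * x₀ * c⁻¹) = c * (c⁻¹ * w * c * x₀) * c⁻¹ := by group
        _ = c * (x₀ * (c⁻¹ * w * c)) * c⁻¹ := by rw [hw]
        _ = c * x₀ * c⁻¹ * w := by group
    have h3 : c • P = P := Sylow.ext (h2.trans h1.symm)
    have h4 : c ∈ A := Sylow.smul_eq_iff_mem_normalizer.mp h3
    refine ⟨⟨c, h4⟩, ?_⟩
    apply Subtype.ext
    apply Subtype.ext
    exact hc
  have hidx := index_eq_card_of_fibers ((P : Subgroup G).subgroupOf A) F hF hs
  change ((P : Subgroup G).subgroupOf A).index + 1 = _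
  rw [hidx, hcardB, hd]

/-- The same count in the quotient by the `p`-core. -/
lemma H3_of (h : TwoClass χ N) (hNp : IsPGroup p N) :
    ∃ (P : Sylow p (G ⧸ Cfsg.pCore p G)) (d : ℕ),
      (P : Subgroup (G ⧸ Cfsg.pCore p G)).relIndex
        (normalizer ((P : Subgroup (G ⧸ Cfsg.pCore p G)) : Set (G ⧸ Cfsg.pCore p G))) + 1 =
        p ^ d := by
  obtain ⟨P, d, hd⟩ := H3_in h hNp
  let mk := QuotientGroup.mk' (Cfsg.pCore p G)
  have hmk : Function.Surjective mk := QuotientGroup.mk'_surjective _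
  refine ⟨P.mapSurjective hmk, d, ?_⟩
  rw [Sylow.coe_mapSurjective]
  have hker : mk.ker ≤ (P : Subgroup G) := by
    rw [QuotientGroup.ker_mk']
    exact Cfsg.Agent.Lib.Basic.PCore.pCore_le_sylow P
  have h1 : ((P : Subgroup G).map mk).comap mk = P := Subgroup.comap_map_eq_self hker
  have h2 : (normalizer (((P : Subgroup G).map mk : Subgroup (G ⧸ Cfsg.pCore p G)) : Set (G ⧸ Cfsg.pCore p G))).comap mk =
      normalizer ((P : Subgroup G) : Set G) := by
    rw [Subgroup.comap_normalizer_eq_of_surjective _ hmk, h1]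
  have h3 : (normalizer ((P : Subgroup G) : Set G)).map mk =
      normalizer (((P : Subgroup G).map mk : Subgroup (G ⧸ Cfsg.pCore p G)) : Set (G ⧸ Cfsg.pCore p G)) := by
    rw [← h2, Subgroup.map_comap_eq_self_of_surjective hmk]
  rw [← h3, ← Subgroup.relIndex_comap, h1]
  exact hd

/-- **The theorem**: the structure of a solvable group with a character nonzero on two classes. -/
theorem main [Group.IsSolvable G] (hG : 2 < Nat.card G) (χ : Cfsg.IrrCharacter G)
    (hχ : Nat.card {C : ConjClasses G // ∃ g ∈ C.carrier, (χ : G → ℂ) g ≠ 0} = 2) :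
    ∃ p : ℕ, p.Prime ∧ (∀ q : ℕ, q.Prime → (Cfsg.pCore q G ≠ ⊥ ↔ q = p)) ∧
      Cfsg.HasNormalPComplement p (G ⧸ Cfsg.pCore p G) ∧
      ∀ Q : Sylow p (G ⧸ Cfsg.pCore p G), IsMulCommutative (Q : Subgroup (G ⧸ Cfsg.pCore p G)) := by
  obtain ⟨N, h⟩ := exists_twoClass hG χ hχ
  obtain ⟨p, hpp, hpN⟩ := h.exists_prime
  haveI : Fact p.Prime := ⟨hpp⟩
  have hNp : IsPGroup p N := h.isPGroup_of_exists hpN
  refine ⟨p, hpp, ?_, ?_⟩
  · intro q hq
    haveI : Fact q.Prime := ⟨hq⟩
    constructor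
    · intro hne
      by_contra hqp
      have h1 : N ≤ Cfsg.pCore q G := h.le_of_normal (Cfsg.pCore_normal q G) hne
      have h2 := IsPGroup.disjoint_of_ne p q (Ne.symm hqp) N (Cfsg.pCore q G) hNp
        (Cfsg.Agent.Lib.Basic.PCore.pCore_isPGroup q)
      apply h.ne_bot
      rw [eq_bot_iff]
      intro x hx
      exact Subgroup.mem_bot.mpr (Subgroup.disjoint_def.mp h2 hx (h1 hx))
    · rintro rfl
      intro hbot
      have h1 : N ≤ Cfsg.pCore q G := Cfsg.Agent.Lib.Basic.PCore.le_pCore h.normal hNp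
      rw [hbot] at h1
      exact h.ne_bot (eq_bot_iff.mpr h1)
  · apply final_of_no_p_element
    intro g hg k hgk
    exact no_p_element Cfsg.Agent.Lib.Basic.PCore.pCore_quotient_eq_bot (H2_of h hNp) (H3_of h hNp)
      g hg k hgk

end Lift

end Cfsg.Agent.Lib.Char.GagolaSolv
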