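import Mathlib
import Cfsg.Prelude.Def_Characters
import Cfsg.Agent.Lib.Char.BrauerInd
import Cfsg.Agent.Lib.Char.PiRegular
import Cfsg.Agent.Lib.Char.Virtual
import Cfsg.Agent.Lib.Char.CompleteCor
import Cfsg.Agent.Lib.Char.Values
import Cfsg.Agent.Lib.Char.Codegree

/-!
# Lifting characters of a Hall subgroup through the `π`-part map

Given coprime `n`, `m` with `g ^ (n * m) = 1` on `G`, the `π`-part of `g` is `g ^ a`, where
`a ≡ 1 mod n`, `a ≡ 0 mod m`.  For a subgroup `H` into which all elements `y` with `y ^ n = 1`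
can be conjugated we define `hat H a θ g = θ x`, for `x ∈ H` conjugate to `g ^ a`, and prove the
counting formula behind the Brauer-Suzuki transfer theorem.
-/

set_option autoImplicit false

namespace Cfsg.Agent.Lib.Char.HallHat

open Cfsg
open scoped ComplexConjugate

universe u

/-- Exponents computing the two parts of an element. -/
structure PiPow (G : Type u) [Group G] (n m a b : ℕ) : Prop where
  hn : n ≠ 0
  hm : m ≠ 0
  hcop : Nat.Coprime n m
  hexp : ∀ g : G, g ^ (n * m) = 1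
  ha1 : a ≡ 1 [MOD n]
  ha0 : m ∣ a
  hb0 : n ∣ b
  hb1 : b ≡ 1 [MOD m]

theorem exists_piPow (G : Type u) [Group G] {n m : ℕ} (hn : n ≠ 0) (hm : m ≠ 0)
    (hcop : Nat.Coprime n m) (hexp : ∀ g : G, g ^ (n * m) = 1) :
    ∃ a b : ℕ, PiPow G n m a b := by
  obtain ⟨a, ha1, ha0⟩ := Nat.chineseRemainder hcop 1 0
  obtain ⟨b, hb0, hb1⟩ := Nat.chineseRemainder hcop 0 1
  exact ⟨a, b, hn, hm, hcop, hexp, ha1, (Nat.modEq_zero_iff_dvd.1 ha0), (Nat.modEq_zero_iff_dvd.1 hb0), hb1⟩

namespace PiPow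

variable {G : Type u} [Group G] {n m a b : ℕ}

theorem pow_a_pow (h : PiPow G n m a b) (g : G) : (g ^ a) ^ n = 1 := by
  obtain ⟨c, rfl⟩ := h.ha0
  have : m * c * n = (n * m) * c := by ring
  rw [← pow_mul, this, pow_mul, h.hexp, one_pow]

theorem pow_b_pow (h : PiPow G n m a b) (g : G) : (g ^ b) ^ m = 1 := by
  obtain ⟨c, rfl⟩ := h.hb0
  have : n * c * m = (n * m) * c := by ring
  rw [← pow_mul, this, pow_mul, h.hexp, one_pow]

theorem pow_a_of (h : PiPow G n m a b) {y : G} (hy : y ^ n = 1) : y ^ a = y := by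
  have h1 : orderOf y ∣ n := orderOf_dvd_of_pow_eq_one hy
  have h2 : a ≡ 1 [MOD orderOf y] := h.ha1.of_dvd h1
  have := (pow_eq_pow_iff_modEq (x := y)).2 h2
  simpa using this

theorem pow_b_of (h : PiPow G n m a b) {y : G} (hy : y ^ m = 1) : y ^ b = y := by
  have h1 : orderOf y ∣ m := orderOf_dvd_of_pow_eq_one hy
  have h2 : b ≡ 1 [MOD orderOf y] := h.hb1.of_dvd h1
  have := (pow_eq_pow_iff_modEq (x := y)).2 h2
  simpa using this

theorem pow_a_of' (h : PiPow G n m a b) {y : G} (hy : y ^ m = 1) : y ^ a = 1 := by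
  obtain ⟨c, hc⟩ := h.ha0
  rw [hc, pow_mul, hy, one_pow]

theorem pow_b_of' (h : PiPow G n m a b) {y : G} (hy : y ^ n = 1) : y ^ b = 1 := by
  obtain ⟨c, hc⟩ := h.hb0
  rw [hc, pow_mul, hy, one_pow]

theorem pow_a_mul_pow_b (h : PiPow G n m a b) (g : G) : g ^ a * g ^ b = g := by
  have h1 : a + b ≡ 1 [MOD n * m] := by
    rw [← Nat.modEq_and_modEq_iff_modEq_mul h.hcop]
    constructor
    · have := h.ha1.add ((Nat.modEq_zero_iff_dvd.2 h.hb0))
      simpa using this
    · have := (Nat.modEq_zero_iff_dvd.2 h.ha0).add h.hb1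
      simpa using this
  have h2 : orderOf g ∣ n * m := orderOf_dvd_of_pow_eq_one (h.hexp g)
  have h3 : a + b ≡ 1 [MOD orderOf g] := h1.of_dvd h2
  have := (pow_eq_pow_iff_modEq (x := g)).2 h3
  rw [pow_add, pow_one] at this
  exact this

theorem pow_a_pow_a (h : PiPow G n m a b) (g : G) : (g ^ a) ^ a = g ^ a :=
  h.pow_a_of (h.pow_a_pow g)

/-- The data restricts to subgroups. -/
theorem subgroup (h : PiPow G n m a b) (E : Subgroup G) : PiPow E n m a b :=
  ⟨h.hn, h.hm, h.hcop, fun g => Subtype.ext (by simpa using h.hexp g), h.ha1, h.ha0, h.hb0, h.hb1⟩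

theorem pow_mul_of_commute_eq (h : PiPow G n m a b) {x y : G} (hc : Commute x y)
    (hx : x ^ n = 1) (hy : y ^ m = 1) : (x * y) ^ a = x := by
  rw [hc.mul_pow, h.pow_a_of hx, h.pow_a_of' hy, mul_one]

end PiPow

section Elementary

variable {E : Type u} [Group E] [Finite E] {n m a b p : ℕ}

/-- On an elementary group, the `π`-part map is a homomorphism onto a subgroup. -/
theorem exists_hom_of_isElementary (h : PiPow E n m a b) (hp : p.Prime) (hE : IsElementary p E) :
    ∃ (L : Subgroup E) (φ : E →* L), (∀ x ∈ L, x ^ n = 1) ∧ ∀ e, ((φ e : L) : E) = e ^ a := by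
  classical
  obtain ⟨L, hLn, hL, -⟩ := Cfsg.Agent.Lib.Char.PiRegular.exists_normal_piRegular p hp hE m h.hm
  obtain ⟨K, hKn, hK, -⟩ := Cfsg.Agent.Lib.Char.PiRegular.exists_normal_piRegular p hp hE n h.hn
  have hLpow : ∀ x ∈ L, x ^ n = 1 := by
    intro x hx
    have h1 : orderOf x ∣ n * m := orderOf_dvd_of_pow_eq_one (h.hexp x)
    have h2 : Nat.Coprime (orderOf x) m := (hL x).1 hx
    exact orderOf_dvd_iff_pow_eq_one.1 (h2.dvd_of_dvd_mul_right h1)
  have hKpow : ∀ x ∈ K, x ^ m = 1 := by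
    intro x hx
    have h1 : orderOf x ∣ n * m := orderOf_dvd_of_pow_eq_one (h.hexp x)
    have h2 : Nat.Coprime (orderOf x) n := (hK x).1 hx
    exact orderOf_dvd_iff_pow_eq_one.1 (h2.dvd_of_dvd_mul_left h1)
  have hLmem : ∀ e : E, e ^ a ∈ L := by
    intro e
    rw [hL]
    have h1 : orderOf (e ^ a) ∣ n := orderOf_dvd_of_pow_eq_one (h.pow_a_pow e)
    exact Nat.Coprime.coprime_dvd_left h1 h.hcop
  have hKmem : ∀ e : E, e ^ b ∈ K := by
    intro e
    rw [hK]
    have h1 : orderOf (e ^ b) ∣ m := orderOf_dvd_of_pow_eq_one (h.pow_b_pow e)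
    exact Nat.Coprime.coprime_dvd_left h1 h.hcop.symm
  have hdisj : Disjoint L K := by
    rw [Subgroup.disjoint_def]
    intro x hx hx'
    have h1 : orderOf x ∣ n := orderOf_dvd_of_pow_eq_one (hLpow x hx)
    have h2 : orderOf x ∣ m := orderOf_dvd_of_pow_eq_one (hKpow x hx')
    have h3 : orderOf x ∣ 1 := by
      have := Nat.dvd_gcd h1 h2
      rwa [h.hcop] at this
    exact orderOf_eq_one_iff.1 (Nat.dvd_one.1 h3)
  have hcomm : ∀ x ∈ L, ∀ y ∈ K, Commute x y := fun x hx y hy =>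
    Subgroup.commute_of_normal_of_disjoint L K hLn hKn hdisj x y hx hy
  have hmul : ∀ e f : E, (e * f) ^ a = e ^ a * f ^ a := by
    intro e f
    have h1 : e * f = (e ^ a * f ^ a) * (e ^ b * f ^ b) := by
      have h2 : Commute (f ^ a) (e ^ b) := (hcomm _ (hLmem f) _ (hKmem e))
      calc e * f = (e ^ a * e ^ b) * (f ^ a * f ^ b) := by
            rw [h.pow_a_mul_pow_b, h.pow_a_mul_pow_b]
        _ = e ^ a * (e ^ b * f ^ a) * f ^ b := by group
        _ = e ^ a * (f ^ a * e ^ b) * f ^ b := by rw [h2.eq]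
        _ = (e ^ a * f ^ a) * (e ^ b * f ^ b) := by group
    have h3 : (e ^ a * f ^ a) ∈ L := L.mul_mem (hLmem e) (hLmem f)
    have h4 : (e ^ b * f ^ b) ∈ K := K.mul_mem (hKmem e) (hKmem f)
    conv_lhs => rw [h1]
    exact h.pow_mul_of_commute_eq (hcomm _ h3 _ h4) (hLpow _ h3) (hKpow _ h4)
  refine ⟨L, ?_, hLpow, ?_⟩
  · exact
      { toFun := fun e => ⟨e ^ a, hLmem e⟩
        map_one' := by ext; simp
        map_mul' := fun e f => by ext; simp [hmul] }
  · intro e
    rfl

end Elementary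

/-- A subgroup whose elements satisfy `x ^ n = 1` has order dividing `n`, when the group has order `n * m`. -/
theorem card_dvd_of_forall_pow {G : Type u} [Group G] [Finite G] {n m : ℕ} (hcop : Nat.Coprime n m)
    (hcard : Nat.card G = n * m) (L : Subgroup G) (hL : ∀ x ∈ L, x ^ n = 1) :
    Nat.card L ∣ n := by
  have h1 : Nat.card L ∣ n * m := hcard ▸ Subgroup.card_subgroup_dvd_card L
  have h2 : Nat.Coprime (Nat.card L) m := by
    rw [Nat.coprime_iff_gcd_eq_one]
    by_contra hne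
    obtain ⟨q, hq, hqd⟩ := Nat.exists_prime_and_dvd hne
    have h3 : q ∣ Nat.card L := hqd.trans (Nat.gcd_dvd_left _ _)
    have h4 : q ∣ m := hqd.trans (Nat.gcd_dvd_right _ _)
    have : Fact q.Prime := ⟨hq⟩
    obtain ⟨x, hx⟩ := exists_prime_orderOf_dvd_card' (G := L) q h3
    have h5 : (x : G) ^ n = 1 := hL x x.2
    have h6 : orderOf (x : G) = q := by rw [Subgroup.orderOf_coe, hx]
    have h7 : q ∣ n := h6 ▸ orderOf_dvd_of_pow_eq_one h5
    have := Nat.dvd_gcd h7 h4
    rw [hcop] at this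
    exact hq.one_lt.ne' (Nat.dvd_one.1 this)
  exact h2.dvd_of_dvd_mul_right h1

section Count

variable {G : Type u} [Group G]

/-- The number of solutions of `g ^ a = y`. -/
noncomputable def powFib (a : ℕ) (y : G) : ℕ := Nat.card {g : G // g ^ a = y}

/-- The number of ways to write `y` as a `G`-conjugate of an element of `H`. -/
noncomputable def conjFib (H : Subgroup G) (y : G) : ℕ := Nat.card {p : H × G // p.2 * p.1 * p.2⁻¹ = y}

theorem powFib_conj (a : ℕ) (y u : G) : powFib a (u * y * u⁻¹) = powFib a y := by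
  unfold powFib
  refine Nat.card_congr (Equiv.subtypeEquiv (MulAut.conj u⁻¹).toEquiv ?_)
  intro g
  simp only [MulEquiv.toEquiv_eq_coe, EquivLike.coe_coe, MulAut.conj_apply, inv_inv]
  have h0 : (u⁻¹ * g * u) ^ a = u⁻¹ * g ^ a * u := by
    simpa using conj_pow (a := u⁻¹) (b := g) (i := a)
  rw [h0]
  constructor
  · intro h; rw [h]; group
  · intro h
    rw [← h]; group

theorem conjFib_conj (H : Subgroup G) (y u : G) : conjFib H (u * y * u⁻¹) = conjFib H y := by
  unfold conjFib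
  refine Nat.card_congr (Equiv.subtypeEquiv
    ((Equiv.refl H).prodCongr (Equiv.mulLeft u⁻¹)) ?_)
  rintro ⟨x, v⟩
  simp only [Equiv.prodCongr_apply, Prod.map_apply, Equiv.refl_apply, Equiv.coe_mulLeft, mul_inv_rev,
    inv_inv]
  constructor
  · intro h
    have h0 : u⁻¹ * v * (x : G) * (v⁻¹ * u) = u⁻¹ * (v * (x : G) * v⁻¹) * u := by group
    rw [h0, h]; group
  · intro h
    have h0 : v * (x : G) * v⁻¹ = u * (u⁻¹ * v * (x : G) * (v⁻¹ * u)) * u⁻¹ := by group
    rw [h0, h]

variable [Finite G]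

theorem powFib_pos {n m a b : ℕ} (h : PiPow G n m a b) {y : G} (hy : y ^ n = 1) : 0 < powFib a y := by
  unfold powFib
  have : Nonempty {g : G // g ^ a = y} := ⟨⟨y, h.pow_a_of hy⟩⟩
  exact Nat.card_pos

theorem conjFib_pos (H : Subgroup G) {y : G} (hy : ∃ x : H, IsConj (x : G) y) : 0 < conjFib H y := by
  unfold conjFib
  obtain ⟨x, hx⟩ := hy
  obtain ⟨c, hc⟩ := isConj_iff.1 hx
  have : Nonempty {p : H × G // p.2 * p.1 * p.2⁻¹ = y} := ⟨⟨(x, c), hc⟩⟩
  exact Nat.card_pos

omit [Group G] [Finite G] in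
theorem sum_comp_fib {α : Type*} [Fintype α] [Fintype G] (f : α → G) (W : G → ℂ) :
    ∑ i, W (f i) = ∑ y, (Nat.card {i // f i = y} : ℂ) * W y := by
  classical
  rw [← Finset.sum_fiberwise Finset.univ f]
  refine Finset.sum_congr rfl (fun y _ => ?_)
  rw [Finset.sum_congr rfl (g := fun _ => W y)]
  · rw [Finset.sum_const, nsmul_eq_mul]
    congr 2
    rw [Nat.card_eq_fintype_card, Fintype.card_subtype]
  · intro i hi
    rw [(Finset.mem_filter.1 hi).2]

variable [Fintype G] {n m a b : ℕ} (h : PiPow G n m a b) (H : Subgroup G) [Fintype H]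

include h in
/-- The basic counting formula. -/
theorem sum_pow_eq (hT : ∀ y : G, y ^ n = 1 → ∃ x : H, IsConj (x : G) y) (F : G → ℂ)
    (hF : IsClassFunction G F) :
    ∑ g : G, F (g ^ a) = (Nat.card G : ℂ) *
      ∑ x : H, F x * ((powFib a (x : G) : ℂ) / (conjFib H (x : G) : ℂ)) := by
  classical
  set W : G → ℂ := fun y => F y * ((powFib a y : ℂ) / (conjFib H y : ℂ)) with hW
  have hWc : IsClassFunction G W := by
    intro g u
    simp only [hW, hF g u, powFib_conj, conjFib_conj]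
  have h1 : ∑ g : G, F (g ^ a) = ∑ y : G, (powFib a y : ℂ) * F y := by
    rw [sum_comp_fib (fun g : G => g ^ a) F]
    rfl
  have h2 : ∑ y : G, (conjFib H y : ℂ) * W y = ∑ p : H × G, W (p.2 * p.1 * p.2⁻¹) := by
    rw [sum_comp_fib (fun p : H × G => p.2 * (p.1 : G) * p.2⁻¹) W]
    rfl
  have h3 : ∑ y : G, (powFib a y : ℂ) * F y = ∑ y : G, (conjFib H y : ℂ) * W y := by
    refine Finset.sum_congr rfl (fun y _ => ?_)
    by_cases hy : y ^ n = 1
    · have h4 : (conjFib H y : ℂ) ≠ 0 := by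
        exact_mod_cast (conjFib_pos H (hT y hy)).ne'
      simp only [hW]
      field_simp
    · have h4 : powFib a y = 0 := by
        unfold powFib
        have : IsEmpty {g : G // g ^ a = y} := ⟨fun g => hy (g.2 ▸ h.pow_a_pow g.1)⟩
        exact Nat.card_of_isEmpty
      simp [hW, h4]
  rw [h1, h3, h2, Fintype.sum_prod_type]
  have h5 : ∀ x : H, ∑ u : G, W (u * (x : G) * u⁻¹) = (Nat.card G : ℂ) * W x := by
    intro x
    rw [Finset.sum_congr rfl (fun u _ => hWc (x : G) u), Finset.sum_const, nsmul_eq_mul,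
      Finset.card_univ, Nat.card_eq_fintype_card]
  simp only [h5]
  rw [Finset.mul_sum]

end Count


section Hat

variable {G : Type u} [Group G] (H : Subgroup G)

/-- The lift of a function on `H` through the `π`-part map `g ↦ g ^ a`. -/
noncomputable def hat (a : ℕ) (θ : H → ℂ) (g : G) : ℂ :=
  open Classical in if h : ∃ x : H, IsConj (x : G) (g ^ a) then θ h.choose else 0

/-- `H` controls its own fusion. -/
def Controls : Prop := ∀ x ∈ H, ∀ y ∈ H, IsConj x y → ∃ h ∈ H, h * x * h⁻¹ = y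

variable {H}

theorem hat_eq (hfus : Controls H) {a : ℕ} {θ : H → ℂ} (hθ : IsClassFunction H θ) {g : G} (x : H)
    (hx : IsConj (x : G) (g ^ a)) : hat H a θ g = θ x := by
  classical
  have hex : ∃ x : H, IsConj (x : G) (g ^ a) := ⟨x, hx⟩
  unfold hat
  rw [dif_pos hex]
  have h1 := hex.choose_spec
  obtain ⟨c, hc, hcx⟩ := hfus _ hex.choose.2 _ x.2 (h1.trans hx.symm)
  have : (⟨c, hc⟩ : H) * hex.choose * (⟨c, hc⟩ : H)⁻¹ = x := Subtype.ext (by simpa using hcx)
  rw [← this, hθ]

variable {n m a b : ℕ}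

theorem hat_class (h : PiPow G n m a b) (hT : ∀ y : G, y ^ n = 1 → ∃ x : H, IsConj (x : G) y)
    (hfus : Controls H) {θ : H → ℂ} (hθ : IsClassFunction H θ) : IsClassFunction G (hat H a θ) := by
  intro g u
  obtain ⟨x, hx⟩ := hT (g ^ a) (h.pow_a_pow g)
  have h1 : IsConj (x : G) ((u * g * u⁻¹) ^ a) := by
    rw [conj_pow]
    exact hx.trans (isConj_iff.2 ⟨u, rfl⟩)
  rw [hat_eq hfus hθ x h1, hat_eq hfus hθ x hx]

theorem hat_pow (h : PiPow G n m a b) (hT : ∀ y : G, y ^ n = 1 → ∃ x : H, IsConj (x : G) y)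
    (hfus : Controls H) {θ : H → ℂ} (hθ : IsClassFunction H θ) (g : G) :
    hat H a θ (g ^ a) = hat H a θ g := by
  obtain ⟨x, hx⟩ := hT (g ^ a) (h.pow_a_pow g)
  have h1 : IsConj (x : G) ((g ^ a) ^ a) := by rwa [h.pow_a_pow_a]
  rw [hat_eq hfus hθ x h1, hat_eq hfus hθ x hx]

theorem hat_coe (h : PiPow G n m a b) (hHn : ∀ x : H, (x : G) ^ n = 1)
    (hfus : Controls H) {θ : H → ℂ} (hθ : IsClassFunction H θ) (x : H) :
    hat H a θ (x : G) = θ x := by
  refine hat_eq hfus hθ x ?_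
  rw [h.pow_a_of (hHn x)]

theorem hat_const (h : PiPow G n m a b) (hT : ∀ y : G, y ^ n = 1 → ∃ x : H, IsConj (x : G) y)
    (hfus : Controls H) : hat H a (1 : H → ℂ) = (1 : G → ℂ) := by
  funext g
  obtain ⟨x, hx⟩ := hT (g ^ a) (h.pow_a_pow g)
  have h1 : IsClassFunction H (1 : H → ℂ) := fun _ _ => rfl
  rw [hat_eq hfus h1 x hx]
  rfl

variable [Fintype G] [Fintype H]

/-- The weight attached to an element of `H`. -/
noncomputable def tq (H : Subgroup G) (a : ℕ) (x : H) : ℚ :=
  (Nat.card H : ℚ) * (powFib a (x : G) : ℚ) / (conjFib H (x : G) : ℚ)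

omit [Fintype G] [Fintype H] in
theorem tq_class (H : Subgroup G) (a : ℕ) (x u : H) : tq H a (u * x * u⁻¹) = tq H a x := by
  unfold tq
  have h1 : ((u * x * u⁻¹ : H) : G) = (u : G) * (x : G) * (u : G)⁻¹ := by simp
  rw [h1, powFib_conj, conjFib_conj]

theorem classInner_hat (h : PiPow G n m a b) (hT : ∀ y : G, y ^ n = 1 → ∃ x : H, IsConj (x : G) y)
    (hHn : ∀ x : H, (x : G) ^ n = 1) (hfus : Controls H) {θ η : H → ℂ}
    (hθ : IsClassFunction H θ) (hη : IsClassFunction H η) :
    classInner (hat H a θ) (hat H a η) =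
      (Nat.card H : ℂ)⁻¹ * ∑ x : H, θ x * conj (η x) * ((tq H a x : ℚ) : ℂ) := by
  classical
  set F : G → ℂ := fun y => hat H a θ y * conj (hat H a η y) with hF
  have hFc : IsClassFunction G F := by
    intro g u
    simp only [hF, hat_class h hT hfus hθ g u, hat_class h hT hfus hη g u]
  have h1 := sum_pow_eq h H hT F hFc
  have hGne : (Nat.card G : ℂ) ≠ 0 := by exact_mod_cast Nat.card_pos.ne'
  have hHne : (Nat.card H : ℂ) ≠ 0 := by exact_mod_cast Nat.card_pos.ne'
  unfold classInner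
  have h2 : ∑ g : G, hat H a θ g * conj (hat H a η g) = ∑ g : G, F (g ^ a) := by
    refine Finset.sum_congr rfl (fun g _ => ?_)
    simp only [hF, hat_pow h hT hfus hθ, hat_pow h hT hfus hη]
  rw [h2, h1, ← mul_assoc, inv_mul_cancel₀ hGne, one_mul, Finset.mul_sum]
  refine Finset.sum_congr rfl (fun x _ => ?_)
  simp only [hF, hat_coe h hHn hfus hθ, hat_coe h hHn hfus hη, tq]
  push_cast
  field_simp

omit [Fintype G] [Fintype H] in
theorem tq_pos [Finite G] (h : PiPow G n m a b) (hT : ∀ y : G, y ^ n = 1 → ∃ x : H, IsConj (x : G) y)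
    (hHn : ∀ x : H, (x : G) ^ n = 1) (x : H) : 0 < tq H a x := by
  unfold tq
  have h1 : 0 < powFib a (x : G) := powFib_pos h (hHn x)
  have h2 : 0 < conjFib H (x : G) := conjFib_pos H (hT _ (hHn x))
  have h3 : 0 < Nat.card H := Nat.card_pos
  positivity

/-- The weights are all equal to one, as soon as the lifts are generalized characters. -/
theorem tq_eq_one (h : PiPow G n m a b) (hT : ∀ y : G, y ^ n = 1 → ∃ x : H, IsConj (x : G) y)
    (hHn : ∀ x : H, (x : G) ^ n = 1) (hfus : Controls H)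
    (hgen : ∀ θ : H → ℂ, IsIrrCharacter H θ → IsGeneralizedCharacter G (hat H a θ)) (x : H) :
    tq H a x = 1 := by
  classical
  have h1c : IsClassFunction H (1 : H → ℂ) := fun _ _ => rfl
  have hHne : (Nat.card H : ℂ) ≠ 0 := by exact_mod_cast Nat.card_pos.ne'
  set tf : H → ℂ := fun x => ((tq H a x : ℚ) : ℂ) with htf
  have htfc : IsClassFunction H tf := by
    intro g u
    simp only [htf, tq_class]
  -- integrality of the inner products
  have hint : ∀ η : IrrCharacter H, ∃ k : ℤ, classInner tf (η : H → ℂ) = k := by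
    intro η
    have hηc := Cfsg.Agent.Lib.Char.CompleteCor.isIrr_classFunction η.2
    have h2 := classInner_hat h hT hHn hfus h1c hηc
    rw [hat_const h hT hfus] at h2
    obtain ⟨k, hk⟩ := Cfsg.Agent.Lib.Char.Virtual.exists_int_classInner
      (Cfsg.Agent.Lib.Char.Virtual.isGeneralized_of_isCharacter
        (Cfsg.Agent.Lib.Char.Basic.isCharacter_one (G := G))) (hgen _ η.2)
    refine ⟨k, ?_⟩
    rw [← hk, h2]
    unfold classInner
    congr 1
    refine Finset.sum_congr rfl (fun x _ => ?_)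
    simp only [htf, Pi.one_apply, one_mul]
    ring
  have := Fintype.ofFinite (IrrCharacter H)
  have hexp := Cfsg.Agent.Lib.Char.Complete.eq_sum_classInner tf htfc
  have hintegral : ∀ x : H, IsIntegral ℤ (tf x) := by
    intro x
    rw [hexp]
    simp only [Finset.sum_apply, Pi.smul_apply, smul_eq_mul]
    refine IsIntegral.sum _ (fun χ _ => ?_)
    obtain ⟨k, hk⟩ := hint χ
    rw [hk]
    refine IsIntegral.mul ?_ ?_
    · simpa using isIntegral_algebraMap (R := ℤ) (A := ℂ) (x := k)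
    · exact Cfsg.Agent.Lib.Char.Values.IsCharacter.isIntegral
        (Cfsg.Agent.Lib.Char.Basic.isCharacter_of_isIrrCharacter χ.2) x
  have hge : ∀ x : H, 1 ≤ tq H a x := by
    intro x
    have h2 : IsIntegral ℤ (tq H a x) := by
      have h3 := hintegral x
      simp only [htf] at h3
      exact (isIntegral_algebraMap_iff (R := ℤ) (A := ℚ) (B := ℂ) (x := tq H a x)
        (FaithfulSMul.algebraMap_injective ℚ ℂ)).1 h3
    obtain ⟨k, hk⟩ := IsIntegrallyClosed.isIntegral_iff.1 h2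
    have h4 := tq_pos h hT hHn x
    rw [← hk] at h4 ⊢
    simp only [algebraMap_int_eq, eq_intCast, Int.cast_pos] at h4
    simp only [algebraMap_int_eq, eq_intCast]
    exact_mod_cast h4
  -- the sum formula
  have hsum : ∑ x : H, tq H a x = (Nat.card H : ℚ) := by
    have h2 := classInner_hat h hT hHn hfus h1c h1c
    rw [hat_const h hT hfus] at h2
    have h3 : classInner (1 : G → ℂ) (1 : G → ℂ) = 1 := by
      have hne : (Nat.card G : ℂ) ≠ 0 := by exact_mod_cast Nat.card_pos.ne'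
      unfold classInner
      simp only [Pi.one_apply, map_one, mul_one, Finset.sum_const, Finset.card_univ, nsmul_eq_mul,
        ← Nat.card_eq_fintype_card]
      exact inv_mul_cancel₀ hne
    rw [h3] at h2
    have h4 : ∑ x : H, ((tq H a x : ℚ) : ℂ) = (Nat.card H : ℂ) := by
      field_simp at h2
      simpa using h2.symm
    exact_mod_cast h4
  have h0 : ∑ x : H, (tq H a x - 1) = 0 := by
    rw [Finset.sum_sub_distrib, hsum]
    simp [Nat.card_eq_fintype_card]
  have h5 := (Finset.sum_eq_zero_iff_of_nonneg (fun x _ => sub_nonneg.2 (hge x))).1 h0 x (Finset.mem_univ x)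
  linarith

/-- Orthogonality is preserved. -/
theorem classInner_hat_eq (h : PiPow G n m a b) (hT : ∀ y : G, y ^ n = 1 → ∃ x : H, IsConj (x : G) y)
    (hHn : ∀ x : H, (x : G) ^ n = 1) (hfus : Controls H)
    (hgen : ∀ θ : H → ℂ, IsIrrCharacter H θ → IsGeneralizedCharacter G (hat H a θ)) {θ η : H → ℂ}
    (hθ : IsClassFunction H θ) (hη : IsClassFunction H η) :
    classInner (hat H a θ) (hat H a η) = classInner θ η := by
  rw [classInner_hat h hT hHn hfus hθ hη]
  unfold classInner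
  congr 1
  refine Finset.sum_congr rfl (fun x _ => ?_)
  rw [tq_eq_one h hT hHn hfus hgen x]
  simp

theorem isIrr_hat (h : PiPow G n m a b) (hT : ∀ y : G, y ^ n = 1 → ∃ x : H, IsConj (x : G) y)
    (hHn : ∀ x : H, (x : G) ^ n = 1) (hfus : Controls H)
    (hgen : ∀ θ : H → ℂ, IsIrrCharacter H θ → IsGeneralizedCharacter G (hat H a θ)) {θ : H → ℂ}
    (hθ : IsIrrCharacter H θ) : IsIrrCharacter G (hat H a θ) := by
  have hθc := Cfsg.Agent.Lib.Char.CompleteCor.isIrr_classFunction hθ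
  have h1 : classInner (hat H a θ) (hat H a θ) = 1 := by
    rw [classInner_hat_eq h hT hHn hfus hgen hθc hθc]
    exact Cfsg.Agent.Lib.Char.Ortho.classInner_irr_self hθ
  rcases Cfsg.Agent.Lib.Char.Virtual.isSignedIrr_of_norm_one (hgen θ hθ) h1 with h2 | h2
  · exact h2
  · exfalso
    obtain ⟨k, hk, hk1⟩ := Cfsg.Agent.Lib.Char.Virtual.exists_degree_of_isIrr h2
    obtain ⟨l, hl, hl1⟩ := Cfsg.Agent.Lib.Char.Virtual.exists_degree_of_isIrr hθ
    have h3 : hat H a θ 1 = θ 1 := by
      have := hat_coe h hHn hfus hθc (1 : H)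
      simpa using this
    have h4 : -(l : ℂ) = (k : ℂ) := by
      rw [← hl1, ← h3, ← hk1]
      rfl
    have h5 : ((k + l : ℕ) : ℂ) = 0 := by
      push_cast
      rw [← h4]; ring
    have h6 : k + l = 0 := by exact_mod_cast h5
    omega

/-- The conclusion: a normal complement. -/
theorem exists_normal_complement (hcop : Nat.Coprime (Nat.card H) H.index)
    (hfus : Controls H)
    (hT : ∀ y : G, y ^ Nat.card H = 1 → ∃ x : H, IsConj (x : G) y)
    (hgen : ∀ a b : ℕ, PiPow G (Nat.card H) H.index a b →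
      ∀ θ : H → ℂ, IsIrrCharacter H θ → IsGeneralizedCharacter G (hat H a θ)) :
    ∃ K : Subgroup G, K.Normal ∧ K ⊔ H = ⊤ ∧ K ⊓ H = ⊥ := by
  classical
  have hcard : Nat.card G = Nat.card H * H.index := (Subgroup.card_mul_index H).symm
  have hexp : ∀ g : G, g ^ (Nat.card H * H.index) = 1 := by
    intro g
    rw [← hcard]
    exact pow_card_eq_one'
  obtain ⟨a, b, h⟩ := exists_piPow G (Nat.card_pos.ne') (Subgroup.index_ne_zero_of_finite) hcop hexp
  have hHn : ∀ x : H, (x : G) ^ Nat.card H = 1 := by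
    intro x
    rw [← Subgroup.coe_pow, pow_card_eq_one', Subgroup.coe_one]
  have hg := hgen a b h
  have hirr : ∀ θ : IrrCharacter H, IsIrrCharacter G (hat H a (θ : H → ℂ)) := fun θ =>
    isIrr_hat h hT hHn hfus hg θ.2
  have hrep : ∀ θ : IrrCharacter H, ∃ (n : ℕ) (ρ : Representation ℂ G (Fin n → ℂ)),
      ρ.character = hat H a (θ : H → ℂ) := fun θ => by
    obtain ⟨n, ρ, -, hρ⟩ := hirr θ
    exact ⟨n, ρ, hρ⟩
  choose d ρ hρ using hrep
  let K : Subgroup G := ⨅ θ, Cfsg.Agent.Lib.Char.Codegree.repKer (ρ θ)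
  have hKn : K.Normal := by
    refine ⟨fun x hx g => ?_⟩
    rw [Subgroup.mem_iInf] at hx ⊢
    intro θ
    exact (Cfsg.Agent.Lib.Char.Codegree.repKer_normal (ρ θ)).conj_mem x (hx θ) g
  have hhat1 : ∀ θ : IrrCharacter H, hat H a (θ : H → ℂ) 1 = (θ : H → ℂ) 1 := by
    intro θ
    have := hat_coe h hHn hfus (Cfsg.Agent.Lib.Char.CompleteCor.isIrr_classFunction θ.2) (1 : H)
    simpa using this
  have hmem : ∀ g : G, g ∈ K ↔ ∀ θ : IrrCharacter H, hat H a (θ : H → ℂ) g = (θ : H → ℂ) 1 := by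
    intro g
    rw [Subgroup.mem_iInf]
    refine forall_congr' (fun θ => ?_)
    rw [← Cfsg.Agent.Lib.Char.Codegree.character_eq_one_iff, hρ, hhat1]
  have hK1 : ∀ g ∈ K, g ^ a = 1 := by
    intro g hg'
    obtain ⟨x, hx⟩ := hT (g ^ a) (h.pow_a_pow g)
    have h1 : ∀ θ : IrrCharacter H, (θ : H → ℂ) x = (θ : H → ℂ) 1 := by
      intro θ
      rw [← (hmem g).1 hg' θ,
        hat_eq hfus (Cfsg.Agent.Lib.Char.CompleteCor.isIrr_classFunction θ.2) x hx]
    have h2 := Cfsg.Agent.Lib.Char.CompleteCor.isConj_of_forall_irr h1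
    have h3 : x = 1 := isConj_one_right.1 h2.symm
    have h4 : IsConj (1 : G) (g ^ a) := by simpa [h3] using hx
    exact isConj_one_right.1 h4
  have hK2 : ∀ z : G, z ^ H.index = 1 → z ∈ K := by
    intro z hz
    rw [hmem]
    intro θ
    refine hat_eq hfus (Cfsg.Agent.Lib.Char.CompleteCor.isIrr_classFunction θ.2) 1 ?_
    rw [h.pow_a_of' hz]
    simp
  refine ⟨K, hKn, ?_, ?_⟩
  · -- the index of `K` is prime to the index of `H`
    have hidx : Nat.Coprime K.index H.index := by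
      rw [Nat.coprime_iff_gcd_eq_one]
      by_contra hne
      obtain ⟨q, hq, hqd⟩ := Nat.exists_prime_and_dvd hne
      have h3 : q ∣ K.index := hqd.trans (Nat.gcd_dvd_left _ _)
      have h4 : q ∣ H.index := hqd.trans (Nat.gcd_dvd_right _ _)
      have hqn : ¬ q ∣ Nat.card H := by
        intro h5
        have := Nat.dvd_gcd h5 h4
        rw [hcop] at this
        exact hq.one_lt.ne' (Nat.dvd_one.1 this)
      haveI : Fact q.Prime := ⟨hq⟩
      obtain ⟨Q⟩ : Nonempty (Sylow q G) := inferInstance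
      have hQK : (Q : Subgroup G) ≤ K := by
        intro z hz
        apply hK2
        obtain ⟨k, hk⟩ := (IsPGroup.iff_orderOf.1 Q.2) ⟨z, hz⟩
        have hk2 : orderOf z = q ^ k := by
          rw [← Subgroup.orderOf_mk z hz]
          exact hk
        have h6 : orderOf z ∣ Nat.card H * H.index := orderOf_dvd_of_pow_eq_one (hexp z)
        have h7 : Nat.Coprime (orderOf z) (Nat.card H) := by
          rw [hk2]
          exact Nat.Coprime.pow_left k ((Nat.Prime.coprime_iff_not_dvd hq).2 hqn)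
        exact orderOf_dvd_iff_pow_eq_one.1 (h7.dvd_of_dvd_mul_left h6)
      have h8 : K.index ∣ (Q : Subgroup G).index := Subgroup.index_dvd_of_le hQK
      exact Q.not_dvd_index (h3.trans h8)
    have h1 : (K ⊔ H).index ∣ K.index := Subgroup.index_dvd_of_le le_sup_left
    have h2 : (K ⊔ H).index ∣ H.index := Subgroup.index_dvd_of_le le_sup_right
    have h3 := Nat.dvd_gcd h1 h2
    rw [hidx] at h3
    exact Subgroup.index_eq_one.1 (Nat.dvd_one.1 h3)
  · rw [eq_bot_iff]
    intro x hx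
    rw [Subgroup.mem_inf] at hx
    have h1 := hK1 x hx.1
    have h2 : x ^ a = x := h.pow_a_of (hHn ⟨x, hx.2⟩)
    rw [h2] at h1
    simpa using h1

end Hat

end Cfsg.Agent.Lib.Char.HallHat
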