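import Mathlib
import Cfsg.Agent.Lib.Char.PrimeIndex
import Cfsg.Agent.Lib.Char.CliffordCorr

/-!
# A normal subgroup of prime index with a noninvariant linear character

If `G` is a nonabelian solvable group all of whose nonlinear irreducible characters have prime
degree then `G` has a normal subgroup `A` of prime index with a linear character that is not
`G`-invariant.
-/

set_option autoImplicit false

namespace Cfsg.Agent.Lib.Char.MinNonab

open Cfsg Module Cfsg.Agent.Lib.Char.Basic Cfsg.Agent.Lib.Char.Ortho Cfsg.Agent.Lib.Char.Induced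
  Cfsg.Agent.Lib.Char.IndRep Cfsg.Agent.Lib.Char.LinearChars Cfsg.Agent.Lib.Char.Clifford
  Cfsg.Agent.Lib.Char.CliffordCorr Cfsg.Agent.Lib.Char.Values
open scoped ComplexConjugate

universe u

/-- The conclusion. -/
def HasData (G : Type u) [Group G] : Prop :=
  ∃ (A : Subgroup G) (hA : A.Normal) (μ : A →* ℂˣ) (g : G) (a : A),
    A.index.Prime ∧ μ ⟨g * a * g⁻¹, hA.conj_mem a a.2 g⟩ ≠ μ a

variable {G : Type u} [Group G]

/-- A nonabelian group with an abelian normal subgroup of prime index which is not central. -/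
theorem hasData_of_abelian (A : Subgroup G) (hA : A.Normal) (hab : ∀ a ∈ A, ∀ b ∈ A, a * b = b * a)
    (hp : A.index.Prime) (g b : G) (hb : b ∈ A) (hgb : g * b * g⁻¹ ≠ b) [Finite A] : HasData G := by
  classical
  let _ : CommGroup A :=
    { (inferInstance : Group A) with
      mul_comm := fun x y => Subtype.ext (hab x x.2 y y.2) }
  have hmem : g * b * g⁻¹ ∈ A := hA.conj_mem b hb g
  have hu : (⟨g * b * g⁻¹, hmem⟩ : A) * (⟨b, hb⟩ : A)⁻¹ ≠ 1 := by
    intro h
    apply hgb
    have := congrArg (Subtype.val) (mul_inv_eq_one.mp h)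
    exact this
  obtain ⟨μ, hμ⟩ := CommGroup.exists_apply_ne_one_of_hasEnoughRootsOfUnity A ℂ hu
  refine ⟨A, hA, μ, g, ⟨b, hb⟩, hp, ?_⟩
  intro h
  apply hμ
  rw [map_mul, map_inv]
  exact mul_inv_eq_one.mpr h

/-- The central case. -/
theorem hasData_of_central [Fintype G] (hna : ∃ a b : G, a * b ≠ b * a)
    (hV : ∀ x y : G, x * y * x⁻¹ * y⁻¹ ∈ Subgroup.center G) {χ : G → ℂ} (hχ : IsIrrCharacter G χ)
    {n : ℕ} (_hn : χ 1 = n) (hnp : n.Prime)
    (hvan : ∀ g, g ∉ Subgroup.center G → χ g = 0)
    (hnorm : ∀ z ∈ Subgroup.center G, χ z * conj (χ z) = (n : ℂ) ^ 2) : HasData G := by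
  classical
  set Z := Subgroup.center G with hZ
  have hcardZ : Nat.card Z * n ^ 2 = Nat.card G := by
    have h1 := classInner_irr_self hχ
    rw [classInner] at h1
    have hG : (Nat.card G : ℂ) ≠ 0 := Nat.cast_ne_zero.mpr Nat.card_pos.ne'
    have h2 : ∑ g : G, χ g * conj (χ g) = (Nat.card G : ℂ) := by
      field_simp at h1
      exact h1
    have h3 : ∑ g : G, χ g * conj (χ g) = ∑ g : G, if g ∈ Z then (n : ℂ) ^ 2 else 0 := by
      refine Finset.sum_congr rfl fun g _ => ?_
      split_ifs with hg
      · exact hnorm g hg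
      · rw [hvan g hg]; simp
    rw [Finset.sum_ite, Finset.sum_const_zero, add_zero, Finset.sum_const, nsmul_eq_mul] at h3
    have h4 : ((Finset.univ.filter (· ∈ Z)).card : ℂ) * (n : ℂ) ^ 2 = Nat.card G := h3.symm.trans h2
    have h5 : (Finset.univ.filter (· ∈ Z)).card = Nat.card Z := by
      rw [Nat.card_eq_fintype_card, Fintype.card_subtype]
    rw [h5] at h4
    exact_mod_cast h4
  have hindex : Z.index = n ^ 2 := by
    have h1 := Subgroup.index_mul_card Z
    rw [← hcardZ, mul_comm] at h1
    exact Nat.eq_of_mul_eq_mul_left Nat.card_pos (by rw [mul_comm] at h1; rw [← h1, mul_comm])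
  obtain ⟨b0, c0, hbc⟩ := hna
  have hb0 : b0 ∉ Z := fun h => hbc ((Subgroup.mem_center_iff.mp h c0).symm)
  obtain ⟨g, hg⟩ : ∃ g : G, g * b0 * g⁻¹ ≠ b0 := ⟨c0, fun h => hbc (by
    have : c0 * b0 = b0 * c0 := by
      calc c0 * b0 = c0 * b0 * c0⁻¹ * c0 := by group
        _ = b0 * c0 := by rw [h]
    exact this.symm)⟩
  -- quotient
  let Q := G ⧸ Z
  have hcardQ : Nat.card Q = n ^ 2 := hindex
  let x : Q := (b0 : G ⧸ Z)
  have hx : x ≠ 1 := fun h => hb0 ((QuotientGroup.eq_one_iff b0).1 h)
  have hordx : orderOf x ∣ n ^ 2 := by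
    rw [← hcardQ]
    exact orderOf_dvd_natCard x
  have hord : orderOf x = n := by
    obtain ⟨k, hk, hk2⟩ := (Nat.dvd_prime_pow hnp).1 hordx
    interval_cases k
    · exact absurd (orderOf_eq_one_iff.mp (by simpa using hk2)) hx
    · simpa using hk2
    · exfalso
      have hcyc : IsCyclic Q := isCyclic_of_orderOf_eq_card x (by rw [hk2, hcardQ])
      apply hbc
      have := MonoidHom.isMulCommutative_of_isCyclic_of_ker_le_center (QuotientGroup.mk' Z)
        (by simp [Z])
      exact isMulCommutative_iff.mp this b0 c0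
  let B : Subgroup Q := Subgroup.zpowers x
  have hBcard : Nat.card B = n := by
    rw [Nat.card_zpowers, hord]
  have hBindex : B.index = n := by
    have h1 := Subgroup.index_mul_card B
    rw [hBcard, hcardQ, pow_two] at h1
    exact Nat.eq_of_mul_eq_mul_right hnp.pos h1
  let A : Subgroup G := B.comap (QuotientGroup.mk' Z)
  have hAindex : A.index = n := by
    rw [Subgroup.index_comap_of_surjective _ (QuotientGroup.mk'_surjective Z), hBindex]
  have hZA : Z ≤ A := by
    intro z hz
    have : ((z : G ⧸ Z)) = 1 := (QuotientGroup.eq_one_iff z).2 hz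
    show ((z : G ⧸ Z)) ∈ B
    rw [this]
    exact one_mem _
  have hbA : b0 ∈ A := Subgroup.mem_zpowers x
  have hAn : A.Normal := ⟨fun a ha h => by
    have h1 : h * a * h⁻¹ = (h * a * h⁻¹ * a⁻¹) * a := by
      group
    rw [h1]
    exact A.mul_mem (hZA (hV h a)) ha⟩
  have hrep : ∀ a ∈ A, ∃ (i : ℤ) (z : G), z ∈ Z ∧ a = b0 ^ i * z := by
    intro a ha
    obtain ⟨i, hi⟩ := Subgroup.mem_zpowers_iff.mp ha
    refine ⟨i, (b0 ^ i)⁻¹ * a, ?_, by group⟩
    have : ((b0 ^ i : G) : G ⧸ Z) = ((a : G) : G ⧸ Z) := by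
      rw [QuotientGroup.mk_zpow]
      exact hi
    exact QuotientGroup.eq.mp this
  have hab : ∀ a ∈ A, ∀ c ∈ A, a * c = c * a := by
    intro a ha c hc
    obtain ⟨i, z, hz, rfl⟩ := hrep a ha
    obtain ⟨j, w, hw, rfl⟩ := hrep c hc
    have h1 : ∀ y : G, z * y = y * z := fun y => (Subgroup.mem_center_iff.mp hz y).symm
    have h2 : ∀ y : G, w * y = y * w := fun y => (Subgroup.mem_center_iff.mp hw y).symm
    calc b0 ^ i * z * (b0 ^ j * w) = b0 ^ i * b0 ^ j * (z * w) := by
          rw [mul_assoc, ← mul_assoc z, h1 (b0 ^ j)]; simp only [mul_assoc]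
      _ = b0 ^ j * b0 ^ i * (w * z) := by
          rw [← zpow_add, ← zpow_add, add_comm, h1 w]
      _ = b0 ^ j * w * (b0 ^ i * z) := by
          rw [mul_assoc (b0 ^ j), ← mul_assoc (b0 ^ i), ← h2 (b0 ^ i)]
          simp only [mul_assoc]
  exact hasData_of_abelian A hAn hab (by rw [hAindex]; exact hnp) g b0 hbA hg

/-- The action of a central element. -/
theorem character_central_mul [Fintype G] {χ : G → ℂ} (hχ : IsIrrCharacter G χ) {n : ℕ}
    (hn : χ 1 = n) (hn0 : n ≠ 0) {z : G} (hz : z ∈ Subgroup.center G) (g : G) :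
    χ (z * g) * n = χ z * χ g := by
  obtain ⟨m, ρ, hρ, rfl⟩ := hχ
  have := hρ
  have hmn : m = n := by
    rw [Representation.char_one] at hn
    simp only [Module.finrank_fin_fun] at hn
    exact_mod_cast hn
  subst hmn
  have hcomm : ∀ y, ρ z ∘ₗ ρ y = ρ y ∘ₗ ρ z := by
    intro y
    have h1 : z * y = y * z := (Subgroup.mem_center_iff.mp hz y).symm
    have h2 := congrArg ρ h1
    rw [map_mul, map_mul] at h2
    exact h2
  have h1 := Cfsg.Agent.Lib.Char.Integrality.eq_trace_div_smul_of_commute ρ (ρ z) hcomm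
  have hmne : (m : ℂ) ≠ 0 := Nat.cast_ne_zero.mpr hn0
  have h2 : ρ.character (z * g) = (ρ.character z / m) * ρ.character g := by
    show LinearMap.trace ℂ _ (ρ (z * g)) = (LinearMap.trace ℂ _ (ρ z) / m) * LinearMap.trace ℂ _ (ρ g)
    rw [map_mul]
    conv_lhs => rw [h1]
    simp only [Module.finrank_fin_fun, Module.End.mul_eq_comp, LinearMap.smul_comp,
      LinearMap.id_comp, map_smul, smul_eq_mul]
  rw [h2]
  field_simp

/-- The main theorem of this file. -/
theorem hasData_of_allPrime (N : ℕ) : ∀ (G : Type u) [Group G] [Finite G], Nat.card G = N →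
    Group.IsSolvable G →
    (∀ χ : IrrCharacter G, charDegree (χ : G → ℂ) = 1 ∨ (charDegree (χ : G → ℂ)).Prime) →
    (∃ a b : G, a * b ≠ b * a) → HasData G := by
  induction N using Nat.strong_induction_on with
  | _ N ih =>
  intro G _ _ hN hs hp hna
  classical
  by_cases hq : ∃ (K : Subgroup G) (_ : K.Normal), K ≠ ⊥ ∧ ∃ x y : G ⧸ K, x * y ≠ y * x
  · -- pass to a proper quotient
    obtain ⟨K, hK, hK1, hnq⟩ := hq
    have hlt : Nat.card (G ⧸ K) < N := by
      rw [← hN]
      have h1 := Subgroup.index_mul_card K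
      have h2 : 1 < Nat.card K := by
        haveI : Nontrivial K := (Subgroup.nontrivial_iff_ne_bot K).mpr hK1
        exact Finite.one_lt_card
      have h3 : 0 < K.index := Nat.pos_of_ne_zero (Subgroup.index_ne_zero_of_finite (H := K))
      show K.index < _
      nlinarith
    have hsq : Group.IsSolvable (G ⧸ K) := inferInstance
    have hpq : ∀ χ : IrrCharacter (G ⧸ K),
        charDegree (χ : G ⧸ K → ℂ) = 1 ∨ (charDegree (χ : G ⧸ K → ℂ)).Prime := by
      intro χ
      have h1 := isIrrCharacter_comp_surjective χ.2 (QuotientGroup.mk' K)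
        (QuotientGroup.mk'_surjective K)
      have h2 := hp ⟨_, h1⟩
      have h3 : charDegree (fun g : G => (χ : G ⧸ K → ℂ) (QuotientGroup.mk' K g))
          = charDegree (χ : G ⧸ K → ℂ) := by
        unfold charDegree
        simp
      simpa only [h3] using h2
    obtain ⟨A', hA', μ', g', a', hprime, hne⟩ := ih _ hlt (G ⧸ K) rfl hsq hpq hnq
    let A : Subgroup G := A'.comap (QuotientGroup.mk' K)
    have hA : A.Normal := hA'.comap _
    obtain ⟨g, rfl⟩ := QuotientGroup.mk'_surjective K g'
    obtain ⟨a, ha⟩ := QuotientGroup.mk'_surjective K (a' : G ⧸ K)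
    have haA : a ∈ A := by
      show QuotientGroup.mk' K a ∈ A'
      rw [ha]
      exact a'.2
    refine ⟨A, hA, μ'.comp ((QuotientGroup.mk' K).subgroupComap A'), g, ⟨a, haA⟩, ?_, ?_⟩
    · rw [Subgroup.index_comap_of_surjective _ (QuotientGroup.mk'_surjective K)]
      exact hprime
    · intro h
      apply hne
      have e1 : ((QuotientGroup.mk' K).subgroupComap A') ⟨a, haA⟩ = a' := Subtype.ext ha
      have e2 : ((QuotientGroup.mk' K).subgroupComap A') ⟨g * a * g⁻¹, hA.conj_mem a haA g⟩
          = ⟨(QuotientGroup.mk' K g) * a' * (QuotientGroup.mk' K g)⁻¹,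
            hA'.conj_mem a' a'.2 _⟩ := by
        apply Subtype.ext
        show QuotientGroup.mk' K (g * a * g⁻¹) = _
        rw [map_mul, map_mul, map_inv, ha]
      simp only [MonoidHom.comp_apply] at h
      rw [e1, e2] at h
      exact h
  · -- all proper quotients are abelian
    push Not at hq
    have hq' : ∀ K : Subgroup G, K.Normal → K ≠ ⊥ → ∀ x y : G, x * y * x⁻¹ * y⁻¹ ∈ K := by
      intro K hK hK1 x y
      have h1 := hq K hK hK1 (x : G ⧸ K) (y : G ⧸ K)
      have h2 : ((x * y * x⁻¹ * y⁻¹ : G) : G ⧸ K) = 1 := by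
        rw [QuotientGroup.mk_mul, QuotientGroup.mk_mul, QuotientGroup.mk_mul, QuotientGroup.mk_inv,
          QuotientGroup.mk_inv, h1]
        group
      exact (QuotientGroup.eq_one_iff _).1 h2
    let V : Subgroup G := commutator G
    have hVn : V.Normal := inferInstance
    have hVmem : ∀ x y : G, x * y * x⁻¹ * y⁻¹ ∈ V := by
      intro x y
      rw [show V = ⁅(⊤ : Subgroup G), (⊤ : Subgroup G)⁆ from rfl]
      exact Subgroup.commutator_mem_commutator (Subgroup.mem_top x) (Subgroup.mem_top y)
    have hVmin : ∀ K : Subgroup G, K.Normal → K ≠ ⊥ → V ≤ K := by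
      intro K hK hK1
      rw [show V = ⁅(⊤ : Subgroup G), (⊤ : Subgroup G)⁆ from rfl, Subgroup.commutator_le]
      intro x _ y _
      exact hq' K hK hK1 x y
    have hV1 : V ≠ ⊥ := by
      intro h
      obtain ⟨a, b, hab⟩ := hna
      have h1 := hVmem a b
      rw [h, Subgroup.mem_bot] at h1
      apply hab
      have h2 : a * b * a⁻¹ * b⁻¹ * (b * a) = b * a := by rw [h1, one_mul]
      calc a * b = a * b * a⁻¹ * b⁻¹ * (b * a) := by group
        _ = b * a := h2
    -- `V` is abelian
    have hVab : ∀ a ∈ V, ∀ b ∈ V, a * b = b * a := by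
      let D : Subgroup G := ⁅V, V⁆
      have hDn : D.Normal := inferInstance
      by_cases hD : D = ⊥
      · intro a ha b hb
        have h1 : a * b * a⁻¹ * b⁻¹ ∈ D := Subgroup.commutator_mem_commutator ha hb
        rw [hD, Subgroup.mem_bot] at h1
        calc a * b = a * b * a⁻¹ * b⁻¹ * (b * a) := by group
          _ = b * a := by rw [h1, one_mul]
      · exfalso
        have hVD : V ≤ D := hVmin D hDn hD
        have hDV : D = V := le_antisymm (Subgroup.commutator_le_self V) hVD
        have hder : ∀ n, derivedSeries G (n + 1) = V := by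
          intro n
          induction n with
          | zero => rfl
          | succ k hk =>
            rw [derivedSeries_succ, hk]
            exact hDV
        obtain ⟨n, hn⟩ := hs.solvable
        have h1 := hder n
        rw [derivedSeries_succ, hn, Subgroup.commutator_bot_left] at h1
        exact hV1 h1.symm
    obtain ⟨v0, hv0V, hv01⟩ : ∃ v ∈ V, v ≠ 1 := by
      by_contra hcon
      push Not at hcon
      exact hV1 ((Subgroup.eq_bot_iff_forall V).2 hcon)
    let _ : CommGroup V :=
      { (inferInstance : Group V) with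
        mul_comm := fun x y => Subtype.ext (hVab x x.2 y y.2) }
    have hv1 : (⟨v0, hv0V⟩ : V) ≠ 1 := fun h => hv01 (congrArg Subtype.val h)
    obtain ⟨μ₀, hμ₀⟩ := CommGroup.exists_apply_ne_one_of_hasEnoughRootsOfUnity V ℂ hv1
    letI : Fintype G := Fintype.ofFinite G
    letI : Fintype V := Fintype.ofFinite V
    let ϑ : V → ℂ := fun v => ((μ₀ v : ℂˣ) : ℂ)
    have hϑ : IsIrrCharacter V ϑ := isIrr_of_hom μ₀
    have hϑc := isCharacter_of_isIrrCharacter hϑ
    have hK := isCharacter_indFun V hϑc
    have hK1 : indFun V ϑ 1 ≠ 0 := by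
      rw [indFun_one V ϑ]
      exact mul_ne_zero (by exact_mod_cast (Subgroup.index_ne_zero_of_finite (H := V)))
        (irr_apply_one_ne_zero hϑ)
    obtain ⟨χ, hχ, hc0⟩ := exists_irr_constituent hK hK1
    have hχc := isCharacter_of_isIrrCharacter hχ
    have hχcl := isClassFunction_of_isCharacter hχc
    have hc : classInner (fun v : V => χ v) ϑ ≠ 0 := by
      rw [frobenius_reciprocity V ϑ χ hχcl] at hc0
      intro h0
      apply hc0
      rw [← classInner_conj_symm, h0]
      simp
    -- the inertia group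
    let T : Subgroup G :=
      { carrier := {g | ∀ v : V, ϑ ⟨g * v * g⁻¹, hVn.conj_mem v v.2 g⟩ = ϑ v}
        one_mem' := by
          intro h
          congr 1
          apply Subtype.ext
          simp
        mul_mem' := by
          intro a b ha hb h
          have h2 := ha ⟨b * h * b⁻¹, hVn.conj_mem h h.2 b⟩
          rw [← hb h, ← h2]
          congr 1
          apply Subtype.ext
          simp [mul_assoc]
        inv_mem' := by
          intro a ha h
          have h2 := ha ⟨a⁻¹ * h * a⁻¹⁻¹, hVn.conj_mem h h.2 a⁻¹⟩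
          have h3 : ϑ ⟨a * ((⟨a⁻¹ * h * a⁻¹⁻¹, hVn.conj_mem h h.2 a⁻¹⟩ : V) : G) * a⁻¹,
              hVn.conj_mem _ (hVn.conj_mem h h.2 a⁻¹) a⟩ = ϑ h := by
            congr 1
            apply Subtype.ext
            simp [mul_assoc]
          rw [← h2, h3] }
    have hT : ∀ g : G, g ∈ T ↔ ∀ v : V, ϑ ⟨g * v * g⁻¹, hVn.conj_mem v v.2 g⟩ = ϑ v :=
      fun g => Iff.rfl
    have hVT : V ≤ T := by
      intro a ha v
      congr 1
      apply Subtype.ext
      show a * (v : G) * a⁻¹ = v
      rw [hVab a ha v v.2]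
      group
    have hTn : T.Normal := ⟨fun t ht g => by
      have h1 : g * t * g⁻¹ = (g * t * g⁻¹ * t⁻¹) * t := by group
      rw [h1]
      exact T.mul_mem (hVT (hVmem g t)) ht⟩
    have hdeg := apply_one_eq V ϑ T hϑ hT hχ hc
    obtain ⟨e, he⟩ := exists_nat_classInner_of_isCharacter (isCharacter_restrict hχc V) hϑc
    obtain ⟨n, hn0, hn⟩ := irr_degree_pos hχ
    have hϑ1 : ϑ 1 = 1 := by simp [ϑ]
    have hne : n = e * T.index := by
      rw [hn, he, hϑ1, mul_one] at hdeg
      exact_mod_cast hdeg
    have hnd : charDegree χ = n := IsCharacter.charDegree_eq hχc hn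
    have hn1 : n ≠ 1 := by
      rintro rfl
      obtain ⟨φ, hφ⟩ := exists_hom_of_isCharacter_one hχc (by simpa using hn)
      have hφV : ∀ v ∈ V, φ v = 1 := by
        intro v hv
        have : V ≤ φ.ker := by
          rw [show V = ⁅(⊤ : Subgroup G), (⊤ : Subgroup G)⁆ from rfl, Subgroup.commutator_le]
          intro x _ y _
          rw [MonoidHom.mem_ker, commutatorElement_def, map_mul, map_mul, map_mul, map_inv, map_inv]
          rw [mul_comm (φ x) (φ y)]
          group
        exact this hv
      apply hc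
      have h1 : (fun v : V => χ v) = fun _ => 1 := by
        funext v
        rw [hφ]
        simp [hφV v v.2]
      rw [h1]
      apply classInner_irr_of_ne (isIrr_of_hom (1 : V →* ℂˣ)) hϑ
      intro h2
      apply hμ₀
      have h3 := congrFun h2 ⟨v0, hv0V⟩
      simp only [ϑ, MonoidHom.one_apply, Units.val_one] at h3
      exact Units.ext h3.symm
    have hnp : n.Prime := by
      have := hp ⟨χ, hχ⟩
      simp only [hnd] at this
      exact this.resolve_left hn1
    by_cases ht : T.index = 1
    · -- the central case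
      have hTtop : T = ⊤ := Subgroup.index_eq_one.mp ht
      have hinv : ∀ (g : G) (v : V), ϑ ⟨g * v * g⁻¹, hVn.conj_mem v v.2 g⟩ = ϑ v := by
        intro g v
        have : g ∈ T := by rw [hTtop]; trivial
        exact this v
      have hinvU : ∀ (g : G) (v : V), μ₀ ⟨g * v * g⁻¹, hVn.conj_mem v v.2 g⟩ = μ₀ v :=
        fun g v => Units.ext (hinv g v)
      -- `μ₀` is injective
      let K : Subgroup G := (μ₀.ker).map V.subtype
      have hKn : K.Normal := ⟨fun k hk g => by
        obtain ⟨v, hv, rfl⟩ := hk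
        refine ⟨⟨g * v * g⁻¹, hVn.conj_mem v v.2 g⟩, ?_, rfl⟩
        rw [SetLike.mem_coe, MonoidHom.mem_ker] at hv ⊢
        rw [hinvU, hv]⟩
      have hKbot : K = ⊥ := by
        by_contra hK0
        have hVK := hVmin K hKn hK0
        obtain ⟨v, hv, hvv⟩ := hVK hv0V
        apply hμ₀
        have : v = ⟨v0, hv0V⟩ := Subtype.ext hvv
        rw [← this]
        exact hv
      have hinj : ∀ v : V, μ₀ v = 1 → v = 1 := by
        intro v hv
        have h1 : (v : G) ∈ K := ⟨v, hv, rfl⟩
        rw [hKbot, Subgroup.mem_bot] at h1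
        exact Subtype.ext h1
      have hcent : ∀ (g : G) (v : V), g * v * g⁻¹ = v := by
        intro g v
        have h1 : μ₀ (⟨g * v * g⁻¹, hVn.conj_mem v v.2 g⟩ * v⁻¹) = 1 := by
          rw [map_mul, map_inv, hinvU, mul_inv_cancel]
        have h2 := hinj _ h1
        have h3 := mul_inv_eq_one.mp h2
        exact congrArg Subtype.val h3
      have hVZ : ∀ v ∈ V, v ∈ Subgroup.center G := by
        intro v hv
        rw [Subgroup.mem_center_iff]
        intro g
        have := hcent g ⟨v, hv⟩
        calc g * v = g * v * g⁻¹ * g := by group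
          _ = v * g := by rw [show g * v * g⁻¹ = v from this]
      -- `χ` on `V`
      have hχV : ∀ v : V, χ v = n * ϑ v := by
        intro v
        have h1 := res_eq_smul_finsum V hχ hϑ hc
        have horb : orbitSet V ϑ = {ϑ} := by
          ext ψ
          constructor
          · rintro ⟨g, rfl⟩
            have : g ∈ T := by rw [hTtop]; trivial
            exact (conjFun_eq_self_iff V ϑ T hT g).2 this
          · rintro rfl
            exact mem_orbitSet_self V _
        rw [horb, finsum_mem_singleton, he] at h1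
        have h2 := congrFun h1 v
        simp only [Pi.smul_apply, smul_eq_mul] at h2
        rw [h2, hne, ht, mul_one]
      have hn0' : n ≠ 0 := hn0.ne'
      have hnC : (n : ℂ) ≠ 0 := Nat.cast_ne_zero.mpr hn0'
      have hvan : ∀ g, g ∉ Subgroup.center G → χ g = 0 := by
        intro g hg
        rw [Subgroup.mem_center_iff] at hg
        push Not at hg
        obtain ⟨y, hy⟩ := hg
        let z : V := ⟨y * g * y⁻¹ * g⁻¹, hVmem y g⟩
        have hz1 : z ≠ 1 := by
          intro h
          have h1 : y * g * y⁻¹ * g⁻¹ = 1 := congrArg Subtype.val h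
          apply hy
          calc y * g = y * g * y⁻¹ * g⁻¹ * (g * y) := by group
            _ = g * y := by rw [h1, one_mul]
        have hμz : ((μ₀ z : ℂˣ) : ℂ) ≠ 1 := fun h => hz1 (hinj z (Units.ext h))
        have h1 : χ g = χ ((z : G) * g) := by
          have h2 : ((z : G) * g) = y * g * y⁻¹ := by
            show y * g * y⁻¹ * g⁻¹ * g = _
            group
          rw [h2]
          exact (hχcl g y).symm
        have h3 := character_central_mul hχ hn hn0' (hVZ z z.2) g
        rw [← h1, hχV z] at h3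
        have h4 : (n : ℂ) * (χ g * (1 - ϑ z)) = 0 := by linear_combination h3
        have h5 := (mul_eq_zero.mp h4).resolve_left hnC
        exact (mul_eq_zero.mp h5).resolve_right (sub_ne_zero.mpr (Ne.symm hμz))
      have hnorm : ∀ z ∈ Subgroup.center G, χ z * (starRingEnd ℂ) (χ z) = (n : ℂ) ^ 2 := by
        intro z hz
        have h3 := character_central_mul hχ hn hn0' hz z⁻¹
        rw [mul_inv_cancel, hn, character_inv_of_isCharacter hχc] at h3
        rw [← h3, pow_two]
      exact hasData_of_central hna (fun x y => hVZ _ (hVmem x y)) hχ hn hnp hvan hnorm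
    · -- the noncentral case
      have hdvd : T.index ∣ n := ⟨e, by rw [hne, mul_comm]⟩
      have htn : T.index = n := ((Nat.dvd_prime hnp).1 hdvd).resolve_left ht
      letI : Fintype T := Fintype.ofFinite T
      obtain ⟨ψ, hψ, hind, hres⟩ := exists_indFun_eq V ϑ T hVT hϑ hT hχ hc
      have hψc := isCharacter_of_isIrrCharacter hψ
      have hψ1 : ψ 1 = 1 := by
        have h1 := indFun_one T ψ
        rw [hind, hn, htn] at h1
        have hnC : (n : ℂ) ≠ 0 := Nat.cast_ne_zero.mpr hn0.ne'
        exact mul_left_cancel₀ hnC (by rw [← h1, mul_one])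
      obtain ⟨τ, hτ⟩ := exists_hom_of_isCharacter_one hψc hψ1
      have hresτ : resT V T hVT ψ = ϑ := by
        by_contra hne2
        have hirr : IsIrrCharacter V (resT V T hVT ψ) := by
          have h1 := isIrr_of_hom (τ.comp (Subgroup.inclusion hVT))
          convert h1 using 1
          funext v
          simp only [resT, hτ]
          rfl
        rw [classInner_irr_of_ne hirr hϑ hne2] at hres
        exact hc hres.symm
      have hTtop : T ≠ ⊤ := fun h => ht (by rw [h, Subgroup.index_top])
      obtain ⟨g, hg⟩ : ∃ g, g ∉ T := by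
        by_contra hcon
        push Not at hcon
        exact hTtop ((Subgroup.eq_top_iff' T).2 hcon)
      have hg' := hg
      rw [hT g] at hg'
      push Not at hg'
      obtain ⟨v, hv⟩ := hg'
      refine ⟨T, hTn, τ, g, ⟨v, hVT v.2⟩, by rw [htn]; exact hnp, ?_⟩
      intro h
      apply hv
      have h1 : ∀ u : V, ((τ ⟨u, hVT u.2⟩ : ℂˣ) : ℂ) = ϑ u := by
        intro u
        have := congrFun hresτ u
        simp only [resT, hτ] at this
        exact this
      rw [← h1 v, ← h1 ⟨g * v * g⁻¹, hVn.conj_mem v v.2 g⟩]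
      exact congrArg (fun u : ℂˣ => (u : ℂ)) h

end Cfsg.Agent.Lib.Char.MinNonab
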