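import Mathlib
import Cfsg.Prelude.Def_Blocks
import Cfsg.Agent.Lib.Blocks.PrincipalColumn
import Cfsg.Agent.Lib.Blocks.Sections
import Cfsg.Agent.Lib.Char.Kazarin
import Cfsg.Agent.Lib.Char.PRegular
import Cfsg.Agent.Lib.DefectOne.FewChar
import Cfsg.Agent.Lib.Char.BrauerSCNum

/-!
# Simple groups and elements of mixed order

Two facts about the principal `p`-block of a non-abelian simple group:

* it has no nontrivial member of `p`-power degree (`not_ppower_of_mem`);
* for a `p`-singular element `g` and any prime `q` it has a nontrivial member not vanishing at `g` of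
  degree prime to `q` (`exists_block_char`).

Together with the vanishing of characters of `r`-defect zero on `r`-singular elements these forbid elements
of order `p * r` in a simple group of order `p ^ a * q ^ b * r` (`no_mixed`).
-/

set_option autoImplicit false

namespace Cfsg.Agent.Lib.Char.NoMixed

open Cfsg Cfsg.Agent.Lib.Blocks.Local Cfsg.Agent.Lib.Blocks.Central Cfsg.Agent.Lib.Blocks.Principal
open scoped ComplexConjugate

universe u

variable {G : Type u} [Group G] [Fintype G]

/-- A vanishing sum containing the trivial character has another member of degree prime to `r`. -/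
lemma exists_not_dvd (s : Finset (Cfsg.IrrCharacter G))
    (h1 : trivChar G ∈ s) (x : G)
    (hsum : ∑ χ ∈ s, (χ : G → ℂ) x * conj ((χ : G → ℂ) 1) = 0) {r : ℕ} (hr : r.Prime) :
    ∃ χ ∈ s, χ ≠ trivChar G ∧ ¬ r ∣ charDegree (χ : G → ℂ) := by
  classical
  by_contra hno
  push Not at hno
  have hr0 : (r : ℂ) ≠ 0 := by exact_mod_cast hr.ne_zero
  have hsplit := Finset.add_sum_erase s (fun χ => (χ : G → ℂ) x * conj ((χ : G → ℂ) 1)) h1
  rw [hsum] at hsplit
  have ht : ((trivChar G : Cfsg.IrrCharacter G) : G → ℂ) x * conj (((trivChar G : Cfsg.IrrCharacter G) : G → ℂ) 1) = 1 := by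
    simp [trivChar]
  rw [ht] at hsplit
  have hint : IsIntegral ℤ (∑ χ ∈ s.erase (trivChar G),
      (χ : G → ℂ) x * (((charDegree (χ : G → ℂ) / r : ℕ)) : ℂ)) := by
    refine IsIntegral.sum _ fun χ _ => ?_
    exact IsIntegral.mul (isIntegral_irr χ.2 x) (isIntegral_natCast (R := ℤ) (B := ℂ) _)
  have hval : (r : ℂ) * (∑ χ ∈ s.erase (trivChar G),
      (χ : G → ℂ) x * (((charDegree (χ : G → ℂ) / r : ℕ)) : ℂ)) =
      ∑ χ ∈ s.erase (trivChar G), (χ : G → ℂ) x * conj ((χ : G → ℂ) 1) := by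
    rw [Finset.mul_sum]
    refine Finset.sum_congr rfl fun χ hχ => ?_
    obtain ⟨hne, hmem⟩ := Finset.mem_erase.mp hχ
    obtain ⟨c, hc⟩ := hno χ hmem hne
    have e1 : conj ((χ : G → ℂ) 1) = (charDegree (χ : G → ℂ) : ℂ) := by
      rw [Cfsg.Agent.Lib.Char.CompleteCor.conj_apply_one χ.2, Cfsg.Agent.Lib.Blocks.RegInt.charDegree_cast]
    rw [e1, hc, Nat.mul_div_cancel_left _ hr.pos]
    push_cast
    ring
  have h5 : (1 : ℂ) / r = - ∑ χ ∈ s.erase (trivChar G),
      (χ : G → ℂ) x * (((charDegree (χ : G → ℂ) / r : ℕ)) : ℂ) := by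
    field_simp
    linear_combination hsplit + hval
  have h6 : IsIntegral ℤ (((1 : ℕ) : ℂ) / (r : ℂ)) := by
    rw [Nat.cast_one, h5]
    exact hint.neg
  have := Cfsg.Agent.Lib.Char.Values2.dvd_of_isIntegral_div hr.ne_zero h6
  exact hr.one_lt.ne' (Nat.dvd_one.mp this)

/-- For a `p`-singular element `g` and any prime `q`, the principal `p`-block has a nontrivial member not
vanishing at `g` of degree prime to `q`. -/
theorem exists_block_char {p : ℕ} [Fact p.Prime] {M : Ideal AlgInt} (hM : IsPModular p M) {g y : G}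
    (hg : IsPPart p g y) (hy : y ≠ 1) {q : ℕ} (hq : q.Prime) :
    ∃ χ : Cfsg.IrrCharacter G, χ ∈ principalBlock M G ∧ χ ≠ trivChar G ∧ (χ : G → ℂ) g ≠ 0 ∧
      ¬ q ∣ charDegree (χ : G → ℂ) := by
  classical
  haveI := Cfsg.Agent.Lib.Blocks.Local.isPrime_of_isPModular hM
  have h := Cfsg.Agent.Lib.Blocks.Sections.block_orthogonality hM hg
    (Cfsg.Agent.Lib.Blocks.PrincipalColumn.isPPart_self (p := p) (x := (1 : G)) (k := 0) (by simp))
    (fun h0 => hy (isConj_one_left.mp h0)) (isPBlock_principalBlock M)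
  rw [Cfsg.Agent.Lib.Blocks.Osima.finsum_mem_eq_sum_filter] at h
  have h' : ∑ χ ∈ Finset.univ.filter (· ∈ principalBlock M G), (χ : G → ℂ) g * conj ((χ : G → ℂ) 1) = 0 := by
    rw [← h]
    refine Finset.sum_congr rfl fun χ _ => ?_
    rw [inv_one, Cfsg.Agent.Lib.Char.CompleteCor.conj_apply_one χ.2]
  set S : Finset (Cfsg.IrrCharacter G) := Finset.univ.filter (· ∈ principalBlock M G) with hS
  have hs : ∑ χ ∈ S.filter (fun χ : Cfsg.IrrCharacter G => (χ : G → ℂ) g ≠ 0),
      (χ : G → ℂ) g * conj ((χ : G → ℂ) 1) = 0 := by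
    rw [Finset.sum_filter]
    refine Eq.trans (Finset.sum_congr rfl fun χ _ => ?_) h'
    by_cases h0 : (χ : G → ℂ) g = 0
    · simp [h0]
    · simp [h0]
  obtain ⟨χ, hχ, h1, h2⟩ := exists_not_dvd (S.filter (fun χ : Cfsg.IrrCharacter G => (χ : G → ℂ) g ≠ 0)) (by
    rw [Finset.mem_filter, hS, Finset.mem_filter]
    refine ⟨⟨Finset.mem_univ _, trivChar_mem_principalBlock⟩, ?_⟩
    simp [trivChar]) g hs hq
  rw [Finset.mem_filter, hS, Finset.mem_filter] at hχ
  exact ⟨χ, hχ.1.2, h1, hχ.2, h2⟩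

/-- In a non-abelian simple group the principal `p`-block has no nontrivial member of `p`-power degree. -/
theorem not_ppower_of_mem [IsSimpleGroup G] (hcomm : commutator G = ⊤) {p : ℕ} [hpf : Fact p.Prime]
    {M : Ideal AlgInt} (hM : IsPModular p M) (χ : Cfsg.IrrCharacter G) (hχ : χ ∈ principalBlock M G)
    (hne : χ ≠ trivChar G) {i : ℕ} (hdeg : charDegree (χ : G → ℂ) = p ^ i) : False := by
  classical
  haveI := Cfsg.Agent.Lib.Blocks.Local.isPrime_of_isPModular hM
  have hp := hpf.out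
  -- the degree is not one
  have hi : i ≠ 0 := by
    rintro rfl
    exact hne (Cfsg.Agent.Lib.DefectOne.FewInd.eq_triv_of_deg_one hcomm χ (by simpa using hdeg))
  have hdvd : p ∣ Nat.card G := by
    have h1 : charDegree (χ : G → ℂ) ∣ Nat.card G :=
      Cfsg.Agent.Lib.Char.BrauerSCNum.degree_dvd χ _ (Cfsg.Agent.Lib.Blocks.RegInt.charDegree_cast χ).symm
    rw [hdeg] at h1
    exact (dvd_pow_self p hi).trans h1
  -- a central element of a Sylow subgroup
  obtain ⟨P⟩ : Nonempty (Sylow p G) := inferInstance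
  haveI : Fact p.Prime := hpf
  have hPnt : Nontrivial (P : Subgroup G) := by
    apply Finite.one_lt_card_iff_nontrivial.1
    have h1 := P.pow_dvd_card_of_pow_dvd_card (n := 1) (by simpa using hdvd)
    have hpos : 0 < Nat.card (P : Subgroup G) := Nat.card_pos
    have : p ≤ Nat.card (P : Subgroup G) := Nat.le_of_dvd hpos (by simpa using h1)
    exact lt_of_lt_of_le hp.one_lt this
  have hPp : IsPGroup p (P : Subgroup G) := P.isPGroup'
  haveI : Nontrivial (Subgroup.center (P : Subgroup G)) := hPp.center_nontrivial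
  obtain ⟨z₀, hz₀⟩ := exists_ne (1 : Subgroup.center (P : Subgroup G))
  set z : G := ((z₀ : (P : Subgroup G)) : G) with hz
  have hz1 : z ≠ 1 := by
    intro h0
    exact hz₀ (Subtype.ext (Subtype.ext h0))
  -- `p` does not divide the size of the class
  have hle : (P : Subgroup G) ≤ Subgroup.centralizer ({z} : Set G) := by
    intro u hu
    rw [Subgroup.mem_centralizer_singleton_iff]
    have := (Subgroup.mem_center_iff.mp z₀.2) ⟨u, hu⟩
    exact congrArg Subtype.val this
  have hidx : ¬ p ∣ (Subgroup.centralizer ({z} : Set G)).index := by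
    intro h1
    exact P.not_dvd_index (h1.trans (Subgroup.index_dvd_of_le hle))
  -- the value at `z` does not vanish
  have h0 : (χ : G → ℂ) z ≠ 0 := by
    intro h0
    have h1 := hχ z
    simp only [centralChar, h0] at h1
    have h2 : (((Subgroup.centralizer ({z} : Set G)).index : ℂ) * 1 / 1 -
        ((Subgroup.centralizer ({z} : Set G)).index : ℂ) * 0 / (χ : G → ℂ) 1) =
        ((Subgroup.centralizer ({z} : Set G)).index : ℂ) := by
      simp
    rw [h2, memLocalIdeal_natCast_iff hM] at h1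
    exact hidx h1
  -- Burnside
  have hgen : Subgroup.normalClosure ({z} : Set G) = ⊤ := by
    rcases (Subgroup.normalClosure_normal (s := ({z} : Set G))).eq_bot_or_eq_top with h | h
    · exfalso
      apply hz1
      have : z ∈ Subgroup.normalClosure ({z} : Set G) := Subgroup.subset_normalClosure rfl
      rw [h] at this
      simpa using this
    · exact h
  obtain ⟨m, ρ, hirr, hρ⟩ := χ.2
  have hval : ρ.character 1 = (Module.finrank ℂ (Fin m → ℂ) : ℂ) := by simp
  have hmdeg : m = p ^ i := by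
    have h1 := Cfsg.Agent.Lib.Blocks.RegInt.charDegree_cast χ
    rw [hdeg, ← hρ, hval] at h1
    simp only [Module.finrank_fin_fun] at h1
    exact_mod_cast h1.symm
  haveI : ρ.IsIrreducible := hirr
  have hcop : Nat.Coprime (Module.finrank ℂ (Fin m → ℂ)) (Subgroup.centralizer ({z} : Set G)).index := by
    simp only [Module.finrank_fin_fun]
    rw [hmdeg]
    exact Nat.Coprime.pow_left _ ((Nat.Prime.coprime_iff_not_dvd hp).mpr hidx)
  rcases Cfsg.Agent.Lib.Char.Burnside.character_eq_zero_or_norm_eq_of_coprime ρ z hcop with hb | hb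
  · exact h0 (by rw [← hρ]; exact hb)
  obtain ⟨ω, hω⟩ := (Cfsg.Agent.Lib.Char.Values.norm_character_eq_iff ρ z).mp hb
  haveI := Cfsg.Agent.Lib.Char.Integrality.nontrivial_of_isIrreducible ρ
  have hscal : ∀ g, ∃ c : ℂ, ρ g = c • (LinearMap.id : (Fin m → ℂ) →ₗ[ℂ] (Fin m → ℂ)) := by
    intro g
    obtain ⟨c, -, hc⟩ := Cfsg.Agent.Lib.Char.Kazarin.scalar_of_mem_normalClosure ρ hω (g := g) (by rw [hgen]; trivial)
    exact ⟨c, hc⟩
  have hf := Cfsg.Agent.Lib.Char.Kazarin.finrank_eq_one_of_scalars ρ hirr hscal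
  simp only [Module.finrank_fin_fun] at hf
  rw [hmdeg] at hf
  apply hi
  by_contra hi'
  have : p ∣ p ^ i := dvd_pow_self p hi
  rw [hf] at this
  exact hp.one_lt.ne' (Nat.dvd_one.mp this)

/-- **No mixed elements.** In a non-abelian simple group of order `p ^ a * q ^ b * r` with `p, q, r` distinct
primes, no nontrivial `p`-element commutes with an element of order `r`. -/
theorem no_mixed [IsSimpleGroup G] (hcomm : commutator G = ⊤) {p q r a b : ℕ} [hpf : Fact p.Prime]
    (hq : q.Prime) (hr : r.Prime) (hpq : p ≠ q) (hpr : p ≠ r) (hqr : q ≠ r)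
    (hG : Nat.card G = p ^ a * q ^ b * r) {x y : G} (hx : orderOf x = r) {j : ℕ} (hy : orderOf y = p ^ j)
    (hy1 : y ≠ 1) (hc : Commute y x) : False := by
  classical
  have hp := hpf.out
  obtain ⟨M, hM⟩ := Cfsg.Agent.Lib.Char.Kazarin.exists_modular p hp
  have hg : IsPPart p (y * x) y := by
    refine ⟨x, rfl, hc, ⟨j, hy⟩, ?_⟩
    rw [hx]
    intro h
    exact hpr ((Nat.prime_dvd_prime_iff_eq hp hr).mp h)
  obtain ⟨χ, hχ, hne, h0, hqd⟩ := exists_block_char hM hg hy1 hq
  -- the degree is prime to `r`: otherwise `χ` has `r`-defect zero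
  have hcard0 : p ^ a * q ^ b ≠ 0 := mul_ne_zero (pow_ne_zero _ hp.ne_zero) (pow_ne_zero _ hq.ne_zero)
  have hrnd : ¬ r ∣ p ^ a * q ^ b := by
    intro h
    rcases (Nat.Prime.dvd_mul hr).mp h with h | h
    · exact hpr ((Nat.prime_dvd_prime_iff_eq hr hp).mp (hr.dvd_of_dvd_pow h)).symm
    · exact hqr ((Nat.prime_dvd_prime_iff_eq hr hq).mp (hr.dvd_of_dvd_pow h)).symm
  have hrd : ¬ r ∣ charDegree (χ : G → ℂ) := by
    intro hrd
    obtain ⟨m, ρ, hirr, hρ⟩ := χ.2
    haveI : ρ.IsIrreducible := hirr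
    have hval : ρ.character 1 = (Module.finrank ℂ (Fin m → ℂ) : ℂ) := by simp
    have hm : charDegree (χ : G → ℂ) = Module.finrank ℂ (Fin m → ℂ) := by
      have h2 := Cfsg.Agent.Lib.Blocks.RegInt.charDegree_cast χ
      have h3 : (χ : G → ℂ) 1 = (Module.finrank ℂ (Fin m → ℂ) : ℂ) := by
        rw [← hρ]
        exact hval
      rw [h3] at h2
      exact_mod_cast h2
    have hval0 := Cfsg.Agent.Lib.Char.PRegular.character_eq_zero_of_defect_zero ρ r 1 hr
      (by rw [hG, pow_one]; exact Dvd.intro_left _ rfl)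
      (by
        rw [hG, pow_succ, pow_one]
        intro h
        exact hrnd (Nat.dvd_of_mul_dvd_mul_right hr.pos h))
      (by rw [← hm, pow_one]; exact hrd) (y * x) (by
        have hcop : Nat.Coprime (orderOf y) (orderOf x) := by
          rw [hy, hx]
          exact Nat.Coprime.pow_left _ ((Nat.coprime_primes hp hr).mpr hpr)
        rw [hc.orderOf_mul_eq_mul_orderOf_of_coprime hcop, hx]
        exact Dvd.intro_left _ rfl)
    exact h0 (by rw [← hρ]; exact hval0)
  -- the degree is a power of `p`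
  have hdeg : charDegree (χ : G → ℂ) ∣ Nat.card G :=
    Cfsg.Agent.Lib.Char.BrauerSCNum.degree_dvd χ _ (Cfsg.Agent.Lib.Blocks.RegInt.charDegree_cast χ).symm
  rw [hG] at hdeg
  have h3 : charDegree (χ : G → ℂ) ∣ p ^ a * q ^ b :=
    Nat.Coprime.dvd_of_dvd_mul_right ((Nat.Prime.coprime_iff_not_dvd hr).mpr hrd).symm hdeg
  have h4 : charDegree (χ : G → ℂ) ∣ p ^ a :=
    Nat.Coprime.dvd_of_dvd_mul_right
      (Nat.Coprime.pow_right _ ((Nat.Prime.coprime_iff_not_dvd hq).mpr hqd).symm) h3
  obtain ⟨k, -, hk⟩ := (Nat.dvd_prime_pow hp).mp h4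
  exact not_ppower_of_mem hcomm hM χ hχ hne hk

end Cfsg.Agent.Lib.Char.NoMixed
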