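import Mathlib
import Cfsg.Agent.Lib.Char.RealClass2
import Cfsg.Agent.Lib.Char.RealOdd
import Cfsg.Agent.Lib.Char.RealCount
import Cfsg.Agent.Lib.CharFS.Tri

/-!
# Real characters over a normal subgroup containing all `2`-elements

`H` is a normal subgroup of `Γ` containing all `2`-elements.  A real irreducible character `θ` of
`H` lies under exactly one real irreducible character `χ` of `Γ`, with multiplicity one, so
`χ(1) = |Γ : I(θ)| θ(1)`.  Uniqueness comes from counting real classes, multiplicity one from the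
Frobenius-Schur column identity.
-/

set_option autoImplicit false
set_option linter.style.haveILetI false
set_option linter.unusedSectionVars false
set_option linter.unusedVariables false

namespace Cfsg.Agent.Lib.Char.RealMcKay

open Cfsg Cfsg.Agent.Lib.Char.Basic Cfsg.Agent.Lib.Char.Ortho Cfsg.Agent.Lib.Char.Induced
  Cfsg.Agent.Lib.Char.IndRep Cfsg.Agent.Lib.Char.Clifford Cfsg.Agent.Lib.Char.CliffordCorr
  Cfsg.Agent.Lib.Char.RealOver Cfsg.Agent.Lib.Char.Monomial Cfsg.Agent.Lib.Char.RealClass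
  Cfsg.Agent.Lib.Char.RealOdd Cfsg.Agent.Lib.Char.GlaubRel Cfsg.Agent.Lib.Char.GlaubP
open Cfsg.Agent.Lib.CharFS
open scoped ComplexConjugate

universe u

variable {Γ : Type u} [Group Γ] [Fintype Γ] (H : Subgroup Γ) [hH : H.Normal] [Fintype H]

/-- `H` contains all `2`-elements. -/
abbrev Two : Prop := ∀ g : Γ, (∃ k : ℕ, orderOf g = 2 ^ k) → g ∈ H

theorem not_two_dvd_index (h2 : Two H) : ¬ 2 ∣ H.index := by
  haveI : Fact (Nat.Prime 2) := ⟨Nat.prime_two⟩
  let Q : Sylow 2 Γ := (Sylow.nonempty (p := 2) (G := Γ)).some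
  have hQK : (Q : Subgroup Γ) ≤ H := by
    intro z hz
    obtain ⟨k, hk⟩ := (IsPGroup.iff_orderOf.1 Q.isPGroup') ⟨z, hz⟩
    refine h2 z ⟨k, ?_⟩
    rw [← hk, Subgroup.orderOf_mk]
  intro hd
  exact Q.not_dvd_index (hd.trans (Subgroup.index_dvd_of_le hQK))

theorem odd_inertia_index (h2 : Two H) (θ : IrrCharacter H) :
    Odd (inertiaOf H (θ : H → ℂ)).index := by
  rw [← Nat.not_even_iff_odd, even_iff_two_dvd]
  intro hd
  exact not_two_dvd_index H h2 (hd.trans (Subgroup.index_dvd_of_le (le_inertia H θ)))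

/-- All constituents of a real irreducible character on `H` are real. -/
theorem real_of_constituent (h2 : Two H) {χ : IrrCharacter Γ}
    (hre : ∀ g, ((χ : Γ → ℂ) g).im = 0) (θ : IrrCharacter H)
    (hθ : classInner (fun n : H => (χ : Γ → ℂ) n) (θ : H → ℂ) ≠ 0) (n : H) :
    ((θ : H → ℂ) n).im = 0 := by
  have hc : classInner (fun n : H => (χ : Γ → ℂ) n) (fun n => conj ((θ : H → ℂ) n)) ≠ 0 := by
    have h5 : (fun n : H => (χ : Γ → ℂ) n) = fun n : H => conj ((χ : Γ → ℂ) n) := by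
      funext n
      exact (Complex.conj_eq_iff_im.2 (hre _)).symm
    rw [h5, classInner_conj_conj]
    intro h0
    apply hθ
    have := (map_eq_zero _).1 h0
    exact this
  obtain ⟨g, hg⟩ := exists_conj_of_classInner_ne_zero H χ.2 θ.2 (isIrr_conj θ.2) hθ hc
  exact real_of_odd_orbit H θ (odd_inertia_index H h2 θ) g hg n

/-- A real character of `H` lies under a real character of `Γ`. -/
theorem exists_real_over (h2 : Two H) (θ : IrrCharacter H) (hθ : ∀ k, ((θ : H → ℂ) k).im = 0) :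
    ∃ χ : IrrCharacter Γ, (∀ g, ((χ : Γ → ℂ) g).im = 0) ∧
      classInner (fun n : H => (χ : Γ → ℂ) n) (θ : H → ℂ) ≠ 0 := by
  classical
  set T := inertiaOf H (θ : H → ℂ) with hT
  have hmemT := mem_inertiaOf H (θ : H → ℂ)
  have hKT : H ≤ T := le_inertia H θ
  have hodd := not_two_dvd_index H h2
  have hθ1 : (θ : H → ℂ) 1 = (charDegree (θ : H → ℂ) : ℂ) :=
    (Cfsg.Agent.Lib.Char.Values.IsCharacter.charDegree_cast (isCharacter_of_isIrrCharacter θ.2)).symm
  have hdeg0 : charDegree (θ : H → ℂ) ≠ 0 := by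
    intro h0
    apply irr_apply_one_ne_zero θ.2
    rw [hθ1, h0]
    simp
  have hΨ := isCharacter_indFun H (isCharacter_of_isIrrCharacter θ.2)
  have hre : ∀ g, conj (indFun H (θ : H → ℂ) g) = indFun H (θ : H → ℂ) g := by
    intro g
    rw [indFun_apply, map_mul, map_inv₀, Complex.conj_natCast, map_sum]
    congr 1
    refine Finset.sum_congr rfl fun x _ => ?_
    by_cases h : x⁻¹ * g * x ∈ H
    · rw [extendByZero_of_mem H _ h]
      exact Complex.conj_eq_iff_im.2 (hθ _)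
    · rw [extendByZero_of_notMem H _ h, map_zero]
  have hTidx : T.index ≠ 0 := Subgroup.index_ne_zero_of_finite
  have hmul : H.relIndex T * T.index = H.index := Subgroup.relIndex_mul_index hKT
  have hconv : ∀ χ : IrrCharacter Γ, classInner (indFun H (θ : H → ℂ)) (χ : Γ → ℂ) ≠ 0 →
      classInner (fun n : H => (χ : Γ → ℂ) n) (θ : H → ℂ) ≠ 0 := by
    intro χ h
    have hχcl := isClassFunction_of_isCharacter (isCharacter_of_isIrrCharacter χ.2)
    rw [frobenius_reciprocity H (θ : H → ℂ) χ hχcl] at h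
    intro h0
    apply h
    rw [← classInner_conj_symm, h0]
    simp
  have hdvd : ∀ χ : IrrCharacter Γ, classInner (indFun H (θ : H → ℂ)) (χ : Γ → ℂ) ≠ 0 →
      T.index * charDegree (θ : H → ℂ) ∣ charDegree (χ : Γ → ℂ) := by
    intro χ h
    have h' := hconv χ h
    have h1 := apply_one_eq H (θ : H → ℂ) T θ.2 hmemT χ.2 h'
    obtain ⟨e, he⟩ := exists_nat_classInner
      (isCharacter_restrict (isCharacter_of_isIrrCharacter χ.2) H) θ
    have he' : classInner (fun n : H => (χ : Γ → ℂ) n) (θ : H → ℂ) = e := he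
    rw [he', hθ1] at h1
    have h3 : ((charDegree (χ : Γ → ℂ) : ℕ) : ℂ) = (χ : Γ → ℂ) 1 :=
      Cfsg.Agent.Lib.Char.Values.IsCharacter.charDegree_cast (isCharacter_of_isIrrCharacter χ.2)
    rw [h1] at h3
    have h4 : charDegree (χ : Γ → ℂ) = e * (T.index * charDegree (θ : H → ℂ)) := by
      exact_mod_cast h3
    exact ⟨e, by rw [h4, mul_comm]⟩
  have hone : indFun H (θ : H → ℂ) 1 =
      ((T.index * charDegree (θ : H → ℂ) * H.relIndex T : ℕ) : ℂ) := by
    rw [indFun_one H, hθ1, ← hmul]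
    push_cast
    ring
  have htodd : ¬ 2 ∣ H.relIndex T := fun h => hodd (by rw [← hmul]; exact h.trans (Dvd.intro _ rfl))
  obtain ⟨χ, hχr, hχ⟩ := exists_real_constituent hΨ hre (Nat.mul_ne_zero hTidx hdeg0) hdvd hone htodd
  exact ⟨χ, hχr, hconv χ hχ⟩

/-- The action of `Γ` on `H`. -/
noncomputable abbrev phi : Γ →* MulAut H :=
  conjHom (MonoidHom.id Γ) H (fun a x hx => hH.conj_mem x hx a)

theorem phi_odd (h2 : Two H) (a : Γ) : ∃ m : ℕ, Odd m ∧ ∀ x, IsConj (((phi H a) ^ m) x) x := by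
  obtain ⟨m, hm, hk⟩ := exists_odd_pow a
  refine ⟨m, hm, fun x => ?_⟩
  have ht := h2 _ hk
  rw [← map_pow]
  exact (isConj_iff.2 ⟨⟨a ^ m, ht⟩, Subtype.ext rfl⟩).symm

/-- The real irreducible characters. -/
abbrev RO' (Γ : Type u) [Group Γ] [Fintype Γ] : Type u :=
  {χ : IrrCharacter Γ // ∀ g, ((χ : Γ → ℂ) g).im = 0}

theorem exists_constituent (χ : IrrCharacter Γ) :
    ∃ θ : IrrCharacter H, classInner (fun n : H => (χ : Γ → ℂ) n) (θ : H → ℂ) ≠ 0 := by
  have hc := isCharacter_restrict (isCharacter_of_isIrrCharacter χ.2) H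
  obtain ⟨θ, hθ, h⟩ := exists_irr_constituent hc (by
    have := irr_apply_one_ne_zero χ.2
    simpa using this)
  exact ⟨⟨θ, hθ⟩, h⟩

/-- The real constituent chosen for a real character. -/
theorem exists_real_constituent' (h2 : Two H) (χ : RO' Γ) :
    ∃ θ : RIrr (phi H), classInner (fun n : H => (χ.1 : Γ → ℂ) n) (θ.1 : H → ℂ) ≠ 0 := by
  obtain ⟨θ, hθ⟩ := exists_constituent H χ.1
  exact ⟨⟨θ, real_of_constituent H h2 χ.2 θ hθ⟩, hθ⟩

/-- The conjugate in `RIrr` computed through `conjFun`. -/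
theorem conjFun_eq_smul (g : Γ) (θ : RIrr (phi H)) :
    Clifford.conjFun H g (θ.1 : H → ℂ) = ((g⁻¹ • θ : RIrr (phi H)).1 : H → ℂ) := by
  funext n
  show (θ.1 : H → ℂ) _ = (θ.1 : H → ℂ) ((phi H g⁻¹)⁻¹ n)
  refine congrArg _ (Subtype.ext ?_)
  rw [conjHom_inv_coe]
  simp

theorem same_orbit {χ : IrrCharacter Γ} {θ θ' : RIrr (phi H)}
    (h : classInner (fun n : H => (χ : Γ → ℂ) n) (θ.1 : H → ℂ) ≠ 0)
    (h' : classInner (fun n : H => (χ : Γ → ℂ) n) (θ'.1 : H → ℂ) ≠ 0) :
    (Quotient.mk'' θ : MulAction.orbitRel.Quotient Γ (RIrr (phi H))) = Quotient.mk'' θ' := by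
  obtain ⟨g, hg⟩ := exists_conj_of_classInner_ne_zero H χ.2 θ.1.2 θ'.1.2 h h'
  rw [orbit_eq_iff]
  have h3 : θ' = g⁻¹ • θ := by
    apply Subtype.ext
    apply Subtype.ext
    rw [← conjFun_eq_smul]
    exact hg
  refine ⟨g, ?_⟩
  rw [h3, smul_inv_smul]

/-- Uniqueness: a real character of `H` lies under only one real character of `Γ`. -/
theorem real_over_unique (h2 : Two H) {χ χ' : IrrCharacter Γ}
    (hχ : ∀ g, ((χ : Γ → ℂ) g).im = 0) (hχ' : ∀ g, ((χ' : Γ → ℂ) g).im = 0) (θ : IrrCharacter H)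
    (h : classInner (fun n : H => (χ : Γ → ℂ) n) (θ : H → ℂ) ≠ 0)
    (h' : classInner (fun n : H => (χ' : Γ → ℂ) n) (θ : H → ℂ) ≠ 0) : χ = χ' := by
  classical
  choose c hc using exists_real_constituent' H h2
  let F : RO' Γ → MulAction.orbitRel.Quotient Γ (RIrr (phi H)) := fun χ => Quotient.mk'' (c χ)
  have hF : Function.Surjective F := by
    intro q
    induction q using Quotient.inductionOn' with
    | h θ =>
    obtain ⟨χ, hre, hχ⟩ := exists_real_over H h2 θ.1 θ.2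
    exact ⟨⟨χ, hre⟩, same_orbit H (hc ⟨χ, hre⟩) hχ⟩
  -- the classes
  let i : H →* Γ := H.subtype
  have hreal : ∀ c : RCl (phi H), ∀ k : Γ, ConjClasses.mk k = ConjClasses.map i c.1 →
      IsConj k k⁻¹ := by
    intro c k hk
    obtain ⟨y, hy⟩ := ConjClasses.mk_surjective c.1
    rw [← hy] at hk
    have h1 : IsConj k (i y) := ConjClasses.mk_eq_mk_iff_isConj.1 hk
    obtain ⟨w, hw⟩ := isConj_iff.1 (c.2 y hy)
    have h3 : IsConj (i y) (i y)⁻¹ := by
      refine isConj_iff.2 ⟨i w, ?_⟩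
      have h5 := congrArg i hw
      simpa only [map_mul, map_inv] using h5
    exact (h1.trans h3).trans (isConj_inv_inv h1).symm
  let G₂ : RCl (phi H) → {c : ConjClasses Γ // ∀ k : Γ, ConjClasses.mk k = c → IsConj k k⁻¹} :=
    fun c => ⟨ConjClasses.map i c.1, hreal c⟩
  have hG₂ : ∀ (a : Γ) (c : RCl (phi H)), G₂ (a • c) = G₂ c := by
    intro a c
    obtain ⟨y, hy⟩ := ConjClasses.mk_surjective c.1
    apply Subtype.ext
    show ConjClasses.map i (a • c).1 = ConjClasses.map i c.1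
    rw [RCl.smul_val (phi H) a c y hy.symm, ← hy]
    show ConjClasses.mk (i _) = ConjClasses.mk (i y)
    rw [ConjClasses.mk_eq_mk_iff_isConj]
    exact (isConj_iff.2 ⟨a, rfl⟩).symm
  let G₃ : MulAction.orbitRel.Quotient Γ (RCl (phi H)) →
      {c : ConjClasses Γ // ∀ k : Γ, ConjClasses.mk k = c → IsConj k k⁻¹} :=
    Quotient.lift G₂ (by
      intro c c' hcc
      obtain ⟨a, rfl⟩ := hcc
      exact hG₂ a c')
  have hG₃ : Function.Surjective G₃ := by
    rintro ⟨c, hcr⟩
    obtain ⟨y, rfl⟩ := ConjClasses.mk_surjective c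
    obtain ⟨hyH, hyr⟩ := real_mem_of h2 y (hcr y rfl)
    have hr : ∀ k : H, ConjClasses.mk k = ConjClasses.mk (⟨y, hyH⟩ : H) → IsConj k k⁻¹ := by
      intro k hk
      have h1 : IsConj k ⟨y, hyH⟩ := ConjClasses.mk_eq_mk_iff_isConj.1 hk
      exact (h1.trans hyr).trans (isConj_inv_inv h1).symm
    refine ⟨Quotient.mk'' (⟨ConjClasses.mk (⟨y, hyH⟩ : H), hr⟩ : RCl (phi H)), ?_⟩
    apply Subtype.ext
    rfl
  haveI : Finite (MulAction.orbitRel.Quotient Γ (RIrr (phi H))) := Quotient.finite _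
  haveI : Finite (MulAction.orbitRel.Quotient Γ (RCl (phi H))) := Quotient.finite _
  haveI : Finite (ConjClasses Γ) := Quotient.finite _
  have hc1 := card_orbits_eq (phi H) (phi_odd H h2)
  have hc2 := Nat.card_le_card_of_surjective _ hG₃
  have hc3 := RealCount.card_real_irr (K := Γ)
  have hbij := hF.bijective_of_nat_card_le (by
    rw [hc3, hc1]
    exact hc2)
  have h5 : F ⟨χ, hχ⟩ = F ⟨χ', hχ'⟩ := by
    have hθr := real_of_constituent H h2 hχ θ h
    let θ' : RIrr (phi H) := ⟨θ, hθr⟩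
    have e1 : F ⟨χ, hχ⟩ = Quotient.mk'' θ' := same_orbit H (hc ⟨χ, hχ⟩) h
    have e2 : F ⟨χ', hχ'⟩ = Quotient.mk'' θ' := same_orbit H (hc ⟨χ', hχ'⟩) h'
    rw [e1, e2]
  exact congrArg Subtype.val (hbij.1 h5)

/-- Square roots of elements of `H` lie in `H`. -/
theorem mem_of_sq_mem (h2 : Two H) {u : Γ} (hu : u ^ 2 ∈ H) : u ∈ H := by
  obtain ⟨o, ho, ho2⟩ := exists_odd_pow u
  have hoK : u ^ o ∈ H := h2 _ ho2
  obtain ⟨j, rfl⟩ := ho
  have h7 : u = ((u ^ 2) ^ j)⁻¹ * u ^ (2 * j + 1) := by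
    rw [pow_add, pow_one, pow_mul, inv_mul_cancel_left]
  rw [h7]
  exact H.mul_mem (H.inv_mem (H.pow_mem hu j)) hoK

/-- The square root counts agree on `H`. -/
theorem sqrtCount_eq (h2 : Two H) [DecidableEq Γ] [DecidableEq H] (n : H) :
    Indicator.sqrtCount Γ (n : Γ) = Indicator.sqrtCount H n := by
  unfold Indicator.sqrtCount
  congr 1
  norm_cast
  symm
  refine Finset.card_bij (fun x _ => (x : Γ)) ?_ ?_ ?_
  · intro x hx
    simp only [Finset.mem_filter, Finset.mem_univ, true_and] at hx ⊢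
    rw [← hx]
    rfl
  · intro x _ y _ hxy
    exact Subtype.ext hxy
  · intro y hy
    simp only [Finset.mem_filter, Finset.mem_univ, true_and] at hy
    have hyH : y ∈ H := mem_of_sq_mem H h2 (by rw [hy]; exact n.2)
    refine ⟨⟨y, hyH⟩, ?_, rfl⟩
    simp only [Finset.mem_filter, Finset.mem_univ, true_and]
    apply Subtype.ext
    exact hy

/-- Multiplicity one. -/
theorem mult_eq_one (h2 : Two H) {χ : IrrCharacter Γ} (hχ : ∀ g, ((χ : Γ → ℂ) g).im = 0)
    (θ : IrrCharacter H) (h : classInner (fun n : H => (χ : Γ → ℂ) n) (θ : H → ℂ) ≠ 0) :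
    classInner (fun n : H => (χ : Γ → ℂ) n) (θ : H → ℂ) = 1 := by
  classical
  have hθr := real_of_constituent H h2 hχ θ h
  have hfun : (fun n : H => ∑ τ : IrrCharacter Γ, Indicator.nu (τ : Γ → ℂ) * (τ : Γ → ℂ) n) =
      fun n : H => ∑ τ : IrrCharacter H, Indicator.nu (τ : H → ℂ) * (τ : H → ℂ) n := by
    funext n
    rw [← IndicatorReal.sqrtCount_eq_sum, ← IndicatorReal.sqrtCount_eq_sum, sqrtCount_eq H h2]
  have hL : classInner (fun n : H => ∑ τ : IrrCharacter Γ, Indicator.nu (τ : Γ → ℂ) * (τ : Γ → ℂ) n)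
      (θ : H → ℂ) = Indicator.nu (χ : Γ → ℂ) * classInner (fun n : H => (χ : Γ → ℂ) n) (θ : H → ℂ) := by
    have e : (fun n : H => ∑ τ : IrrCharacter Γ, Indicator.nu (τ : Γ → ℂ) * (τ : Γ → ℂ) n) =
        ∑ τ : IrrCharacter Γ, Indicator.nu (τ : Γ → ℂ) • (fun n : H => (τ : Γ → ℂ) n) := by
      funext n
      simp [Finset.sum_apply]
    rw [e, classInner_sum_left]
    rw [Finset.sum_eq_single χ]
    · rw [classInner_smul_left]
    · intro τ _ hne
      rw [classInner_smul_left]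
      by_cases hτ : ∀ g, ((τ : Γ → ℂ) g).im = 0
      · by_cases h0 : classInner (fun n : H => (τ : Γ → ℂ) n) (θ : H → ℂ) = 0
        · rw [h0, mul_zero]
        · exact absurd (real_over_unique H h2 hτ hχ θ h0 h) hne
      · push Not at hτ
        obtain ⟨g, hg⟩ := hτ
        rw [Tri.nu_of_not_real τ.2 ⟨g, fun h1 => hg (Complex.conj_eq_iff_im.1 h1)⟩, zero_mul]
    · intro hn
      exact absurd (Finset.mem_univ _) hn
  have hR : classInner (fun n : H => ∑ τ : IrrCharacter H, Indicator.nu (τ : H → ℂ) * (τ : H → ℂ) n)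
      (θ : H → ℂ) = Indicator.nu (θ : H → ℂ) := by
    have e : (fun n : H => ∑ τ : IrrCharacter H, Indicator.nu (τ : H → ℂ) * (τ : H → ℂ) n) =
        ∑ τ : IrrCharacter H, Indicator.nu (τ : H → ℂ) • (τ : H → ℂ) := by
      funext n
      simp [Finset.sum_apply]
    rw [e, classInner_sum_left]
    rw [Finset.sum_eq_single θ]
    · rw [classInner_smul_left, classInner_irr_self θ.2, mul_one]
    · intro τ _ hne
      rw [classInner_smul_left, classInner_irr_of_ne τ.2 θ.2, mul_zero]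
      intro h1
      exact hne (Subtype.ext h1)
    · intro hn
      exact absurd (Finset.mem_univ _) hn
  have hE := hL.symm.trans ((congrArg (fun f => classInner f (θ : H → ℂ)) hfun).trans hR)
  obtain ⟨e, he⟩ := exists_nat_classInner
    (isCharacter_restrict (isCharacter_of_isIrrCharacter χ.2) H) θ
  have he' : classInner (fun n : H => (χ : Γ → ℂ) n) (θ : H → ℂ) = e := he
  rw [he'] at hE h ⊢
  have hνχ := Tri.nu_of_real χ.2 (fun g => Complex.conj_eq_iff_im.2 (hχ g))
  have hνθ := Tri.nu_of_real θ.2 (fun g => Complex.conj_eq_iff_im.2 (hθr g))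
  have hne : e ≠ 0 := by
    rintro rfl
    exact h (by simp)
  have hnorm : (e : ℝ) = 1 := by
    have h3 := congrArg norm hE
    have h4 : ‖Indicator.nu (χ : Γ → ℂ)‖ = 1 := by
      rcases hνχ with h5 | h5 <;> rw [h5] <;> simp
    have h6 : ‖Indicator.nu (θ : H → ℂ)‖ = 1 := by
      rcases hνθ with h5 | h5 <;> rw [h5] <;> simp
    rw [norm_mul, h4, h6, one_mul, Complex.norm_natCast] at h3
    exact h3
  have : e = 1 := by exact_mod_cast hnorm
  rw [this]
  simp

/-- The degree formula. -/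
theorem deg_real_over (h2 : Two H) {χ : IrrCharacter Γ} (hχ : ∀ g, ((χ : Γ → ℂ) g).im = 0)
    (θ : IrrCharacter H) (h : classInner (fun n : H => (χ : Γ → ℂ) n) (θ : H → ℂ) ≠ 0) :
    charDegree (χ : Γ → ℂ) = (inertiaOf H (θ : H → ℂ)).index * charDegree (θ : H → ℂ) := by
  have h1 := apply_one_eq H (θ : H → ℂ) _ θ.2 (mem_inertiaOf H _) χ.2 h
  rw [mult_eq_one H h2 hχ θ h, one_mul] at h1
  have hχ1 := Cfsg.Agent.Lib.Char.Values.IsCharacter.charDegree_cast
    (isCharacter_of_isIrrCharacter χ.2)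
  have hθ1 := Cfsg.Agent.Lib.Char.Values.IsCharacter.charDegree_cast
    (isCharacter_of_isIrrCharacter θ.2)
  rw [← hχ1, ← hθ1] at h1
  exact_mod_cast h1

end Cfsg.Agent.Lib.Char.RealMcKay
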