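import Mathlib
import Cfsg.Agent.Lib.Char.RealMcKayA
import Cfsg.Agent.Lib.Char.DGNMain

/-!
# Preparations for the real McKay bijection
-/

set_option autoImplicit false
set_option linter.style.haveILetI false
set_option linter.unusedSectionVars false
set_option linter.unusedVariables false

namespace Cfsg.Agent.Lib.Char.RealMcKay

open Cfsg Cfsg.Agent.Lib.Char.Basic Cfsg.Agent.Lib.Char.Ortho Cfsg.Agent.Lib.Char.Induced
  Cfsg.Agent.Lib.Char.IndRep Cfsg.Agent.Lib.Char.Clifford Cfsg.Agent.Lib.Char.CliffordCorr
  Cfsg.Agent.Lib.Char.RealOver Cfsg.Agent.Lib.Char.Monomial Cfsg.Agent.Lib.Char.RealClass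
  Cfsg.Agent.Lib.Char.RealOdd Cfsg.Agent.Lib.Char.GlaubRel Cfsg.Agent.Lib.Char.GlaubP
  Cfsg.Agent.Lib.Char.GlaubOver Cfsg.Agent.Lib.Char.DGNCyc Cfsg.Agent.Lib.Char.DGNMain
open scoped ComplexConjugate

universe u

/-- The `DGN` relation is compatible with complex conjugation. -/
theorem irel_conj {C : Type u} [Group C] [Fintype C] {p : ℕ} {Inv : IrrCharacter C → Prop}
    (hInv : ∀ τ, Inv τ → Inv (ccI τ)) {f : C → ℂ} {β : IrrCharacter C}
    (h : IRel p Inv f β) : IRel p Inv (fun c => conj (f c)) (ccI β) := by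
  classical
  obtain ⟨ε, hε, H⟩ := h
  refine ⟨ε, hε, fun β' hβ' => ?_⟩
  obtain ⟨m, hm, hc⟩ := H (ccI β') (hInv _ hβ')
  refine ⟨m, ?_, ?_⟩
  · have h1 : classInner (fun c => conj (f c)) (β' : C → ℂ) =
        conj (classInner f (ccI β' : C → ℂ)) := by
      unfold classInner
      rw [map_mul, map_inv₀, Complex.conj_natCast, map_sum]
      simp [ccI]
    rw [h1, hm, Complex.conj_natCast]
  · refine hc.trans ?_
    have h2 : (ccI β' = β) ↔ (β' = ccI β) := by
      constructor
      · rintro rfl
        exact (ccI_ccI β').symm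
      · rintro rfl
        exact ccI_ccI β
    simp only [h2]
    rfl

section Index

variable {G : Type u} [Group G] [Finite G] {p : ℕ} [hp : Fact p.Prime] (P : Sylow p G)

/-- The normalizer of a Sylow subgroup, inside an overgroup. -/
theorem index_normalizer_subgroupOf (T : Subgroup G) (hPT : (P : Subgroup G) ≤ T) :
    (Subgroup.normalizer ((P : Subgroup G) : Set G)).relIndex T ≡ 1 [MOD p] := by
  let P' : Sylow p T := P.subtype hPT
  have h1 := card_sylow_modEq_one p T
  rw [P'.card_eq_index_normalizer] at h1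
  have h2 : Subgroup.normalizer (P' : Set T) =
      (Subgroup.normalizer ((P : Subgroup G) : Set G)).subgroupOf T := by
    ext x
    rw [Subgroup.mem_subgroupOf]
    constructor
    · intro hx
      apply Subgroup.mem_normalizer_fintype
      intro n hn
      have h3 : (⟨n, hPT hn⟩ : T) ∈ (P' : Set T) := by
        show (⟨n, hPT hn⟩ : T) ∈ (P : Subgroup G).subgroupOf T
        exact hn
      have h4 := (Subgroup.mem_normalizer_iff.1 hx _).1 h3
      exact h4
    · intro hx
      apply Subgroup.mem_normalizer_fintype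
      intro n hn
      have h3 : (n : G) ∈ (P : Subgroup G) := hn
      have h4 := (Subgroup.mem_normalizer_iff.1 hx _).1 h3
      exact h4
  rw [h2] at h1
  exact h1

/-- Sylow counting: indices in `G` and in `N(P)` are congruent. -/
theorem index_modEq (T : Subgroup G) (hPT : (P : Subgroup G) ≤ T) :
    T.index ≡ T.relIndex (Subgroup.normalizer ((P : Subgroup G) : Set G)) [MOD p] := by
  set N := Subgroup.normalizer ((P : Subgroup G) : Set G) with hN
  have ha : N.index ≡ 1 [MOD p] := by
    have h1 := card_sylow_modEq_one p G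
    rwa [P.card_eq_index_normalizer] at h1
  have hb : N.relIndex T ≡ 1 [MOD p] := index_normalizer_subgroupOf P T hPT
  have h1 : (T ⊓ N).relIndex T * T.index = (T ⊓ N).index :=
    Subgroup.relIndex_mul_index inf_le_left
  have h2 : (T ⊓ N).relIndex N * N.index = (T ⊓ N).index :=
    Subgroup.relIndex_mul_index inf_le_right
  rw [Subgroup.inf_relIndex_left] at h1
  rw [Subgroup.inf_relIndex_right] at h2
  have h3 : N.relIndex T * T.index = T.relIndex N * N.index := by rw [h1, h2]
  have h4 : N.relIndex T * T.index ≡ 1 * T.index [MOD p] := hb.mul_right _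
  have h5 : T.relIndex N * N.index ≡ T.relIndex N * 1 [MOD p] := ha.mul_left _
  rw [one_mul] at h4
  rw [mul_one] at h5
  rw [h3] at h4
  exact h4.symm.trans h5

end Index

end Cfsg.Agent.Lib.Char.RealMcKay
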