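import Mathlib
import Cfsg.Agent.Lib.Char.RealMcKayB

/-!
# The real McKay bijection
-/

set_option autoImplicit false
set_option linter.style.haveILetI false
set_option linter.unusedSectionVars false
set_option linter.unusedVariables false

namespace Cfsg.Agent.Lib.Char.RealMcKay

open Cfsg Cfsg.Agent.Lib.Char.Basic Cfsg.Agent.Lib.Char.Ortho Cfsg.Agent.Lib.Char.Induced
  Cfsg.Agent.Lib.Char.IndRep Cfsg.Agent.Lib.Char.Clifford Cfsg.Agent.Lib.Char.CliffordCorr
  Cfsg.Agent.Lib.Char.RealOver Cfsg.Agent.Lib.Char.Monomial Cfsg.Agent.Lib.Char.RealClass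
  Cfsg.Agent.Lib.Char.RealOdd Cfsg.Agent.Lib.Char.GlaubRel Cfsg.Agent.Lib.Char.GlaubP
  Cfsg.Agent.Lib.Char.GlaubOver Cfsg.Agent.Lib.Char.DGNCyc Cfsg.Agent.Lib.Char.DGNMain
open scoped ComplexConjugate

universe u

section Conj

variable {G : Type u} [Group G]

/-- Conjugating a `P`-invariant character by an element normalising `P`. -/
theorem si_conj {P X : Subgroup G} [Fintype X] {a : G} (haX : ∀ g ∈ X, a * g * a⁻¹ ∈ X)
    (haP : ∀ t ∈ P, a * t * a⁻¹ ∈ P) (τ : IrrCharacter X) (hτ : SI P τ) :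
    SI P (irrComp (conjE X a haX) τ) := by
  intro u hu g g' hg
  show (τ : X → ℂ) (conjE X a haX g') = (τ : X → ℂ) (conjE X a haX g)
  refine hτ (a * u * a⁻¹) (haP u hu) _ _ ?_
  show a * (g' : G) * a⁻¹ = (a * u * a⁻¹) * (a * (g : G) * a⁻¹) * (a * u * a⁻¹)⁻¹
  rw [hg]
  group

end Conj

section Main

variable {G : Type u} [Group G] [Fintype G] {p : ℕ} [hp : Fact p.Prime] (P : Sylow p G)
  (K : Subgroup G) [hK : K.Normal] [Fintype K]

/-- The normalizer of `P`. -/
abbrev NN : Subgroup G := Subgroup.normalizer ((P : Subgroup G) : Set G)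

/-- `K ∩ N(P)`. -/
abbrev CC : Subgroup G := K ⊓ NN P

/-- `K ∩ N(P)` as a subgroup of `N(P)`. -/
abbrev HN : Subgroup (NN P) := K.subgroupOf (NN P)

/-- The two descriptions of `K ∩ N`. -/
noncomputable def eN : ↥(HN P K) ≃* ↥(CC P K) where
  toFun x := ⟨x.1.1, x.2, x.1.2⟩
  invFun c := ⟨⟨c.1, c.2.2⟩, c.2.1⟩
  left_inv x := rfl
  right_inv c := rfl
  map_mul' x y := rfl

theorem two_HN (h2 : Two K) : Two (HN P K) := by
  intro g hg
  obtain ⟨k, hk⟩ := hg
  refine h2 g ⟨k, ?_⟩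
  rw [← hk, Subgroup.orderOf_coe]

variable [Fintype ↥(NN P)] [Fintype ↥(CC P K)] [Fintype ↥(HN P K)]

/-- The normalizer acts on `K`. -/
theorem haK (n : NN P) : ∀ g ∈ K, (n : G) * g * (n : G)⁻¹ ∈ K := fun g hg => hK.conj_mem g hg n

theorem haP (n : NN P) : ∀ t ∈ (P : Subgroup G), (n : G) * t * (n : G)⁻¹ ∈ (P : Subgroup G) :=
  fun t ht => (Subgroup.mem_normalizer_iff.1 n.2 t).1 ht

theorem haC (n : NN P) : ∀ g ∈ CC P K, (n : G) * g * (n : G)⁻¹ ∈ CC P K := fun g hg =>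
  ⟨hK.conj_mem g hg.1 n, (NN P).mul_mem ((NN P).mul_mem n.2 hg.2) ((NN P).inv_mem n.2)⟩

/-- Transfer along `eN` is compatible with conjugation. -/
theorem conj_transfer (n : NN P) (η : IrrCharacter ↥(CC P K)) :
    ((irrComp (eN P K) (irrComp (conjE (CC P K) (n : G) (haC P K n)) η) :
      IrrCharacter ↥(HN P K)) : ↥(HN P K) → ℂ) =
      Clifford.conjFun (HN P K) n ((irrComp (eN P K) η : IrrCharacter ↥(HN P K)) : ↥(HN P K) → ℂ) := rfl

/-- The inertia group on the `N`-side. -/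
theorem mem_inertia_N (n : NN P) (η : IrrCharacter ↥(CC P K)) :
    n ∈ inertiaOf (HN P K) ((irrComp (eN P K) η : IrrCharacter ↥(HN P K)) : ↥(HN P K) → ℂ) ↔
      irrComp (conjE (CC P K) (n : G) (haC P K n)) η = η := by
  rw [mem_inertiaOf]
  constructor
  · intro h
    apply Subtype.ext
    funext c
    exact h ((eN P K).symm c)
  · intro h x
    have h1 := congrFun (congrArg Subtype.val h) (eN P K x)
    exact h1

/-- The inertia group on the `G`-side. -/
theorem mem_inertia_G (n : NN P) (θ : IrrCharacter K) :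
    (n : G) ∈ inertiaOf K (θ : K → ℂ) ↔ irrComp (conjE K (n : G) (haK P K n)) θ = θ := by
  rw [mem_inertiaOf]
  constructor
  · intro h
    apply Subtype.ext
    funext c
    exact h c
  · intro h x
    have h1 := congrFun (congrArg Subtype.val h) x
    exact h1

theorem le_inertia_of_si (θ : IrrCharacter K) (hθ : SI (P : Subgroup G) θ) :
    (P : Subgroup G) ≤ inertiaOf K (θ : K → ℂ) := by
  intro u hu
  rw [mem_inertiaOf]
  intro n
  exact hθ u hu n _ rfl

/-- A real constituent invariant under `P`. -/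
theorem exists_si_constituent (hreal : RealPrime p G) (h2 : Two K) (χ : IrrCharacter G)
    (hχ : ∀ g, ((χ : G → ℂ) g).im = 0) :
    ∃ θ : IrrCharacter K, (∀ k, ((θ : K → ℂ) k).im = 0) ∧ SI (P : Subgroup G) θ ∧
      classInner (fun n : K => (χ : G → ℂ) n) (θ : K → ℂ) ≠ 0 := by
  obtain ⟨θ₀, h₀⟩ := exists_constituent K χ
  have hr₀ := real_of_constituent K h2 hχ θ₀ h₀
  have hd := deg_real_over K h2 hχ θ₀ h₀
  have hnd : ¬ p ∣ (inertiaOf K (θ₀ : K → ℂ)).index := by
    intro h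
    apply hreal χ hχ
    rw [hd]
    exact h.trans (Dvd.intro _ rfl)
  have hex : ∃ g : G, ∀ y ∈ (P : Subgroup G), g⁻¹ * y * g ∈ inertiaOf K (θ₀ : K → ℂ) := by
    by_contra hcon
    push Not at hcon
    apply hnd
    refine dvd_index_of_no_fixed p P.isPGroup' (fun g hg => ?_)
    obtain ⟨y, hy, hy'⟩ := hcon g
    exact hy' (hg y hy)
  obtain ⟨g, hg⟩ := hex
  have haX : ∀ x ∈ K, g⁻¹ * x * g⁻¹⁻¹ ∈ K := fun x hx => hK.conj_mem x hx g⁻¹
  refine ⟨irrComp (conjE K g⁻¹ haX) θ₀, fun k => hr₀ _, ?_, ?_⟩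
  · intro u hu k k' hk
    show (θ₀ : K → ℂ) (conjE K g⁻¹ haX k') = (θ₀ : K → ℂ) (conjE K g⁻¹ haX k)
    have h1 := (mem_inertiaOf K (θ₀ : K → ℂ) _).1 (hg u hu) (conjE K g⁻¹ haX k)
    rw [← h1]
    refine congrArg _ (Subtype.ext ?_)
    show g⁻¹ * (k' : G) * g⁻¹⁻¹ = g⁻¹ * u * g * (g⁻¹ * (k : G) * g⁻¹⁻¹) * (g⁻¹ * u * g)⁻¹
    rw [hk]
    group
  · have hcl := isClassFunction_of_isCharacter (isCharacter_of_isIrrCharacter χ.2)
    have h3 := classInner_res_conjFun K hcl g⁻¹ (θ₀ : K → ℂ)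
    have h4 : ((irrComp (conjE K g⁻¹ haX) θ₀ : IrrCharacter K) : K → ℂ) =
        Clifford.conjFun K g⁻¹ (θ₀ : K → ℂ) := rfl
    rw [h4, h3]
    exact h₀

/-- The bijection, assuming the Dade-Glauberman-Nagao correspondence for `K` and `K ∩ N(P)`. -/
theorem exists_bij (hreal : RealPrime p G) (h2 : Two K) (hCK : CC P K ≤ K)
    (hA : ∀ χ : IrrCharacter K, SI (P : Subgroup G) χ → ∃ ξ : IrrCharacter (CC P K),
      SI (P : Subgroup G) ξ ∧ IRel p (SI (P : Subgroup G)) (resC hCK (χ : K → ℂ)) ξ)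
    (hB : ∀ χ χ' : IrrCharacter K, SI (P : Subgroup G) χ → SI (P : Subgroup G) χ' →
      ∀ ξ : IrrCharacter (CC P K), SI (P : Subgroup G) ξ →
      IRel p (SI (P : Subgroup G)) (resC hCK (χ : K → ℂ)) ξ →
      IRel p (SI (P : Subgroup G)) (resC hCK (χ' : K → ℂ)) ξ → χ = χ')
    (hC : ∀ ξ : IrrCharacter (CC P K), SI (P : Subgroup G) ξ → ∃ χ : IrrCharacter K,
      SI (P : Subgroup G) χ ∧ IRel p (SI (P : Subgroup G)) (resC hCK (χ : K → ℂ)) ξ) :
    ∃ f : {χ : IrrCharacter G // ∀ g, ((χ : G → ℂ) g).im = 0} →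
      {ξ : IrrCharacter (NN P) // (∀ n, ((ξ : NN P → ℂ) n).im = 0) ∧
        ¬ p ∣ charDegree (ξ : NN P → ℂ)},
      Function.Bijective f ∧ ∀ χ, ((charDegree ((f χ).1 : NN P → ℂ) : ZMod p) =
          (charDegree (χ.1 : G → ℂ) : ZMod p) ∨
        (charDegree ((f χ).1 : NN P → ℂ) : ZMod p) = -(charDegree (χ.1 : G → ℂ) : ZMod p)) := by
  classical
  have hprime : p.Prime := hp.out
  have hinvC : ∀ τ : IrrCharacter (CC P K), SI (P : Subgroup G) τ → SI (P : Subgroup G) (ccI τ) :=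
    fun τ hτ s hs g g' hg => congrArg conj (hτ s hs g g' hg)
  have hinvK : ∀ τ : IrrCharacter K, SI (P : Subgroup G) τ → SI (P : Subgroup G) (ccI τ) :=
    fun τ hτ s hs g g' hg => congrArg conj (hτ s hs g g' hg)
  have hF2 : ∀ θ : IrrCharacter K, (∀ k, ((θ : K → ℂ) k).im = 0) → SI (P : Subgroup G) θ →
      ∃ η : IrrCharacter (CC P K), (∀ c, ((η : CC P K → ℂ) c).im = 0) ∧ SI (P : Subgroup G) η ∧
        IRel p (SI (P : Subgroup G)) (resC hCK (θ : K → ℂ)) η := by
    intro θ hr hs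
    obtain ⟨η, hη, hrel⟩ := hA θ hs
    have h1 := irel_conj hinvC hrel
    have h3 : (fun c => conj (resC hCK (θ : K → ℂ) c)) = resC hCK (θ : K → ℂ) :=
      funext fun c => Complex.conj_eq_iff_im.2 (hr _)
    rw [h3] at h1
    exact ⟨η, real_of_ccI_eq η (h1.unique hprime hrel (hinvC η hη) hη), hη, hrel⟩
  have hF3 : ∀ η : IrrCharacter (CC P K), (∀ c, ((η : CC P K → ℂ) c).im = 0) →
      SI (P : Subgroup G) η → ∃ θ : IrrCharacter K, (∀ k, ((θ : K → ℂ) k).im = 0) ∧
        SI (P : Subgroup G) θ ∧ IRel p (SI (P : Subgroup G)) (resC hCK (θ : K → ℂ)) η := by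
    intro η hr hs
    obtain ⟨θ, hθ, hrel⟩ := hC η hs
    have h1 := irel_conj hinvC hrel
    rw [ccI_eq_of_real η hr] at h1
    have h3 : (fun c => conj (resC hCK (θ : K → ℂ) c)) = resC hCK (ccI θ : K → ℂ) := rfl
    rw [h3] at h1
    have h4 := hB (ccI θ) θ (hinvK θ hθ) hθ η hs h1 hrel
    exact ⟨θ, real_of_ccI_eq θ h4, hθ, hrel⟩
  have hconj : ∀ (n : NN P) (θ : IrrCharacter K) (η : IrrCharacter (CC P K)),
      IRel p (SI (P : Subgroup G)) (resC hCK (θ : K → ℂ)) η →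
      IRel p (SI (P : Subgroup G)) (resC hCK (irrComp (conjE K (n : G) (haK P K n)) θ : K → ℂ))
        (irrComp (conjE (CC P K) (n : G) (haC P K n)) η) :=
    fun n θ η h => rel_conj hCK (haK P K n) (haC P K n) (haP P n) h
  have hsK : ∀ (n : NN P) (θ : IrrCharacter K), SI (P : Subgroup G) θ →
      SI (P : Subgroup G) (irrComp (conjE K (n : G) (haK P K n)) θ) :=
    fun n θ h => si_conj (haK P K n) (haP P n) θ h
  have hsC : ∀ (n : NN P) (η : IrrCharacter (CC P K)), SI (P : Subgroup G) η →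
      SI (P : Subgroup G) (irrComp (conjE (CC P K) (n : G) (haC P K n)) η) :=
    fun n η h => si_conj (haC P K n) (haP P n) η h
  have hPK : ∀ u ∈ (P : Subgroup G), ∀ h ∈ K, u * h * u⁻¹ ∈ K := fun u _ h hh => hK.conj_mem h hh u
  have hPC : ∀ u ∈ (P : Subgroup G), ∀ h ∈ CC P K, u * h * u⁻¹ ∈ CC P K := fun u hu =>
    haC P K ⟨u, Subgroup.le_normalizer hu⟩
  have h2N := two_HN P K h2
  choose th hthr hths htho using fun χ : {χ : IrrCharacter G // ∀ g, ((χ : G → ℂ) g).im = 0} =>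
    exists_si_constituent P K hreal h2 χ.1 χ.2
  choose et hetr hets hetrel using fun χ : {χ : IrrCharacter G // ∀ g, ((χ : G → ℂ) g).im = 0} =>
    hF2 (th χ) (hthr χ) (hths χ)
  choose xi hxir hxio using fun χ : {χ : IrrCharacter G // ∀ g, ((χ : G → ℂ) g).im = 0} =>
    exists_real_over (HN P K) h2N (irrComp (eN P K) (et χ)) (fun k => hetr χ _)
  have hdeg : ∀ χ : {χ : IrrCharacter G // ∀ g, ((χ : G → ℂ) g).im = 0}, ∃ ε : ℤ,
      (ε = 1 ∨ ε = -1) ∧ ((charDegree (χ.1 : G → ℂ) : ℕ) : ℤ) ≡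
        ε * ((charDegree (xi χ : NN P → ℂ) : ℕ) : ℤ) [ZMOD p] := by
    intro χ
    have d1 := deg_real_over K h2 χ.2 (th χ) (htho χ)
    have d2 := deg_real_over (HN P K) h2N (hxir χ) (irrComp (eN P K) (et χ)) (hxio χ)
    have hT : inertiaOf (HN P K) ((irrComp (eN P K) (et χ) : IrrCharacter ↥(HN P K)) : ↥(HN P K) → ℂ) =
        (inertiaOf K (th χ : K → ℂ)).subgroupOf (NN P) := by
      ext n
      rw [Subgroup.mem_subgroupOf, mem_inertia_N, mem_inertia_G]
      constructor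
      · intro h
        have h1 := hconj n (th χ) (et χ) (hetrel χ)
        rw [h] at h1
        exact hB _ _ (hsK n _ (hths χ)) (hths χ) (et χ) (hets χ) h1 (hetrel χ)
      · intro h
        have h1 := hconj n (th χ) (et χ) (hetrel χ)
        rw [h] at h1
        exact h1.unique hprime (hetrel χ) (hsC n _ (hets χ)) (hets χ)
    have hdη : charDegree ((irrComp (eN P K) (et χ) : IrrCharacter ↥(HN P K)) : ↥(HN P K) → ℂ) =
        charDegree (et χ : CC P K → ℂ) := by
      unfold charDegree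
      show ⌊((et χ : CC P K → ℂ) (eN P K 1)).re⌋₊ = _
      rw [map_one]
    obtain ⟨ε, hε, H⟩ := hetrel χ
    have hd := deg_modEq hprime P.isPGroup' hCK hPK hPC (hths χ) (hets χ) H
      (Cfsg.Agent.Lib.Char.Values.IsCharacter.charDegree_cast
        (isCharacter_of_isIrrCharacter (th χ).2)).symm
      (Cfsg.Agent.Lib.Char.Values.IsCharacter.charDegree_cast
        (isCharacter_of_isIrrCharacter (et χ).2)).symm
    have hi := index_modEq P (inertiaOf K (th χ : K → ℂ)) (le_inertia_of_si P K (th χ) (hths χ))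
    have hi' : (((inertiaOf K (th χ : K → ℂ)).index : ℕ) : ℤ) ≡
        (((inertiaOf K (th χ : K → ℂ)).relIndex (NN P) : ℕ) : ℤ) [ZMOD p] :=
      (Int.natCast_modEq_iff).2 hi
    refine ⟨ε, hε, ?_⟩
    rw [d1, d2, hT, hdη]
    push_cast
    have h3 := hi'.mul hd
    refine h3.trans ?_
    have h4 : (((inertiaOf K (th χ : K → ℂ)).relIndex (NN P) : ℕ) : ℤ) *
        (ε * ((charDegree (et χ : CC P K → ℂ) : ℕ) : ℤ)) =
        ε * ((((inertiaOf K (th χ : K → ℂ)).subgroupOf (NN P)).index : ℕ) *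
          ((charDegree (et χ : CC P K → ℂ) : ℕ) : ℤ)) := by
      unfold Subgroup.relIndex
      ring
    rw [h4]
  have hxip : ∀ χ : {χ : IrrCharacter G // ∀ g, ((χ : G → ℂ) g).im = 0},
      ¬ p ∣ charDegree (xi χ : NN P → ℂ) := by
    intro χ hd
    obtain ⟨ε, hε, H⟩ := hdeg χ
    apply hreal χ.1 χ.2
    have h1 : (p : ℤ) ∣ ε * ((charDegree (xi χ : NN P → ℂ) : ℕ) : ℤ) :=
      Dvd.dvd.mul_left (Int.natCast_dvd_natCast.2 hd) _
    have h3 := H.trans (Int.modEq_zero_iff_dvd.2 h1)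
    exact Int.natCast_dvd_natCast.1 (Int.modEq_zero_iff_dvd.1 h3)
  refine ⟨fun χ => ⟨xi χ, hxir χ, hxip χ⟩, ⟨?_, ?_⟩, ?_⟩
  · -- injective
    intro χ₁ χ₂ h
    have hx : xi χ₁ = xi χ₂ := congrArg Subtype.val h
    have o1 := hxio χ₁
    have o2 := hxio χ₂
    rw [← hx] at o2
    obtain ⟨g, hg⟩ := exists_conj_of_classInner_ne_zero (HN P K) (xi χ₁).2
      (irrComp (eN P K) (et χ₁)).2 (irrComp (eN P K) (et χ₂)).2 o1 o2
    have he : et χ₂ = irrComp (conjE (CC P K) (g : G) (haC P K g)) (et χ₁) := by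
      apply Subtype.ext
      funext c
      exact congrFun hg ((eN P K).symm c)
    have h1 := hconj g (th χ₁) (et χ₁) (hetrel χ₁)
    rw [← he] at h1
    have h3 := hB _ _ (hsK g _ (hths χ₁)) (hths χ₂) (et χ₂) (hets χ₂) h1 (hetrel χ₂)
    have hcl := isClassFunction_of_isCharacter (isCharacter_of_isIrrCharacter χ₁.1.2)
    have h4 : classInner (fun n : K => (χ₁.1 : G → ℂ) n) (th χ₂ : K → ℂ) ≠ 0 := by
      rw [← h3]
      have h5 : ((irrComp (conjE K (g : G) (haK P K g)) (th χ₁) : IrrCharacter K) : K → ℂ) =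
          Clifford.conjFun K (g : G) (th χ₁ : K → ℂ) := rfl
      rw [h5, classInner_res_conjFun K hcl]
      exact htho χ₁
    exact Subtype.ext (real_over_unique K h2 χ₁.2 χ₂.2 (th χ₂) h4 (htho χ₂))
  · -- surjective
    rintro ⟨ξ, hξr, hξp⟩
    obtain ⟨η', h₀⟩ := exists_constituent (HN P K) ξ
    have hr := real_of_constituent (HN P K) h2N hξr η' h₀
    have hd := deg_real_over (HN P K) h2N hξr η' h₀
    have hnd : ¬ p ∣ (inertiaOf (HN P K) (η' : ↥(HN P K) → ℂ)).index := by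
      intro h
      apply hξp
      rw [hd]
      exact h.trans (Dvd.intro _ rfl)
    let Pt : Subgroup (NN P) := (P : Subgroup G).subgroupOf (NN P)
    have hPt : IsPGroup p Pt := by
      intro y
      obtain ⟨k, hk⟩ := P.isPGroup' ⟨(y : NN P), y.2⟩
      refine ⟨k, ?_⟩
      apply Subtype.ext
      apply Subtype.ext
      have h5 := congrArg Subtype.val hk
      simpa using h5
    have hex : ∃ g : NN P, ∀ y ∈ Pt, g⁻¹ * y * g ∈ inertiaOf (HN P K) (η' : ↥(HN P K) → ℂ) := by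
      by_contra hcon
      push Not at hcon
      apply hnd
      refine dvd_index_of_no_fixed p hPt (fun g hg => ?_)
      obtain ⟨y, hy, hy'⟩ := hcon g
      exact hy' (hg y hy)
    obtain ⟨g, hg⟩ := hex
    have hPT' : ∀ y ∈ Pt, y ∈ inertiaOf (HN P K) (η' : ↥(HN P K) → ℂ) := by
      intro y hy
      have h5 : g * y * g⁻¹ ∈ Pt := haP P g y hy
      have h6 := hg _ h5
      have h7 : g⁻¹ * (g * y * g⁻¹) * g = y := by group
      rwa [h7] at h6
    let η : IrrCharacter (CC P K) := irrComp (eN P K).symm η'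
    have hηr : ∀ c, ((η : CC P K → ℂ) c).im = 0 := fun c => hr _
    have hηs : SI (P : Subgroup G) η := by
      intro u hu c c' hc
      show (η' : ↥(HN P K) → ℂ) ((eN P K).symm c') = (η' : ↥(HN P K) → ℂ) ((eN P K).symm c)
      have hu' : (⟨u, Subgroup.le_normalizer hu⟩ : NN P) ∈ inertiaOf (HN P K) (η' : ↥(HN P K) → ℂ) :=
        hPT' _ hu
      have h5 := (mem_inertiaOf (HN P K) (η' : ↥(HN P K) → ℂ) _).1 hu' ((eN P K).symm c)
      rw [← h5]
      refine congrArg _ (Subtype.ext (Subtype.ext ?_))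
      exact hc
    obtain ⟨θ, hθr, hθs, hθrel⟩ := hF3 η hηr hηs
    obtain ⟨χ, hχr, hχo⟩ := exists_real_over K h2 θ hθr
    let χ' : {χ : IrrCharacter G // ∀ g, ((χ : G → ℂ) g).im = 0} := ⟨χ, hχr⟩
    refine ⟨χ', ?_⟩
    apply Subtype.ext
    show xi χ' = ξ
    let x : RIrr (phi K) := ⟨θ, hθr⟩
    let y : RIrr (phi K) := ⟨th χ', hthr χ'⟩
    have hxy := same_orbit K (χ := χ) (θ := y) (θ' := x) (htho χ') hχo
    rw [orbit_eq_iff] at hxy
    obtain ⟨c, hc⟩ := hxy
    have hfix : ∀ z : RIrr (phi K), SI (P : Subgroup G) z.1 → ∀ u ∈ (P : Subgroup G), u • z = z := by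
      intro z hz u hu
      apply Subtype.ext
      apply Subtype.ext
      funext k
      show (z.1 : K → ℂ) ((phi K u)⁻¹ k) = (z.1 : K → ℂ) k
      refine hz u⁻¹ ((P : Subgroup G).inv_mem hu) k _ ?_
      rw [conjHom_inv_coe]
      simp
    have hfixx := hfix x hθs
    have hfixy : ∀ u ∈ (P : Subgroup G), u • (c • x) = c • x := by
      rw [hc]
      exact hfix y (hths χ')
    obtain ⟨n, hn, hn'⟩ := exists_normalizer_smul P x c hfixx hfixy
    let m : NN P := (⟨n, hn⟩ : NN P)⁻¹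
    have e1 : irrComp (conjE K (m : G) (haK P K m)) θ = th χ' := by
      apply Subtype.ext
      funext k
      have h5 := congrFun (congrArg Subtype.val (congrArg Subtype.val (hn'.trans hc))) k
      refine Eq.trans ?_ h5
      show (θ : K → ℂ) _ = (θ : K → ℂ) ((phi K n)⁻¹ k)
      refine congrArg _ (Subtype.ext ?_)
      rw [conjHom_inv_coe]
      show (m : G) * (k : G) * (m : G)⁻¹ = _
      show n⁻¹ * (k : G) * n⁻¹⁻¹ = _
      simp
    have h1 := hconj m θ η hθrel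
    rw [e1] at h1
    have e2 := (hetrel χ').unique hprime h1 (hets χ') (hsC m η hηs)
    have o := hxio χ'
    rw [e2] at o
    have e3 := conj_transfer P K m η
    have e4 : irrComp (eN P K) η = η' := by
      apply Subtype.ext
      funext k
      show (η' : ↥(HN P K) → ℂ) ((eN P K).symm (eN P K k)) = _
      simp
    rw [e4] at e3
    have hcl := isClassFunction_of_isCharacter (isCharacter_of_isIrrCharacter (xi χ').2)
    rw [e3, classInner_res_conjFun (HN P K) hcl] at o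
    exact real_over_unique (HN P K) h2N (hxir χ') hξr η' o h₀
  · intro χ
    obtain ⟨ε, hε, H⟩ := hdeg χ
    have h2' := (ZMod.intCast_eq_intCast_iff _ _ p).2 H
    rcases hε with rfl | rfl
    · left
      simp only [Int.cast_natCast, Int.cast_mul, Int.cast_one, one_mul] at h2'
      exact h2'.symm
    · right
      simp only [Int.cast_natCast, Int.cast_mul, Int.cast_neg, Int.cast_one, neg_mul, one_mul] at h2'
      show ((charDegree (xi χ : NN P → ℂ) : ℕ) : ZMod p) = _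
      rw [h2']
      simp

end Main

end Cfsg.Agent.Lib.Char.RealMcKay
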