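import Mathlib
import Cfsg.Agent.Lib.Char.RealOdd

/-!
# Real characters of odd degree over a real linear character

`H` is a normal subgroup of `Γ`, `θ` a linear character of `H` of order at most `2`, `T` its
inertia group of odd index, and `ν` a linear character of `T` with `ν² = 1` extending `θ`. Then
`β ↦ (ν β)^Γ` is a bijection from the real odd-degree characters of `T` trivial on `H` onto the
real odd-degree characters of `Γ` over `θ`.
-/

set_option autoImplicit false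
set_option linter.style.haveILetI false
set_option linter.unusedSectionVars false
set_option linter.unusedVariables false

namespace Cfsg.Agent.Lib.Char.RealOdd

open Cfsg Cfsg.Agent.Lib.Char.Basic Cfsg.Agent.Lib.Char.Ortho Cfsg.Agent.Lib.Char.Induced
  Cfsg.Agent.Lib.Char.IndRep Cfsg.Agent.Lib.Char.CliffordCorr
  Cfsg.Agent.Lib.Char.RealOver Cfsg.Agent.Lib.Char.Monomial Cfsg.Agent.Lib.Char.RealClass
open scoped ComplexConjugate

universe u

section Ind

variable {Γ : Type u} [Group Γ] [Fintype Γ] (T : Subgroup Γ)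

/-- Induction commutes with complex conjugation. -/
theorem indFun_conj (ψ : T → ℂ) (g : Γ) :
    indFun T (fun t => conj (ψ t)) g = conj (indFun T ψ g) := by
  rw [indFun_apply, indFun_apply, map_mul, map_inv₀, Complex.conj_natCast, map_sum]
  congr 1
  refine Finset.sum_congr rfl fun x _ => ?_
  by_cases h : x⁻¹ * g * x ∈ T
  · rw [extendByZero_of_mem T _ h, extendByZero_of_mem T _ h]
  · rw [extendByZero_of_notMem T _ h, extendByZero_of_notMem T _ h, map_zero]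

/-- The induced character of a real character is real. -/
theorem indFun_real {ψ : T → ℂ} (h : ∀ t, (ψ t).im = 0) (g : Γ) : (indFun T ψ g).im = 0 := by
  rw [← Complex.conj_eq_iff_im, ← indFun_conj]
  congr 1
  funext t
  exact Complex.conj_eq_iff_im.2 (h t)

/-- Degree of an induced character. -/
theorem charDegree_indFun {ψ : T → ℂ} (hψ : IsCharacter T ψ) :
    charDegree (indFun T ψ) = T.index * charDegree ψ := by
  apply charDegree_of_apply_one
  rw [indFun_one T ψ, ← Cfsg.Agent.Lib.Char.Values.IsCharacter.charDegree_cast hψ]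
  push_cast
  rfl

end Ind

section Clifford

variable {Γ : Type u} [Group Γ] [Fintype Γ] (H : Subgroup Γ) [hH : H.Normal] [Fintype H]
  (θ : H →* ℂˣ) (T : Subgroup Γ) [Fintype T] (hHT : H ≤ T)
  (hT : ∀ g : Γ, g ∈ T ↔ ∀ n : H, thF θ ⟨g * n * g⁻¹, hH.conj_mem (n : Γ) n.2 g⟩ = thF θ n)

/-- A linear character with square one has real values. -/
theorem hom_real {A : Type*} [Group A] (ν : A →* ℂˣ) (h2 : ∀ a, ν a ^ 2 = 1) (a : A) :
    ((ν a : ℂˣ) : ℂ).im = 0 := by
  have h3 : (((ν a : ℂˣ) : ℂ)) ^ 2 = 1 := by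
    rw [← Units.val_pow_eq_pow_val, h2 a, Units.val_one]
  have h4 : ((ν a : ℂˣ) : ℂ) = 1 ∨ ((ν a : ℂˣ) : ℂ) = -1 :=
    mul_self_eq_one_iff.1 (by rw [← pow_two]; exact h3)
  rcases h4 with h4 | h4 <;> rw [h4] <;> simp

include hT in
/-- Characters over a real linear character with real induced character are real. -/
theorem real_of_ind_real (hθ2 : ∀ h, θ h ^ 2 = 1) {ψ : T → ℂ} (hψ : IsIrrCharacter T ψ)
    (hc : classInner (resT H T hHT ψ) (thF θ) ≠ 0) (hind : ∀ g, (indFun T ψ g).im = 0) (t : T) :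
    (ψ t).im = 0 := by
  classical
  have hreal : ∀ h, conj ((θ h : ℂˣ) : ℂ) = ((θ h : ℂˣ) : ℂ) := by
    intro h
    exact Complex.conj_eq_iff_im.2 (hom_real θ hθ2 h)
  have hc' : classInner (resT H T hHT (fun t => conj (ψ t))) (thF θ) ≠ 0 := by
    have h1 : thF θ = fun h => conj (thF θ h) := by
      funext h
      exact (hreal h).symm
    rw [h1]
    show classInner (fun n : H => conj (resT H T hHT ψ n)) (fun h => conj (thF θ h)) ≠ 0
    rw [classInner_conj_conj]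
    intro h0
    exact hc ((map_eq_zero _).1 h0)
  have hi : indFun T (fun t => conj (ψ t)) = indFun T ψ := by
    funext g
    rw [indFun_conj]
    exact Complex.conj_eq_iff_im.2 (hind g)
  have h1 := eq_of_indFun_eq H (thF θ) T hHT (isIrr_thF θ) hT (isIrr_conj hψ) hψ hc' hc hi
  exact Complex.conj_eq_iff_im.1 (congrFun h1 t)

include hT in
/-- A character of `T` over `θ` restricts to a multiple of `θ`. -/
theorem res_apply {ψ : T → ℂ} (hψ : IsIrrCharacter T ψ)
    (hc : classInner (resT H T hHT ψ) (thF θ) ≠ 0) (h : H) :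
    ψ ⟨h, hHT h.2⟩ = ψ 1 * thF θ h := by
  have h1 := res_eq_smul_of_inertia H (thF θ) T hHT (isIrr_thF θ) hT hψ hc
  have h2 := congrFun h1 h
  have h3 := congrFun h1 1
  simp only [Pi.smul_apply, smul_eq_mul, thF, map_one, Units.val_one, mul_one] at h2 h3
  have h4 : resT H T hHT ψ 1 = ψ 1 := rfl
  rw [h4] at h3
  rw [h3]
  exact h2

/-- If a character of `T` is a multiple of `θ` on `H` then it lies over `θ`. -/
theorem over_of_res {ψ : T → ℂ} (hψ : IsIrrCharacter T ψ)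
    (h : ∀ h : H, ψ ⟨h, hHT h.2⟩ = ψ 1 * thF θ h) :
    classInner (resT H T hHT ψ) (thF θ) ≠ 0 := by
  have h1 : resT H T hHT ψ = ψ 1 • thF θ := by
    funext n
    exact h n
  rw [h1, classInner_smul_left, classInner_irr_self (isIrr_thF θ), mul_one]
  exact irr_apply_one_ne_zero hψ

include hT in
/-- **The fibre over `θ`.** -/
theorem card_fiber_eq (hTodd : Odd T.index) (ν : T →* ℂˣ) (hν2 : ∀ t, ν t ^ 2 = 1)
    (hνθ : ∀ h : H, ν ⟨h, hHT h.2⟩ = θ h) :
    Nat.card {χ : RO Γ // classInner (fun n : H => (χ.1 : Γ → ℂ) n) (thF θ) ≠ 0} =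
      Nat.card {β : RO T // ∀ h : H, (β.1 : T → ℂ) ⟨h, hHT h.2⟩ = (β.1 : T → ℂ) 1} := by
  classical
  have hθ2 : ∀ h, θ h ^ 2 = 1 := by
    intro h
    rw [← hνθ h]
    exact hν2 _
  have hνν : ∀ t, ((ν t : ℂˣ) : ℂ) * ((ν t : ℂˣ) : ℂ) = 1 := by
    intro t
    rw [← Units.val_mul, ← pow_two, hν2 t, Units.val_one]
  -- the twist
  have htw : ∀ β : IrrCharacter T, IsIrrCharacter T (fun t => ((ν t : ℂˣ) : ℂ) * (β : T → ℂ) t) :=
    fun β => Cfsg.Agent.Lib.Char.GlaubCyclic.isIrr_lin_mul ν β.2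
  have htwdeg : ∀ f : T → ℂ, charDegree (fun t => ((ν t : ℂˣ) : ℂ) * f t) = charDegree f := by
    intro f
    unfold charDegree
    simp
  have htwreal : ∀ (f : T → ℂ), (∀ t, (f t).im = 0) →
      ∀ t, (((ν t : ℂˣ) : ℂ) * f t).im = 0 := by
    intro f hf t
    rw [Complex.mul_im, hf t, hom_real ν hν2 t]
    simp
  have hover : ∀ β : {β : RO T // ∀ h : H, (β.1 : T → ℂ) ⟨h, hHT h.2⟩ = (β.1 : T → ℂ) 1},
      classInner (resT H T hHT (fun t => ((ν t : ℂˣ) : ℂ) * (β.1.1 : T → ℂ) t)) (thF θ) ≠ 0 := by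
    intro β
    apply over_of_res H θ T hHT (htw β.1.1)
    intro h
    show ((ν ⟨h, hHT h.2⟩ : ℂˣ) : ℂ) * (β.1.1 : T → ℂ) ⟨h, hHT h.2⟩ =
      ((ν 1 : ℂˣ) : ℂ) * (β.1.1 : T → ℂ) 1 * _
    rw [β.2 h, hνθ h, map_one, Units.val_one, one_mul, mul_comm]
  let F : {β : RO T // ∀ h : H, (β.1 : T → ℂ) ⟨h, hHT h.2⟩ = (β.1 : T → ℂ) 1} →
      {χ : RO Γ // classInner (fun n : H => (χ.1 : Γ → ℂ) n) (thF θ) ≠ 0} := fun β =>
    have hirr := isIrr_indFun H (thF θ) T hHT (isIrr_thF θ) hT (htw β.1.1) (hover β)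
    ⟨⟨⟨indFun T (fun t => ((ν t : ℂˣ) : ℂ) * (β.1.1 : T → ℂ) t), hirr⟩,
      fun g => indFun_real T (htwreal _ β.1.2.1) g, by
        show Odd (charDegree (indFun T (fun t => ((ν t : ℂˣ) : ℂ) * (β.1.1 : T → ℂ) t)))
        rw [charDegree_indFun T (isCharacter_of_isIrrCharacter (htw β.1.1)), htwdeg]
        exact hTodd.mul β.1.2.2⟩, by
      have hself : classInner (indFun T (fun t => ((ν t : ℂˣ) : ℂ) * (β.1.1 : T → ℂ) t))
          (indFun T (fun t => ((ν t : ℂˣ) : ℂ) * (β.1.1 : T → ℂ) t)) ≠ 0 := by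
        rw [classInner_irr_self hirr]
        exact one_ne_zero
      have h2 := (core H (thF θ) T hHT (isIrr_thF θ) hT (htw β.1.1) (hover β) hirr hself).2
      show classInner (fun n : H => indFun T (fun t => ((ν t : ℂˣ) : ℂ) * (β.1.1 : T → ℂ) t) n)
        (thF θ) ≠ 0
      rw [← h2]
      exact hover β⟩
  symm
  refine Nat.card_eq_of_bijective F ⟨?_, ?_⟩
  · intro β β' h
    have h1 : indFun T (fun t => ((ν t : ℂˣ) : ℂ) * (β.1.1 : T → ℂ) t) =
        indFun T (fun t => ((ν t : ℂˣ) : ℂ) * (β'.1.1 : T → ℂ) t) :=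
      congrArg (fun z => ((z.1.1 : Γ → ℂ))) h
    have h2 := eq_of_indFun_eq H (thF θ) T hHT (isIrr_thF θ) hT (htw β.1.1) (htw β'.1.1)
      (hover β) (hover β') h1
    apply Subtype.ext
    apply Subtype.ext
    apply Subtype.ext
    funext t
    have h3 := congrFun h2 t
    exact mul_left_cancel₀ (Units.ne_zero _) h3
  · rintro ⟨χ, hχ⟩
    obtain ⟨ψ, hψ, h1, h2⟩ := exists_indFun_eq H (thF θ) T hHT (isIrr_thF θ) hT χ.1.2 hχ
    have hc : classInner (resT H T hHT ψ) (thF θ) ≠ 0 := by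
      rw [h2]
      exact hχ
    have hre : ∀ t, (ψ t).im = 0 := by
      apply real_of_ind_real H θ T hHT hT hθ2 hψ hc
      rw [h1]
      exact χ.2.1
    have hdeg : Odd (charDegree ψ) := by
      have h3 := χ.2.2
      rw [show (χ.1 : Γ → ℂ) = indFun T ψ from h1.symm,
        charDegree_indFun T (isCharacter_of_isIrrCharacter hψ)] at h3
      exact (Nat.odd_mul.1 h3).2
    let ψ' : IrrCharacter T := ⟨ψ, hψ⟩
    have hν1 : ∀ t, ((ν t : ℂˣ) : ℂ) * (((ν t : ℂˣ) : ℂ) * ψ t) = ψ t := by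
      intro t
      rw [← mul_assoc, hνν, one_mul]
    let β : RO T := ⟨⟨_, htw ψ'⟩, htwreal _ hre, by
      show Odd (charDegree (fun t => ((ν t : ℂˣ) : ℂ) * ψ t))
      rw [htwdeg]
      exact hdeg⟩
    have hβ : ∀ h : H, (β.1 : T → ℂ) ⟨h, hHT h.2⟩ = (β.1 : T → ℂ) 1 := by
      intro h
      show ((ν ⟨h, hHT h.2⟩ : ℂˣ) : ℂ) * ψ ⟨h, hHT h.2⟩ = ((ν 1 : ℂˣ) : ℂ) * ψ 1
      rw [res_apply H θ T hHT hT hψ hc h, hνθ h, map_one, Units.val_one, one_mul]
      have h5 : ((θ h : ℂˣ) : ℂ) * ((θ h : ℂˣ) : ℂ) = 1 := by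
        rw [← Units.val_mul, ← pow_two, hθ2 h, Units.val_one]
      calc ((θ h : ℂˣ) : ℂ) * (ψ 1 * ((θ h : ℂˣ) : ℂ))
          = ψ 1 * (((θ h : ℂˣ) : ℂ) * ((θ h : ℂˣ) : ℂ)) := by ring
        _ = ψ 1 := by rw [h5, mul_one]
    refine ⟨⟨β, hβ⟩, ?_⟩
    apply Subtype.ext
    apply Subtype.ext
    apply Subtype.ext
    show indFun T (fun t => ((ν t : ℂˣ) : ℂ) * (((ν t : ℂˣ) : ℂ) * ψ t)) = _
    simp only [hν1]
    exact h1

include hT in
/-- A linear constituent of the restriction to a subgroup containing `H`. -/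
theorem hom_res_eq {Q : Type u} [Group Q] [Fintype Q] (j : Q →* T) (s : H →* Q)
    (hs : ∀ h : H, j (s h) = ⟨h, hHT h.2⟩) {ψ : T → ℂ} (hψ : IsIrrCharacter T ψ)
    (hc : classInner (resT H T hHT ψ) (thF θ) ≠ 0) (μ : Q →* ℂˣ)
    (hμ : classInner (fun q => ψ (j q)) (thF μ) ≠ 0) (h : H) : μ (s h) = θ h := by
  classical
  have hΨ : IsCharacter Q (fun q => ψ (j q)) :=
    isCharacter_comp_hom (isCharacter_of_isIrrCharacter hψ) j
  obtain ⟨Ξ, hΞ, hsum⟩ := Cfsg.Agent.Lib.Char.Clifford.exists_char_add hΨ (isIrr_thF μ) hμ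
  have hΞH : IsCharacter H (fun n => Ξ (s n)) := isCharacter_comp_hom hΞ s
  let μs : H →* ℂˣ := μ.comp s
  have h1 : ψ 1 • thF θ = thF μs + fun n => Ξ (s n) := by
    funext n
    have h2 := congrFun hsum (s n)
    have h3 : ψ (j (s n)) = ψ 1 * thF θ n := by
      rw [hs n]
      exact res_apply H θ T hHT hT hψ hc n
    simp only [Pi.add_apply, Pi.smul_apply, smul_eq_mul] at h2 ⊢
    rw [← h3, h2]
    rfl
  have hne : thF μs = thF θ := by
    by_contra hne
    obtain ⟨b, hb⟩ := exists_nat_classInner hΞH ⟨thF μs, isIrr_thF μs⟩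
    have h2 := congrArg (fun f => classInner f (thF μs)) h1
    simp only [classInner_smul_left, classInner_add_left] at h2
    rw [classInner_irr_of_ne (isIrr_thF θ) (isIrr_thF μs) (Ne.symm hne),
      classInner_irr_self (isIrr_thF μs), mul_zero] at h2
    have h3 : classInner (fun n => Ξ (s n)) (thF μs) = b := hb
    rw [h3] at h2
    have h4 : ((1 + b : ℕ) : ℂ) = 0 := by
      push_cast
      exact h2.symm
    have h5 : 1 + b = 0 := by exact_mod_cast h4
    omega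
  exact Units.ext (congrFun hne h)

include hT in
/-- Extension to a `2`-group, plain version. -/
theorem exists_ext_of_odd {Q : Type u} [Group Q] [Fintype Q] (hQ : IsPGroup 2 Q) (j : Q →* T)
    (s : H →* Q) (hs : ∀ h : H, j (s h) = ⟨h, hHT h.2⟩) {ψ : T → ℂ} (hψ : IsIrrCharacter T ψ)
    (hc : classInner (resT H T hHT ψ) (thF θ) ≠ 0) (hodd : Odd (charDegree ψ)) :
    ∃ μ : Q →* ℂˣ, ∀ h : H, μ (s h) = θ h := by
  classical
  have hΨ : IsCharacter Q (fun q => ψ (j q)) :=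
    isCharacter_comp_hom (isCharacter_of_isIrrCharacter hψ) j
  have h1 : (fun q => ψ (j q)) 1 = (charDegree ψ : ℂ) := by
    rw [Cfsg.Agent.Lib.Char.Values.IsCharacter.charDegree_cast (isCharacter_of_isIrrCharacter hψ)]
    simp
  obtain ⟨χ, hχ, hχo⟩ := exists_odd_constituent hΨ h1 hodd
  obtain ⟨μ, hμ⟩ := exists_hom_of_odd_degree hQ χ hχo
  rw [hμ] at hχ
  exact ⟨μ, hom_res_eq H θ T hHT hT j s hs hψ hc μ hχ⟩

include hT in
/-- Extension to a `2`-group, real version. -/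
theorem exists_ext_of_real {Q : Type u} [Group Q] [Fintype Q] (hQ : IsPGroup 2 Q) (j : Q →* T)
    (s : H →* Q) (hs : ∀ h : H, j (s h) = ⟨h, hHT h.2⟩) {ψ : T → ℂ} (hψ : IsIrrCharacter T ψ)
    (hc : classInner (resT H T hHT ψ) (thF θ) ≠ 0) (hodd : Odd (charDegree ψ))
    (hre : ∀ t, (ψ t).im = 0) :
    ∃ μ : Q →* ℂˣ, (∀ q, μ q ^ 2 = 1) ∧ ∀ h : H, μ (s h) = θ h := by
  classical
  have hΨ : IsCharacter Q (fun q => ψ (j q)) :=
    isCharacter_comp_hom (isCharacter_of_isIrrCharacter hψ) j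
  have h1 : (fun q => ψ (j q)) 1 = (charDegree ψ : ℂ) := by
    rw [Cfsg.Agent.Lib.Char.Values.IsCharacter.charDegree_cast (isCharacter_of_isIrrCharacter hψ)]
    simp
  obtain ⟨χ, hχ⟩ := exists_real_odd_constituent hΨ
    (fun q => Complex.conj_eq_iff_im.2 (hre _)) h1 hodd
  obtain ⟨μ, hμ⟩ := exists_hom_of_odd_degree hQ χ.1 χ.2.2
  rw [hμ] at hχ
  refine ⟨μ, fun q => ?_, hom_res_eq H θ T hHT hT j s hs hψ hc μ hχ⟩
  have h2 := χ.2.1 q
  rw [hμ] at h2
  have h3 : (μ q) ^ (Nat.card Q) = 1 := by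
    rw [← map_pow, pow_card_eq_one', map_one]
  have h4 := conj_units_of_pow Nat.card_pos.ne' h3
  have h5 : conj ((μ q : ℂˣ) : ℂ) = ((μ q : ℂˣ) : ℂ) := Complex.conj_eq_iff_im.2 h2
  rw [h5] at h4
  have h6 : μ q = (μ q)⁻¹ := Units.ext h4
  rw [pow_two]
  nth_rw 1 [h6]
  simp

end Clifford

end Cfsg.Agent.Lib.Char.RealOdd
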