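import Mathlib
import Cfsg.Agent.Lib.Char.RealOdd2

/-!
# Sylow `2`-subgroups, quotients and constituents

* `exists_normalizer_lift`: Frattini argument for the image of a Sylow subgroup in a quotient.
* `card_RO_normalizer_quot`: characters of the normalizer in the quotient.
* `exists_fixed_constituent`, `exists_conj_normalizer`: constituents fixed by a Sylow subgroup.
* `exists_transfer_T`: extension by transfer.
-/

set_option autoImplicit false
set_option linter.style.haveILetI false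
set_option linter.unusedSectionVars false
set_option linter.unusedVariables false

namespace Cfsg.Agent.Lib.Char.RealOdd

open Cfsg Cfsg.Agent.Lib.Char.Basic Cfsg.Agent.Lib.Char.Ortho Cfsg.Agent.Lib.Char.Induced
  Cfsg.Agent.Lib.Char.IndRep Cfsg.Agent.Lib.Char.CliffordCorr
  Cfsg.Agent.Lib.Char.RealOver Cfsg.Agent.Lib.Char.Monomial Cfsg.Agent.Lib.Char.RealClass
open scoped ComplexConjugate Pointwise

universe u

section Frattini

variable {Y : Type u} [Group Y] [Finite Y] (K : Subgroup Y) [hK : K.Normal] (Q : Sylow 2 Y)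

/-- The image of a Sylow `2`-subgroup in a quotient. -/
noncomputable abbrev sylQ : Sylow 2 (Y ⧸ K) := Q.mapSurjective (QuotientGroup.mk'_surjective K)

theorem mem_sylQ {x : Y ⧸ K} :
    x ∈ (sylQ K Q : Subgroup (Y ⧸ K)) ↔ ∃ u ∈ (Q : Subgroup Y), (u : Y ⧸ K) = x := by
  rw [Sylow.coe_mapSurjective]
  exact Subgroup.mem_map

/-- The normalizer of a Sylow subgroup. -/
abbrev NP {A : Type u} [Group A] (S : Sylow 2 A) : Subgroup A :=
  Subgroup.normalizer ((S : Subgroup A) : Set A)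

theorem mk_mem_normalizer {n : Y} (hn : n ∈ NP Q) : (n : Y ⧸ K) ∈ NP (sylQ K Q) := by
  have h1 := Subgroup.le_normalizer_map (H := (Q : Subgroup Y)) (QuotientGroup.mk' K)
    (Subgroup.mem_map_of_mem _ hn)
  exact h1

/-- **Frattini argument.** -/
theorem exists_normalizer_lift (y : Y ⧸ K) (hy : y ∈ NP (sylQ K Q)) :
    ∃ n ∈ NP Q, (n : Y ⧸ K) = y := by
  obtain ⟨y₀, rfl⟩ := QuotientGroup.mk_surjective y
  let R : Subgroup Y := (Q : Subgroup Y) ⊔ K
  have hQR : (Q : Subgroup Y) ≤ R := le_sup_left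
  have hQ'R : ((y₀ • Q : Sylow 2 Y) : Subgroup Y) ≤ R := by
    intro v hv
    have hv' : v ∈ (((y₀ • Q : Sylow 2 Y) : Subgroup Y) : Set Y) := hv
    rw [show (((y₀ • Q : Sylow 2 Y) : Subgroup Y) : Set Y) =
      MulAut.conj y₀ • ((Q : Subgroup Y) : Set Y) from Sylow.coe_smul] at hv'
    obtain ⟨u, hu, rfl⟩ := Set.mem_smul_set.1 hv'
    have h2 : MulAut.conj y₀ • u = y₀ * u * y₀⁻¹ := by
      rw [MulAut.smul_def, MulAut.conj_apply]
    rw [h2]
    have h3 : ((u : Y) : Y ⧸ K) ∈ (sylQ K Q : Subgroup (Y ⧸ K)) := (mem_sylQ K Q).2 ⟨u, hu, rfl⟩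
    have h4 := (Subgroup.mem_normalizer_iff.1 hy _).1 h3
    obtain ⟨u', hu', h5⟩ := (mem_sylQ K Q).1 h4
    have h6 : ((u' : Y) : Y ⧸ K) = ((y₀ * u * y₀⁻¹ : Y) : Y ⧸ K) := h5
    rw [QuotientGroup.eq] at h6
    have h7 : y₀ * u * y₀⁻¹ = u' * (u'⁻¹ * (y₀ * u * y₀⁻¹)) := by group
    rw [h7]
    exact Subgroup.mul_mem_sup hu' h6
  obtain ⟨r, hr⟩ := MulAction.exists_smul_eq R
    ((y₀ • Q : Sylow 2 Y).subtype hQ'R) (Q.subtype hQR)
  rw [Sylow.smul_subtype] at hr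
  have h1 : (r : Y) • y₀ • Q = Q := Sylow.subtype_injective hr
  have h2 : ((r : Y) * y₀) • Q = Q := by
    rw [mul_smul]
    exact h1
  have hn := Sylow.smul_eq_iff_mem_normalizer.1 h2
  have hrm : (r : Y) ∈ (((Q : Subgroup Y) ⊔ K : Subgroup Y) : Set Y) := r.2
  rw [Subgroup.mul_normal] at hrm
  obtain ⟨a, ha, k, hk, hak⟩ := Set.mem_mul.1 hrm
  have haN : a⁻¹ ∈ NP Q := Subgroup.le_normalizer (Subgroup.inv_mem _ ha)
  refine ⟨a⁻¹ * ((r : Y) * y₀), Subgroup.mul_mem _ haN hn, ?_⟩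
  rw [QuotientGroup.eq, ← hak]
  have h3 : (a⁻¹ * (a * k * y₀))⁻¹ * y₀ = y₀⁻¹ * k⁻¹ * y₀ := by group
  rw [h3]
  have h4 := hK.conj_mem _ (K.inv_mem hk) y₀⁻¹
  simpa using h4

/-- The characters of the normalizer in the quotient. -/
theorem card_RO_normalizer_quot {W : Type u} [Group W] [Finite W] (ι : W →* Y)
    (hι : ∀ n, n ∈ NP Q ↔ ∃ w, ι w = n) :
    Nat.card (RO (NP (sylQ K Q))) =
      Nat.card {β : RO W // ∀ w, ι w ∈ K → (β.1 : W → ℂ) w = (β.1 : W → ℂ) 1} := by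
  classical
  let φ : W →* NP (sylQ K Q) := ((QuotientGroup.mk' K).comp ι).codRestrict _ (fun w =>
    mk_mem_normalizer K Q ((hι _).2 ⟨w, rfl⟩))
  have hφ : Function.Surjective φ := by
    rintro ⟨y, hy⟩
    obtain ⟨n, hn, rfl⟩ := exists_normalizer_lift K Q y hy
    obtain ⟨w, rfl⟩ := (hι n).1 hn
    exact ⟨w, rfl⟩
  rw [card_RO_surj φ hφ]
  refine Nat.card_congr (Equiv.subtypeEquivRight fun β => ?_)
  refine forall_congr' fun w => ?_
  have h1 : φ w = 1 ↔ ι w ∈ K := by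
    rw [Subtype.ext_iff]
    show ((ι w : Y) : Y ⧸ K) = 1 ↔ _
    exact QuotientGroup.eq_one_iff _
  rw [h1]

/-- Membership in the normalizer of a Sylow subgroup of a subgroup. -/
theorem mem_NP_subtype {T : Subgroup Y} (hT : (Q : Subgroup Y) ≤ T) (t : T) :
    t ∈ NP (Q.subtype hT) ↔ (t : Y) ∈ NP Q := by
  rw [Subgroup.mem_normalizer_iff, Subgroup.mem_normalizer_iff]
  have hc : ∀ x : T, x ∈ ((Q.subtype hT : Sylow 2 T) : Subgroup T) ↔ (x : Y) ∈ (Q : Subgroup Y) :=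
    fun x => Iff.rfl
  constructor
  · intro h x
    by_cases hx : x ∈ T
    · have h1 := h ⟨x, hx⟩
      rw [hc, hc] at h1
      exact h1
    · have h2 : x ∉ (Q : Subgroup Y) := fun h3 => hx (hT h3)
      have h3 : (t : Y) * x * (t : Y)⁻¹ ∉ (Q : Subgroup Y) := by
        intro h4
        apply hx
        have h5 := hT h4
        have h6 : x = (t : Y)⁻¹ * ((t : Y) * x * (t : Y)⁻¹) * t := by group
        rw [h6]
        exact T.mul_mem (T.mul_mem (T.inv_mem t.2) h5) t.2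
      exact iff_of_false h2 h3
  · intro h x
    rw [hc, hc]
    exact h x

end Frattini

section Over

variable {Γ : Type u} [Group Γ] [Fintype Γ] (Q : Sylow 2 Γ) (H : Subgroup Γ) [hH : H.Normal]
  [Fintype H]

/-- Constituents have odd inertia index and odd degree. -/
theorem odd_constituent {χ : Γ → ℂ} (hχ : IsIrrCharacter Γ χ) (hodd : Odd (charDegree χ))
    (θ : IrrCharacter H) (hθ : classInner (fun n : H => χ n) (θ : H → ℂ) ≠ 0) :
    Odd (inertiaOf H (θ : H → ℂ)).index ∧ Odd (charDegree (θ : H → ℂ)) := by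
  classical
  have h1 := apply_one_eq H (θ : H → ℂ) _ θ.2 (mem_inertiaOf H _) hχ hθ
  obtain ⟨e, he⟩ := exists_nat_classInner
    (isCharacter_restrict (isCharacter_of_isIrrCharacter hχ) H) θ
  have he' : classInner (fun n : H => χ n) (θ : H → ℂ) = e := he
  have hχ1 := Cfsg.Agent.Lib.Char.Values.IsCharacter.charDegree_cast
    (isCharacter_of_isIrrCharacter hχ)
  have hθ1 := Cfsg.Agent.Lib.Char.Values.IsCharacter.charDegree_cast
    (isCharacter_of_isIrrCharacter θ.2)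
  rw [he', ← hθ1, ← hχ1] at h1
  have h2 : charDegree χ = e * ((inertiaOf H (θ : H → ℂ)).index *
      charDegree (θ : H → ℂ)) := by exact_mod_cast h1
  rw [h2] at hodd
  exact Nat.odd_mul.1 (Nat.odd_mul.1 hodd).2

/-- A constituent of a character of odd degree can be chosen fixed by the Sylow subgroup. -/
theorem exists_fixed_constituent {χ : Γ → ℂ} (hχ : IsIrrCharacter Γ χ)
    (hodd : Odd (charDegree χ)) :
    ∃ θ : IrrCharacter H, (Q : Subgroup Γ) ≤ inertiaOf H (θ : H → ℂ) ∧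
      classInner (fun n : H => χ n) (θ : H → ℂ) ≠ 0 ∧ Odd (charDegree (θ : H → ℂ)) := by
  classical
  have hχc := isCharacter_of_isIrrCharacter hχ
  have h1 : (fun n : H => χ n) 1 ≠ 0 := by
    show χ 1 ≠ 0
    exact irr_apply_one_ne_zero hχ
  obtain ⟨θ₀, hθ₀, hc⟩ := exists_irr_constituent (isCharacter_restrict hχc H) h1
  have ho := odd_constituent H hχ hodd ⟨θ₀, hθ₀⟩ hc
  by_contra hcon
  have hex : ∀ g : Γ, ¬ ∀ y ∈ (Q : Subgroup Γ), g⁻¹ * y * g ∈ inertiaOf H θ₀ := by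
    intro g hg
    apply hcon
    refine ⟨⟨Clifford.conjFun H g⁻¹ θ₀, Clifford.isIrr_conjFun H g⁻¹ hθ₀⟩, ?_, ?_, ?_⟩
    · intro y hy
      rw [mem_inertiaOf]
      intro n
      have h2 := (mem_inertiaOf H θ₀ _).1 (hg y hy) ⟨g⁻¹ * n * g, by
        have := hH.conj_mem (n : Γ) n.2 g⁻¹
        simpa using this⟩
      show θ₀ ⟨g⁻¹ * (y * n * y⁻¹) * g⁻¹⁻¹, _⟩ = θ₀ ⟨g⁻¹ * n * g⁻¹⁻¹, _⟩
      have h3 : ∀ (a b : Γ) (ha : a ∈ H) (hb : b ∈ H), a = b → θ₀ ⟨a, ha⟩ = θ₀ ⟨b, hb⟩ := by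
        rintro a b ha hb rfl
        rfl
      refine Eq.trans ?_ (h2.trans ?_)
      · apply h3
        group
      · apply h3
        group
    · show classInner (fun n : H => χ n) (Clifford.conjFun H g⁻¹ θ₀) ≠ 0
      rw [Clifford.classInner_res_conjFun H (isClassFunction_of_isCharacter hχc)]
      exact hc
    · show Odd (charDegree (Clifford.conjFun H g⁻¹ θ₀))
      have : charDegree (Clifford.conjFun H g⁻¹ θ₀) = charDegree θ₀ := by
        unfold charDegree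
        rw [Clifford.conjFun_apply_one]
      rw [this]
      exact ho.2
  have h3 := dvd_index_of_no_fixed 2 Q.isPGroup' hex
  exact (Nat.not_even_iff_odd.2 ho.1) (even_iff_two_dvd.2 h3)

/-- Sylow fusion of fixed functions. -/
theorem exists_normalizer_conjFun (ϑ : H → ℂ) (g : Γ)
    (hx : (Q : Subgroup Γ) ≤ inertiaOf H ϑ)
    (hy : (Q : Subgroup Γ) ≤ inertiaOf H (Clifford.conjFun H g ϑ)) :
    ∃ n ∈ NP Q, Clifford.conjFun H n ϑ = Clifford.conjFun H g ϑ := by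
  letI act : MulAction Γ (H → ℂ) :=
    { smul := fun a τ => Clifford.conjFun H a⁻¹ τ
      one_smul := fun τ => by
        show Clifford.conjFun H 1⁻¹ τ = τ
        rw [inv_one, Clifford.conjFun_one]
      mul_smul := fun a b τ => by
        show Clifford.conjFun H (a * b)⁻¹ τ = Clifford.conjFun H a⁻¹ (Clifford.conjFun H b⁻¹ τ)
        rw [mul_inv_rev, Clifford.conjFun_mul] }
  have hs : ∀ (a : Γ) (τ : H → ℂ), a • τ = Clifford.conjFun H a⁻¹ τ := fun _ _ => rfl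
  have hfix : ∀ (τ : H → ℂ), (Q : Subgroup Γ) ≤ inertiaOf H τ →
      ∀ u ∈ (Q : Subgroup Γ), u • τ = τ := by
    intro τ hτ u hu
    rw [hs]
    exact (conjFun_eq_self_iff H τ _ (mem_inertiaOf H τ) _).2 (hτ (Subgroup.inv_mem _ hu))
  have hgg : g⁻¹ • ϑ = Clifford.conjFun H g ϑ := by
    rw [hs, inv_inv]
  obtain ⟨n, hn, h⟩ := exists_normalizer_smul Q ϑ g⁻¹ (hfix ϑ hx)
    (by rw [hgg]; exact hfix _ hy)
  refine ⟨n⁻¹, Subgroup.inv_mem _ hn, ?_⟩
  rw [← hgg, ← h, hs]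

/-- Two fixed constituents are conjugate under the normalizer. -/
theorem exists_conj_normalizer {χ : Γ → ℂ} (hχ : IsIrrCharacter Γ χ) {ϑ ϑ' : H → ℂ}
    (hϑ : IsIrrCharacter H ϑ) (hϑ' : IsIrrCharacter H ϑ')
    (hx : (Q : Subgroup Γ) ≤ inertiaOf H ϑ) (hy : (Q : Subgroup Γ) ≤ inertiaOf H ϑ')
    (h : classInner (fun n : H => χ n) ϑ ≠ 0) (h' : classInner (fun n : H => χ n) ϑ' ≠ 0) :
    ∃ n ∈ NP Q, ϑ' = Clifford.conjFun H n ϑ := by
  obtain ⟨g, rfl⟩ := Clifford.exists_conj_of_classInner_ne_zero H hχ hϑ hϑ' h h'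
  obtain ⟨n, hn, h3⟩ := exists_normalizer_conjFun Q H ϑ g hx hy
  exact ⟨n, hn, h3.symm⟩

/-- Conjugates by elements of the normalizer are fixed. -/
theorem le_inertia_conj {ϑ : H → ℂ} (hx : (Q : Subgroup Γ) ≤ inertiaOf H ϑ) {n : Γ}
    (hn : n ∈ NP Q) : (Q : Subgroup Γ) ≤ inertiaOf H (Clifford.conjFun H n ϑ) := by
  intro y hy
  rw [mem_inertiaOf]
  intro m
  have h1 : n * y * n⁻¹ ∈ (Q : Subgroup Γ) := (Subgroup.mem_normalizer_iff.1 hn y).1 hy
  have h2 := (mem_inertiaOf H ϑ _).1 (hx h1) ⟨n * m * n⁻¹, hH.conj_mem (m : Γ) m.2 n⟩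
  show ϑ ⟨n * (y * m * y⁻¹) * n⁻¹, _⟩ = ϑ ⟨n * m * n⁻¹, _⟩
  refine Eq.trans ?_ h2
  congr 1
  apply Subtype.ext
  show _ = n * y * n⁻¹ * (n * m * n⁻¹) * (n * y * n⁻¹)⁻¹
  group

/-- All constituents trivial gives the kernel. -/
theorem ker_of_all_trivial {χ : Γ → ℂ} (hχ : IsCharacter Γ χ)
    (htr : ∀ θ : IrrCharacter H, classInner (fun n : H => χ n) (θ : H → ℂ) ≠ 0 →
      ∀ n, (θ : H → ℂ) n = 1) (h : H) : χ h = χ 1 := by
  classical
  have hres := isCharacter_restrict hχ H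
  have hdec := decomp_eq_sum_classInner hres
  have h1 : ∀ n : H, χ n = ∑ θ : IrrCharacter H,
      classInner (fun n : H => χ n) (θ : H → ℂ) := by
    intro n
    have h2 := congrFun hdec n
    rw [Finset.sum_apply] at h2
    refine h2.trans (Finset.sum_congr rfl fun θ _ => ?_)
    by_cases h0 : classInner (fun n : H => χ n) (θ : H → ℂ) = 0
    · simp [h0]
    · simp [htr θ h0 n]
  have h2 := h1 h
  have h3 := h1 1
  rw [h2]
  exact h3.symm

end Over

section Transfer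

variable {X : Type u} [Group X] [Finite X]

/-- Extension of a linear character to the inertia group by transfer. -/
theorem exists_transfer_T {P M T : Subgroup X} [hM : M.Normal] (hMP : M ≤ P) (hPT : P ≤ T)
    (hodd : Odd (P.subgroupOf T).index) (μ : P →* ℂˣ) (l : M →* ℂˣ) (hl2 : ∀ m, l m ^ 2 = 1)
    (hμl : ∀ m : M, μ ⟨m, hMP m.2⟩ = l m)
    (hT : ∀ (t : X), t ∈ T → ∀ m : M, l ⟨t * m * t⁻¹, hM.conj_mem (m : X) m.2 t⟩ = l m) :
    ∃ ν : T →* ℂˣ, (∀ m : M, ν ⟨m, hPT (hMP m.2)⟩ = l m) ∧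
      ((∀ u, μ u ^ 2 = 1) → ∀ t, ν t ^ 2 = 1) := by
  classical
  let e : (P.subgroupOf T) →* P :=
    { toFun := fun x => ⟨x.1.1, x.2⟩
      map_one' := rfl
      map_mul' := fun _ _ => rfl }
  let μT : (P.subgroupOf T) →* ℂˣ := μ.comp e
  have hle : M.subgroupOf T ≤ P.subgroupOf T := fun x hx => hMP hx
  have hMn : (M.subgroupOf T).Normal := inferInstance
  have hinv : ∀ (t h : T) (hh : h ∈ M.subgroupOf T),
      μT ⟨t * h * t⁻¹, hle (hMn.conj_mem h hh t)⟩ = μT ⟨h, hle hh⟩ := by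
    intro t h hh
    have h1 := hT t t.2 ⟨h, hh⟩
    rw [← hμl, ← hμl] at h1
    exact h1
  refine ⟨μT.transfer, ?_, ?_⟩
  · intro m
    have h1 : ((⟨m, hPT (hMP m.2)⟩ : T)) ∈ M.subgroupOf T := m.2
    rw [transfer_apply_normal (P.subgroupOf T) μT hle hinv _ h1]
    have h2 : μT ⟨⟨m, hPT (hMP m.2)⟩, hle h1⟩ = l m := hμl m
    rw [h2]
    obtain ⟨k, hk⟩ := hodd
    rw [hk, pow_succ, pow_mul, hl2 m, one_pow, one_mul]
  · intro h2 t
    exact transfer_sq _ μT (fun u => h2 _) t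

end Transfer

end Cfsg.Agent.Lib.Char.RealOdd
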