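import Mathlib
import Cfsg.Agent.Lib.Char.RealOdd3
import Cfsg.Agent.Lib.Solvable.MinimalNormal

/-!
# The count of real characters of odd degree

For a finite solvable group `X` with Sylow `2`-subgroup `P`, the groups `X` and `N_X(P)` have the
same number of real irreducible characters of odd degree.
-/

set_option autoImplicit false
set_option linter.style.haveILetI false
set_option linter.unusedSectionVars false
set_option linter.unusedVariables false

namespace Cfsg.Agent.Lib.Char.RealOdd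

open Cfsg Cfsg.Agent.Lib.Char.Basic Cfsg.Agent.Lib.Char.Ortho Cfsg.Agent.Lib.Char.Induced
  Cfsg.Agent.Lib.Char.IndRep Cfsg.Agent.Lib.Char.CliffordCorr
  Cfsg.Agent.Lib.Char.RealOver Cfsg.Agent.Lib.Char.Monomial Cfsg.Agent.Lib.Char.RealClass
open Cfsg.Agent.Lib.Solvable.MinimalNormal
open scoped ComplexConjugate Pointwise

universe u

section Helpers

/-- Extension from the fibre. -/
theorem exists_ext_of_fiber {Γ : Type u} [Group Γ] [Fintype Γ] (H : Subgroup Γ) [hH : H.Normal]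
    [Fintype H] (θ : H →* ℂˣ) (hθ2 : ∀ h, θ h ^ 2 = 1) (T : Subgroup Γ) [Fintype T] (hHT : H ≤ T)
    (hT : ∀ g : Γ, g ∈ T ↔ ∀ n : H, thF θ ⟨g * n * g⁻¹, hH.conj_mem (n : Γ) n.2 g⟩ = thF θ n)
    {Q : Type u} [Group Q] [Fintype Q] (hQ : IsPGroup 2 Q) (j : Q →* T) (s : H →* Q)
    (hs : ∀ h : H, j (s h) = ⟨h, hHT h.2⟩) (χ : RO Γ)
    (hχ : classInner (fun n : H => (χ.1 : Γ → ℂ) n) (thF θ) ≠ 0) :
    ∃ μ : Q →* ℂˣ, (∀ q, μ q ^ 2 = 1) ∧ ∀ h : H, μ (s h) = θ h := by
  obtain ⟨ψ, hψ, h1, h2⟩ := exists_indFun_eq H (thF θ) T hHT (isIrr_thF θ) hT χ.1.2 hχ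
  have hc : classInner (resT H T hHT ψ) (thF θ) ≠ 0 := by
    rw [h2]
    exact hχ
  have hre : ∀ t, (ψ t).im = 0 := by
    apply real_of_ind_real H θ T hHT hT hθ2 hψ hc
    rw [h1]
    exact χ.2.1
  have hdeg : Odd (charDegree ψ) := by
    have h3 := χ.2.2
    rw [show (χ.1 : Γ → ℂ) = indFun T ψ from h1.symm,
      charDegree_indFun T (isCharacter_of_isIrrCharacter hψ)] at h3
    exact (Nat.odd_mul.1 h3).2
  exact exists_ext_of_real H θ T hHT hT hQ j s hs hψ hc hdeg hre

/-- A normal `2`-subgroup lies in every Sylow `2`-subgroup. -/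
theorem normal_le_sylow {X : Type u} [Group X] [Finite X] (P : Sylow 2 X) (M : Subgroup X)
    [hM : M.Normal] (hp : IsPGroup 2 M) : M ≤ (P : Subgroup X) := by
  obtain ⟨Q, hQ⟩ := hp.exists_le_sylow
  obtain ⟨g, hg⟩ := MulAction.exists_smul_eq X Q P
  intro m hm
  have h1 : g⁻¹ * m * g ∈ M := by
    have := hM.conj_mem m hm g⁻¹
    simpa using this
  have h2 := hQ h1
  have h3 : (g • Q : Sylow 2 X) = P := hg
  rw [← h3]
  have h4 : m ∈ MulAut.conj g • ((Q : Subgroup X) : Set X) := by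
    refine Set.mem_smul_set.2 ⟨g⁻¹ * m * g, h2, ?_⟩
    rw [MulAut.smul_def, MulAut.conj_apply]
    group
  rw [← show (((g • Q : Sylow 2 X) : Subgroup X) : Set X) =
      MulAut.conj g • ((Q : Subgroup X) : Set X) from Sylow.coe_smul] at h4
  exact h4

/-- The index of a subgroup containing a Sylow `2`-subgroup is odd. -/
theorem odd_index_of_le {X : Type u} [Group X] [Finite X] (P : Sylow 2 X) {T : Subgroup X}
    (h : (P : Subgroup X) ≤ T) : Odd T.index := by
  rw [← Nat.not_even_iff_odd, even_iff_two_dvd]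
  intro hd
  exact P.not_dvd_index (hd.trans (Subgroup.index_dvd_of_le h))

end Helpers

section Step

variable {X : Type u} [Group X] [Finite X] (P : Sylow 2 X) (M : Subgroup X) [hM : M.Normal]
  (hMP : M ≤ (P : Subgroup X))

/-- The subgroup `M` of `X` viewed in the normalizer. -/
def e₂ : M.subgroupOf (NP P) →* M where
  toFun x := ⟨x.1.1, x.2⟩
  map_one' := rfl
  map_mul' _ _ := rfl

include hMP in
theorem mem_NP_of_mem {m : X} (hm : m ∈ M) : m ∈ NP P := Subgroup.le_normalizer (hMP hm)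

include hMP in
/-- Translation of conjugation between `X` and the normalizer. -/
theorem conj_tr (l l' : M →* ℂˣ) (n : NP P) :
    Clifford.conjFun (M.subgroupOf (NP P)) n (thF (l.comp (e₂ P M))) =
        thF (l'.comp (e₂ P M)) ↔ Clifford.conjFun M (n : X) (thF l) = thF l' := by
  constructor
  · intro h
    funext m
    have h1 := congrFun h ⟨⟨m, mem_NP_of_mem P M hMP m.2⟩, m.2⟩
    exact h1
  · intro h
    funext x
    have h1 := congrFun h ⟨x.1.1, x.2⟩
    exact h1

include hMP in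
theorem mem_inertia_tr (l : M →* ℂˣ) (n : NP P) :
    n ∈ inertiaOf (M.subgroupOf (NP P)) (thF (l.comp (e₂ P M))) ↔
      (n : X) ∈ inertiaOf M (thF l) := by
  rw [← conjFun_eq_self_iff _ _ _ (mem_inertiaOf _ _), ← conjFun_eq_self_iff _ _ _ (mem_inertiaOf _ _)]
  exact conj_tr P M hMP l l n

variable [Group.IsSolvable X]

include hMP in
/-- **The key count over a fixed linear character.** -/
theorem card_fiber_step [Fintype X] [Fintype M] [Fintype (NP P)]
    [Fintype (M.subgroupOf (NP P))]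
    (hM1 : M ≠ ⊥)
    (IH : ∀ (Y : Type u) [Group Y] [Finite Y] [Group.IsSolvable Y], Nat.card Y < Nat.card X →
      ∀ Q : Sylow 2 Y, Nat.card (RO Y) = Nat.card (RO (NP Q)))
    (l : M →* ℂˣ) (hl2 : ∀ m, l m ^ 2 = 1) (hfix : (P : Subgroup X) ≤ inertiaOf M (thF l)) :
    Nat.card {χ : RO X // classInner (fun n : M => (χ.1 : X → ℂ) n) (thF l) ≠ 0} =
      Nat.card {ξ : RO (NP P) // classInner (fun n : M.subgroupOf (NP P) => (ξ.1 : NP P → ℂ) n)
        (thF (l.comp (e₂ P M))) ≠ 0} := by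
  classical
  set l₂ : M.subgroupOf (NP P) →* ℂˣ := l.comp (e₂ P M) with hl₂
  have hl₂2 : ∀ x, l₂ x ^ 2 = 1 := fun x => hl2 _
  set T : Subgroup X := inertiaOf M (thF l) with hT
  set T₂ : Subgroup (NP P) := inertiaOf (M.subgroupOf (NP P)) (thF l₂) with hT₂
  have hmem : ∀ n : NP P, n ∈ T₂ ↔ (n : X) ∈ T := mem_inertia_tr P M hMP l
  have hMT : M ≤ T := le_inertia M ⟨thF l, isIrr_thF l⟩
  have hM₂T₂ : M.subgroupOf (NP P) ≤ T₂ :=
    le_inertia (M.subgroupOf (NP P)) ⟨thF l₂, isIrr_thF l₂⟩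
  have hPT : (P : Subgroup X) ≤ T := hfix
  let P₂ : Sylow 2 (NP P) := P.subtype Subgroup.le_normalizer
  have hP₂T₂ : (P₂ : Subgroup (NP P)) ≤ T₂ := by
    intro u hu
    exact (hmem u).2 (hPT hu)
  haveI : Fintype T := Fintype.ofFinite _
  haveI : Fintype T₂ := Fintype.ofFinite _
  haveI : Fintype P := Fintype.ofFinite _
  have hTodd : Odd T.index := odd_index_of_le P hPT
  have hT₂odd : Odd T₂.index := odd_index_of_le P₂ hP₂T₂
  have hPp : IsPGroup 2 (P : Subgroup X) := P.isPGroup'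
  by_cases hext : ∃ μ : (P : Subgroup X) →* ℂˣ, (∀ u, μ u ^ 2 = 1) ∧
      ∀ m : M, μ ⟨m, hMP m.2⟩ = l m
  · -- Case A
    obtain ⟨μ, hμ2, hμl⟩ := hext
    have hidx : Odd ((P : Subgroup X).subgroupOf T).index := by
      rw [← Nat.not_even_iff_odd, even_iff_two_dvd]
      exact (P.subtype hPT).not_dvd_index
    obtain ⟨ν, hνl, hν2'⟩ := exists_transfer_T hMP hPT hidx μ l hl2 hμl (fun t ht m => by
      have h1 := (mem_inertiaOf M (thF l) t).1 ht m
      exact Units.ext h1)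
    have hν2 := hν2' hμ2
    let ι : T₂ →* T :=
      { toFun := fun w => ⟨((w : NP P) : X), (hmem w.1).1 w.2⟩
        map_one' := rfl
        map_mul' := fun _ _ => rfl }
    have c₁ := card_fiber_eq M l T hMT (mem_inertiaOf M _) hTodd ν hν2 hνl
    have c₅ := card_fiber_eq (M.subgroupOf (NP P)) l₂ T₂ hM₂T₂ (mem_inertiaOf _ _) hT₂odd
      (ν.comp ι) (fun t => hν2 _) (fun x => hνl ⟨x.1.1, x.2⟩)
    rw [c₁, c₅]
    let M₁ : Subgroup T := M.subgroupOf T
    have hM₁ne : M₁ ≠ ⊥ := by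
      intro h0
      apply hM1
      rw [eq_bot_iff]
      intro m hm
      have h1 : (⟨m, hMT hm⟩ : T) ∈ M₁ := hm
      rw [h0] at h1
      exact congrArg Subtype.val h1
    have hlt : Nat.card (T ⧸ M₁) < Nat.card X :=
      lt_of_lt_of_le (card_quotient_lt M₁ hM₁ne)
        (Nat.card_le_card_of_injective T.subtype Subtype.val_injective)
    have c₃ := IH (T ⧸ M₁) hlt (sylQ M₁ (P.subtype hPT))
    have c₂ := card_RO_surj (QuotientGroup.mk' M₁) (QuotientGroup.mk'_surjective M₁)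
    have hι : ∀ n, n ∈ NP (P.subtype hPT) ↔ ∃ w, ι w = n := by
      intro n
      rw [mem_NP_subtype P hPT]
      constructor
      · intro hn
        exact ⟨⟨⟨n, hn⟩, (hmem ⟨n, hn⟩).2 n.2⟩, rfl⟩
      · rintro ⟨w, rfl⟩
        exact w.1.2
    have c₄ := card_RO_normalizer_quot M₁ (P.subtype hPT) ι hι
    have c₂' : Nat.card {β : RO T // ∀ h : M, (β.1 : T → ℂ) ⟨h, hMT h.2⟩ = (β.1 : T → ℂ) 1} =
        Nat.card {χ : RO T // ∀ a, QuotientGroup.mk' M₁ a = 1 →
          (χ.1 : T → ℂ) a = (χ.1 : T → ℂ) 1} := by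
      refine Nat.card_congr (Equiv.subtypeEquivRight fun β => ?_)
      constructor
      · intro h a ha
        have h1 : a ∈ M₁ := (QuotientGroup.eq_one_iff a).1 ha
        exact h ⟨a, h1⟩
      · intro h m
        apply h
        exact (QuotientGroup.eq_one_iff _).2 m.2
    have c₄' : Nat.card {β : RO T₂ // ∀ h : M.subgroupOf (NP P),
          (β.1 : T₂ → ℂ) ⟨h, hM₂T₂ h.2⟩ = (β.1 : T₂ → ℂ) 1} =
        Nat.card {β : RO T₂ // ∀ w, ι w ∈ M₁ → (β.1 : T₂ → ℂ) w = (β.1 : T₂ → ℂ) 1} := by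
      refine Nat.card_congr (Equiv.subtypeEquivRight fun β => ?_)
      constructor
      · intro h w hw
        exact h ⟨w.1, hw⟩
      · intro h x
        apply h
        exact x.2
    rw [c₂', c₄', ← c₂, c₃, c₄]
  · -- Case B : both empty
    have h1 : IsEmpty {χ : RO X // classInner (fun n : M => (χ.1 : X → ℂ) n) (thF l) ≠ 0} := by
      refine ⟨fun χ => hext ?_⟩
      exact exists_ext_of_fiber M l hl2 T hMT (mem_inertiaOf M _) hPp (Subgroup.inclusion hPT)
        (Subgroup.inclusion hMP) (fun h => rfl) χ.1 χ.2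
    have h2 : IsEmpty {ξ : RO (NP P) // classInner (fun n : M.subgroupOf (NP P) =>
        (ξ.1 : NP P → ℂ) n) (thF l₂) ≠ 0} := by
      refine ⟨fun ξ => hext ?_⟩
      let j : (P : Subgroup X) →* T₂ :=
        { toFun := fun u => ⟨⟨u, Subgroup.le_normalizer u.2⟩, (hmem _).2 (hPT u.2)⟩
          map_one' := rfl
          map_mul' := fun _ _ => rfl }
      let s : M.subgroupOf (NP P) →* (P : Subgroup X) := (Subgroup.inclusion hMP).comp (e₂ P M)
      obtain ⟨μ, hμ2, hμl⟩ := exists_ext_of_fiber (M.subgroupOf (NP P)) l₂ hl₂2 T₂ hM₂T₂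
        (mem_inertiaOf _ _) hPp j s (fun h => rfl) ξ.1 ξ.2
      exact ⟨μ, hμ2, fun m => hμl ⟨⟨m, mem_NP_of_mem P M hMP m.2⟩, m.2⟩⟩
    rw [Nat.card_of_isEmpty, Nat.card_of_isEmpty]

end Step


section Main

variable {X : Type u} [Group X] [Finite X] [Group.IsSolvable X]

/-- The case of a minimal normal `2`-subgroup. -/
theorem partA_two (P : Sylow 2 X) (M : Subgroup X) [hM : M.Normal] (hMP : M ≤ (P : Subgroup X))
    (hM1 : M ≠ ⊥) (hp : IsPGroup 2 M) (hM2 : ∀ m ∈ M, m ^ 2 = 1)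
    (IH : ∀ (Y : Type u) [Group Y] [Finite Y] [Group.IsSolvable Y], Nat.card Y < Nat.card X →
      ∀ Q : Sylow 2 Y, Nat.card (RO Y) = Nat.card (RO (NP Q))) :
    Nat.card (RO X) = Nat.card (RO (NP P)) := by
  classical
  haveI : Fintype X := Fintype.ofFinite _
  haveI : Fintype M := Fintype.ofFinite _
  haveI : Fintype (NP P) := Fintype.ofFinite _
  haveI : Fintype (M.subgroupOf (NP P)) := Fintype.ofFinite _
  let P₂ : Sylow 2 (NP P) := P.subtype Subgroup.le_normalizer
  have hp₂ : IsPGroup 2 (M.subgroupOf (NP P)) :=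
    hp.of_injective (e₂ P M) (fun x y h => Subtype.ext (Subtype.ext (congrArg
      (fun z : M => (z : X)) h)))
  have hl2 : ∀ (l : M →* ℂˣ) (m : M), l m ^ 2 = 1 := by
    intro l m
    rw [← map_pow]
    have : m ^ 2 = 1 := Subtype.ext (hM2 _ m.2)
    rw [this, map_one]
  -- the two maps to sets of linear characters
  let cX : RO X → Set (M →* ℂˣ) := fun χ => {l | (P : Subgroup X) ≤ inertiaOf M (thF l) ∧
    classInner (fun n : M => (χ.1 : X → ℂ) n) (thF l) ≠ 0}
  let cN : RO (NP P) → Set (M →* ℂˣ) := fun ξ => {l | (P : Subgroup X) ≤ inertiaOf M (thF l) ∧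
    classInner (fun n : M.subgroupOf (NP P) => (ξ.1 : NP P → ℂ) n)
      (thF (l.comp (e₂ P M))) ≠ 0}
  -- the relation
  let R : (M →* ℂˣ) → (M →* ℂˣ) → Prop := fun l l' =>
    ∃ n ∈ NP P, Clifford.conjFun M n (thF l) = thF l'
  have hRfix : ∀ l l', (P : Subgroup X) ≤ inertiaOf M (thF l) → R l l' →
      (P : Subgroup X) ≤ inertiaOf M (thF l') := by
    rintro l l' h ⟨n, hn, hnl⟩
    rw [← hnl]
    exact le_inertia_conj P M h hn
  have K1X : ∀ χ, ∃ l, l ∈ cX χ := by
    intro χ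
    obtain ⟨θ, h1, h2, h3⟩ := exists_fixed_constituent P M χ.1.2 χ.2.2
    obtain ⟨l, hl⟩ := exists_hom_of_odd_degree hp θ h3
    rw [hl] at h1 h2
    exact ⟨l, h1, h2⟩
  have K2X : ∀ χ l l', l ∈ cX χ → (l' ∈ cX χ ↔ R l l') := by
    intro χ l l' hl
    have hχc := isCharacter_of_isIrrCharacter χ.1.2
    constructor
    · intro hl'
      obtain ⟨n, hn, h⟩ := exists_conj_normalizer P M χ.1.2 (isIrr_thF l) (isIrr_thF l') hl.1 hl'.1
        hl.2 hl'.2
      exact ⟨n, hn, h.symm⟩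
    · rintro ⟨n, hn, hnl⟩
      refine ⟨hRfix l l' hl.1 ⟨n, hn, hnl⟩, ?_⟩
      rw [← hnl, Clifford.classInner_res_conjFun M (isClassFunction_of_isCharacter hχc)]
      exact hl.2
  have K1N : ∀ ξ, ∃ l, l ∈ cN ξ := by
    intro ξ
    obtain ⟨θ, h1, h2, h3⟩ := exists_fixed_constituent P₂ (M.subgroupOf (NP P)) ξ.1.2 ξ.2.2
    obtain ⟨l₂, hl⟩ := exists_hom_of_odd_degree hp₂ θ h3
    rw [hl] at h1 h2
    let e' : M →* M.subgroupOf (NP P) :=
      { toFun := fun m => ⟨⟨m, mem_NP_of_mem P M hMP m.2⟩, m.2⟩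
        map_one' := rfl
        map_mul' := fun _ _ => rfl }
    have hee : (l₂.comp e').comp (e₂ P M) = l₂ := by
      ext x
      rfl
    refine ⟨l₂.comp e', ?_, ?_⟩
    · intro u hu
      rw [← mem_inertia_tr P M hMP (l₂.comp e') ⟨u, Subgroup.le_normalizer hu⟩, hee]
      exact h1 hu
    · show classInner _ (thF ((l₂.comp e').comp (e₂ P M))) ≠ 0
      rw [hee]
      exact h2
  have K2N : ∀ ξ l l', l ∈ cN ξ → (l' ∈ cN ξ ↔ R l l') := by
    intro ξ l l' hl
    have hξc := isCharacter_of_isIrrCharacter ξ.1.2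
    have hfix : ∀ l₀ : M →* ℂˣ, (P : Subgroup X) ≤ inertiaOf M (thF l₀) →
        (P₂ : Subgroup (NP P)) ≤ inertiaOf (M.subgroupOf (NP P)) (thF (l₀.comp (e₂ P M))) := by
      intro l₀ h₀ u hu
      exact (mem_inertia_tr P M hMP l₀ u).2 (h₀ hu)
    constructor
    · intro hl'
      obtain ⟨n, hn, h⟩ := exists_conj_normalizer P₂ (M.subgroupOf (NP P)) ξ.1.2 (isIrr_thF _)
        (isIrr_thF _) (hfix l hl.1) (hfix l' hl'.1) hl.2 hl'.2
      exact ⟨n, n.2, (conj_tr P M hMP l l' n).1 h.symm⟩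
    · rintro ⟨n, hn, hnl⟩
      refine ⟨hRfix l l' hl.1 ⟨n, hn, hnl⟩, ?_⟩
      have h1 := (conj_tr P M hMP l l' ⟨n, hn⟩).2 hnl
      show classInner _ (thF (l'.comp (e₂ P M))) ≠ 0
      rw [← h1, Clifford.classInner_res_conjFun _ (isClassFunction_of_isCharacter hξc)]
      exact hl.2
  -- fibres
  have hfib : ∀ S : Set (M →* ℂˣ), Nat.card {χ // cX χ = S} = Nat.card {ξ // cN ξ = S} := by
    intro S
    by_cases hS : ∃ l ∈ S, (P : Subgroup X) ≤ inertiaOf M (thF l) ∧ ∀ l', l' ∈ S ↔ R l l'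
    · obtain ⟨l, hlS, hfix, hSR⟩ := hS
      have h1 : Nat.card {χ // cX χ = S} = Nat.card {χ : RO X //
          classInner (fun n : M => (χ.1 : X → ℂ) n) (thF l) ≠ 0} := by
        refine Nat.card_congr (Equiv.subtypeEquivRight fun χ => ?_)
        constructor
        · intro h
          have : l ∈ cX χ := by
            rw [h]
            exact hlS
          exact this.2
        · intro h
          have hl : l ∈ cX χ := ⟨hfix, h⟩
          ext l'
          rw [K2X χ l l' hl, hSR]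
      have h2 : Nat.card {ξ // cN ξ = S} = Nat.card {ξ : RO (NP P) //
          classInner (fun n : M.subgroupOf (NP P) => (ξ.1 : NP P → ℂ) n)
            (thF (l.comp (e₂ P M))) ≠ 0} := by
        refine Nat.card_congr (Equiv.subtypeEquivRight fun ξ => ?_)
        constructor
        · intro h
          have : l ∈ cN ξ := by
            rw [h]
            exact hlS
          exact this.2
        · intro h
          have hl : l ∈ cN ξ := ⟨hfix, h⟩
          ext l'
          rw [K2N ξ l l' hl, hSR]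
      rw [h1, h2]
      exact card_fiber_step P M hMP hM1 IH l (hl2 l) hfix
    · have h1 : IsEmpty {χ // cX χ = S} := by
        refine ⟨fun χ => hS ?_⟩
        obtain ⟨l, hl⟩ := K1X χ.1
        refine ⟨l, χ.2 ▸ hl, hl.1, fun l' => ?_⟩
        rw [← χ.2]
        exact K2X χ.1 l l' hl
      have h2 : IsEmpty {ξ // cN ξ = S} := by
        refine ⟨fun ξ => hS ?_⟩
        obtain ⟨l, hl⟩ := K1N ξ.1
        refine ⟨l, ξ.2 ▸ hl, hl.1, fun l' => ?_⟩
        rw [← ξ.2]
        exact K2N ξ.1 l l' hl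
      rw [Nat.card_of_isEmpty, Nat.card_of_isEmpty]
  exact Nat.card_congr (Equiv.ofFiberEquiv (f := cX) (g := cN)
    (fun S => (Finite.equivFinOfCardEq (hfib S)).trans (Finite.equivFinOfCardEq rfl).symm))

/-- The case of a minimal normal subgroup of odd order. -/
theorem partA_odd (P : Sylow 2 X) (M : Subgroup X) [hM : M.Normal] (hM1 : M ≠ ⊥)
    (hodd : Odd (Nat.card M))
    (IH : ∀ (Y : Type u) [Group Y] [Finite Y] [Group.IsSolvable Y], Nat.card Y < Nat.card X →
      ∀ Q : Sylow 2 Y, Nat.card (RO Y) = Nat.card (RO (NP Q))) :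
    Nat.card (RO X) = Nat.card (RO (NP P)) := by
  classical
  haveI : Fintype X := Fintype.ofFinite _
  haveI : Fintype M := Fintype.ofFinite _
  haveI : Fintype (NP P) := Fintype.ofFinite _
  haveI : Fintype (M.subgroupOf (NP P)) := Fintype.ofFinite _
  have c₁ := card_RO_surj (QuotientGroup.mk' M) (QuotientGroup.mk'_surjective M)
  have c₁' : Nat.card {χ : RO X // ∀ a, QuotientGroup.mk' M a = 1 →
      (χ.1 : X → ℂ) a = (χ.1 : X → ℂ) 1} = Nat.card (RO X) := by
    refine Nat.card_congr (Equiv.subtypeUnivEquiv fun χ a ha => ?_)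
    have h1 : a ∈ M := (QuotientGroup.eq_one_iff a).1 ha
    exact ro_ker_of_odd M hodd χ ⟨a, h1⟩
  have c₂ := IH (X ⧸ M) (card_quotient_lt M hM1) (sylQ M P)
  have c₃ := card_RO_normalizer_quot M P (NP P).subtype (fun n => by
    constructor
    · intro hn
      exact ⟨⟨n, hn⟩, rfl⟩
    · rintro ⟨w, rfl⟩
      exact w.2)
  have c₃' : Nat.card {β : RO (NP P) // ∀ w, (NP P).subtype w ∈ M →
      (β.1 : NP P → ℂ) w = (β.1 : NP P → ℂ) 1} = Nat.card (RO (NP P)) := by
    refine Nat.card_congr (Equiv.subtypeUnivEquiv fun β w hw => ?_)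
    have hodd' : Odd (Nat.card (M.subgroupOf (NP P))) := by
      have h1 : Nat.card (M.subgroupOf (NP P)) ∣ Nat.card M := by
        refine Subgroup.card_dvd_of_injective (e₂ P M) ?_
        intro x y h
        exact Subtype.ext (Subtype.ext (congrArg (fun z : M => (z : X)) h))
      exact Odd.of_dvd_nat hodd h1
    exact ro_ker_of_odd (M.subgroupOf (NP P)) hodd' β ⟨w, hw⟩
  rw [← c₁', ← c₁, c₂, c₃, c₃']

/-- **Part A.** -/
theorem partA : ∀ (m : ℕ) (X : Type u) [Group X] [Finite X] [Group.IsSolvable X],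
    Nat.card X = m → ∀ P : Sylow 2 X, Nat.card (RO X) = Nat.card (RO (NP P)) := by
  intro m
  induction m using Nat.strong_induction_on with
  | _ m ih =>
  intro X _ _ _ hm P
  have IH : ∀ (Y : Type u) [Group Y] [Finite Y] [Group.IsSolvable Y], Nat.card Y < Nat.card X →
      ∀ Q : Sylow 2 Y, Nat.card (RO Y) = Nat.card (RO (NP Q)) :=
    fun Y _ _ _ hY Q => ih (Nat.card Y) (hm ▸ hY) Y rfl Q
  by_cases hX : Nontrivial X
  · obtain ⟨M, hM⟩ := exists_isMinNormal (G := X)
    haveI := hM.normal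
    obtain ⟨p, hp, hMp, hcomm, hpow⟩ := hM.exists_isPGroup
    haveI : Fact p.Prime := ⟨hp⟩
    by_cases hp2 : p = 2
    · subst hp2
      exact partA_two P M (normal_le_sylow P M hMp) hM.ne_bot hMp hpow IH
    · refine partA_odd P M hM.ne_bot ?_ IH
      obtain ⟨a, ha⟩ := IsPGroup.iff_card.1 hMp
      rw [ha]
      exact (hp.odd_of_ne_two hp2).pow
  · rw [not_nontrivial_iff_subsingleton] at hX
    have h1 : Function.Bijective (NP P).subtype := by
      refine ⟨Subtype.val_injective, fun x => ?_⟩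
      refine ⟨⟨1, Subgroup.one_mem _⟩, Subsingleton.elim _ _⟩
    exact (card_RO_of_bijective (NP P).subtype h1)

end Main

end Cfsg.Agent.Lib.Char.RealOdd
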