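import Mathlib
import Cfsg.Agent.Lib.Char.RealOdd4
import Cfsg.Agent.Lib.Char.FrobPair
import Cfsg.Agent.Lib.Char.CompleteCor

/-!
# When every irreducible character of odd degree is real

For a finite solvable group `X` with Sylow `2`-subgroup `P`, all irreducible characters of odd
degree are real if and only if `N_X(P) = P` and every linear character of `P` has order at most `2`.
-/

set_option autoImplicit false
set_option linter.style.haveILetI false
set_option linter.unusedSectionVars false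
set_option linter.unusedVariables false

namespace Cfsg.Agent.Lib.Char.RealOdd

open Cfsg Cfsg.Agent.Lib.Char.Basic Cfsg.Agent.Lib.Char.Ortho Cfsg.Agent.Lib.Char.Induced
  Cfsg.Agent.Lib.Char.IndRep Cfsg.Agent.Lib.Char.CliffordCorr
  Cfsg.Agent.Lib.Char.RealOver Cfsg.Agent.Lib.Char.Monomial Cfsg.Agent.Lib.Char.RealClass
open Cfsg.Agent.Lib.Solvable.MinimalNormal Cfsg.Agent.Lib.Char.GlaubP Cfsg.Agent.Lib.Char.GlaubSolv
open scoped ComplexConjugate Pointwise

universe u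

/-- The group-theoretic condition. -/
def QB {Y : Type u} [Group Y] (Q : Sylow 2 Y) : Prop :=
  (∀ n ∈ NP Q, n ∈ (Q : Subgroup Y)) ∧ ∀ (μ : (Q : Subgroup Y) →* ℂˣ) (u : (Q : Subgroup Y)),
    μ u ^ 2 = 1

/-- All irreducible characters of odd degree are real. -/
def HB (Y : Type u) [Group Y] : Prop :=
  ∀ χ : IrrCharacter Y, Odd (charDegree (χ : Y → ℂ)) → ∀ g, ((χ : Y → ℂ) g).im = 0

section Quot

variable {Y : Type u} [Group Y] [Finite Y] (K : Subgroup Y) [hK : K.Normal] (Q : Sylow 2 Y)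

/-- The map from a Sylow subgroup to its image. -/
noncomputable def sylF : (Q : Subgroup Y) →* (sylQ K Q : Subgroup (Y ⧸ K)) :=
  ((QuotientGroup.mk' K).comp (Q : Subgroup Y).subtype).codRestrict _ (fun u =>
    (mem_sylQ K Q).2 ⟨u, u.2, rfl⟩)

theorem sylF_coe (u : (Q : Subgroup Y)) : ((sylF K Q u : (sylQ K Q : Subgroup (Y ⧸ K))) : Y ⧸ K) =
    ((u : Y) : Y ⧸ K) := rfl

theorem sylF_surjective : Function.Surjective (sylF K Q) := by
  rintro ⟨x, hx⟩
  obtain ⟨u, hu, rfl⟩ := (mem_sylQ K Q).1 hx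
  exact ⟨⟨u, hu⟩, rfl⟩

theorem QB_quot (h : QB Q) : QB (sylQ K Q) := by
  refine ⟨fun y hy => ?_, fun μ u => ?_⟩
  · obtain ⟨n, hn, rfl⟩ := exists_normalizer_lift K Q y hy
    exact (mem_sylQ K Q).2 ⟨n, h.1 n hn, rfl⟩
  · obtain ⟨v, rfl⟩ := sylF_surjective K Q u
    exact h.2 (μ.comp (sylF K Q)) v

theorem QB_subtype {T : Subgroup Y} (hT : (Q : Subgroup Y) ≤ T) (h : QB Q) :
    QB (Q.subtype hT) := by
  refine ⟨fun n hn => ?_, fun μ u => ?_⟩
  · exact h.1 n ((mem_NP_subtype Q hT n).1 hn)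
  · let e : (Q : Subgroup Y) →* ((Q.subtype hT : Sylow 2 T) : Subgroup T) :=
      { toFun := fun v => ⟨⟨v, hT v.2⟩, v.2⟩
        map_one' := rfl
        map_mul' := fun _ _ => rfl }
    exact h.2 (μ.comp e) ⟨u.1.1, u.2⟩

theorem HB_quot (h : HB Y) : HB (Y ⧸ K) := by
  intro ξ hd g
  obtain ⟨y, rfl⟩ := QuotientGroup.mk_surjective g
  let χ : IrrCharacter Y := ⟨fun a => (ξ : Y ⧸ K → ℂ) (QuotientGroup.mk' K a),
    isIrrCharacter_comp_surjective ξ.2 _ (QuotientGroup.mk'_surjective K)⟩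
  have hdeg : charDegree (χ : Y → ℂ) = charDegree (ξ : Y ⧸ K → ℂ) := by
    unfold charDegree
    show ⌊((ξ : Y ⧸ K → ℂ) (QuotientGroup.mk' K 1)).re⌋₊ = _
    rw [map_one]
  exact h χ (by rw [hdeg]; exact hd) y

/-- Descent of an irreducible character with the degree. -/
theorem exists_descend_odd (χ : Y → ℂ) (hχ : IsIrrCharacter Y χ) (hodd : Odd (charDegree χ))
    (hk : ∀ k ∈ K, χ k = χ 1) :
    ∃ ξ : IrrCharacter (Y ⧸ K), Odd (charDegree (ξ : Y ⧸ K → ℂ)) ∧
      ∀ a : Y, (ξ : Y ⧸ K → ℂ) (a : Y ⧸ K) = χ a := by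
  obtain ⟨ξ, hξ, h⟩ := exists_irr_descend (QuotientGroup.mk' K) (QuotientGroup.mk'_surjective K)
    hχ (fun a ha => hk a ((QuotientGroup.eq_one_iff a).1 ha))
  refine ⟨⟨ξ, hξ⟩, ?_, h⟩
  have hdeg : charDegree ξ = charDegree χ := by
    unfold charDegree
    rw [← h 1, map_one]
  show Odd (charDegree ξ)
  rw [hdeg]
  exact hodd

end Quot

section Fixed

variable {X : Type u} [Group X] [Finite X]

theorem thF_one_apply {A : Type*} [Group A] (a : A) : thF (1 : A →* ℂˣ) a = 1 := by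
  show (((1 : A →* ℂˣ) a : ℂˣ) : ℂ) = 1
  rw [MonoidHom.one_apply, Units.val_one]

theorem thF_apply_one {A : Type*} [Group A] (l : A →* ℂˣ) : thF l 1 = 1 := by
  show ((l 1 : ℂˣ) : ℂ) = 1
  rw [map_one, Units.val_one]

theorem sinv_of_le_inertia {M P : Subgroup X} [hM : M.Normal] {ϑ : M → ℂ}
    (h : P ≤ inertiaOf M ϑ) : SInv P ϑ := by
  intro s hs g g' hg
  have h1 := (mem_inertiaOf M ϑ s).1 (h hs) g
  rw [← h1]
  congr 1
  exact Subtype.ext hg

theorem le_inertia_of_sinv {M P : Subgroup X} [hM : M.Normal] {ϑ : M → ℂ}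
    (h : SInv P ϑ) : P ≤ inertiaOf M ϑ := by
  intro s hs
  rw [mem_inertiaOf]
  intro n
  exact h s hs n _ rfl

/-- Only the trivial character is fixed if the centralizer is trivial. -/
theorem fixed_trivial_of_C {M P : Subgroup X} [hM : M.Normal]
    (hcop : (Nat.card M).Coprime (Nat.card P)) (hsolv : Group.IsSolvable P)
    (hC : ∀ c ∈ M, (∀ u ∈ P, u * c = c * u) → c = 1) (θ : IrrCharacter M)
    (hfix : P ≤ inertiaOf M (θ : M → ℂ)) (n : M) : (θ : M → ℂ) n = 1 := by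
  classical
  have hcard := card_sinv_eq (G := M) (S := P) (C := M ⊓ Subgroup.centralizer (P : Set X))
    (fun s _ g hg => hM.conj_mem g hg s) hcop hsolv rfl
  haveI hsub : Subsingleton (M ⊓ Subgroup.centralizer (P : Set X) : Subgroup X) := by
    refine ⟨fun a b => Subtype.ext ?_⟩
    have h1 := hC a (mem_fix.1 a.2).1 (mem_fix.1 a.2).2
    have h2 := hC b (mem_fix.1 b.2).1 (mem_fix.1 b.2).2
    rw [h1, h2]
  have h1 : Nat.card (IrrCharacter (M ⊓ Subgroup.centralizer (P : Set X) : Subgroup X)) = 1 := by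
    rw [Cfsg.Agent.Lib.Char.CompleteCor.card_irr_eq_card_conjClasses]
    rw [Nat.card_eq_one_iff_unique]
    refine ⟨⟨fun a b => ?_⟩, ⟨ConjClasses.mk 1⟩⟩
    obtain ⟨x, rfl⟩ := ConjClasses.mk_surjective a
    obtain ⟨y, rfl⟩ := ConjClasses.mk_surjective b
    rw [Subsingleton.elim x y]
  rw [h1] at hcard
  have h2 := (Nat.card_eq_one_iff_unique.1 hcard).1
  let t : {χ : IrrCharacter M // SInv P (χ : M → ℂ)} :=
    ⟨⟨thF (1 : M →* ℂˣ), isIrr_thF 1⟩, fun s hs g g' hg => by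
      show thF (1 : M →* ℂˣ) g' = thF (1 : M →* ℂˣ) g
      rw [thF_one_apply, thF_one_apply]⟩
  have h3 : (⟨θ, sinv_of_le_inertia hfix⟩ : {χ : IrrCharacter M // SInv P (χ : M → ℂ)}) = t :=
    Subsingleton.elim _ _
  have h4 : (θ : M → ℂ) n = thF (1 : M →* ℂˣ) n := congrArg (fun z => ((z.1 : M → ℂ) n)) h3
  rw [h4, thF_one_apply]

/-- A nontrivial fixed character if the centralizer is nontrivial. -/
theorem exists_fixed_nontrivial {M P : Subgroup X} [hM : M.Normal]
    (hcop : (Nat.card M).Coprime (Nat.card P)) (hsolv : Group.IsSolvable P)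
    {c : X} (hcM : c ∈ M) (hc1 : c ≠ 1) (hc : ∀ u ∈ P, u * c = c * u) :
    ∃ θ : IrrCharacter M, P ≤ inertiaOf M (θ : M → ℂ) ∧ ∃ n, (θ : M → ℂ) n ≠ 1 := by
  classical
  have hcard := card_sinv_eq (G := M) (S := P) (C := M ⊓ Subgroup.centralizer (P : Set X))
    (fun s _ g hg => hM.conj_mem g hg s) hcop hsolv rfl
  have hcC : c ∈ (M ⊓ Subgroup.centralizer (P : Set X) : Subgroup X) := mem_fix.2 ⟨hcM, hc⟩
  have h1 : 1 < Nat.card (IrrCharacter (M ⊓ Subgroup.centralizer (P : Set X) : Subgroup X)) := by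
    rw [Cfsg.Agent.Lib.Char.CompleteCor.card_irr_eq_card_conjClasses]
    rw [Finite.one_lt_card_iff_nontrivial]
    refine ⟨⟨ConjClasses.mk 1, ConjClasses.mk ⟨c, hcC⟩, fun h => ?_⟩⟩
    have h2 := ConjClasses.mk_eq_mk_iff_isConj.1 h
    have h3 := isConj_one_right.1 h2
    exact hc1 (congrArg Subtype.val h3)
  rw [← hcard, Finite.one_lt_card_iff_nontrivial] at h1
  let t : {χ : IrrCharacter M // SInv P (χ : M → ℂ)} :=
    ⟨⟨thF (1 : M →* ℂˣ), isIrr_thF 1⟩, fun s hs g g' hg => by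
      show thF (1 : M →* ℂˣ) g' = thF (1 : M →* ℂˣ) g
      rw [thF_one_apply, thF_one_apply]⟩
  obtain ⟨θ, hθ⟩ := exists_ne t
  refine ⟨θ.1, le_inertia_of_sinv θ.2, ?_⟩
  by_contra hcon
  push Not at hcon
  apply hθ
  apply Subtype.ext
  apply Subtype.ext
  funext n
  rw [hcon n]
  exact (thF_one_apply n).symm

/-- Under `HB`, only the trivial character of a normal subgroup of odd order is fixed. -/
theorem fixed_trivial_of_HB {M : Subgroup X} [hM : M.Normal] (hB : HB X) (P : Sylow 2 X)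
    (hodd : Odd (Nat.card M)) (hab : ∀ x ∈ M, ∀ y ∈ M, x * y = y * x) (θ : IrrCharacter M)
    (hfix : (P : Subgroup X) ≤ inertiaOf M (θ : M → ℂ)) (n : M) : (θ : M → ℂ) n = 1 := by
  classical
  haveI : Fintype X := Fintype.ofFinite _
  haveI : Fintype M := Fintype.ofFinite _
  -- `θ` is linear
  have hθ1 : (θ : M → ℂ) 1 = 1 := Cfsg.Agent.Lib.Char.FrobPair.degree_eq_one_of_comm
    (fun a b => Subtype.ext (hab _ a.2 _ b.2)) θ.2
  obtain ⟨l, hl⟩ := Cfsg.Agent.Lib.Char.LinearChars.exists_hom_of_isCharacter_one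
    (isCharacter_of_isIrrCharacter θ.2) hθ1
  have hPp : IsPGroup 2 (P : Subgroup X) := P.isPGroup'
  have hcop : (Nat.card M).Coprime (Nat.card (P : Subgroup X)) := by
    obtain ⟨a, ha⟩ := IsPGroup.iff_card.1 hPp
    rw [ha]
    exact Nat.Coprime.pow_right a (Nat.coprime_two_right.2 hodd)
  have hdisj : ∀ z, z ∈ M → z ∈ (P : Subgroup X) → z = 1 := by
    intro z hzK hzP
    have h1 := Cfsg.Agent.Lib.Coprime.SZ.inf_eq_bot_of_coprime_card hcop
    have h3 : z ∈ M ⊓ (P : Subgroup X) := ⟨hzK, hzP⟩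
    rw [h1] at h3
    exact h3
  -- extension to `MP`
  let Y : Subgroup X := M ⊔ (P : Subgroup X)
  haveI : Fintype Y := Fintype.ofFinite _
  have hMY : M ≤ Y := le_sup_left
  have hPY : (P : Subgroup X) ≤ Y := le_sup_right
  have hs : ∀ y ∈ Y, ∃ n ∈ M, ∃ v ∈ (P : Subgroup X), y = n * v := by
    intro y hy
    have h1 : y ∈ ((M ⊔ (P : Subgroup X) : Subgroup X) : Set X) := hy
    rw [Subgroup.normal_mul] at h1
    obtain ⟨a, ha, b, hb, rfl⟩ := Set.mem_mul.1 h1
    exact ⟨a, ha, b, hb, rfl⟩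
  obtain ⟨μ, hμ⟩ := exists_ext hMY hPY (fun v _ n hn => hM.conj_mem n hn v) hdisj hs (extL M l)
    (extL_mul M l) (fun v hv m hm => by
      rw [extL_of_mem M l hm, extL_of_mem M l (hM.conj_mem m hm v)]
      have h1 := (mem_inertiaOf M (θ : M → ℂ) v).1 (hfix hv) ⟨m, hm⟩
      rw [hl] at h1
      exact Units.ext h1)
  have hμM : ∀ m : M, μ ⟨m, hMY m.2⟩ = l m := by
    intro m
    have h1 := hμ m m.2 1 (Subgroup.one_mem _) (by
      rw [mul_one]
      exact hMY m.2)
    rw [extL_of_mem M l m.2] at h1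
    rw [← h1]
    congr 1
    exact Subtype.ext (mul_one _).symm
  -- an irreducible constituent of odd degree
  have hΨ : IsCharacter X (indFun Y (thF μ)) :=
    isCharacter_indFun Y (isCharacter_of_isIrrCharacter (isIrr_thF μ))
  have hΨ1 : indFun Y (thF μ) 1 = (Y.index : ℂ) := by
    rw [indFun_one Y, thF_apply_one, mul_one]
  obtain ⟨χ, hχ, hχo⟩ := exists_odd_constituent hΨ hΨ1 (odd_index_of_le P hPY)
  have hχc := isCharacter_of_isIrrCharacter χ.2
  have hχcl := isClassFunction_of_isCharacter hχc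
  rw [frobenius_reciprocity Y (thF μ) χ hχcl] at hχ
  have hχ' : classInner (fun y : Y => (χ : X → ℂ) y) (thF μ) ≠ 0 := by
    intro h0
    apply hχ
    rw [← classInner_conj_symm, h0]
    simp
  obtain ⟨Ξ, hΞ, hsum⟩ := Cfsg.Agent.Lib.Char.Clifford.exists_char_add
    (isCharacter_restrict hχc Y) (isIrr_thF μ) hχ'
  let r : IrrCharacter X := χ
  let χr : RO X := ⟨χ, hB χ hχo, hχo⟩
  have hker : ∀ m : M, (χ : X → ℂ) m = (χ : X → ℂ) 1 := ro_ker_of_odd M hodd χr
  -- restrict to `M`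
  let i : M →* Y := Subgroup.inclusion hMY
  have hΞM : IsCharacter M (fun m => Ξ (i m)) := isCharacter_comp_hom hΞ i
  obtain ⟨b, hb⟩ := exists_nat_classInner hΞM ⟨thF l, isIrr_thF l⟩
  have hb' : classInner (fun m => Ξ (i m)) (thF l) = b := hb
  have hres : (fun m : M => (χ : X → ℂ) 1) = thF l + fun m => Ξ (i m) := by
    funext m
    have h1 := congrFun hsum (i m)
    rw [← hker m]
    simp only [Pi.add_apply] at h1 ⊢
    have h2 : μ (i m) = l m := hμM m
    show (χ : X → ℂ) m = ((l m : ℂˣ) : ℂ) + Ξ (i m)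
    rw [← h2]
    exact h1
  by_contra hne
  let triv : M →* ℂˣ := 1
  have hthF : thF triv ≠ thF l := by
    intro h0
    apply hne
    have h01 : (θ : M → ℂ) = thF l := hl
    rw [h01, ← h0]
    exact thF_one_apply n
  have h5 : classInner (fun m : M => (χ : X → ℂ) 1) (thF l) = 0 := by
    have h6 : (fun m : M => (χ : X → ℂ) 1) = ((χ : X → ℂ) 1) • thF triv := by
      funext m
      show _ = (χ : X → ℂ) 1 * thF (1 : M →* ℂˣ) m
      rw [thF_one_apply, mul_one]
    rw [h6, classInner_smul_left, classInner_irr_of_ne (isIrr_thF triv) (isIrr_thF l) hthF,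
      mul_zero]
  rw [hres, classInner_add_left, classInner_irr_self (isIrr_thF l), hb'] at h5
  have h7 : ((1 + b : ℕ) : ℂ) = 0 := by
    push_cast
    exact h5
  have h8 : 1 + b = 0 := by exact_mod_cast h7
  omega

end Fixed

end Cfsg.Agent.Lib.Char.RealOdd
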