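import Mathlib
import Cfsg.Agent.Lib.Char.RealOdd5

/-!
# When every irreducible character of odd degree is real: the induction
-/

set_option autoImplicit false
set_option linter.style.haveILetI false
set_option linter.unusedSectionVars false
set_option linter.unusedVariables false

namespace Cfsg.Agent.Lib.Char.RealOdd

open Cfsg Cfsg.Agent.Lib.Char.Basic Cfsg.Agent.Lib.Char.Ortho Cfsg.Agent.Lib.Char.Induced
  Cfsg.Agent.Lib.Char.IndRep Cfsg.Agent.Lib.Char.CliffordCorr
  Cfsg.Agent.Lib.Char.RealOver Cfsg.Agent.Lib.Char.Monomial Cfsg.Agent.Lib.Char.RealClass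
open Cfsg.Agent.Lib.Solvable.MinimalNormal Cfsg.Agent.Lib.Char.GlaubP Cfsg.Agent.Lib.Char.GlaubSolv
open scoped ComplexConjugate Pointwise

universe u

section Main

variable {X : Type u} [Group X] [Finite X]

/-- Real values from the quotient. -/
theorem real_of_descend {Y : Type u} [Group Y] (K : Subgroup Y) [K.Normal] (ξ : Y ⧸ K → ℂ)
    (χ : Y → ℂ) (h : ∀ a : Y, ξ (a : Y ⧸ K) = χ a) (hξ : ∀ g, (ξ g).im = 0) (a : Y) :
    (χ a).im = 0 := by
  rw [← h a]
  exact hξ _

/-- `QB ⟹ HB`. -/
theorem partB1 : ∀ (m : ℕ) (X : Type u) [Group X] [Finite X] [Group.IsSolvable X],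
    Nat.card X = m → ∀ P : Sylow 2 X, QB P → HB X := by
  intro m
  induction m using Nat.strong_induction_on with
  | _ m ih =>
  intro X _ _ _ hm P hQB χ hodd
  classical
  have IH : ∀ (Y : Type u) [Group Y] [Finite Y] [Group.IsSolvable Y], Nat.card Y < Nat.card X →
      ∀ Q : Sylow 2 Y, QB Q → HB Y :=
    fun Y _ _ _ hY Q => ih (Nat.card Y) (hm ▸ hY) Y rfl Q
  by_cases hX : Nontrivial X
  · obtain ⟨M, hM⟩ := exists_isMinNormal (G := X)
    haveI := hM.normal
    obtain ⟨p, hp, hMp, hcomm, hpow⟩ := hM.exists_isPGroup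
    haveI : Fact p.Prime := ⟨hp⟩
    haveI : Fintype X := Fintype.ofFinite _
    haveI : Fintype M := Fintype.ofFinite _
    have hPp : IsPGroup 2 (P : Subgroup X) := P.isPGroup'
    by_cases hp2 : p = 2
    · subst hp2
      have hMP := normal_le_sylow P M hMp
      obtain ⟨θ, hfix, hover, hdeg⟩ := exists_fixed_constituent P M χ.2 hodd
      obtain ⟨l, hl⟩ := exists_hom_of_odd_degree hMp θ hdeg
      rw [hl] at hfix hover
      have hl2 : ∀ m, l m ^ 2 = 1 := by
        intro m
        rw [← map_pow]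
        have : m ^ 2 = 1 := Subtype.ext (hpow _ m.2)
        rw [this, map_one]
      set T : Subgroup X := inertiaOf M (thF l) with hT
      haveI : Fintype T := Fintype.ofFinite _
      haveI : Fintype (P : Subgroup X) := Fintype.ofFinite _
      have hMT : M ≤ T := le_inertia M ⟨thF l, isIrr_thF l⟩
      have hPT : (P : Subgroup X) ≤ T := hfix
      obtain ⟨ψ, hψ, h1, h2⟩ := exists_indFun_eq M (thF l) T hMT (isIrr_thF l)
        (mem_inertiaOf M _) χ.2 hover
      have hc : classInner (resT M T hMT ψ) (thF l) ≠ 0 := by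
        rw [h2]
        exact hover
      have hψdeg : Odd (charDegree ψ) := by
        have h3 := hodd
        rw [show (χ : X → ℂ) = indFun T ψ from h1.symm,
          charDegree_indFun T (isCharacter_of_isIrrCharacter hψ)] at h3
        exact (Nat.odd_mul.1 h3).2
      obtain ⟨μ, hμl⟩ := exists_ext_of_odd M l T hMT (mem_inertiaOf M _) hPp
        (Subgroup.inclusion hPT) (Subgroup.inclusion hMP) (fun h => rfl) hψ hc hψdeg
      have hidx : Odd ((P : Subgroup X).subgroupOf T).index := by
        rw [← Nat.not_even_iff_odd, even_iff_two_dvd]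
        exact (P.subtype hPT).not_dvd_index
      obtain ⟨ν, hνl, hν2'⟩ := exists_transfer_T hMP hPT hidx μ l hl2 hμl (fun t ht m => by
        have h1 := (mem_inertiaOf M (thF l) t).1 ht m
        exact Units.ext h1)
      have hν2 := hν2' (hQB.2 μ)
      have hνν : ∀ t, ((ν t : ℂˣ) : ℂ) * ((ν t : ℂˣ) : ℂ) = 1 := by
        intro t
        rw [← Units.val_mul, ← pow_two, hν2 t, Units.val_one]
      -- the twist
      let ψ' : IrrCharacter T := ⟨ψ, hψ⟩
      have hβirr : IsIrrCharacter T (fun t => ((ν t : ℂˣ) : ℂ) * ψ t) :=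
        Cfsg.Agent.Lib.Char.GlaubCyclic.isIrr_lin_mul ν hψ
      have hβdeg : Odd (charDegree (fun t => ((ν t : ℂˣ) : ℂ) * ψ t)) := by
        have : charDegree (fun t => ((ν t : ℂˣ) : ℂ) * ψ t) = charDegree ψ := by
          unfold charDegree
          simp
        rw [this]
        exact hψdeg
      let M₁ : Subgroup T := M.subgroupOf T
      have hβk : ∀ k ∈ M₁, (fun t => ((ν t : ℂˣ) : ℂ) * ψ t) k =
          (fun t => ((ν t : ℂˣ) : ℂ) * ψ t) 1 := by
        intro k hk
        show ((ν k : ℂˣ) : ℂ) * ψ k = ((ν 1 : ℂˣ) : ℂ) * ψ 1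
        have h3 := res_apply M l T hMT (mem_inertiaOf M _) hψ hc ⟨k, hk⟩
        have h4 := hνl ⟨k, hk⟩
        have h5 : ψ k = ψ 1 * ((l ⟨k, hk⟩ : ℂˣ) : ℂ) := h3
        have h6 : ν k = l ⟨k, hk⟩ := h4
        rw [h5, h6, map_one, Units.val_one, one_mul]
        have h7 : ((l ⟨k, hk⟩ : ℂˣ) : ℂ) * ((l ⟨k, hk⟩ : ℂˣ) : ℂ) = 1 := by
          rw [← Units.val_mul, ← pow_two, hl2, Units.val_one]
        calc ((l ⟨k, hk⟩ : ℂˣ) : ℂ) * (ψ 1 * ((l ⟨k, hk⟩ : ℂˣ) : ℂ))
            = ψ 1 * (((l ⟨k, hk⟩ : ℂˣ) : ℂ) * ((l ⟨k, hk⟩ : ℂˣ) : ℂ)) := by ring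
          _ = ψ 1 := by rw [h7, mul_one]
      obtain ⟨ξ, hξo, hξ⟩ := exists_descend_odd M₁ _ hβirr hβdeg hβk
      have hM1 : M ≠ ⊥ := hM.ne_bot
      have hM₁ne : M₁ ≠ ⊥ := by
        intro h0
        apply hM1
        rw [eq_bot_iff]
        intro m hm
        have h1 : (⟨m, hMT hm⟩ : T) ∈ M₁ := hm
        rw [h0] at h1
        exact congrArg Subtype.val h1
      have hlt : Nat.card (T ⧸ M₁) < Nat.card X :=
        lt_of_lt_of_le (card_quotient_lt M₁ hM₁ne)
          (Nat.card_le_card_of_injective T.subtype Subtype.val_injective)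
      have hQ' := QB_quot M₁ (P.subtype hPT) (QB_subtype P hPT hQB)
      have hξre := IH (T ⧸ M₁) hlt (sylQ M₁ (P.subtype hPT)) hQ' ξ hξo
      have hβre : ∀ t : T, (((ν t : ℂˣ) : ℂ) * ψ t).im = 0 :=
        real_of_descend M₁ (ξ : T ⧸ M₁ → ℂ) _ hξ hξre
      have hψre : ∀ t, (ψ t).im = 0 := by
        intro t
        have h3 : ψ t = ((ν t : ℂˣ) : ℂ) * (((ν t : ℂˣ) : ℂ) * ψ t) := by
          rw [← mul_assoc, hνν, one_mul]
        rw [h3, Complex.mul_im, hβre t, hom_real ν hν2 t]
        simp
      rw [← h1]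
      exact fun g => indFun_real T hψre g
    · have hMo : Odd (Nat.card M) := by
        obtain ⟨a, ha⟩ := IsPGroup.iff_card.1 hMp
        rw [ha]
        exact (hp.odd_of_ne_two hp2).pow
      have hcop : (Nat.card M).Coprime (Nat.card (P : Subgroup X)) := by
        obtain ⟨a, ha⟩ := IsPGroup.iff_card.1 hPp
        rw [ha]
        exact Nat.Coprime.pow_right a (Nat.coprime_two_right.2 hMo)
      have hdisj : ∀ z, z ∈ M → z ∈ (P : Subgroup X) → z = 1 := by
        intro z hzK hzP
        have h1 := Cfsg.Agent.Lib.Coprime.SZ.inf_eq_bot_of_coprime_card hcop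
        have h3 : z ∈ M ⊓ (P : Subgroup X) := ⟨hzK, hzP⟩
        rw [h1] at h3
        exact h3
      have hsolvP : Group.IsSolvable (P : Subgroup X) := by
        haveI := hPp.isNilpotent
        infer_instance
      have hC : ∀ c ∈ M, (∀ u ∈ (P : Subgroup X), u * c = c * u) → c = 1 := by
        intro c hcM hc
        apply hdisj c hcM
        apply hQB.1
        rw [Subgroup.mem_normalizer_iff]
        intro h
        constructor
        · intro h1
          have : c * h * c⁻¹ = h := by
            rw [← hc h h1]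
            group
          rw [this]
          exact h1
        · intro h1
          have h2 := hc _ h1
          have h3 : c * h * c⁻¹ * c = c * (c * h * c⁻¹) := h2
          have h4 : c * h = c * (c * h * c⁻¹) := by
            rw [← h3]
            group
          have h5 := mul_left_cancel h4
          rw [h5]
          exact h1
      obtain ⟨θ, hfix, hover, hdeg⟩ := exists_fixed_constituent P M χ.2 hodd
      have hθ1 := fixed_trivial_of_C hcop hsolvP hC θ hfix
      have htr : ∀ θ' : IrrCharacter M, classInner (fun n : M => (χ : X → ℂ) n) (θ' : M → ℂ) ≠ 0 →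
          ∀ n, (θ' : M → ℂ) n = 1 := by
        intro θ' hθ' n
        obtain ⟨g, hg⟩ := Clifford.exists_conj_of_classInner_ne_zero M χ.2 θ.2 θ'.2 hover hθ'
        rw [hg]
        exact hθ1 _
      have hker := ker_of_all_trivial M (isCharacter_of_isIrrCharacter χ.2) htr
      obtain ⟨ξ, hξo, hξ⟩ := exists_descend_odd M _ χ.2 hodd (fun k hk => hker ⟨k, hk⟩)
      have hξre := IH (X ⧸ M) (card_quotient_lt M hM.ne_bot) (sylQ M P) (QB_quot M P hQB) ξ hξo
      exact real_of_descend M (ξ : X ⧸ M → ℂ) _ hξ hξre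
  · rw [not_nontrivial_iff_subsingleton] at hX
    intro g
    rw [Subsingleton.elim g 1, ← Cfsg.Agent.Lib.Char.Values.IsCharacter.charDegree_cast
      (isCharacter_of_isIrrCharacter χ.2)]
    simp

/-- `HB ⟹ QB`. -/
theorem partB2 : ∀ (m : ℕ) (X : Type u) [Group X] [Finite X] [Group.IsSolvable X],
    Nat.card X = m → ∀ P : Sylow 2 X, HB X → QB P := by
  intro m
  induction m using Nat.strong_induction_on with
  | _ m ih =>
  intro X _ _ _ hm P hB
  classical
  have IH : ∀ (Y : Type u) [Group Y] [Finite Y] [Group.IsSolvable Y], Nat.card Y < Nat.card X →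
      ∀ Q : Sylow 2 Y, HB Y → QB Q :=
    fun Y _ _ _ hY Q => ih (Nat.card Y) (hm ▸ hY) Y rfl Q
  by_cases hX : Nontrivial X
  · obtain ⟨M, hM⟩ := exists_isMinNormal (G := X)
    haveI := hM.normal
    obtain ⟨p, hp, hMp, hcomm, hpow⟩ := hM.exists_isPGroup
    haveI : Fact p.Prime := ⟨hp⟩
    haveI : Fintype X := Fintype.ofFinite _
    haveI : Fintype M := Fintype.ofFinite _
    have hPp : IsPGroup 2 (P : Subgroup X) := P.isPGroup'
    have hQ := IH (X ⧸ M) (card_quotient_lt M hM.ne_bot) (sylQ M P) (HB_quot M hB)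
    -- lifting characters
    have hlift : ∀ κ : (P : Subgroup X) →* ℂˣ, (∀ u : (P : Subgroup X), (u : X) ∈ M → κ u = 1) →
        ∀ u, κ u ^ 2 = 1 := by
      intro κ hκ
      have hker : (sylF M P).ker ≤ κ.ker := by
        intro u hu
        rw [MonoidHom.mem_ker] at hu ⊢
        apply hκ
        have h1 := congrArg Subtype.val hu
        exact (QuotientGroup.eq_one_iff _).1 h1
      intro u
      let κ' : (sylQ M P : Subgroup (X ⧸ M)) →* ℂˣ :=
        MonoidHom.liftOfSurjective (sylF M P) (sylF_surjective M P) ⟨κ, hker⟩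
      have h1 : κ' (sylF M P u) = κ u :=
        MonoidHom.liftOfRightInverse_comp_apply _ _ _ ⟨κ, hker⟩ u
      rw [← h1]
      exact hQ.2 κ' _
    by_cases hp2 : p = 2
    · subst hp2
      have hMP := normal_le_sylow P M hMp
      refine ⟨fun n hn => ?_, fun μ u => ?_⟩
      · obtain ⟨u, hu, h1⟩ := (mem_sylQ M P).1 (hQ.1 _ (mk_mem_normalizer M P hn))
        have h2 := QuotientGroup.eq.1 h1
        have h3 : n = u * (u⁻¹ * n) := by group
        rw [h3]
        exact Subgroup.mul_mem _ hu (hMP h2)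
      · let l : M →* ℂˣ := μ.comp (Subgroup.inclusion hMP)
        have hl2 : ∀ m, l m ^ 2 = 1 := by
          intro m
          rw [← map_pow]
          have : m ^ 2 = 1 := Subtype.ext (hpow _ m.2)
          rw [this, map_one]
        set T : Subgroup X := inertiaOf M (thF l) with hT
        haveI : Fintype T := Fintype.ofFinite _
        have hMT : M ≤ T := le_inertia M ⟨thF l, isIrr_thF l⟩
        have hPT : (P : Subgroup X) ≤ T := by
          intro y hy
          rw [hT, mem_inertiaOf]
          intro n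
          show ((μ ⟨y * n * y⁻¹, hMP (Subgroup.Normal.conj_mem ‹_› (n : X) n.2 y)⟩ : ℂˣ) : ℂ) =
            ((μ ⟨n, hMP n.2⟩ : ℂˣ) : ℂ)
          have h1 : (⟨y * n * y⁻¹, hMP (Subgroup.Normal.conj_mem ‹_› (n : X) n.2 y)⟩ :
              (P : Subgroup X)) = ⟨y, hy⟩ * ⟨n, hMP n.2⟩ * ⟨y, hy⟩⁻¹ := rfl
          rw [h1, map_mul, map_mul, map_inv, mul_comm (μ ⟨y, hy⟩), mul_inv_cancel_right]
        have hidx : Odd ((P : Subgroup X).subgroupOf T).index := by
          rw [← Nat.not_even_iff_odd, even_iff_two_dvd]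
          exact (P.subtype hPT).not_dvd_index
        obtain ⟨ν, hνl, -⟩ := exists_transfer_T hMP hPT hidx μ l hl2 (fun m => rfl) (fun t ht m => by
          have h1 := (mem_inertiaOf M (thF l) t).1 ht m
          exact Units.ext h1)
        have hTodd : Odd T.index := odd_index_of_le P hPT
        have hover := over_of_res M l T hMT (isIrr_thF ν) (fun h => by
          show ((ν ⟨h, hMT h.2⟩ : ℂˣ) : ℂ) = ((ν 1 : ℂˣ) : ℂ) * ((l h : ℂˣ) : ℂ)
          rw [hνl h, map_one, Units.val_one, one_mul])
        have hirr := isIrr_indFun M (thF l) T hMT (isIrr_thF l) (mem_inertiaOf M _) (isIrr_thF ν)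
          hover
        have hdeg : Odd (charDegree (indFun T (thF ν))) := by
          rw [charDegree_indFun T (isCharacter_of_isIrrCharacter (isIrr_thF ν))]
          refine hTodd.mul ?_
          rw [charDegree_of_apply_one _ 1 (by rw [thF_apply_one]; simp)]
          exact odd_one
        have hre := hB ⟨_, hirr⟩ hdeg
        have hνre := real_of_ind_real M l T hMT (mem_inertiaOf M _) hl2 (isIrr_thF ν) hover hre
        have hν2 : ∀ t, ν t ^ 2 = 1 := by
          intro t
          have h2 := hνre t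
          have h3 : (ν t) ^ (Nat.card T) = 1 := by
            rw [← map_pow, pow_card_eq_one', map_one]
          have h4 := conj_units_of_pow Nat.card_pos.ne' h3
          have h5 : conj ((ν t : ℂˣ) : ℂ) = ((ν t : ℂˣ) : ℂ) := Complex.conj_eq_iff_im.2 h2
          rw [h5] at h4
          have h6 : ν t = (ν t)⁻¹ := Units.ext h4
          rw [pow_two]
          nth_rw 1 [h6]
          simp
        let j : (P : Subgroup X) →* T := Subgroup.inclusion hPT
        let κ : (P : Subgroup X) →* ℂˣ := μ * (ν.comp j)⁻¹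
        have hκ : ∀ u : (P : Subgroup X), (u : X) ∈ M → κ u = 1 := by
          intro u hu
          show μ u * (ν (j u))⁻¹ = 1
          have h1 : ν (j u) = l ⟨u, hu⟩ := hνl ⟨u, hu⟩
          rw [h1]
          have h2 : l ⟨u, hu⟩ = μ u := rfl
          rw [h2, mul_inv_cancel]
        have h2 := hlift κ hκ u
        have h3 : μ u = κ u * ν (j u) := by
          show μ u = μ u * (ν (j u))⁻¹ * ν (j u)
          group
        rw [h3, mul_pow, h2, hν2, one_mul]
    · have hMo : Odd (Nat.card M) := by
        obtain ⟨a, ha⟩ := IsPGroup.iff_card.1 hMp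
        rw [ha]
        exact (hp.odd_of_ne_two hp2).pow
      have hcop : (Nat.card M).Coprime (Nat.card (P : Subgroup X)) := by
        obtain ⟨a, ha⟩ := IsPGroup.iff_card.1 hPp
        rw [ha]
        exact Nat.Coprime.pow_right a (Nat.coprime_two_right.2 hMo)
      have hdisj : ∀ z, z ∈ M → z ∈ (P : Subgroup X) → z = 1 := by
        intro z hzK hzP
        have h1 := Cfsg.Agent.Lib.Coprime.SZ.inf_eq_bot_of_coprime_card hcop
        have h3 : z ∈ M ⊓ (P : Subgroup X) := ⟨hzK, hzP⟩
        rw [h1] at h3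
        exact h3
      have hsolvP : Group.IsSolvable (P : Subgroup X) := by
        haveI := hPp.isNilpotent
        infer_instance
      refine ⟨fun n hn => ?_, fun μ u => ?_⟩
      · obtain ⟨u, hu, h1⟩ := (mem_sylQ M P).1 (hQ.1 _ (mk_mem_normalizer M P hn))
        have h2 := QuotientGroup.eq.1 h1
        set c : X := u⁻¹ * n with hc
        have hcN : c ∈ NP P := Subgroup.mul_mem _
          (Subgroup.le_normalizer (Subgroup.inv_mem _ hu)) hn
        have hcc : ∀ y ∈ (P : Subgroup X), y * c = c * y := by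
          intro y hy
          have h3 : c * y * c⁻¹ ∈ (P : Subgroup X) := (Subgroup.mem_normalizer_iff.1 hcN y).1 hy
          have h4 : c * y * c⁻¹ * y⁻¹ ∈ (P : Subgroup X) :=
            Subgroup.mul_mem _ h3 (Subgroup.inv_mem _ hy)
          have h5 : c * y * c⁻¹ * y⁻¹ ∈ M := by
            have h6 := Subgroup.Normal.conj_mem ‹M.Normal› c⁻¹ (M.inv_mem h2) y
            have h7 : c * y * c⁻¹ * y⁻¹ = c * (y * c⁻¹ * y⁻¹) := by group
            rw [h7]
            exact M.mul_mem h2 h6
          have h8 := hdisj _ h5 h4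
          have h9 : c * y * c⁻¹ = y := by
            rwa [mul_inv_eq_one] at h8
          calc y * c = (c * y * c⁻¹) * c := by rw [h9]
            _ = c * y := by group
        by_cases hc1 : c = 1
        · have h3 : n = u := by
            rw [hc, inv_mul_eq_one] at hc1
            exact hc1.symm
          rw [h3]
          exact hu
        · exfalso
          obtain ⟨θ, hfix, n₀, hn₀⟩ := exists_fixed_nontrivial hcop hsolvP h2 hc1 hcc
          apply hn₀
          exact fixed_trivial_of_HB hB P hMo (fun x hx y hy => by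
            have := hcomm.is_comm.comm ⟨x, hx⟩ ⟨y, hy⟩
            exact congrArg Subtype.val this) θ hfix n₀
      · refine hlift μ (fun v hv => ?_) u
        have h3 : v = 1 := Subtype.ext (hdisj _ hv v.2)
        rw [h3, map_one]
  · rw [not_nontrivial_iff_subsingleton] at hX
    refine ⟨fun n _ => ?_, fun μ u => ?_⟩
    · rw [Subsingleton.elim n 1]
      exact Subgroup.one_mem _
    · have : u = 1 := Subtype.ext (Subsingleton.elim _ _)
      rw [this, map_one, one_pow]

end Main

end Cfsg.Agent.Lib.Char.RealOdd
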