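import Mathlib
import Cfsg.Prelude.Def_Characters
import Cfsg.Agent.Lib.Char.SL2Half
import Cfsg.Agent.Lib.Char.Virtual
import Cfsg.Agent.Lib.Char.LinearChars
import Cfsg.Agent.Lib.PSL2.Nonsplit
import Cfsg.Agent.Lib.PSL2.TorusSylow
import Cfsg.Agent.Lib.PSL2.Orders

/-!
# The cuspidal characters of `SL₂(q)`, `q` odd, attached to the non-split torus

For a non-split torus `T` of `SL₂(F)` and `θ : T →* ℂˣ` we let
`R θ = (St - 1) · Ind_B γ - Ind_T θ`, where `γ (-1) = θ (-1)`. Then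
`⟨R θ, R θ'⟩ = [θ = θ'] + [θ = θ'⁻¹]`.
-/

set_option autoImplicit false

namespace Cfsg.Agent.Lib.Char.SL2Cusp

open Cfsg Cfsg.Agent.Lib.Char.Induced Cfsg.Agent.Lib.Char.Ortho Cfsg.Agent.Lib.Char.Basic
open Cfsg.Agent.Lib.Char.GL2Principal Cfsg.Agent.Lib.Char.GL2Values Cfsg.Agent.Lib.Char.GL2Irr
open Cfsg.Agent.Lib.Char.GL2Count Cfsg.Agent.Lib.Char.SL2Principal Cfsg.Agent.Lib.Char.SL2Split
open Cfsg.Agent.Lib.Char.SL2Res Cfsg.Agent.Lib.Char.SL2Irr Cfsg.Agent.Lib.Char.SL2Half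
open Cfsg.Agent.Lib.PSL2.Basic Cfsg.Agent.Lib.PSL2.Unipotent Cfsg.Agent.Lib.PSL2.Conj
open Cfsg.Agent.Lib.PSL2.TorusCore
open Matrix.SpecialLinearGroup (toGL)
open scoped ComplexConjugate MatrixGroups

variable {F : Type*} [Field F] [Fintype F] [DecidableEq F]

omit [DecidableEq F] in
theorem isEig_of_eigvec {g : SL(2, F)} {c : F} {v : Fin 2 → F} (hv : v ≠ 0)
    (h : (g : Matrix (Fin 2) (Fin 2) F).mulVec v = c • v) : IsEig g c := by
  have hdet : ((g : Matrix (Fin 2) (Fin 2) F) - c • 1).det = 0 := by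
    apply Matrix.exists_mulVec_eq_zero_iff.1
    refine ⟨v, hv, ?_⟩
    rw [Matrix.sub_mulVec, sub_eq_zero, h, Matrix.smul_mulVec, Matrix.one_mulVec]
  rw [Matrix.det_fin_two] at hdet
  simp only [Matrix.sub_apply, Matrix.smul_apply, Matrix.one_apply_eq, smul_eq_mul, mul_one] at hdet
  simp only [Matrix.one_apply_ne (show (0 : Fin 2) ≠ 1 by decide),
    Matrix.one_apply_ne (show (1 : Fin 2) ≠ 0 by decide), mul_zero, sub_zero] at hdet
  have hd := det_entries g
  unfold IsEig tr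
  linear_combination hdet - hd

omit [DecidableEq F] in
theorem isEig_conj {g : SL(2, F)} {a : F} (h : IsEig g a) (k : SL(2, F)) : IsEig (k * g * k⁻¹) a := by
  unfold IsEig at h ⊢
  rwa [tr_conj]

omit [DecidableEq F] in
theorem isEig_half (h2 : (2 : F) ≠ 0) {g : SL(2, F)} (ht : tr g ^ 2 = 4) : IsEig g (tr g / 2) := by
  unfold IsEig
  field_simp
  linear_combination -ht

theorem StS_neg_one : (StS : SL(2, F) → ℂ) (-1) = (Fintype.card F : ℂ) := by
  unfold StS
  rw [Pi.sub_apply, ← Cfsg.Agent.Lib.Char.SL2Split.ind_res,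
    ind_scalar 1 1 (toGL (-1 : SL(2, F))) (-1) (by
      ext i j
      fin_cases i <;> fin_cases j <;> simp [toGL])]
  rw [MulChar.one_apply (isUnit_iff_ne_zero.2 (neg_ne_zero.2 one_ne_zero))]
  simp

theorem indS_neg_one (γ : MulChar F ℂ) :
    indFun (BorS F) (chiS γ) (-1 : SL(2, F)) = ((Fintype.card F : ℂ) + 1) * γ (-1) := by
  rw [← Cfsg.Agent.Lib.Char.SL2Split.ind_res,
    ind_scalar γ 1 (toGL (-1 : SL(2, F))) (-1) (by
      ext i j
      fin_cases i <;> fin_cases j <;> simp [toGL])]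
  rw [MulChar.one_apply (isUnit_iff_ne_zero.2 (neg_ne_zero.2 one_ne_zero))]
  simp

/-- The function `(St - 1) · Ind γ`, supported on the centre times the unipotent elements. -/
noncomputable def W (γ : MulChar F ℂ) : SL(2, F) → ℂ :=
  fun g => (StS g - 1) * indFun (BorS F) (chiS γ) g

theorem W_def (γ : MulChar F ℂ) (g : SL(2, F)) :
    W γ g = (StS g - 1) * indFun (BorS F) (chiS γ) g := rfl

theorem W_class (γ : MulChar F ℂ) : IsClassFunction _ (W γ) := by
  intro g h
  simp only [W_def]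
  rw [indFun_isClassFunction]
  have h3 := isClassFunction_of_isCharacter (isCharacter_of_isIrrCharacter (isIrr_StS (F := F))) g h
  rw [h3]

theorem W_one (γ : MulChar F ℂ) : W γ 1 = (Fintype.card F : ℂ) ^ 2 - 1 := by
  rw [W_def, StS_one, indS_one]
  ring

theorem W_neg_one (γ : MulChar F ℂ) : W γ (-1) = ((Fintype.card F : ℂ) ^ 2 - 1) * γ (-1) := by
  rw [W_def, StS_neg_one, indS_neg_one]
  ring

theorem St_x {b : F} (hb : b ≠ 0) : (StS : SL(2, F) → ℂ) (x b) = 0 := by
  unfold StS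
  rw [Pi.sub_apply, indS_unip 1 (x b) (by simp) (by simp) (by simpa using hb)]
  simp

theorem St_neg_x {b : F} (hb : b ≠ 0) : (StS : SL(2, F) → ℂ) (-x b) = 0 := by
  unfold StS
  rw [Pi.sub_apply, indS_unip 1 (-x b) (by simp) (by simp) (by simpa using hb)]
  simp [MulChar.one_apply (isUnit_iff_ne_zero.2 (neg_ne_zero.2 (one_ne_zero (α := F))))]

theorem W_x (γ : MulChar F ℂ) {b : F} (hb : b ≠ 0) : W γ (x b) = -1 := by
  rw [W_def, St_x hb, indS_unip γ (x b) (by simp) (by simp) (by simpa using hb)]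
  simp

theorem W_neg_x (γ : MulChar F ℂ) {b : F} (hb : b ≠ 0) : W γ (-x b) = -γ (-1) := by
  rw [W_def, St_neg_x hb, indS_unip γ (-x b) (by simp) (by simp) (by simpa using hb)]
  simp

theorem W_tr_two (γ : MulChar F ℂ) {g : SL(2, F)} (htr : tr g = 2) (hg : g ≠ 1) : W γ g = -1 := by
  obtain ⟨a, b, hb, hab⟩ := exists_conj_x_ne_of_tr_eq_two g htr hg
  rw [← W_class γ g a, hab, W_x γ hb]

theorem W_tr_neg_two (γ : MulChar F ℂ) {g : SL(2, F)} (htr : tr (-g) = 2) (hg : -g ≠ 1) :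
    W γ g = -γ (-1) := by
  obtain ⟨a, b, hb, hab⟩ := exists_conj_x_ne_of_tr_eq_two (-g) htr hg
  have h3 : a * g * a⁻¹ = -x b := by
    rw [← hab]
    simp
  rw [← W_class γ g a, h3, W_neg_x γ hb]

theorem St_diag (a : F) (ha : a ≠ 0) (hsq : a * a ≠ 1) : (StS : SL(2, F) → ℂ) (d a ha) = 1 := by
  unfold StS
  rw [Pi.sub_apply, indS_diag 1 (d a ha) (by simp) (by simp) (by simpa [sq] using hsq)]
  simp only [d_00, d_11]
  rw [MulChar.one_apply (isUnit_iff_ne_zero.2 ha), MulChar.one_apply (isUnit_iff_ne_zero.2 (inv_ne_zero ha))]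
  simp

/-- `W` vanishes at the regular elements. -/
theorem W_reg (γ : MulChar F ℂ) {g : SL(2, F)} (ht : tr g ^ 2 ≠ 4) : W γ g = 0 := by
  by_cases h : ∃ a, IsEig g a
  · obtain ⟨a, ha⟩ := h
    have ha0 := ha.ne_zero
    have htr : tr g = a + a⁻¹ := by
      unfold IsEig at ha
      field_simp
      linear_combination -ha
    have hsq : a * a ≠ 1 := by
      intro h1
      apply ht
      have h3 : a⁻¹ = a := by
        field_simp
        linear_combination -h1
      rw [htr, h3]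
      linear_combination 4 * h1
    obtain ⟨k, hk⟩ := Cfsg.Agent.Lib.PSL2.Macbeath.exists_conj_of_tr_eq g (d a ha0) ht (by rw [htr, tr_d])
    rw [W_def]
    have h3 := isClassFunction_of_isCharacter (isCharacter_of_isIrrCharacter (isIrr_StS (F := F))) g k
    rw [hk, St_diag a ha0 hsq] at h3
    rw [← h3]
    simp
  · push Not at h
    rw [W_def, indS_elliptic γ g (fun c v hv hgv => h c (isEig_of_eigvec hv hgv)), mul_zero]

/-- Sums of functions supported on the elements of trace `± 2`. -/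
theorem sum_of_supp (h2 : ringChar F ≠ 2) {n : Fˣ} (hn : ¬ IsSquare (n : F)) (f : SL(2, F) → ℂ)
    (hf : ∀ g, tr g ^ 2 ≠ 4 → f g = 0) :
    ∑ g, f g = f 1 + f (-1) + ∑ g ∈ A n, f g + ∑ g ∈ A n, f (-g) := by
  have h20 : (2 : F) ≠ 0 := Ring.two_ne_zero h2
  have h40 : (2 : F) ≠ -2 := by
    intro h
    have h5 : (2 : F) * 2 = 0 := by linear_combination h
    exact h20 (mul_self_eq_zero.1 h5)
  have hm1 : (1 : SL(2, F)) ≠ -1 := by
    intro h
    have := congrArg tr h
    rw [tr_neg, tr_one] at this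
    exact h40 this
  have key : ∀ g : SL(2, F), f g = (if g = 1 then f 1 else 0) + (if g = -1 then f (-1) else 0)
      + (if g ∈ A n then f g else 0) + (if -g ∈ A n then f g else 0) := by
    intro g
    by_cases h1 : g = 1
    · subst h1
      have h3 : (1 : SL(2, F)) ∉ A n := fun h => ((mem_A_iff h2 hn _).1 h).2 rfl
      have h4 : -(1 : SL(2, F)) ∉ A n := fun h => by
        have := ((mem_A_iff h2 hn _).1 h).1
        rw [tr_neg, tr_one] at this
        exact h40 (by linear_combination -this)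
      rw [if_pos rfl, if_neg hm1, if_neg h3, if_neg h4]
      ring
    by_cases h3 : g = -1
    · subst h3
      have h4 : (-1 : SL(2, F)) ∉ A n := fun h => by
        have := ((mem_A_iff h2 hn _).1 h).1
        rw [tr_neg, tr_one] at this
        exact h40 (by linear_combination -this)
      have h5 : -(-1 : SL(2, F)) ∉ A n := fun h => ((mem_A_iff h2 hn _).1 h).2 (by rw [neg_neg])
      rw [if_neg hm1.symm, if_pos rfl, if_neg h4, if_neg h5]
      ring
    by_cases h4 : g ∈ A n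
    · have h4' := (mem_A_iff h2 hn _).1 h4
      have h5 : -g ∉ A n := fun h => by
        have := ((mem_A_iff h2 hn _).1 h).1
        rw [tr_neg, h4'.1] at this
        exact h40 (by linear_combination -this)
      rw [if_neg h1, if_neg h3, if_pos h4, if_neg h5]
      ring
    by_cases h5 : -g ∈ A n
    · rw [if_neg h1, if_neg h3, if_neg h4, if_pos h5]
      ring
    · rw [if_neg h1, if_neg h3, if_neg h4, if_neg h5]
      simp only [add_zero]
      apply hf
      intro ht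
      have h6 : (tr g - 2) * (tr g + 2) = 0 := by linear_combination ht
      rcases mul_eq_zero.1 h6 with h7 | h7
      · have h8 : tr g = 2 := by linear_combination h7
        exact h4 ((mem_A_iff h2 hn _).2 ⟨h8, h1⟩)
      · have h8 : tr (-g) = 2 := by
          rw [tr_neg]
          linear_combination -h7
        refine h5 ((mem_A_iff h2 hn _).2 ⟨h8, ?_⟩)
        intro h9
        apply h3
        rw [← h9, neg_neg]
  rw [Finset.sum_congr rfl fun g _ => key g]
  simp only [Finset.sum_add_distrib]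
  have h5 : ∑ g : SL(2, F), (if -g ∈ A n then f g else 0) = ∑ g ∈ A n, f (-g) := by
    rw [← Equiv.sum_comp (Equiv.neg (SL(2, F)))]
    simp only [Equiv.neg_apply, neg_neg]
    rw [Finset.sum_ite_mem, Finset.univ_inter]
  rw [h5, Finset.sum_ite_eq', Finset.sum_ite_eq', Finset.sum_ite_mem, Finset.univ_inter]
  simp

theorem exists_nonsquare_unit (h2 : ringChar F ≠ 2) : ∃ n : Fˣ, ¬ IsSquare (n : F) := by
  obtain ⟨a, ha⟩ := FiniteField.exists_nonsquare h2
  have ha0 : a ≠ 0 := by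
    rintro rfl
    exact ha IsSquare.zero
  exact ⟨Units.mk0 a ha0, ha⟩

theorem norm_mulChar_neg_one (γ : MulChar F ℂ) : γ (-1) * γ (-1) = 1 := by
  rw [← map_mul]
  simp

theorem W_inner (h2 : ringChar F ≠ 2) (γ γ' : MulChar F ℂ) :
    classInner (W γ) (W γ') = (1 + γ (-1) * conj (γ' (-1))) * (Fintype.card F : ℂ) := by
  obtain ⟨n, hn⟩ := exists_nonsquare_unit h2
  rw [Cfsg.Agent.Lib.Char.Induced.classInner_def,
    sum_of_supp h2 hn _ (fun g hg => by rw [W_reg γ hg, zero_mul])]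
  have h1 : ∑ g ∈ A n, W γ g * conj (W γ' g) = ((Fintype.card F : ℂ) ^ 2 - 1) := by
    rw [Finset.sum_congr rfl (g := fun _ => (1 : ℂ)) (fun g hg => by
      have hg' := (mem_A_iff h2 hn _).1 hg
      rw [W_tr_two γ hg'.1 hg'.2, W_tr_two γ' hg'.1 hg'.2]
      simp)]
    simp only [Finset.sum_const, nsmul_eq_mul, mul_one]
    rw [card_A h2 hn, Nat.cast_sub (by
      have : 0 < Fintype.card F := Fintype.card_pos
      exact Nat.one_le_pow _ _ this)]
    simp
  have h3 : ∑ g ∈ A n, W γ (-g) * conj (W γ' (-g))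
      = ((Fintype.card F : ℂ) ^ 2 - 1) * (γ (-1) * conj (γ' (-1))) := by
    rw [Finset.sum_congr rfl (g := fun _ => γ (-1) * conj (γ' (-1))) (fun g hg => by
      have hg' := (mem_A_iff h2 hn _).1 hg
      have e1 : -(-g) = g := neg_neg g
      rw [W_tr_neg_two γ (by rw [e1]; exact hg'.1) (by rw [e1]; exact hg'.2),
        W_tr_neg_two γ' (by rw [e1]; exact hg'.1) (by rw [e1]; exact hg'.2)]
      simp)]
    simp only [Finset.sum_const, nsmul_eq_mul]
    rw [card_A h2 hn, Nat.cast_sub (by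
      have : 0 < Fintype.card F := Fintype.card_pos
      exact Nat.one_le_pow _ _ this)]
    simp
  rw [h1, h3, W_one, W_one, W_neg_one, W_neg_one, card_SL2]
  have hq : 1 < Fintype.card F := Fintype.one_lt_card
  have hq0 : (Fintype.card F : ℂ) ≠ 0 := by
    have : Fintype.card F ≠ 0 := by omega
    exact_mod_cast this
  have hq1 : (Fintype.card F : ℂ) ^ 2 - 1 ≠ 0 := by
    have : ((Fintype.card F ^ 2 : ℕ) : ℂ) ≠ ((1 : ℕ) : ℂ) := by
      have h5 : Fintype.card F ^ 2 ≠ 1 := by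
        intro h
        have := Nat.pow_eq_one.1 h
        omega
      exact_mod_cast h5
    intro h
    apply this
    push_cast
    linear_combination h
  push_cast
  rw [Nat.cast_sub (by
      have : 0 < Fintype.card F := Fintype.card_pos
      exact Nat.one_le_pow _ _ this)]
  push_cast
  simp only [map_mul, map_sub, map_pow, Complex.conj_natCast, map_one]
  field_simp
  ring

/-- A non-split torus. -/
structure NS (T : Subgroup SL(2, F)) : Prop where
  torus : IsTorus T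
  card : Nat.card T = Fintype.card F + 1
  ell : ∀ g ∈ T, g ≠ 1 → g ≠ -1 → ∀ a, ¬ IsEig g a

variable {T : Subgroup SL(2, F)}

/-- The character induced from the torus. -/
noncomputable def IndT (T : Subgroup SL(2, F)) (θ : T →* ℂˣ) : SL(2, F) → ℂ :=
  indFun T (fun c => ((θ c : ℂˣ) : ℂ))

omit [DecidableEq F] in
theorem card_SL2_complex' : (Nat.card SL(2, F) : ℂ)
    = (Fintype.card F : ℂ) * ((Fintype.card F : ℂ) - 1) * ((Fintype.card F : ℂ) + 1) := by
  rw [card_SL2]
  have hq : 1 < Fintype.card F := Fintype.one_lt_card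
  push_cast
  rw [Nat.cast_sub (by
      have : 0 < Fintype.card F := Fintype.card_pos
      exact Nat.one_le_pow _ _ this)]
  push_cast
  ring

omit [DecidableEq F] in
theorem q_add_one_ne : (Fintype.card F : ℂ) + 1 ≠ 0 := by
  have : ((Fintype.card F + 1 : ℕ) : ℂ) ≠ 0 := Nat.cast_ne_zero.2 (Nat.succ_ne_zero _)
  exact_mod_cast this

omit [Fintype F] [DecidableEq F] in
theorem central_conj {z : SL(2, F)} (hz : z = 1 ∨ z = -1) (x : SL(2, F)) : x⁻¹ * z * x = z := by
  rcases hz with rfl | rfl <;> simp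

theorem IndT_central (hT : NS T) (θ : T →* ℂˣ) {z : SL(2, F)} (hz : z ∈ T) (hzc : z = 1 ∨ z = -1) :
    IndT T θ z = (Fintype.card F : ℂ) * ((Fintype.card F : ℂ) - 1) * ((θ ⟨z, hz⟩ : ℂˣ) : ℂ) := by
  unfold IndT
  rw [indFun_apply, Finset.sum_congr rfl (g := fun _ => ((θ ⟨z, hz⟩ : ℂˣ) : ℂ)) (fun x _ => by
    rw [central_conj hzc, extendByZero_of_mem _ _ hz]), hT.card]
  simp only [Finset.sum_const, Finset.card_univ, nsmul_eq_mul]
  have hc : (Fintype.card SL(2, F) : ℂ) = (Nat.card SL(2, F) : ℂ) := by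
    rw [Nat.card_eq_fintype_card]
  rw [hc, card_SL2_complex']
  push_cast
  have := q_add_one_ne (F := F)
  field_simp

omit [DecidableEq F] in
theorem exists_inverter (h2 : (2 : F) ≠ 0) (hT : IsTorus T) :
    ∃ w : SL(2, F), w ∉ T ∧ ∀ c ∈ T, w * c * w⁻¹ = c⁻¹ := by
  obtain ⟨g, hg, h1, hm, w, hw⟩ := hT.exists_inv
  have hN := hT.mem_normalizer_of_inverts hg h1 hm hw
  have hwT : w ∉ T := by
    intro hwT
    have h3 := hT.comm w hwT g hg
    have h4 : g⁻¹ = g := by
      rw [← hw, h3]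
      simp
    have h5 : g * g = 1 := by
      nth_rw 1 [← h4]
      simp
    rcases (Cfsg.Agent.Lib.PSL2.Torus.mul_self_eq_one_iff h2 g).1 h5 with h6 | h6
    · exact h1 h6
    · exact hm h6
  exact ⟨w, hwT, fun c hc => hT.conj_eq_inv hN hwT hc⟩

theorem sum_mem_const {G : Type*} [Group G] [Fintype G] (H : Subgroup G) [DecidablePred (· ∈ H)] (a : ℂ) :
    ∑ x : G, (if x ∈ H then a else 0) = (Nat.card H : ℂ) * a := by
  rw [Finset.sum_ite, Finset.sum_const_zero, add_zero, Finset.sum_const, nsmul_eq_mul,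
    Nat.card_eq_fintype_card, Fintype.card_subtype]

theorem IndT_reg (h2 : (2 : F) ≠ 0) (hT : NS T) (θ : T →* ℂˣ) {c : SL(2, F)} (hc : c ∈ T) (h1 : c ≠ 1)
    (hm : c ≠ -1) : IndT T θ c = ((θ ⟨c, hc⟩ : ℂˣ) : ℂ) + (((θ ⟨c, hc⟩)⁻¹ : ℂˣ) : ℂ) := by
  classical
  obtain ⟨w, hw, hwc⟩ := exists_inverter h2 hT.torus
  have hcw := hwc c hc
  have hci : c⁻¹ ∈ T := T.inv_mem hc
  set f : T → ℂ := fun c => ((θ c : ℂˣ) : ℂ) with hf
  have key : ∀ x : SL(2, F), extendByZero T f (x⁻¹ * c * x)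
      = (if x ∈ T then f ⟨c, hc⟩ else 0) + (if x * w ∈ T then f ⟨c⁻¹, hci⟩ else 0) := by
    intro x
    by_cases hx : x ∈ T
    · have hxw : x * w ∉ T := fun h => hw (by
        have := T.mul_mem (T.inv_mem hx) h
        simpa using this)
      have e : x⁻¹ * c * x = c := by
        have := hT.torus.comm x hx c hc
        rw [mul_assoc, ← this]
        simp
      rw [if_pos hx, if_neg hxw, e, extendByZero_of_mem _ _ hc, add_zero]
    · by_cases hxw : x * w ∈ T
      · have e : x⁻¹ * c * x = c⁻¹ := by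
          have h3 := hT.torus.comm _ hxw c hc
          have h4 : x = (x * w) * w⁻¹ := by simp
          rw [h4]
          have h5 : ((x * w) * w⁻¹)⁻¹ * c * ((x * w) * w⁻¹) = w * ((x * w)⁻¹ * (c * (x * w))) * w⁻¹ := by
            group
          rw [h5, ← h3, ← hcw, inv_mul_cancel_left]
        rw [if_neg hx, if_pos hxw, e, extendByZero_of_mem _ _ hci, zero_add]
      · have hnot : x⁻¹ * c * x ∉ T := by
          intro hmem
          have htr : tr (x⁻¹ * c * x) = tr c := by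
            have := tr_conj x⁻¹ c
            rwa [inv_inv] at this
          rcases hT.torus.tr_eq _ hmem _ hc htr with h3 | h3
          · apply hx
            apply hT.torus.cent c hc h1 hm
            have h4 : c * x = x * c := by
              have : x * (x⁻¹ * c * x) = x * c := by rw [h3]
              simpa [mul_assoc] using this
            exact h4.symm
          · apply hxw
            apply hT.torus.cent c hc h1 hm
            have h4 : c * x = x * c⁻¹ := by
              have : x * (x⁻¹ * c * x) = x * c⁻¹ := by rw [h3]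
              simpa [mul_assoc] using this
            have h5 : w * c = c⁻¹ * w := by
              rw [← hcw]
              simp
            rw [mul_assoc, h5, ← mul_assoc, ← h4, mul_assoc]
        rw [if_neg hx, if_neg hxw, extendByZero_of_notMem _ _ hnot, add_zero]
  unfold IndT
  rw [indFun_apply, Finset.sum_congr rfl fun x _ => key x, Finset.sum_add_distrib, sum_mem_const]
  have h5 : ∑ x : SL(2, F), (if x * w ∈ T then f ⟨c⁻¹, hci⟩ else 0) = (Nat.card T : ℂ) * f ⟨c⁻¹, hci⟩ := by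
    rw [← sum_mem_const T]
    exact Equiv.sum_comp (Equiv.mulRight w) (fun y => if y ∈ T then f ⟨c⁻¹, hci⟩ else 0)
  rw [h5, hT.card]
  have h6 : f ⟨c⁻¹, hci⟩ = (((θ ⟨c, hc⟩)⁻¹ : ℂˣ) : ℂ) := by
    have : (⟨c⁻¹, hci⟩ : T) = (⟨c, hc⟩ : T)⁻¹ := rfl
    simp only [hf]
    rw [this, map_inv]
  have h7 : f ⟨c, hc⟩ = ((θ ⟨c, hc⟩ : ℂˣ) : ℂ) := rfl
  rw [h6, h7]
  have := q_add_one_ne (F := F)
  push_cast
  field_simp

theorem IndT_eig (hT : NS T) (θ : T →* ℂˣ) {g : SL(2, F)} {a : F} (hg : IsEig g a) (h1 : g ≠ 1)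
    (hm : g ≠ -1) : IndT T θ g = 0 := by
  unfold IndT
  rw [indFun_apply, Finset.sum_eq_zero, mul_zero]
  intro x _
  apply extendByZero_of_notMem
  intro hmem
  refine hT.ell _ hmem ?_ ?_ a ?_
  · intro h
    apply h1
    have : x * (x⁻¹ * g * x) * x⁻¹ = x * 1 * x⁻¹ := by rw [h]
    simpa [mul_assoc] using this
  · intro h
    apply hm
    have : x * (x⁻¹ * g * x) * x⁻¹ = x * (-1) * x⁻¹ := by rw [h]
    simpa [mul_assoc] using this
  · have := isEig_conj hg x⁻¹
    rwa [inv_inv] at this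

section Inner

variable (hT : NS T)

/-- The element `-1` of the torus. -/
def zt (hT : NS T) : T := ⟨-1, hT.torus.neg_one_mem⟩

omit [DecidableEq F] in
theorem conj_unit (θ : T →* ℂˣ) (c : T) : conj ((θ c : ℂˣ) : ℂ) = (((θ c)⁻¹ : ℂˣ) : ℂ) := by
  have h1 : (((θ c : ℂˣ) : ℂ)) ^ (orderOf c) = 1 := by
    rw [← Units.val_pow_eq_pow_val, ← map_pow, pow_orderOf_eq_one]
    simp
  have h3 := Complex.norm_eq_one_of_pow_eq_one h1 (orderOf_pos c).ne'
  rw [Units.val_inv_eq_inv_val, Complex.inv_eq_conj h3]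

omit [DecidableEq F] in
theorem unit_zt_sq (hT : NS T) (θ : T →* ℂˣ) : (θ (zt hT) : ℂ) * (θ (zt hT) : ℂ) = 1 := by
  rw [← Units.val_mul, ← map_mul]
  have : zt hT * zt hT = 1 := by
    apply Subtype.ext
    simp [zt]
  rw [this]
  simp

omit [DecidableEq F] in
theorem unit_zt_inv (hT : NS T) (θ : T →* ℂˣ) : (((θ (zt hT))⁻¹ : ℂˣ) : ℂ) = (θ (zt hT) : ℂ) := by
  have h := unit_zt_sq hT θ
  rw [Units.val_inv_eq_inv_val]
  exact (eq_inv_of_mul_eq_one_left h).symm

omit [DecidableEq F] in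
theorem zt_ne_one (h2 : (2 : F) ≠ 0) (hT : NS T) : zt hT ≠ 1 := by
  intro h
  have h3 := congrArg (fun z : T => (z : SL(2, F)).1 0 0) h
  simp [zt] at h3
  have h4 : (2 : F) = 0 := by linear_combination -h3
  exact h2 h4

omit [DecidableEq F] in
theorem mem_central_iff {c : T} : ((c : SL(2, F)) = 1 ∨ (c : SL(2, F)) = -1) ↔ (c = 1 ∨ c = zt hT) := by
  constructor
  · rintro (h | h)
    · left
      exact Subtype.ext h
    · right
      exact Subtype.ext h
  · rintro (rfl | rfl)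
    · left
      rfl
    · right
      rfl

include hT in
theorem IndT_on_T (h2 : (2 : F) ≠ 0) (θ : T →* ℂˣ) [DecidablePred fun c : T => c = 1 ∨ c = zt hT] (c : T) :
    IndT T θ c = ((θ c : ℂˣ) : ℂ) + (((θ c)⁻¹ : ℂˣ) : ℂ) +
      (if c = 1 ∨ c = zt hT then ((Fintype.card F : ℂ) * ((Fintype.card F : ℂ) - 1) - 2) * ((θ c : ℂˣ) : ℂ) else 0) := by
  by_cases hc : c = 1 ∨ c = zt hT
  · rw [if_pos hc, IndT_central hT θ c.2 ((mem_central_iff hT).2 hc)]
    have e : (⟨(c : SL(2, F)), c.2⟩ : T) = c := rfl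
    rw [e]
    rcases hc with rfl | rfl
    · simp
      ring
    · rw [unit_zt_inv]
      ring
  · rw [if_neg hc, add_zero]
    have hc' := fun h => hc ((mem_central_iff hT).1 h)
    have e : (⟨(c : SL(2, F)), c.2⟩ : T) = c := rfl
    rw [IndT_reg h2 hT θ c.2 (fun h => hc' (Or.inl h)) (fun h => hc' (Or.inr h)), e]

/-- Sums over the torus of a function with support in the centre. -/
theorem sum_central (h2 : (2 : F) ≠ 0) [Fintype T] [DecidablePred fun c : T => c = 1 ∨ c = zt hT] (f : T → ℂ) :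
    ∑ c : T, (if c = 1 ∨ c = zt hT then f c else 0) = f 1 + f (zt hT) := by
  classical
  have h3 : ∀ c : T, (if c = 1 ∨ c = zt hT then f c else 0) =
      (if c = 1 then f 1 else 0) + (if c = zt hT then f (zt hT) else 0) := by
    intro c
    by_cases h4 : c = 1
    · subst h4
      rw [if_pos (Or.inl rfl), if_pos rfl, if_neg (zt_ne_one h2 hT).symm, add_zero]
    · by_cases h5 : c = zt hT
      · subst h5
        rw [if_pos (Or.inr rfl), if_neg h4, if_pos rfl, zero_add]
      · rw [if_neg (by tauto), if_neg h4, if_neg h5, add_zero]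
  simp only [h3, Finset.sum_add_distrib, Finset.sum_ite_eq', Finset.mem_univ, if_true]

omit [DecidableEq F] in
theorem sum_hom_T [Fintype T] (ϑ : T →* ℂˣ) [Decidable (ϑ = 1)] :
    ∑ c : T, ((ϑ c : ℂˣ) : ℂ) = if ϑ = 1 then (Nat.card T : ℂ) else 0 := by
  classical
  have h1 := sum_hom_units ((Units.coeHom ℂ).comp ϑ)
  have h3 : ∑ c : T, ((ϑ c : ℂˣ) : ℂ) = ∑ g : T, ((Units.coeHom ℂ).comp ϑ) g := rfl
  rw [h3, h1, Nat.card_eq_fintype_card]
  by_cases h : ϑ = 1
  · subst h
    simp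
  · have h4 : (Units.coeHom ℂ).comp ϑ ≠ 1 := by
      intro h4
      apply h
      ext c
      have := congrFun (congrArg DFunLike.coe h4) c
      simpa using this
    rw [if_neg h, if_neg h4]
    simp

omit [Fintype F] [DecidableEq F] in
theorem hom_mul_inv_eq_one_iff (θ θ' : T →* ℂˣ) : θ * θ'⁻¹ = 1 ↔ θ = θ' := by
  constructor
  · intro h
    ext c
    have h3 := DFunLike.congr_fun h c
    simp only [MonoidHom.mul_apply, MonoidHom.inv_apply, MonoidHom.one_apply] at h3
    rw [mul_inv_eq_one.1 h3]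
  · rintro rfl
    ext c
    simp

omit [Fintype F] [DecidableEq F] in
theorem hom_mul_eq_one_iff (θ θ' : T →* ℂˣ) : θ * θ' = 1 ↔ θ = θ'⁻¹ := by
  constructor
  · intro h
    ext c
    have h3 := DFunLike.congr_fun h c
    simp only [MonoidHom.mul_apply, MonoidHom.one_apply] at h3
    simp only [MonoidHom.inv_apply]
    rw [eq_inv_of_mul_eq_one_left h3]
  · rintro rfl
    ext c
    simp

/-- The inner product of the characters induced from the torus. -/
theorem IndT_inner (h2 : (2 : F) ≠ 0) (θ θ' : T →* ℂˣ) [Decidable (θ = θ')] [Decidable (θ = θ'⁻¹)] :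
    classInner (IndT T θ) (IndT T θ') = (if θ = θ' then 1 else 0) + (if θ = θ'⁻¹ then 1 else 0) +
      ((Fintype.card F : ℂ) - 2) * (1 + (θ (zt hT) : ℂ) * conj (θ' (zt hT) : ℂ)) := by
  classical
  letI : Fintype T := Fintype.ofFinite _
  unfold IndT
  rw [frobenius_reciprocity _ _ _ (indFun_isClassFunction _ _), Cfsg.Agent.Lib.Char.Induced.classInner_def]
  have h1 : ∀ c : T, ((θ c : ℂˣ) : ℂ) * conj (indFun T (fun c => ((θ' c : ℂˣ) : ℂ)) (c : SL(2, F)))
      = (((θ * θ'⁻¹) c : ℂˣ) : ℂ) + (((θ * θ') c : ℂˣ) : ℂ) +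
       (if c = 1 ∨ c = zt hT then ((Fintype.card F : ℂ) * ((Fintype.card F : ℂ) - 1) - 2) * (((θ * θ'⁻¹) c : ℂˣ) : ℂ) else 0) := by
    intro c
    have h3 := IndT_on_T hT h2 θ' c
    unfold IndT at h3
    rw [h3]
    have e1 : conj (((θ' c)⁻¹ : ℂˣ) : ℂ) = ((θ' c : ℂˣ) : ℂ) := by
      rw [← conj_unit, Complex.conj_conj]
    simp only [map_add, e1, conj_unit, MonoidHom.mul_apply, MonoidHom.inv_apply, Units.val_mul]
    by_cases hc : c = 1 ∨ c = zt hT
    · rw [if_pos hc, if_pos hc]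
      simp only [map_mul, map_sub, Complex.conj_natCast, map_one, map_ofNat, conj_unit]
      ring
    · rw [if_neg hc, if_neg hc]
      simp only [map_zero]
      ring
  rw [Finset.sum_congr rfl fun c _ => h1 c, Finset.sum_add_distrib, Finset.sum_add_distrib,
    sum_central hT h2]
  have s1 : ∑ c : T, (((θ * θ'⁻¹) c : ℂˣ) : ℂ) = if θ = θ' then (Nat.card T : ℂ) else 0 := by
    rw [sum_hom_T]
    by_cases h : θ = θ'
    · rw [if_pos h, if_pos ((hom_mul_inv_eq_one_iff θ θ').2 h)]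
    · rw [if_neg h, if_neg (fun h3 => h ((hom_mul_inv_eq_one_iff θ θ').1 h3))]
  have s2 : ∑ c : T, (((θ * θ') c : ℂˣ) : ℂ) = if θ = θ'⁻¹ then (Nat.card T : ℂ) else 0 := by
    rw [sum_hom_T]
    by_cases h : θ = θ'⁻¹
    · rw [if_pos h, if_pos ((hom_mul_eq_one_iff θ θ').2 h)]
    · rw [if_neg h, if_neg (fun h3 => h ((hom_mul_eq_one_iff θ θ').1 h3))]
  have e1 : (((θ * θ'⁻¹) 1 : ℂˣ) : ℂ) = 1 := by simp
  have e2 : (((θ * θ'⁻¹) (zt hT) : ℂˣ) : ℂ) = (θ (zt hT) : ℂ) * conj (θ' (zt hT) : ℂ) := by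
    rw [conj_unit]
    simp
  rw [s1, s2, hT.card, e1, e2]
  have hq := q_add_one_ne (F := F)
  have hq' : ((Fintype.card F + 1 : ℕ) : ℂ) ≠ 0 := by
    push_cast
    exact hq
  field_simp
  push_cast
  split_ifs <;> ring

include hT in
theorem tr_sq_ne_of_mem (h2 : (2 : F) ≠ 0) {c : SL(2, F)} (hc : c ∈ T) (h1 : c ≠ 1) (hm : c ≠ -1) :
    tr c ^ 2 ≠ 4 := fun ht => hT.ell c hc h1 hm _ (isEig_half h2 ht)

/-- The inner product of the induced character and `W`. -/
theorem IndT_W_inner (h2 : (2 : F) ≠ 0) (θ : T →* ℂˣ) (γ' : MulChar F ℂ) :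
    classInner (IndT T θ) (W γ') = ((Fintype.card F : ℂ) - 1) * (1 + (θ (zt hT) : ℂ) * conj (γ' (-1))) := by
  classical
  letI : Fintype T := Fintype.ofFinite _
  unfold IndT
  rw [frobenius_reciprocity _ _ _ (W_class γ'), Cfsg.Agent.Lib.Char.Induced.classInner_def]
  have h1 : ∀ c : T, ((θ c : ℂˣ) : ℂ) * conj (W γ' (c : SL(2, F)))
      = (if c = 1 ∨ c = zt hT then ((θ c : ℂˣ) : ℂ) * conj (W γ' (c : SL(2, F))) else 0) := by
    intro c
    by_cases hc : c = 1 ∨ c = zt hT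
    · rw [if_pos hc]
    · rw [if_neg hc]
      have hc' := fun h => hc ((mem_central_iff hT).1 h)
      rw [W_reg γ' (tr_sq_ne_of_mem hT h2 c.2 (fun h => hc' (Or.inl h)) (fun h => hc' (Or.inr h)))]
      simp
  rw [Finset.sum_congr rfl fun c _ => h1 c, sum_central hT h2 (fun c => ((θ c : ℂˣ) : ℂ) * conj (W γ' (c : SL(2, F))))]
  have e1 : ((1 : T) : SL(2, F)) = 1 := rfl
  have e2 : ((zt hT : T) : SL(2, F)) = -1 := rfl
  rw [e1, e2, W_one, W_neg_one, hT.card]
  have hq := q_add_one_ne (F := F)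
  have hq' : ((Fintype.card F + 1 : ℕ) : ℂ) ≠ 0 := by
    push_cast
    exact hq
  simp only [map_one, Units.val_one, one_mul, map_mul, map_sub, map_pow, Complex.conj_natCast]
  field_simp
  push_cast
  ring

/-- The virtual character attached to `θ`. -/
noncomputable def RR (T : Subgroup SL(2, F)) (θ : T →* ℂˣ) (γ : MulChar F ℂ) : SL(2, F) → ℂ :=
  W γ - IndT T θ

omit [Fintype F] [DecidableEq F] in
theorem conj_val {t : ℂ} (h : conj t * t = 1) : conj t = t⁻¹ := by
  exact eq_inv_of_mul_eq_one_left h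

/-- The orthogonality relations. -/
theorem RR_inner (h2 : ringChar F ≠ 2) (θ θ' : T →* ℂˣ) (γ γ' : MulChar F ℂ)
    (hγ : γ (-1) = (θ (zt hT) : ℂ)) (hγ' : γ' (-1) = (θ' (zt hT) : ℂ))
    [Decidable (θ = θ')] [Decidable (θ = θ'⁻¹)] :
    classInner (RR T θ γ) (RR T θ' γ') = (if θ = θ' then 1 else 0) + (if θ = θ'⁻¹ then 1 else 0) := by
  have h20 : (2 : F) ≠ 0 := Ring.two_ne_zero h2
  unfold RR
  rw [classInner_sub_left, classInner_sub_right, classInner_sub_right, W_inner h2, IndT_inner hT h20,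
    IndT_W_inner hT h20, ← classInner_conj_symm (IndT T θ') (W γ), IndT_W_inner hT h20, hγ, hγ']
  simp only [map_mul, map_sub, map_add, map_one, Complex.conj_natCast, Complex.conj_conj]
  ring

end Inner

section Values

variable (hT : NS T)

theorem isCharacter_IndT (θ : T →* ℂˣ) : IsCharacter (SL(2, F)) (IndT T θ) := by
  classical
  exact Cfsg.Agent.Lib.Char.IndRep.isCharacter_indFun _
    (isCharacter_of_isIrrCharacter (Cfsg.Agent.Lib.Char.LinearChars.isIrr_of_hom θ))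

theorem isGen_RR (θ : T →* ℂˣ) (γ : MulChar F ℂ) : IsGeneralizedCharacter (SL(2, F)) (RR T θ γ) := by
  have hS : IsCharacter (SL(2, F)) (StS : SL(2, F) → ℂ) := isCharacter_of_isIrrCharacter isIrr_StS
  have hI : IsCharacter (SL(2, F)) (indFun (BorS F) (chiS γ)) := isCharacter_indS γ
  refine ⟨_, _, isCharacter_mul hS hI, isCharacter_add hI (isCharacter_IndT θ), ?_⟩
  funext g
  simp only [RR, W_def, Pi.sub_apply, Pi.mul_apply, Pi.add_apply]
  ring

theorem RR_class (θ : T →* ℂˣ) (γ : MulChar F ℂ) : IsClassFunction _ (RR T θ γ) := by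
  intro g h
  simp only [RR, Pi.sub_apply]
  rw [W_class γ g h]
  unfold IndT
  rw [indFun_isClassFunction]

include hT in
theorem RR_one (θ : T →* ℂˣ) (γ : MulChar F ℂ) : RR T θ γ 1 = (Fintype.card F : ℂ) - 1 := by
  simp only [RR, Pi.sub_apply]
  rw [W_one, IndT_central hT θ T.one_mem (Or.inl rfl)]
  have e : (⟨1, T.one_mem⟩ : T) = 1 := rfl
  rw [e]
  simp
  ring

theorem RR_neg_one (θ : T →* ℂˣ) (γ : MulChar F ℂ) (hγ : γ (-1) = (θ (zt hT) : ℂ)) :
    RR T θ γ (-1) = ((Fintype.card F : ℂ) - 1) * (θ (zt hT) : ℂ) := by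
  simp only [RR, Pi.sub_apply]
  rw [W_neg_one, IndT_central hT θ hT.torus.neg_one_mem (Or.inr rfl), hγ]
  have e : (⟨-1, hT.torus.neg_one_mem⟩ : T) = zt hT := rfl
  rw [e]
  ring

include hT in
theorem RR_reg (h2 : (2 : F) ≠ 0) (θ : T →* ℂˣ) (γ : MulChar F ℂ) {c : SL(2, F)} (hc : c ∈ T) (h1 : c ≠ 1)
    (hm : c ≠ -1) : RR T θ γ c = -(((θ ⟨c, hc⟩ : ℂˣ) : ℂ) + (((θ ⟨c, hc⟩)⁻¹ : ℂˣ) : ℂ)) := by
  simp only [RR, Pi.sub_apply]
  rw [W_reg γ (tr_sq_ne_of_mem hT h2 hc h1 hm), IndT_reg h2 hT θ hc h1 hm]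
  ring

include hT in
theorem RR_eig (θ : T →* ℂˣ) (γ : MulChar F ℂ) {g : SL(2, F)} {a : F} (hg : IsEig g a) (h1 : g ≠ 1)
    (hm : g ≠ -1) (ht : tr g ^ 2 ≠ 4) : RR T θ γ g = 0 := by
  simp only [RR, Pi.sub_apply]
  rw [W_reg γ ht, IndT_eig hT θ hg h1 hm]
  ring

omit [DecidableEq F] in
theorem isEig_x (b : F) : IsEig (x b) 1 := by
  unfold IsEig
  rw [tr_x]
  ring

omit [DecidableEq F] in
theorem isEig_neg_x (b : F) : IsEig (-x b) (-1) := by
  unfold IsEig
  rw [tr_neg, tr_x]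
  ring

omit [DecidableEq F] in
theorem x_ne_one {b : F} (hb : b ≠ 0) : x b ≠ 1 := by
  intro h
  have h3 := congrArg (fun M : SL(2, F) => M.1 0 1) h
  simp at h3
  exact hb h3

omit [DecidableEq F] in
theorem x_ne_neg_one {b : F} (hb : b ≠ 0) : x b ≠ -1 := by
  intro h
  have h3 := congrArg (fun M : SL(2, F) => M.1 0 1) h
  simp at h3
  exact hb h3

include hT in
theorem RR_x (θ : T →* ℂˣ) (γ : MulChar F ℂ) {b : F} (hb : b ≠ 0) : RR T θ γ (x b) = -1 := by
  simp only [RR, Pi.sub_apply]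
  rw [W_x γ hb, IndT_eig hT θ (isEig_x b) (x_ne_one hb) (x_ne_neg_one hb)]
  ring

include hT in
theorem RR_neg_x (θ : T →* ℂˣ) (γ : MulChar F ℂ) {b : F} (hb : b ≠ 0) : RR T θ γ (-x b) = -γ (-1) := by
  have h1 : -x b ≠ 1 := by
    intro h
    apply x_ne_neg_one hb
    rw [← h, neg_neg]
  have h3 : -x b ≠ -1 := by
    intro h
    exact x_ne_one hb (neg_injective h)
  simp only [RR, Pi.sub_apply]
  rw [W_neg_x γ hb, IndT_eig hT θ (isEig_neg_x b) h1 h3]
  ring

/-- Existence of an auxiliary multiplicative character. -/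
theorem exists_gam (h2 : (2 : F) ≠ 0) (θ : T →* ℂˣ) : ∃ γ : MulChar F ℂ, γ (-1) = (θ (zt hT) : ℂ) := by
  have h3 := unit_zt_sq hT θ
  have h4 : ((θ (zt hT) : ℂ) - 1) * ((θ (zt hT) : ℂ) + 1) = 0 := by linear_combination h3
  rcases mul_eq_zero.1 h4 with h5 | h5
  · refine ⟨1, ?_⟩
    rw [MulChar.one_apply (isUnit_iff_ne_zero.2 (neg_ne_zero.2 one_ne_zero))]
    linear_combination -h5
  · have hne : (-1 : Fˣ) ≠ 1 := by
      intro h
      have h6 := congrArg Units.val h
      simp only [Units.val_neg, Units.val_one] at h6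
      apply h2
      linear_combination -h6
    obtain ⟨α, hα⟩ := exists_mulChar_ne_one (F := F) (-1) hne
    refine ⟨α, ?_⟩
    have hα' : α (-1) ≠ 1 := by simpa using hα
    have h6 := norm_mulChar_neg_one α
    have h7 : (α (-1) - 1) * (α (-1) + 1) = 0 := by linear_combination h6
    have h8 := (mul_eq_zero.1 h7).resolve_left (sub_ne_zero.2 hα')
    linear_combination h8 - h5

include hT in
/-- The irreducibility of the cuspidal characters. -/
theorem isIrr_RR (h2 : ringChar F ≠ 2) (θ : T →* ℂˣ) (hθ : θ ≠ θ⁻¹) (γ : MulChar F ℂ)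
    (hγ : γ (-1) = (θ (zt hT) : ℂ)) : IsIrrCharacter (SL(2, F)) (RR T θ γ) := by
  classical
  have h1 := RR_inner hT h2 θ θ γ γ hγ hγ
  rw [if_pos rfl, if_neg hθ, add_zero] at h1
  rcases Cfsg.Agent.Lib.Char.Virtual.isSignedIrr_of_norm_one (isGen_RR θ γ) h1 with h | h
  · exact h
  · exfalso
    obtain ⟨n, hn, hn'⟩ := irr_degree_pos h
    have h3 : (-RR T θ γ) 1 = 1 - (Fintype.card F : ℂ) := by
      simp only [Pi.neg_apply]
      rw [RR_one hT]
      ring
    rw [h3] at hn'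
    have hq : 1 < Fintype.card F := Fintype.one_lt_card
    have h4 : ((n + Fintype.card F : ℕ) : ℂ) = ((1 : ℕ) : ℂ) := by
      push_cast
      linear_combination -hn'
    have h5 : n + Fintype.card F = 1 := by exact_mod_cast h4
    omega

end Values

section Cyclic

omit [DecidableEq F] in
/-- An element of order `q + 1` has no eigenvalue. -/
theorem no_eig_of_order {g : SL(2, F)} (hord : orderOf g = Fintype.card F + 1) : ∀ a, ¬ IsEig g a := by
  have hq : 1 < Fintype.card F := Fintype.one_lt_card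
  rcases trichotomy g with ⟨a, ha, k, -, hk⟩ | ⟨k, t, hk⟩ | hno
  · exfalso
    have h1 := Cfsg.Agent.Lib.PSL2.Orders.pow_eq_one_of_conj hk (d_pow_card_sub_one a ha)
    have h3 := orderOf_dvd_of_pow_eq_one h1
    rw [hord] at h3
    have := Nat.le_of_dvd (by omega) h3
    omega
  · exfalso
    obtain ⟨p, hchar⟩ := CharP.exists F
    have hp : p.Prime := (CharP.char_is_prime_or_zero F p).resolve_right
      (fun h => by subst h; exact CharP.ringChar_ne_zero_of_finite F (ringChar.eq F 0))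
    haveI : Fact p.Prime := ⟨hp⟩
    have h1 : g ^ (2 * p) = 1 := by
      rcases hk with hk | hk
      · have h3 := Cfsg.Agent.Lib.PSL2.Orders.pow_eq_one_of_conj hk (x_pow_char p t)
        rw [mul_comm, pow_mul, h3, one_pow]
      · have h4 : (-x t) ^ (2 * p) = 1 := by
          rw [pow_mul, neg_sq, ← pow_mul, mul_comm, pow_mul, x_pow_char p t, one_pow]
        exact Cfsg.Agent.Lib.PSL2.Orders.pow_eq_one_of_conj hk h4
    have h3 := orderOf_dvd_of_pow_eq_one h1
    rw [hord] at h3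
    have hpq : p ∣ Fintype.card F := by
      have := FiniteField.cast_card_eq_zero F
      exact (CharP.cast_eq_zero_iff F p _).1 this
    have hcop : Nat.Coprime (Fintype.card F + 1) p := by
      rw [Nat.coprime_comm, hp.coprime_iff_not_dvd]
      intro h5
      have h6 := (Nat.dvd_add_right hpq).1 h5
      exact hp.one_lt.ne' (Nat.dvd_one.1 h6)
    have h5 := hcop.dvd_of_dvd_mul_right h3
    have := Nat.le_of_dvd (by omega) h5
    omega
  · exact hno

theorem NS_of_cyclic (C : Subgroup SL(2, F)) (hC : IsCyclic C) (hcard : Nat.card C = Fintype.card F + 1) :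
    NS C := by
  obtain ⟨g₀, hg₀⟩ := hC.exists_generator
  have hord : orderOf (g₀ : SL(2, F)) = Fintype.card F + 1 := by
    rw [Subgroup.orderOf_coe, orderOf_eq_card_of_forall_mem_zpowers hg₀, hcard]
  have hno := no_eig_of_order hord
  obtain ⟨T₀, hT₀, hcyc, hc₀, hell, hconj⟩ := Cfsg.Agent.Lib.PSL2.Nonsplit.exists_nonsplit F
  obtain ⟨h, hh⟩ := hconj _ hno
  have hmem : ∀ y ∈ C, h * y * h⁻¹ ∈ T₀ := by
    intro y hy
    obtain ⟨k, hk⟩ := hg₀ ⟨y, hy⟩
    have hy' : y = (g₀ : SL(2, F)) ^ k := by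
      have := congrArg Subtype.val hk
      simpa using this.symm
    have e : h * y * h⁻¹ = (h * (g₀ : SL(2, F)) * h⁻¹) ^ k := by
      rw [hy', conj_zpow]
    rw [e]
    exact T₀.zpow_mem hh k
  have hC' : C = T₀.map (MulAut.conj h⁻¹).toMonoidHom := by
    apply Subgroup.eq_of_le_of_card_ge
    · intro y hy
      refine ⟨h * y * h⁻¹, hmem y hy, ?_⟩
      simp [MulAut.conj_apply]
      group
    · have hinj : Function.Injective (MulAut.conj h⁻¹).toMonoidHom := (MulAut.conj h⁻¹).injective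
      rw [hcard, Subgroup.card_map_of_injective hinj, hc₀]
  refine ⟨?_, hcard, ?_⟩
  · rw [hC']
    exact Cfsg.Agent.Lib.PSL2.TorusSylow.IsTorus.conj hT₀ h⁻¹
  · intro y hy h1 hm a ha
    refine hell _ (hmem y hy) ?_ ?_ a (isEig_conj ha h)
    · intro h3
      apply h1
      have : h⁻¹ * (h * y * h⁻¹) * h = h⁻¹ * 1 * h := by rw [h3]
      simpa [mul_assoc] using this
    · intro h3
      apply hm
      have : h⁻¹ * (h * y * h⁻¹) * h = h⁻¹ * (-1) * h := by rw [h3]
      simpa [mul_assoc] using this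

end Cyclic

section Count

variable (hT : NS T)

include hT in
theorem card_hom [hcyc : IsCyclic T] : Nat.card (T →* ℂˣ) = Fintype.card F + 1 := by
  letI : CommGroup T := IsCyclic.commGroup
  have := CommGroup.card_monoidHom_of_hasEnoughRootsOfUnity T ℂ
  rw [hT.card] at this
  exact this

omit [Fintype F] [DecidableEq F] in
theorem hom_eq_of_gen [Finite T] {g₀ : T} (hg₀ : ∀ x, x ∈ Subgroup.zpowers g₀) {θ θ' : T →* ℂˣ}
    (h : θ g₀ = θ' g₀) : θ = θ' := by
  ext c
  obtain ⟨k, rfl⟩ := hg₀ c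
  simp [map_zpow, h]

include hT in
/-- There are at least `q - 1` homomorphisms with `θ ≠ θ⁻¹`. -/
theorem card_D_ge [hcyc : IsCyclic T] [Fintype (T →* ℂˣ)] [DecidablePred fun θ : T →* ℂˣ => θ ≠ θ⁻¹] :
    Fintype.card F - 1 ≤ (Finset.univ.filter fun θ : T →* ℂˣ => θ ≠ θ⁻¹).card := by
  classical
  have h1 := card_hom hT
  rw [Nat.card_eq_fintype_card] at h1
  have h3 := Finset.card_filter_add_card_filter_not (s := (Finset.univ : Finset (T →* ℂˣ))) (fun θ : T →* ℂˣ => θ ≠ θ⁻¹)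
  rw [Finset.card_univ, h1] at h3
  obtain ⟨g₀, hg₀⟩ := hcyc.exists_generator
  have h4 : (Finset.univ.filter fun θ : T →* ℂˣ => ¬ θ ≠ θ⁻¹).card ≤ ({1, -1} : Finset ℂ).card := by
    refine Finset.card_le_card_of_injOn (fun θ => ((θ g₀ : ℂˣ) : ℂ)) ?_ ?_
    · intro θ hθ
      simp only [Finset.coe_filter, Finset.mem_univ, true_and, Set.mem_ofPred_eq, not_not] at hθ
      have h5 : ((θ g₀ : ℂˣ) : ℂ) * ((θ g₀ : ℂˣ) : ℂ) = 1 := by
        have h6 := DFunLike.congr_fun hθ g₀
        simp only [MonoidHom.inv_apply] at h6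
        rw [← Units.val_mul]
        nth_rw 1 [h6]
        simp
      have h7 : (((θ g₀ : ℂˣ) : ℂ) - 1) * (((θ g₀ : ℂˣ) : ℂ) + 1) = 0 := by linear_combination h5
      simp only [Finset.coe_insert, Finset.coe_singleton, Set.mem_insert_iff, Set.mem_singleton_iff]
      rcases mul_eq_zero.1 h7 with h8 | h8
      · left
        linear_combination h8
      · right
        linear_combination h8
    · intro θ _ θ' _ h
      apply hom_eq_of_gen hg₀
      exact Units.ext h
  have h5 : ({1, -1} : Finset ℂ).card ≤ 2 := Finset.card_le_two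
  omega

/-- Every irreducible character of degree `q - 1` is attached to some `θ`, if `q ≥ 5`. -/
theorem exists_RR_of_deg [hcyc : IsCyclic T] (h2 : ringChar F ≠ 2) (hq : 5 ≤ Fintype.card F)
    {χ : SL(2, F) → ℂ} (hχ : IsIrrCharacter _ χ) (hd : χ 1 = (Fintype.card F : ℂ) - 1) :
    ∃ (θ : T →* ℂˣ) (γ : MulChar F ℂ), θ ≠ θ⁻¹ ∧ γ (-1) = (θ (zt hT) : ℂ) ∧ χ = RR T θ γ := by
  classical
  have h20 : (2 : F) ≠ 0 := Ring.two_ne_zero h2
  have hodd := FiniteField.odd_card_of_char_ne_two h2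
  by_contra hcon
  push Not at hcon
  have hfin : Finite (T →* ℂˣ) := Nat.finite_of_card_ne_zero (by rw [card_hom hT]; omega)
  letI : Fintype (T →* ℂˣ) := Fintype.ofFinite _
  choose gam hgam using (fun θ : T →* ℂˣ => exists_gam hT h20 θ)
  let X := {χ : IrrCharacter (SL(2, F)) // χ.1 1 = ((Fintype.card F - 1 : ℕ) : ℂ)}
  letI : Fintype X := Fintype.ofFinite _
  have hXc : Fintype.card X = (Fintype.card F - 1) / 2 := by
    rw [← Nat.card_eq_fintype_card]
    exact (Cfsg.Agent.Lib.Char.SL2Count.odd_counts h2 hq).2.1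
  have hcast : ((Fintype.card F - 1 : ℕ) : ℂ) = (Fintype.card F : ℂ) - 1 := by
    rw [Nat.cast_sub (by omega)]
    simp
  let D := Finset.univ.filter fun θ : T →* ℂˣ => θ ≠ θ⁻¹
  let f : (T →* ℂˣ) → (SL(2, F) → ℂ) := fun θ => RR T θ (gam θ)
  let t : Finset (SL(2, F) → ℂ) := (Finset.univ.image fun x : X => x.1.1).erase χ
  have hχX : χ ∈ (Finset.univ.image fun x : X => x.1.1) := by
    refine Finset.mem_image.2 ⟨⟨⟨χ, hχ⟩, ?_⟩, Finset.mem_univ _, rfl⟩
    show χ 1 = _
    rw [hd, hcast]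
  have htc : t.card + 1 ≤ (Fintype.card F - 1) / 2 := by
    have h3 : (Finset.univ.image fun x : X => x.1.1).card ≤ Fintype.card X := Finset.card_image_le
    have h4 := Finset.card_erase_of_mem hχX
    have h5 : 0 < (Finset.univ.image fun x : X => x.1.1).card := Finset.card_pos.2 ⟨χ, hχX⟩
    rw [hXc] at h3
    show ((Finset.univ.image fun x : X => x.1.1).erase χ).card + 1 ≤ _
    omega
  have hmaps : ∀ θ ∈ D, f θ ∈ t := by
    intro θ hθ
    have hθ' : θ ≠ θ⁻¹ := (Finset.mem_filter.1 hθ).2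
    refine Finset.mem_erase.2 ⟨fun h => hcon θ (gam θ) hθ' (hgam θ) h.symm, Finset.mem_image.2 ?_⟩
    refine ⟨⟨⟨f θ, isIrr_RR hT h2 θ hθ' (gam θ) (hgam θ)⟩, ?_⟩, Finset.mem_univ _, rfl⟩
    show RR T θ (gam θ) 1 = _
    rw [RR_one hT, hcast]
  have hfib : ∀ b ∈ t, (D.filter fun θ => f θ = b).card ≤ 2 := by
    intro b _
    by_cases hb : (D.filter fun θ => f θ = b).Nonempty
    · obtain ⟨θ₁, hθ₁⟩ := hb
      have hθ₁' := Finset.mem_filter.1 hθ₁
      have hsub : (D.filter fun θ => f θ = b) ⊆ {θ₁, θ₁⁻¹} := by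
        intro θ hθ
        have hθ' := Finset.mem_filter.1 hθ
        have e : f θ = f θ₁ := hθ'.2.trans hθ₁'.2.symm
        have h3 := RR_inner hT h2 θ θ₁ (gam θ) (gam θ₁) (hgam θ) (hgam θ₁)
        have h4 := RR_inner hT h2 θ₁ θ₁ (gam θ₁) (gam θ₁) (hgam θ₁) (hgam θ₁)
        have hne : θ₁ ≠ θ₁⁻¹ := (Finset.mem_filter.1 hθ₁'.1).2
        rw [if_pos rfl, if_neg hne, add_zero] at h4
        have e' : RR T θ (gam θ) = RR T θ₁ (gam θ₁) := e
        rw [e', h4] at h3
        simp only [Finset.mem_insert, Finset.mem_singleton]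
        by_cases h5 : θ = θ₁
        · exact Or.inl h5
        · by_cases h6 : θ = θ₁⁻¹
          · exact Or.inr h6
          · rw [if_neg h5, if_neg h6] at h3
            norm_num at h3
      exact (Finset.card_le_card hsub).trans Finset.card_le_two
    · rw [Finset.not_nonempty_iff_eq_empty] at hb
      rw [hb]
      simp
  have h1 := Finset.card_le_mul_card_image_of_maps_to hmaps 2 hfib
  have h3 := card_D_ge hT
  change Fintype.card F - 1 ≤ D.card at h3
  omega

end Count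

section Assembled

variable (hT : NS T)

omit [Fintype F] [DecidableEq F] in
theorem ne_inv_iff (θ : T →* ℂˣ) : θ ≠ θ⁻¹ ↔ ∃ c : T, θ c ^ 2 ≠ 1 := by
  constructor
  · intro h
    by_contra hcon
    push Not at hcon
    apply h
    refine MonoidHom.ext fun c => ?_
    simp only [MonoidHom.inv_apply]
    have h3 := hcon c
    rw [eq_inv_iff_mul_eq_one, ← sq, h3]
  · rintro ⟨c, hc⟩ h
    apply hc
    have h3 := DFunLike.congr_fun h c
    simp only [MonoidHom.inv_apply] at h3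
    rw [sq]
    nth_rw 1 [h3]
    simp

theorem RR_central (θ : T →* ℂˣ) (γ : MulChar F ℂ) (hγ : γ (-1) = (θ (zt hT) : ℂ)) (c : T)
    (hc : (c : SL(2, F)) = 1 ∨ (c : SL(2, F)) = -1) :
    RR T θ γ c = ((Fintype.card F : ℂ) - 1) * ((θ c : ℂˣ) : ℂ) := by
  rcases (mem_central_iff hT).1 hc with rfl | rfl
  · have e : ((1 : T) : SL(2, F)) = 1 := rfl
    rw [e, RR_one hT]
    simp
  · have e : ((zt hT : T) : SL(2, F)) = -1 := rfl
    rw [e, RR_neg_one hT θ γ hγ]

omit [DecidableEq F] in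
theorem q_sub_one_ne' (hq : 1 < Fintype.card F) : (Fintype.card F : ℂ) - 1 ≠ 0 := by
  intro h
  have h3 : ((Fintype.card F : ℕ) : ℂ) = ((1 : ℕ) : ℂ) := by
    push_cast
    linear_combination h
  have h4 : Fintype.card F = 1 := by exact_mod_cast h3
  omega

theorem RR_mul_central (θ : T →* ℂˣ) (γ : MulChar F ℂ) (hγ : γ (-1) = (θ (zt hT) : ℂ))
    (hirr : IsIrrCharacter (SL(2, F)) (RR T θ γ)) (c : T)
    (hc : (c : SL(2, F)) = 1 ∨ (c : SL(2, F)) = -1) (g : SL(2, F)) :
    RR T θ γ ((c : SL(2, F)) * g) = ((θ c : ℂˣ) : ℂ) * RR T θ γ g := by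
  have hz : ∀ k : SL(2, F), k * (c : SL(2, F)) = (c : SL(2, F)) * k := by
    rcases hc with h | h <;> rw [h] <;> simp
  have h3 := central_mul hirr (c : SL(2, F)) hz g
  rw [RR_central hT θ γ hγ c hc, RR_one hT] at h3
  have h4 := q_sub_one_ne' (F := F) Fintype.one_lt_card
  apply mul_right_cancel₀ h4
  linear_combination h3

include hT in
theorem RR_diag (θ : T →* ℂˣ) (γ : MulChar F ℂ) {g : SL(2, F)} (h01 : g.1 0 1 = 0)
    (hsq : g.1 0 0 ^ 2 ≠ 1) : RR T θ γ g = 0 := by
  have hd := det_entries g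
  rw [h01, zero_mul, sub_zero] at hd
  have hEig : IsEig g (g.1 0 0) := by
    unfold IsEig tr
    linear_combination -hd
  refine RR_eig hT θ γ hEig ?_ ?_ (tr_sq_ne_of_diag h01 hsq)
  · rintro rfl
    simp at hsq
  · rintro rfl
    simp at hsq

include hT in
theorem RR_unip (θ : T →* ℂˣ) (γ : MulChar F ℂ) {g : SL(2, F)} (h10 : g.1 1 0 = 0) (h00 : g.1 0 0 = 1)
    (h11 : g.1 1 1 = 1) (h01 : g.1 0 1 ≠ 0) : RR T θ γ g = -1 := by
  have e : g = x (g.1 0 1) := by
    apply Cfsg.Agent.Lib.PSL2.Basic.ext2 <;> simp [h10, h00, h11]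
  rw [e]
  exact RR_x hT θ γ (by simpa using h01)

end Assembled

end Cfsg.Agent.Lib.Char.SL2Cusp
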