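import Mathlib
import Cfsg.Prelude.Def_DegreeGraph
import Cfsg.Agent.Lib.Char.SL2Count
import Cfsg.Agent.Lib.Char.SL2Cusp
import Cfsg.Agent.Lib.Char.QuotRep

/-!
# The degree sets of `SL₂(q)` and `PSL₂(q)`
-/

set_option autoImplicit false

namespace Cfsg.Agent.Lib.Char.SL2Degrees

open Cfsg Cfsg.Agent.Lib.Char.Basic
open Cfsg.Agent.Lib.Char.Codegree Cfsg.Agent.Lib.Char.QuotRep
open Cfsg.Agent.Lib.Char.Induced
open Cfsg.Agent.Lib.Char.GL2Principal Cfsg.Agent.Lib.Char.GL2Values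
open Cfsg.Agent.Lib.Char.SL2Principal Cfsg.Agent.Lib.Char.SL2Split
open Cfsg.Agent.Lib.Char.SL2Irr Cfsg.Agent.Lib.Char.SL2Count Cfsg.Agent.Lib.Char.SL2Cusp
open Matrix.SpecialLinearGroup (toGL)
open scoped MatrixGroups Matrix.SpecialLinearGroup

theorem degree_eq {G : Type*} [Group G] {χ : G → ℂ} (hχ : IsIrrCharacter G χ) :
    χ 1 = (charDegree χ : ℂ) := by
  obtain ⟨n, ρ, hρ, rfl⟩ := hχ
  have hdeg : charDegree ρ.character = n := by
    unfold charDegree
    rw [Representation.char_one]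
    simp
  rw [hdeg, Representation.char_one]
  simp

theorem charDegree_of_val {G : Type*} [Group G] {χ : G → ℂ} {d : ℕ} (hd : χ 1 = (d : ℂ)) :
    charDegree χ = d := by
  unfold charDegree
  rw [hd]
  simp

theorem mem_charDegrees {G : Type*} [Group G] {χ : G → ℂ} (hχ : IsIrrCharacter G χ) {d : ℕ}
    (hd : χ 1 = (d : ℂ)) : d ∈ charDegrees G :=
  ⟨⟨χ, hχ⟩, charDegree_of_val hd⟩

theorem charDegrees_le_of_equiv {S T : Type*} [Group S] [Group T] (e : S ≃* T) :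
    charDegrees T ⊆ charDegrees S := by
  rintro d ⟨χ, rfl⟩
  have h1 : IsIrrCharacter S (fun s => (χ : T → ℂ) (e s)) :=
    isIrrCharacter_comp_surjective χ.2 e.toMonoidHom e.surjective
  refine ⟨⟨_, h1⟩, ?_⟩
  unfold charDegree
  simp

theorem charDegrees_congr {S T : Type*} [Group S] [Group T] (e : S ≃* T) :
    charDegrees S = charDegrees T :=
  Set.Subset.antisymm (charDegrees_le_of_equiv e.symm) (charDegrees_le_of_equiv e)

variable {F : Type*} [Field F] [Fintype F] [DecidableEq F]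

/-- The degrees of the irreducible characters of `SL₂`. -/
theorem deg_list (d : ℕ) (hd : d ∈ charDegrees (SL(2, F))) :
    d = 1 ∨ d = Fintype.card F ∨ d = Fintype.card F + 1 ∨ 2 * d = Fintype.card F + 1 ∨
      d + 1 = Fintype.card F ∨ 2 * d + 1 = Fintype.card F := by
  obtain ⟨χ, rfl⟩ := hd
  exact deg_cases χ.2 (degree_eq χ.2)

theorem q_mem : Fintype.card F ∈ charDegrees (SL(2, F)) :=
  mem_charDegrees isIrr_StS StS_one

/-- A character of `SL₂` trivial on `-1` descends to `PSL₂`. -/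
theorem exists_psl {χ : SL(2, F) → ℂ} (hχ : IsIrrCharacter (SL(2, F)) χ) (h : χ (-1) = χ 1) :
    ∃ χ' : IrrCharacter (PSL(2, F)), (χ' : PSL(2, F) → ℂ) 1 = χ 1 := by
  obtain ⟨n, ρ, hρ, rfl⟩ := hχ
  let N := Subgroup.center SL(2, F)
  have hN : ∀ g ∈ N, ρ g = 1 := by
    intro g hg
    have h3 := (Cfsg.Agent.Lib.PSL2.Basic.mem_center_iff₂).1 hg
    have h4 : g ∈ repKer ρ := by
      rw [← character_eq_one_iff]
      rcases h3 with rfl | rfl
      · rfl
      · exact h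
    exact h4
  have hχ₀ : IsIrrCharacter (PSL(2, F)) (quotRep ρ N hN).character :=
    ⟨n, quotRep ρ N hN, quotRep_isIrreducible ρ N hN, rfl⟩
  refine ⟨⟨_, hχ₀⟩, ?_⟩
  exact quotRep_character ρ N hN 1

/-- The degrees of `PSL₂` are among those of `SL₂`. -/
theorem psl_subset : charDegrees (PSL(2, F)) ⊆ charDegrees (SL(2, F)) := by
  rintro d ⟨χ, rfl⟩
  let π : SL(2, F) →* PSL(2, F) := QuotientGroup.mk' _
  have hπ : Function.Surjective π := QuotientGroup.mk'_surjective _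
  have h1 : IsIrrCharacter SL(2, F) (fun s => χ.1 (π s)) := isIrrCharacter_comp_surjective χ.2 π hπ
  refine ⟨⟨_, h1⟩, ?_⟩
  unfold charDegree
  simp

theorem mem_psl {χ : SL(2, F) → ℂ} (hχ : IsIrrCharacter (SL(2, F)) χ) (h : χ (-1) = χ 1) {d : ℕ}
    (hd : χ 1 = (d : ℂ)) : d ∈ charDegrees (PSL(2, F)) := by
  obtain ⟨χ', h'⟩ := exists_psl hχ h
  exact ⟨χ', charDegree_of_val (h'.trans hd)⟩

theorem StS_neg_one : (StS : SL(2, F) → ℂ) (-1) = (Fintype.card F : ℂ) := by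
  unfold StS
  rw [Pi.sub_apply, ← Cfsg.Agent.Lib.Char.SL2Split.ind_res,
    ind_scalar 1 1 (toGL (-1 : SL(2, F))) (-1) (by
      ext i j
      fin_cases i <;> fin_cases j <;> simp [toGL])]
  rw [MulChar.one_apply (isUnit_iff_ne_zero.2 (neg_ne_zero.2 one_ne_zero))]
  simp

theorem q_mem_psl : Fintype.card F ∈ charDegrees (PSL(2, F)) :=
  mem_psl isIrr_StS (by rw [StS_neg_one, StS_one]) StS_one

theorem indS_neg_one (γ : MulChar F ℂ) :
    indFun (BorS F) (chiS γ) (-1) = ((Fintype.card F : ℂ) + 1) * γ (-1) := by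
  rw [← Cfsg.Agent.Lib.Char.SL2Split.ind_res,
    ind_scalar γ 1 (toGL (-1 : SL(2, F))) (-1) (by
      ext i j
      fin_cases i <;> fin_cases j <;> simp [toGL])]
  rw [MulChar.one_apply (isUnit_iff_ne_zero.2 (neg_ne_zero.2 one_ne_zero))]
  simp

/-- A suitable character of the multiplicative group. -/
theorem exists_gamma (hq : 6 ≤ Fintype.card F) : ∃ γ : MulChar F ℂ, γ ^ 2 ≠ 1 ∧ γ (-1) = 1 := by
  have hq1 : Fintype.card F - 1 ≠ 0 := by omega
  obtain ⟨ψ, hψ⟩ := MulChar.exists_mulChar_orderOf F (R := ℂ) (dvd_refl (Fintype.card F - 1))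
    (Complex.isPrimitiveRoot_exp _ hq1)
  refine ⟨ψ ^ 2, ?_, ?_⟩
  · intro h
    rw [← pow_mul] at h
    have h4 := orderOf_dvd_of_pow_eq_one h
    rw [hψ] at h4
    have := Nat.le_of_dvd (by norm_num) h4
    omega
  · rw [MulChar.pow_apply' _ (by norm_num), ← map_pow]
    simp

theorem qp_mem (hq : 6 ≤ Fintype.card F) : Fintype.card F + 1 ∈ charDegrees (SL(2, F)) := by
  obtain ⟨γ, h1, -⟩ := exists_gamma (F := F) hq
  exact mem_charDegrees ((isIrr_indS_iff γ).2 h1) (by rw [indS_one]; push_cast; rfl)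

theorem qp_mem_psl (hq : 6 ≤ Fintype.card F) : Fintype.card F + 1 ∈ charDegrees (PSL(2, F)) := by
  obtain ⟨γ, h1, h2⟩ := exists_gamma (F := F) hq
  refine mem_psl ((isIrr_indS_iff γ).2 h1) ?_ (by rw [indS_one]; push_cast; rfl)
  rw [indS_neg_one, h2, indS_one, mul_one]

/-- A suitable character of the non-split torus, giving a character of degree `q - 1` trivial
on the centre. -/
theorem exists_cusp (h2 : ringChar F ≠ 2) (hq : 5 ≤ Fintype.card F) :
    ∃ χ : SL(2, F) → ℂ, IsIrrCharacter (SL(2, F)) χ ∧ χ (-1) = χ 1 ∧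
      χ 1 = ((Fintype.card F - 1 : ℕ) : ℂ) := by
  classical
  obtain ⟨T, hT₀, hcyc, hcard, hell, -⟩ := Cfsg.Agent.Lib.PSL2.Nonsplit.exists_nonsplit F
  have hT : NS T := ⟨hT₀, hcard, hell⟩
  obtain ⟨g₀, hg₀⟩ := hcyc.exists_generator
  have hn : Fintype.card F + 1 ≠ 0 := by omega
  have hζ := Complex.isPrimitiveRoot_exp (Fintype.card F + 1) hn
  set ζ := Complex.exp (2 * Real.pi * Complex.I / ((Fintype.card F + 1 : ℕ) : ℂ)) with hζdef
  let u : ℂˣ := Units.mk0 ζ (hζ.ne_zero hn)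
  have hu : orderOf u = Fintype.card F + 1 := by
    have h3 : orderOf ((u : ℂˣ) : ℂ) = orderOf u := orderOf_units
    rw [← h3]
    exact (hζ.eq_orderOf).symm
  have hgo : orderOf g₀ = Fintype.card F + 1 := by
    rw [orderOf_eq_card_of_forall_mem_zpowers hg₀, hcard]
  let θ₀ : T →* ℂˣ := monoidHomOfForallMemZpowers hg₀ (g' := u) (by rw [hu, hgo])
  have hθ₀ : θ₀ g₀ = u := monoidHomOfForallMemZpowers_apply_gen hg₀ _
  let θ : T →* ℂˣ := θ₀ ^ 2
  have hθ1 : θ ≠ θ⁻¹ := by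
    intro h
    have h3 := congrArg (fun f : T →* ℂˣ => f g₀) h
    simp only [θ, MonoidHom.pow_apply, MonoidHom.inv_apply] at h3
    rw [hθ₀] at h3
    have h4 : u ^ 4 = 1 := by
      have : u ^ 2 * u ^ 2 = 1 := by
        nth_rw 1 [h3]
        simp
      rw [show (4:ℕ) = 2 + 2 from rfl, pow_add]
      exact this
    have h5 := orderOf_dvd_of_pow_eq_one h4
    rw [hu] at h5
    have := Nat.le_of_dvd (by norm_num) h5
    omega
  have hθz : ((θ (zt hT) : ℂˣ) : ℂ) = 1 := by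
    simp only [θ, sq]
    exact unit_zt_sq hT θ₀
  have hγ : (1 : MulChar F ℂ) (-1) = ((θ (zt hT) : ℂˣ) : ℂ) := by
    rw [hθz, MulChar.one_apply (isUnit_iff_ne_zero.2 (neg_ne_zero.2 one_ne_zero))]
  refine ⟨RR T θ 1, isIrr_RR hT h2 θ hθ1 1 hγ, ?_, ?_⟩
  · rw [RR_neg_one hT θ 1 hγ, hθz, RR_one hT, mul_one]
  · rw [RR_one hT]
    have : 1 ≤ Fintype.card F := by omega
    push_cast [Nat.cast_sub this]
    rfl

theorem qm_mem (h2 : ringChar F ≠ 2) (hq : 5 ≤ Fintype.card F) :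
    Fintype.card F - 1 ∈ charDegrees (SL(2, F)) := by
  obtain ⟨χ, h1, -, h3⟩ := exists_cusp (F := F) h2 hq
  exact mem_charDegrees h1 h3

theorem qm_mem_psl (h2 : ringChar F ≠ 2) (hq : 5 ≤ Fintype.card F) :
    Fintype.card F - 1 ∈ charDegrees (PSL(2, F)) := by
  obtain ⟨χ, h1, h4, h3⟩ := exists_cusp (F := F) h2 hq
  exact mem_psl h1 h4 h3

/-- Even characteristic: degree `q - 1` occurs. -/
theorem qm_mem_even (h2 : ringChar F = 2) (hq : 4 ≤ Fintype.card F) :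
    Fintype.card F - 1 ∈ charDegrees (SL(2, F)) := by
  have h := (even_counts (F := F) h2 hq).2
  have hpos : 0 < Nat.card {χ : IrrCharacter (SL(2, F)) // χ.1 1 = ((Fintype.card F - 1 : ℕ) : ℂ)} := by
    rw [h]
    omega
  obtain ⟨⟨χ, hχ⟩⟩ := (Nat.card_pos_iff.1 hpos).1
  exact mem_charDegrees χ.2 hχ

/-- Even characteristic: degree `q + 1` occurs. -/
theorem qp_mem_even (h2 : ringChar F = 2) (hq : 4 ≤ Fintype.card F) :
    Fintype.card F + 1 ∈ charDegrees (SL(2, F)) := by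
  have h := (even_counts (F := F) h2 hq).1
  have hpos : 0 < Nat.card {χ : IrrCharacter (SL(2, F)) // χ.1 1 = ((Fintype.card F + 1 : ℕ) : ℂ)} := by
    rw [h]
    omega
  obtain ⟨⟨χ, hχ⟩⟩ := (Nat.card_pos_iff.1 hpos).1
  exact mem_charDegrees χ.2 hχ

end Cfsg.Agent.Lib.Char.SL2Degrees
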