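import Mathlib

set_option autoImplicit false

namespace Cfsg.Agent.Lib.Char.TIFixed

universe u v

open scoped BigOperators

/-- Translation action on functions, packaged on the nonzero elements of an invariant set. -/
theorem exists_const_combination {P : Type u} [Group P] [Fintype P] {p : ℕ} [hp : Fact p.Prime]
    (hP : IsPGroup p P) {k : Type v} [Field k] [CharP k p] (c : P → k) (hc : c ≠ 0) :
    ∃ (n : P → ℕ) (γ : k), γ ≠ 0 ∧ ∀ u, ∑ t, (n t : k) * c (t⁻¹ * u) = γ := by
  classical
  -- the additive homomorphism from coefficient vectors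
  letI : Algebra (ZMod p) k := ZMod.algebra k p
  let Φ : (P → ZMod p) →ₗ[ZMod p] (P → k) :=
    { toFun := fun n u => ∑ t, algebraMap (ZMod p) k (n t) * c (t⁻¹ * u)
      map_add' := by
        intro a b
        funext u
        simp [add_mul, Finset.sum_add_distrib]
      map_smul' := by
        intro r a
        funext u
        simp [Finset.mul_sum, mul_assoc, Algebra.smul_def] }
  -- the translation on functions
  let tr : P → (P → k) → (P → k) := fun s f u => f (s⁻¹ * u)
  have htr : ∀ (s : P) (n : P → ZMod p), tr s (Φ n) = Φ (fun t => n (s⁻¹ * t)) := by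
    intro s n
    funext u
    change ∑ t, algebraMap (ZMod p) k (n t) * c (t⁻¹ * (s⁻¹ * u))
      = ∑ t, algebraMap (ZMod p) k (n (s⁻¹ * t)) * c (t⁻¹ * u)
    refine Fintype.sum_equiv (Equiv.mulLeft s) _ _ (fun t => ?_)
    simp [mul_assoc]
  let X : Submodule (ZMod p) (P → k) := LinearMap.range Φ
  have hXfin : Finite X := by
    have : Finite (LinearMap.range Φ) := inferInstance
    exact this
  let α := {y : X // y ≠ 0}
  have hmem : ∀ (s : P) (y : P → k), y ∈ X → tr s y ∈ X := by
    rintro s _ ⟨n, rfl⟩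
    exact ⟨_, (htr s n).symm⟩
  have hne : ∀ (s : P) (y : P → k), y ≠ 0 → tr s y ≠ 0 := by
    intro s y hy h0
    apply hy
    funext u
    have := congrFun h0 (s * u)
    simpa [tr] using this
  letI act : MulAction P α :=
    { smul := fun s y => ⟨⟨tr s y.1.1, hmem s _ y.1.2⟩, fun h0 =>
        hne s y.1.1 (fun h1 => y.2 (Subtype.ext h1)) (congrArg Subtype.val h0)⟩
      one_smul := by
        intro y
        apply Subtype.ext
        apply Subtype.ext
        funext u
        change y.1.1 (1⁻¹ * u) = y.1.1 u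
        simp
      mul_smul := by
        intro a b y
        apply Subtype.ext
        apply Subtype.ext
        funext u
        change y.1.1 ((a * b)⁻¹ * u) = y.1.1 (b⁻¹ * (a⁻¹ * u))
        simp [mul_assoc] }
  -- card of X is a power of p
  have hcardX : ∃ j, Nat.card X = p ^ j := by
    have h1 : Nat.card X ∣ Nat.card (P → ZMod p) :=
      AddSubgroup.card_dvd_of_surjective Φ.rangeRestrict.toAddMonoidHom Φ.surjective_rangeRestrict
    have h2 : Nat.card (P → ZMod p) = p ^ Fintype.card P := by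
      simp [Nat.card_eq_fintype_card, ZMod.card]
    rw [h2] at h1
    obtain ⟨j, -, hj⟩ := (Nat.dvd_prime_pow hp.out).1 h1
    exact ⟨j, hj⟩
  have hcX : c ∈ X := by
    refine ⟨fun t => if t = 1 then 1 else 0, ?_⟩
    funext u
    change ∑ t, algebraMap (ZMod p) k (if t = 1 then 1 else 0) * c (t⁻¹ * u) = c u
    rw [Finset.sum_eq_single 1]
    · simp
    · intro b _ hb
      simp [hb]
    · simp
  have hnt : Nontrivial X := ⟨⟨⟨c, hcX⟩, 0, fun h => hc (congrArg Subtype.val h)⟩⟩
  obtain ⟨j, hj⟩ := hcardX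
  have hcard1 : 1 < Nat.card X := Finite.one_lt_card_iff_nontrivial.2 hnt
  have hj0 : j ≠ 0 := by
    rintro rfl
    rw [hj, pow_zero] at hcard1
    exact lt_irrefl _ hcard1
  have hdvd : p ∣ Nat.card X := by
    rw [hj]
    exact dvd_pow_self p hj0
  have hα : ¬ p ∣ Nat.card α := by
    haveI := Fintype.ofFinite X
    have h3 : Nat.card α = Nat.card X - 1 := by
      simp only [Nat.card_eq_fintype_card, α]
      rw [Fintype.card_subtype_compl]
      simp
    rw [h3]
    intro h4
    have h5 : p ∣ 1 := by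
      have := Nat.dvd_sub hdvd h4
      rwa [Nat.sub_sub_self hcard1.le] at this
    exact hp.out.one_lt.ne' (Nat.dvd_one.1 h5)
  haveI : Finite α := inferInstance
  obtain ⟨y, hy⟩ := hP.nonempty_fixed_point_of_prime_not_dvd_card α hα
  have hfix : ∀ (s u : P), y.1.1 (s⁻¹ * u) = y.1.1 u := by
    intro s u
    have := hy s
    exact congrFun (congrArg (fun z : α => (z.1.1 : P → k)) this) u
  obtain ⟨n₀, hn₀⟩ := y.1.2
  have hconst : ∀ u, y.1.1 u = y.1.1 1 := by
    intro u
    have := hfix u u
    simpa using this.symm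
  refine ⟨fun t => (n₀ t).val, y.1.1 1, ?_, ?_⟩
  · intro h0
    apply y.2
    apply Subtype.ext
    funext u
    rw [hconst u, h0]
    rfl
  · intro u
    rw [← hconst u, ← hn₀]
    change _ = ∑ t, algebraMap (ZMod p) k (n₀ t) * c (t⁻¹ * u)
    refine Finset.sum_congr rfl (fun t _ => ?_)
    congr 1
    rw [← map_natCast (algebraMap (ZMod p) k), ZMod.natCast_zmod_val]

/-- A valuation subring of the complex numbers in which a given prime is a nonunit. -/
theorem exists_valuationSubring (p : ℕ) (hp : p.Prime) :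
    ∃ R : ValuationSubring ℂ, (p : ℂ) ∈ R.nonunits := by
  let A : Subring ℂ := (Int.castRingHom ℂ).range
  let a : A := ⟨(p : ℂ), ⟨(p : ℤ), by simp⟩⟩
  have hI : Ideal.span {a} ≠ ⊤ := by
    intro h
    rw [Ideal.span_singleton_eq_top] at h
    obtain ⟨⟨b, ⟨z, hz⟩⟩, hb⟩ := isUnit_iff_exists_inv.mp h
    have h1 : ((p : ℂ)) * b = 1 := congrArg Subtype.val hb
    rw [← hz] at h1
    have h2 : ((p : ℤ) * z) = 1 := by
      have : (((p : ℤ) * z : ℤ) : ℂ) = ((1 : ℤ) : ℂ) := by
        push_cast
        simpa using h1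
      exact_mod_cast this
    have h3 : (p : ℤ) ∣ 1 := ⟨z, h2.symm⟩
    have h4 : p ∣ 1 := by exact_mod_cast h3
    exact hp.one_lt.ne' (Nat.dvd_one.1 h4)
  obtain ⟨B, -, hB⟩ := Ideal.image_subset_nonunits_valuationSubring (Ideal.span {a}) hI
  exact ⟨B, hB ⟨a, Ideal.subset_span rfl, rfl⟩⟩

/-- Orbit-sum decomposition for a free action. -/
theorem exists_sum_free_action {P Y V : Type*} [Group P] [Fintype P] [MulAction P Y] [Fintype Y]
    [AddCommMonoid V] (hfree : ∀ (u : P) (y : Y), u • y = y → u = 1) (F : Y → V) :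
    ∃ Z : Finset Y, ∑ y, F y = ∑ z ∈ Z, ∑ u : P, F (u • z) := by
  classical
  let Ω := MulAction.orbitRel.Quotient P Y
  letI : Fintype Ω := Fintype.ofFinite _
  let rep : Ω → Y := Quotient.out
  have hrep : ∀ ω : Ω, (Quotient.mk'' (rep ω) : Ω) = ω := fun ω => Quotient.out_eq' ω
  have hinj : Function.Injective rep := by
    intro a b h
    rw [← hrep a, ← hrep b, h]
  refine ⟨Finset.univ.image rep, ?_⟩
  rw [Finset.sum_image (fun a _ b _ h => hinj h)]
  rw [← Finset.sum_product']
  symm
  refine Finset.sum_bij (fun (x : Ω × P) _ => x.2 • rep x.1) ?_ ?_ ?_ ?_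
  · intro _ _
    exact Finset.mem_univ _
  · rintro ⟨a, u⟩ _ ⟨b, w⟩ _ h
    have h1 : (Quotient.mk'' (rep a) : Ω) = Quotient.mk'' (rep b) := by
      apply Quotient.sound'
      change rep a ∈ MulAction.orbit P (rep b)
      refine ⟨u⁻¹ * w, ?_⟩
      simp only at h
      change (u⁻¹ * w) • rep b = rep a
      rw [mul_smul, ← h, inv_smul_smul]
    have hab : a = b := by rw [← hrep a, ← hrep b, h1]
    subst hab
    have h2 : (w⁻¹ * u) • rep a = rep a := by
      simp only at h
      rw [mul_smul, h, inv_smul_smul]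
    have h3 := hfree _ _ h2
    have : u = w := by
      rw [inv_mul_eq_one] at h3
      exact h3.symm
    simp [this]
  · intro y _
    let ω : Ω := Quotient.mk'' y
    have h1 : (Quotient.mk'' (rep ω) : Ω) = Quotient.mk'' y := hrep ω
    have h2 : rep ω ∈ MulAction.orbit P y := Quotient.exact' h1
    obtain ⟨w, hw⟩ := h2
    refine ⟨(ω, w⁻¹), Finset.mem_univ _, ?_⟩
    simp only
    change w⁻¹ • rep ω = y
    rw [← hw]
    simp
  · intro _ _
    rfl

/-- The key reduction step: modulo the maximal ideal of a valuation subring, the sum over a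
`p`-group of translates of a vector with linearly dependent translates vanishes. -/
theorem sum_mem_smul_of_dependent {Q V : Type*} [Group Q] [Fintype Q] {p : ℕ} [Fact p.Prime]
    (hQ : IsPGroup p Q) [AddCommGroup V] [Module ℂ V] (R : ValuationSubring ℂ)
    (hpR : (p : ℂ) ∈ R.nonunits) [Module ↥R V] [IsScalarTower ↥R ℂ V]
    (τ : Q →* (V →ₗ[ℂ] V)) (L : Submodule ↥R V) (hL : ∀ (u : Q), ∀ w ∈ L, τ u w ∈ L)
    (w : V) (hw : w ∈ L) (c : Q → ℂ) (hc0 : c ≠ 0) (hc : ∑ u, c u • τ u w = 0) :
    ∑ u, τ u w ∈ (IsLocalRing.maximalIdeal ↥R) • L := by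
  classical
  -- normalize the coefficients
  obtain ⟨u₀, -, hu₀⟩ := Finset.exists_max_image Finset.univ (fun u => R.valuation (c u))
    ⟨1, Finset.mem_univ _⟩
  have hcu₀ : c u₀ ≠ 0 := by
    intro h0
    apply hc0
    funext u
    have h1 := hu₀ u (Finset.mem_univ _)
    rw [h0, map_zero] at h1
    simpa using h1
  have hval : ∀ u, c u / c u₀ ∈ R := by
    intro u
    rw [← ValuationSubring.valuation_le_one_iff, map_div₀]
    exact div_le_one_of_le₀ (hu₀ u (Finset.mem_univ _)) zero_le
  let c' : Q → ↥R := fun u => ⟨c u / c u₀, hval u⟩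
  have hc'1 : c' u₀ = 1 := by
    apply Subtype.ext
    simp [c', hcu₀]
  have hc'rel : ∑ u, c' u • τ u w = 0 := by
    have h1 : ∀ u, c' u • τ u w = (c u₀)⁻¹ • (c u • τ u w) := by
      intro u
      rw [← algebraMap_smul ℂ (c' u) (τ u w), smul_smul]
      congr 1
      simp only [c']
      change c u / c u₀ = _
      field_simp
    simp_rw [h1]
    rw [← Finset.smul_sum, hc, smul_zero]
  -- the residue field
  let k := IsLocalRing.ResidueField ↥R
  have hpk : ((p : ℕ) : k) = 0 := by
    obtain ⟨ha, hm⟩ := ValuationSubring.mem_nonunits_iff_exists_mem_maximalIdeal.1 hpR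
    have h1 : (⟨(p : ℂ), ha⟩ : ↥R) = ((p : ℕ) : ↥R) := by
      apply Subtype.ext
      simp
    rw [h1] at hm
    have h2 := (IsLocalRing.residue_eq_zero_iff _).2 hm
    simpa using h2
  haveI : CharP k p := (CharP.charP_iff_prime_eq_zero (Fact.out : p.Prime)).2 hpk
  let res : ↥R →+* k := IsLocalRing.residue ↥R
  have hne : (fun u => res (c' u)) ≠ 0 := by
    intro h0
    have := congrFun h0 u₀
    simp [hc'1] at this
  obtain ⟨n, γ, hγ, hn⟩ := exists_const_combination hQ _ hne
  let y : Q → ↥R := fun u => ∑ t, (n t : ↥R) * c' (t⁻¹ * u)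
  have hresy : ∀ u, res (y u) = γ := by
    intro u
    rw [← hn u]
    simp [y, map_sum, map_mul, map_natCast]
  have hyrel : ∑ u, y u • τ u w = 0 := by
    have h1 : ∀ t : Q, ∑ u, (n t : ↥R) • (c' (t⁻¹ * u) • τ u w) = 0 := by
      intro t
      have h2 : τ t (∑ u, c' u • τ u w) = 0 := by rw [hc'rel, map_zero]
      rw [map_sum] at h2
      rw [← Finset.smul_sum]
      have h3 : ∑ u, c' (t⁻¹ * u) • τ u w = ∑ u, τ t (c' u • τ u w) := by
        refine Fintype.sum_equiv (Equiv.mulLeft t⁻¹) _ _ (fun u => ?_)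
        simp only [Equiv.coe_mulLeft]
        rw [LinearMap.map_smul_of_tower]
        congr 1
        rw [← Module.End.mul_apply, ← map_mul]
        simp
      rw [h3, h2, smul_zero]
    have h4 : ∑ u, y u • τ u w = ∑ t, ∑ u, (n t : ↥R) • (c' (t⁻¹ * u) • τ u w) := by
      rw [Finset.sum_comm]
      refine Finset.sum_congr rfl (fun u _ => ?_)
      simp only [y]
      rw [Finset.sum_smul]
      refine Finset.sum_congr rfl (fun t _ => ?_)
      rw [mul_smul]
    rw [h4]
    exact Finset.sum_eq_zero (fun t _ => h1 t)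
  have hy1 : IsUnit (y 1) := by
    rw [← IsLocalRing.residue_ne_zero_iff_isUnit]
    exact fun h0 => hγ ((hresy 1).symm.trans h0)
  have hdiff : ∀ u, y 1 - y u ∈ IsLocalRing.maximalIdeal ↥R := by
    intro u
    rw [← IsLocalRing.residue_eq_zero_iff, map_sub]
    change res (y 1) - res (y u) = 0
    rw [hresy, hresy, sub_self]
  have hmain : y 1 • ∑ u, τ u w = ∑ u, (y 1 - y u) • τ u w := by
    simp only [sub_smul, Finset.sum_sub_distrib, hyrel, sub_zero, Finset.smul_sum]
  have hmem : y 1 • ∑ u, τ u w ∈ (IsLocalRing.maximalIdeal ↥R) • L := by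
    rw [hmain]
    exact Submodule.sum_mem _ (fun u _ => Submodule.smul_mem_smul (hdiff u) (hL u w hw))
  obtain ⟨b, hb⟩ := hy1.exists_left_inv
  have hfin := Submodule.smul_mem _ b hmem
  rwa [smul_smul, hb, one_smul] at hfin

/-- **Fixed vectors for a trivial-intersection Sylow subgroup.**  Let `P` be a TI Sylow `p`-subgroup
of `G`, acting on a complex representation; if `U'` is a stable subspace of dimension less than
`|P|` and `v ∈ U'` is fixed by `N_G(P)` with vanishing `G`-orbit sum, then `v = 0`. -/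
theorem eq_zero_of_TI {G U : Type*} [Group G] [Fintype G] [AddCommGroup U] [Module ℂ U]
    {p : ℕ} [Fact p.Prime] (P : Sylow p G) (σ : G →* (U →ₗ[ℂ] U))
    (hTI : ∀ g : G, g ∉ Subgroup.normalizer ((P : Subgroup G) : Set G) →
      ∀ u ∈ (P : Subgroup G), g⁻¹ * u * g ∈ (P : Subgroup G) → u = 1)
    (U' : Submodule ℂ U) [FiniteDimensional ℂ U']
    (hU' : Module.finrank ℂ U' < Nat.card ↥(P : Subgroup G))
    (hstable : ∀ g : G, ∀ w ∈ U', σ g w ∈ U') (v : U) (hv : v ∈ U')
    (hfix : ∀ x ∈ Subgroup.normalizer ((P : Subgroup G) : Set G), σ x v = v)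
    (hsum : ∑ g, σ g v = 0) : v = 0 := by
  classical
  obtain ⟨R, hpR⟩ := exists_valuationSubring p (Fact.out : p.Prime)
  letI : Module ↥R U := Module.compHom U (R.subtype : ↥R →+* ℂ)
  haveI : IsScalarTower ↥R ℂ U := ⟨fun a b x => by
    change (a.1 • b) • x = a.1 • (b • x)
    rw [smul_smul]
    rfl⟩
  letI : Fintype ↥(P : Subgroup G) := Fintype.ofFinite _
  set N : Subgroup G := Subgroup.normalizer ((P : Subgroup G) : Set G) with hN
  letI : Fintype ↥N := Fintype.ofFinite _
  have hPN : (P : Subgroup G) ≤ N := Subgroup.le_normalizer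
  let m : Ideal ↥R := IsLocalRing.maximalIdeal ↥R
  let L : Submodule ↥R U := Submodule.span ↥R (Set.range fun g => σ g v)
  have hvL : v ∈ L := Submodule.subset_span ⟨1, by simp⟩
  have hLstable : ∀ g : G, ∀ w ∈ L, σ g w ∈ L := by
    intro g w hw
    induction hw using Submodule.span_induction with
    | mem x hx =>
      obtain ⟨g', rfl⟩ := hx
      refine Submodule.subset_span ⟨g * g', ?_⟩
      simp only [map_mul, Module.End.mul_apply]
    | zero => simp
    | add x y _ _ hx hy =>
      rw [map_add]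
      exact L.add_mem hx hy
    | smul a x _ hx =>
      rw [LinearMap.map_smul_of_tower]
      exact L.smul_mem a hx
  have hLU' : ∀ w ∈ L, w ∈ U' := by
    intro w hw
    induction hw using Submodule.span_induction with
    | mem x hx =>
      obtain ⟨g', rfl⟩ := hx
      exact hstable g' v hv
    | zero => exact U'.zero_mem
    | add x y _ _ hx hy => exact U'.add_mem hx hy
    | smul a x _ hx =>
      have : a • x = (a : ℂ) • x := rfl
      rw [this]
      exact U'.smul_mem _ hx
  -- the sum over `P` kills `L` modulo the maximal ideal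
  have hdep : ∀ w ∈ L, ∑ u : ↥(P : Subgroup G), σ (u : G) w ∈ m • L := by
    intro w hw
    let τ : ↥(P : Subgroup G) →* (U →ₗ[ℂ] U) := σ.comp (P : Subgroup G).subtype
    have hw' : w ∈ U' := hLU' w hw
    let fam : ↥(P : Subgroup G) → U' := fun u => ⟨σ (u : G) w, hstable _ w hw'⟩
    have hnli : ¬ LinearIndependent ℂ fam := by
      intro h
      have := h.fintype_card_le_finrank
      rw [Nat.card_eq_fintype_card] at hU'
      omega
    obtain ⟨c, hc, i, hi⟩ := Fintype.not_linearIndependent_iff.1 hnli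
    have hc' : ∑ u, c u • τ u w = 0 := by
      have := congrArg (Submodule.subtype U') hc
      simpa [fam, τ] using this
    have hc0 : c ≠ 0 := fun h0 => hi (congrFun h0 i)
    exact sum_mem_smul_of_dependent P.isPGroup' R hpR τ L (fun u w hw => hLstable _ w hw) w hw c hc0
      hc'
  -- the free action of `P × N`
  let Y := {g : G // g ∉ N}
  have hpN : ∀ (x : G) (k : ℕ), x ∈ N → x ^ p ^ k = 1 → x ∈ (P : Subgroup G) := by
    intro x k hx hk
    have h1 : IsPGroup p (Subgroup.zpowers x) := by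
      rintro ⟨y, z, rfl⟩
      refine ⟨k, ?_⟩
      apply Subtype.ext
      change (x ^ z) ^ p ^ k = 1
      rw [← zpow_natCast, ← zpow_mul, mul_comm, zpow_mul, zpow_natCast, hk, one_zpow]
    have h2 : Subgroup.zpowers x ≤ N := by
      rw [Subgroup.zpowers_le]
      exact hx
    have h3 := h1.to_sup_of_normal_right' P.isPGroup' h2
    have h4 := P.is_maximal' h3 le_sup_right
    have h5 : x ∈ Subgroup.zpowers x ⊔ (P : Subgroup G) :=
      Subgroup.mem_sup_left (Subgroup.mem_zpowers x)
    rw [h4] at h5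
    exact h5
  letI act : MulAction (↥(P : Subgroup G) × ↥N) Y :=
    { smul := fun a g => ⟨(a.1 : G) * g.1 * (a.2 : G)⁻¹, by
        intro h
        apply g.2
        have h1 : (a.1 : G)⁻¹ * ((a.1 : G) * g.1 * (a.2 : G)⁻¹) * (a.2 : G) ∈ N :=
          N.mul_mem (N.mul_mem (N.inv_mem (hPN a.1.2)) h) a.2.2
        simpa [mul_assoc] using h1⟩
      one_smul := by
        intro g
        apply Subtype.ext
        change (1 : G) * g.1 * (1 : G)⁻¹ = g.1
        simp
      mul_smul := by
        intro a b g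
        apply Subtype.ext
        change ((a.1 : G) * (b.1 : G)) * g.1 * ((a.2 : G) * (b.2 : G))⁻¹
          = (a.1 : G) * ((b.1 : G) * g.1 * (b.2 : G)⁻¹) * (a.2 : G)⁻¹
        simp [mul_assoc] }
  have hsmul : ∀ (a : ↥(P : Subgroup G) × ↥N) (g : Y), ((a • g : Y) : G) =
      (a.1 : G) * g.1 * (a.2 : G)⁻¹ := fun _ _ => rfl
  have hfree : ∀ (a : ↥(P : Subgroup G) × ↥N) (g : Y), a • g = g → a = 1 := by
    intro a g h
    have h1 : (a.1 : G) * g.1 * (a.2 : G)⁻¹ = g.1 := by
      rw [← hsmul, h]
    have h2 : g.1⁻¹ * (a.1 : G) * g.1 = (a.2 : G) := by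
      have : (a.1 : G) * g.1 = g.1 * (a.2 : G) := mul_inv_eq_iff_eq_mul.1 h1
      rw [mul_assoc, this]
      simp
    obtain ⟨k, hk⟩ := P.isPGroup' a.1
    have hk' : (a.1 : G) ^ p ^ k = 1 := by
      have := congrArg Subtype.val hk
      simpa using this
    have h3 : (a.2 : G) ^ p ^ k = 1 := by
      have h6 : (g.1⁻¹ * (a.1 : G) * g.1) ^ p ^ k = g.1⁻¹ * (a.1 : G) ^ p ^ k * g.1 := by
        simpa using conj_pow (a := g.1⁻¹) (b := (a.1 : G)) (i := p ^ k)
      rw [← h2, h6, hk']
      simp
    have h4 : (a.1 : G) = 1 := by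
      refine hTI g.1 g.2 _ a.1.2 ?_
      rw [h2]
      exact hpN _ k a.2.2 h3
    have h5 : (a.2 : G) = 1 := by
      rw [← h2, h4]
      simp
    exact Prod.ext (Subtype.ext h4) (Subtype.ext h5)
  obtain ⟨Z, hZ⟩ := exists_sum_free_action hfree (fun g : Y => σ (g : G) v)
  have hvm : v ∈ m • L := by
    have hcardN : (Fintype.card ↥N : ℂ) ≠ 0 := by exact_mod_cast Fintype.card_ne_zero
    have h1 : ∑ g : {x : G // x ∈ N}, σ (g : G) v = (Fintype.card ↥N : ℂ) • v := by
      have : ∀ g : {x : G // x ∈ N}, σ (g : G) v = v := fun g => hfix g.1 g.2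
      simp_rw [this]
      simp [Nat.cast_smul_eq_nsmul]
    have h2 : ∀ z : Y, ∑ a : ↥(P : Subgroup G) × ↥N, σ ((a • z : Y) : G) v
        = (Fintype.card ↥N : ℂ) • ∑ u : ↥(P : Subgroup G), σ (u : G) (σ (z : G) v) := by
      intro z
      rw [Fintype.sum_prod_type, Finset.smul_sum]
      refine Finset.sum_congr rfl (fun u _ => ?_)
      have h3 : ∀ n : ↥N, σ ((((u, n) : ↥(P : Subgroup G) × ↥N) • z : Y) : G) v
          = σ (u : G) (σ (z : G) v) := by
        intro n
        rw [hsmul]
        simp only [map_mul, Module.End.mul_apply]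
        rw [hfix _ (N.inv_mem n.2)]
      simp_rw [h3]
      simp [Nat.cast_smul_eq_nsmul]
    have h3 : (Fintype.card ↥N : ℂ) • (v + ∑ z ∈ Z, ∑ u : ↥(P : Subgroup G),
        σ (u : G) (σ (z : G) v)) = 0 := by
      rw [smul_add, ← h1, Finset.smul_sum]
      simp_rw [← h2]
      rw [← hZ]
      rw [← hsum, ← Fintype.sum_subtype_add_sum_subtype (fun x : G => x ∈ N) (fun g : G => σ g v)]
      congr!
    have h4 : v = -∑ z ∈ Z, ∑ u : ↥(P : Subgroup G), σ (u : G) (σ (z : G) v) :=
      eq_neg_of_add_eq_zero_left ((smul_eq_zero.1 h3).resolve_left hcardN)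
    rw [h4]
    refine Submodule.neg_mem _ (Submodule.sum_mem _ (fun z _ => hdep _ ?_))
    exact Submodule.subset_span ⟨z, rfl⟩
  have hall : ∀ g : G, ∀ x ∈ m • L, σ g x ∈ m • L := by
    intro g x hx
    induction hx using Submodule.smul_induction_on' with
    | smul r hr n hn =>
      rw [LinearMap.map_smul_of_tower]
      exact Submodule.smul_mem_smul hr (hLstable g n hn)
    | add x _ y _ hx hy =>
      rw [map_add]
      exact Submodule.add_mem _ hx hy
  have hLm : L ≤ m • L := by
    refine Submodule.span_le.2 ?_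
    rintro _ ⟨g, rfl⟩
    exact hall g v hvm
  have hbot : L ≤ ⊥ := by
    refine Submodule.le_of_le_smul_of_le_jacobson_bot (Submodule.fg_span (Set.finite_range _))
      (IsLocalRing.maximalIdeal_le_jacobson _) ?_
    simpa using hLm
  simpa using hbot hvL

end Cfsg.Agent.Lib.Char.TIFixed
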