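import Mathlib
import Cfsg.Agent.Lib.Char.Galois
import Cfsg.Agent.Lib.Char.CompleteCor
import Cfsg.Agent.Lib.Char.Ortho
import Cfsg.Agent.Lib.PGroup.Taussky

set_option autoImplicit false

namespace Cfsg.Agent.Lib.Char.TwoField

open Cfsg Cfsg.Agent.Lib.Char.Ortho
open scoped ComplexConjugate

universe u

variable {G : Type u} [Group G] [Finite G]

/-- The values of an irreducible character on the powers of `g` through eigenvalues. -/
theorem exists_eigen {χ : G → ℂ} (hχ : IsIrrCharacter G χ) {g : G} {N : ℕ} (hN : 0 < N) (hg : g ^ N = 1) :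
    ∃ (d : ℕ) (μ : Fin d → ℂ), (∀ i, μ i ^ N = 1) ∧ ∀ j : ℕ, χ (g ^ j) = ∑ i, μ i ^ j := by
  obtain ⟨n, ρ, hρ, rfl⟩ := hχ
  have hf : (ρ g) ^ N = 1 := by
    rw [← map_pow, hg, map_one]
  obtain ⟨d, b, μ, hb, hμ⟩ := exists_eigenbasis (ρ g) hN hf
  refine ⟨d, μ, hμ, fun j => ?_⟩
  have h1 : ∀ i, (ρ (g ^ j)) (b i) = μ i ^ j • b i := by
    intro i
    rw [map_pow]
    induction j with
    | zero => simp
    | succ j ih =>
      rw [pow_succ, Module.End.mul_apply, hb, map_smul, ih, smul_smul, pow_succ]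
      ring_nf
  exact trace_eq_sum_of_eigenbasis (ρ (g ^ j)) b (fun i => μ i ^ j) h1

/-- Ring endomorphisms of `ℂ` fixing a set fix the field it generates. -/
theorem fix_adjoin (τ : ℂ →+* ℂ) {S : Set ℂ} (h : ∀ s ∈ S, τ s = s) :
    ∀ y ∈ IntermediateField.adjoin ℚ S, τ y = y := by
  let F : IntermediateField ℚ ℂ := (τ.eqLocusField (RingHom.id ℂ)).toIntermediateField (by
    intro q
    simp [RingHom.mem_eqLocusField])
  have hle : IntermediateField.adjoin ℚ S ≤ F := by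
    rw [IntermediateField.adjoin_le_iff]
    intro s hs
    exact h s hs
  intro y hy
  exact hle hy

/-- A primitive `2^(m+1)`-th root of unity raised to `2^m` is `-1`. -/
theorem pow_half {m : ℕ} {ζ : ℂ} (hζ : IsPrimitiveRoot ζ (2 ^ (m + 1))) : ζ ^ 2 ^ m = -1 := by
  have h1 : (ζ ^ 2 ^ m) ^ 2 = 1 := by
    rw [← pow_mul, ← pow_succ]
    exact hζ.pow_eq_one
  have h2 : ζ ^ 2 ^ m ≠ 1 := hζ.pow_ne_one_of_pos_of_lt (by positivity)
    (Nat.pow_lt_pow_right (by norm_num) (by omega))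
  have h3 : (ζ ^ 2 ^ m - 1) * (ζ ^ 2 ^ m + 1) = 0 := by linear_combination h1
  rcases mul_eq_zero.mp h3 with h4 | h4
  · exact absurd (sub_eq_zero.mp h4) h2
  · exact eq_neg_of_add_eq_zero_left h4

theorem not_isConj_pow {n : ℕ} (hn : 4 ≤ n) {ζ : ℂ} (hζ : IsPrimitiveRoot ζ (2 ^ (n - 1))) {g : G}
    (hg : g ^ 2 ^ (n - 1) = 1) {w : ℂ} (hw : w = ζ + ζ⁻¹ ∨ w = ζ - ζ⁻¹)
    (hmem : w ∈ IntermediateField.adjoin ℚ {z : ℂ | ∃ χ : IrrCharacter G, (χ : G → ℂ) g = z}) :
    ¬ IsConj g (g ^ (1 + 2 ^ (n - 2))) := by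
  intro hc
  have hN : 0 < 2 ^ (n - 1) := by positivity
  have hcop : (1 + 2 ^ (n - 2)).Coprime (2 ^ (n - 1)) := by
    apply Nat.Coprime.pow_right
    rw [Nat.coprime_comm, Nat.Prime.coprime_iff_not_dvd Nat.prime_two]
    have h2 : 2 ∣ 2 ^ (n - 2) := dvd_pow_self 2 (by omega)
    omega
  obtain ⟨τ, hτ⟩ := Cfsg.Agent.Lib.Char.Galois.exists_ringHom_pow _ hN _ hcop
  have hfix : ∀ s ∈ {z : ℂ | ∃ χ : IrrCharacter G, (χ : G → ℂ) g = z}, τ s = s := by
    rintro _ ⟨χ, rfl⟩
    obtain ⟨d, μ, hμ, hval⟩ := exists_eigen χ.2 hN hg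
    have h1 := hval 1
    have h2 := hval (1 + 2 ^ (n - 2))
    simp only [pow_one] at h1
    obtain ⟨c, hc'⟩ := isConj_iff.mp hc
    have h3 : (χ : G → ℂ) (g ^ (1 + 2 ^ (n - 2))) = (χ : G → ℂ) g := by
      rw [← hc']
      exact Cfsg.Agent.Lib.Char.Basic.isClassFunction_of_isCharacter
        (Cfsg.Agent.Lib.Char.Basic.isCharacter_of_isIrrCharacter χ.2) g c
    rw [h1, map_sum]
    have h4 : ∀ i, τ (μ i) = μ i ^ (1 + 2 ^ (n - 2)) := fun i => hτ _ (hμ i)
    simp only [h4]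
    rw [← h2, h3, h1]
  have hw1 := fix_adjoin τ hfix w hmem
  have hm : n - 1 = (n - 2) + 1 := by omega
  have hhalf : ζ ^ 2 ^ (n - 2) = -1 := pow_half (hm ▸ hζ)
  have hτζ : τ ζ = -ζ := by
    rw [hτ ζ hζ.pow_eq_one, pow_add, pow_one, hhalf]
    ring
  have hζ0 : ζ ≠ 0 := hζ.ne_zero hN.ne'
  have hτw : τ w = -w := by
    rcases hw with rfl | rfl
    · rw [map_add, map_inv₀, hτζ, inv_neg]
      ring
    · rw [map_sub, map_inv₀, hτζ, inv_neg]
      ring
  have hw0 : w = 0 := by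
    rw [hτw] at hw1
    have : (2 : ℂ) * w = 0 := by linear_combination -hw1
    simpa using this
  have h4 : ζ ^ 4 = 1 := by
    rcases hw with rfl | rfl
    · have h5 : ζ ^ 2 = -1 := by
        field_simp at hw0
        linear_combination hw0
      calc ζ ^ 4 = (ζ ^ 2) ^ 2 := by ring
        _ = 1 := by rw [h5]; norm_num
    · have h5 : ζ ^ 2 = 1 := by
        field_simp at hw0
        linear_combination hw0
      calc ζ ^ 4 = (ζ ^ 2) ^ 2 := by ring
        _ = 1 := by rw [h5]; norm_num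
  have h5 := hζ.dvd_of_pow_eq_one 4 h4
  have h6 : 2 ^ 3 ∣ 2 ^ (n - 1) := pow_dvd_pow 2 (by omega)
  have h7 := h6.trans h5
  norm_num at h7

open Cfsg.Agent.Lib.PGroup.Taussky Cfsg.Agent.Lib.PGroup.CyclicMax Subgroup in
/-- The direction from the field to the abelianization. -/
theorem index_of_field (P : Sylow 2 G) {n : ℕ} (hn : 3 ≤ n) (hP : Nat.card P = 2 ^ n) {ζ : ℂ}
    (hζ : IsPrimitiveRoot ζ (2 ^ (n - 1))) {g : G} (hg : g ∈ (P : Subgroup G))
    (heven : 2 ∣ (Subgroup.centralizer ({g} : Set G)).index) {w : ℂ} (hw : w = ζ + ζ⁻¹ ∨ w = ζ - ζ⁻¹)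
    (hmem : w ∈ IntermediateField.adjoin ℚ {z : ℂ | ∃ χ : IrrCharacter G, (χ : G → ℂ) g = z}) :
    (commutator ↥P).index = 4 := by
  haveI : Fact (Nat.Prime 2) := ⟨Nat.prime_two⟩
  have hX : IsPGroup 2 ↥(P : Subgroup G) := P.isPGroup'
  let g₁ : ↥(P : Subgroup G) := ⟨g, hg⟩
  have hna : ∃ x y : ↥(P : Subgroup G), x * y ≠ y * x := by
    by_contra hcon
    push Not at hcon
    have hle : (P : Subgroup G) ≤ Subgroup.centralizer ({g} : Set G) := by
      intro x hx
      rw [Subgroup.mem_centralizer_iff]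
      rintro y rfl
      have := hcon ⟨x, hx⟩ g₁
      exact (congrArg Subtype.val this).symm
    have h1 := Subgroup.index_dvd_of_le hle
    exact P.not_dvd_index (heven.trans h1)
  by_cases hn3 : n = 3
  · subst hn3
    have h1 : commutator ↥(P : Subgroup G) ≠ ⊥ := by
      intro h
      obtain ⟨x, y, hxy⟩ := hna
      apply hxy
      have h2 : x * y * x⁻¹ * y⁻¹ ∈ commutator ↥(P : Subgroup G) := by
        rw [_root_.commutator_def]
        exact Subgroup.commutator_mem_commutator (Subgroup.mem_top x) (Subgroup.mem_top y)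
      rw [h, Subgroup.mem_bot] at h2
      rw [mul_inv_eq_one] at h2
      exact mul_inv_eq_iff_eq_mul.mp h2
    have h2 := Subgroup.card_mul_index (commutator ↥(P : Subgroup G))
    have h3 : 1 < Nat.card (commutator ↥(P : Subgroup G)) := by
      have h4 : Nat.card (commutator ↥(P : Subgroup G)) ≠ 1 := fun h => h1 (Subgroup.card_eq_one.mp h)
      have h5 := Nat.card_pos (α := commutator ↥(P : Subgroup G))
      omega
    have h4 : (commutator ↥(P : Subgroup G)).index ≤ 4 := by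
      change _ * _ = Nat.card ↥(P : Subgroup G) at h2
      rw [hP] at h2
      nlinarith
    exact (klein_of_index_le_four hX hna h4).1
  have hn4 : 4 ≤ n := by omega
  obtain ⟨a, ha⟩ := (IsPGroup.iff_orderOf.mp hX) g₁
  have hadvd : 2 ^ a ∣ 2 ^ n := by
    rw [← ha, ← hP]
    exact orderOf_dvd_natCard g₁
  have han : a ≤ n := (Nat.pow_dvd_pow_iff_le_right (by norm_num)).mp hadvd
  have hord : orderOf g = 2 ^ a := by
    rw [← ha]
    exact (Subgroup.orderOf_mk g hg).symm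
  have hne : a ≠ n := by
    rintro rfl
    have h1 : zpowers g₁ = ⊤ := by
      apply Subgroup.eq_top_of_card_eq
      rw [Nat.card_zpowers, ha]
      exact hP.symm
    obtain ⟨x, y, hxy⟩ := hna
    apply hxy
    have hx : x ∈ zpowers g₁ := h1 ▸ Subgroup.mem_top x
    have hy : y ∈ zpowers g₁ := h1 ▸ Subgroup.mem_top y
    obtain ⟨i, rfl⟩ := hx
    obtain ⟨j, rfl⟩ := hy
    exact (Commute.refl g₁).zpow_zpow _ _
  have hg1 : g ^ 2 ^ (n - 1) = 1 := by
    rw [← orderOf_dvd_iff_pow_eq_one, hord]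
    exact pow_dvd_pow 2 (by omega)
  have hnc := not_isConj_pow hn4 hζ hg1 hw hmem
  have ha1 : a = n - 1 := by
    by_contra hcon
    apply hnc
    have h1 : g ^ 2 ^ (n - 2) = 1 := by
      rw [← orderOf_dvd_iff_pow_eq_one, hord]
      exact pow_dvd_pow 2 (by omega)
    rw [pow_add, pow_one, h1, mul_one]
  set m := n - 1 with hm
  have hm2 : m - 1 = n - 2 := by omega
  have hcard : Nat.card ↥(P : Subgroup G) = 2 ^ (m + 1) := by
    rw [show m + 1 = n by omega]
    exact hP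
  have hsc : SC 2 m g₁ := sc_of_index hcard g₁ (by rw [ha, ha1]) hna
  have htop : zpowers g₁ ≠ ⊤ := by
    intro h1
    obtain ⟨x, y, hxy⟩ := hna
    apply hxy
    have hx : x ∈ zpowers g₁ := h1 ▸ Subgroup.mem_top x
    have hy : y ∈ zpowers g₁ := h1 ▸ Subgroup.mem_top y
    obtain ⟨i, rfl⟩ := hx
    obtain ⟨j, rfl⟩ := hy
    exact (Commute.refl g₁).zpow_zpow _ _
  obtain ⟨hm2', hmain⟩ := hsc.main htop
  rcases hmain with ⟨_, h1, b, hb, hb2⟩ | ⟨_, b, _, _, hbu⟩
  · have hMC : MC m g₁ b := ⟨hm2', hsc, h1, hb, hb2⟩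
    exact hMC.index_commutator
  · exfalso
    apply hnc
    rw [isConj_iff]
    refine ⟨(b : G), ?_⟩
    have h2 := congrArg Subtype.val hbu
    simp only [Subgroup.coe_mul, Subgroup.coe_inv, Subgroup.coe_pow] at h2
    rw [← hm2]
    exact h2

section Forward

open Cfsg.Agent.Lib.PGroup.Taussky Cfsg.Agent.Lib.PGroup.CyclicMax Subgroup

variable (P : Sylow 2 G) {m : ℕ} {u b : ↥(P : Subgroup G)} (hMC : MC m u b) {k₀ : ℕ}
  (hk : b * u * b⁻¹ = u ^ k₀)

include hMC hk

/-- Conjugates of `u` in `⟨u⟩`. -/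
theorem conj_classification (x : G) (j : ℕ) (hx : x * (u : G) * x⁻¹ = (u : G) ^ j) :
    (u : G) ^ j = u ∨ (u : G) ^ j = (u : G) ^ k₀ := by
  classical
  haveI : Fact (Nat.Prime 2) := ⟨Nat.prime_two⟩
  set g : G := (u : G) with hg
  let D : Subgroup G := zpowers g
  let Nn : Subgroup G := Subgroup.normalizer (D : Set G)
  have hord : orderOf g = 2 ^ m := by
    rw [hg, Subgroup.orderOf_coe]
    exact hMC.sc.hu
  have hcone : ∀ y : G, (∃ k : ℕ, y * g * y⁻¹ = g ^ k) → ∀ h ∈ D, y * h * y⁻¹ ∈ D := by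
    rintro y ⟨k, hk'⟩ _ ⟨i, rfl⟩
    have h1 : y * g ^ i * y⁻¹ = (y * g * y⁻¹) ^ i := (conj_zpow).symm
    show y * g ^ i * y⁻¹ ∈ zpowers g
    rw [h1, hk']
    exact Subgroup.zpow_mem _ (Subgroup.pow_mem _ (mem_zpowers g) k) i
  have hPact : ∀ y ∈ (P : Subgroup G), ∃ k : ℕ, y * g * y⁻¹ = g ^ k := by
    intro y hy
    obtain ⟨k, hk'⟩ := hMC.sc.act ⟨y, hy⟩
    exact ⟨k, congrArg Subtype.val hk'⟩
  have hPN : (P : Subgroup G) ≤ Nn := by
    intro y hy
    rw [Subgroup.mem_normalizer_iff]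
    intro h
    constructor
    · exact hcone y (hPact y hy) h
    · intro h1
      have h2 := hcone y⁻¹ (hPact _ ((P : Subgroup G).inv_mem hy)) _ h1
      have h3 : y⁻¹ * (y * h * y⁻¹) * y⁻¹⁻¹ = h := by group
      rwa [h3] at h2
  have hxN : x ∈ Nn := by
    rw [Subgroup.mem_normalizer_iff]
    intro h
    constructor
    · exact hcone x ⟨j, hx⟩ h
    · intro h1
      have hle : D.map (MulAut.conj x).toMonoidHom ≤ D := by
        rintro _ ⟨d, hd, rfl⟩
        exact hcone x ⟨j, hx⟩ d hd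
      have hcard : Nat.card D ≤ Nat.card (D.map (MulAut.conj x).toMonoidHom) := by
        rw [Subgroup.card_map_of_injective (MulAut.conj x).injective]
      have heq := Subgroup.eq_of_le_of_card_ge hle hcard
      rw [← heq] at h1
      obtain ⟨d, hd, hd2⟩ := h1
      have h2 : d = h := by
        have h3 : x * d * x⁻¹ = x * h * x⁻¹ := hd2
        exact mul_left_cancel (mul_right_cancel h3)
      rwa [← h2]
  let f : Nn →* MulAut D := D.normalizerMonoidHom
  have hpg : IsPGroup 2 (MulAut D) := by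
    have h1 : Nat.card D = 2 ^ m := by rw [Nat.card_zpowers]; exact hord
    have hm : 2 ≤ m := hMC.hm
    apply IsPGroup.of_card (n := m - 1)
    rw [IsCyclic.card_mulAut, h1, Nat.totient_prime_pow Nat.prime_two (by omega)]
    simp
  let P₁ : Sylow 2 Nn := P.subtype hPN
  let P₂ : Sylow 2 f.range := P₁.mapSurjective f.rangeRestrict_surjective
  have hP₂ : (P₂ : Subgroup f.range) = ⊤ := by
    have h1 := P₂.is_maximal' (Q := ⊤) ((hpg.to_subgroup f.range).to_subgroup ⊤) le_top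
    exact h1.symm
  have h1 : f.rangeRestrict ⟨x, hxN⟩ ∈ (P₂ : Subgroup f.range) := by
    rw [hP₂]
    exact Subgroup.mem_top _
  rw [Sylow.coe_mapSurjective] at h1
  obtain ⟨p, hp, hpx⟩ := h1
  have hpP : (p : G) ∈ (P : Subgroup G) := by
    have h2 : (P₁ : Subgroup Nn) = (P : Subgroup G).subgroupOf Nn := P.coe_subtype hPN
    rw [h2] at hp
    exact hp
  have hfp : f p = f ⟨x, hxN⟩ := congrArg Subtype.val hpx
  have hval : (p : G) * g * (p : G)⁻¹ = x * g * x⁻¹ := by
    have h2 := congrArg (fun α : MulAut D => ((α ⟨g, mem_zpowers g⟩ : D) : G)) hfp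
    exact h2
  rw [← hx, ← hval]
  let p₁ : ↥(P : Subgroup G) := ⟨p, hpP⟩
  by_cases hpz : p₁ ∈ zpowers u
  · left
    obtain ⟨i, hi⟩ := hpz
    have h2 : p₁ * u * p₁⁻¹ = u := by
      rw [← hi]
      have : Commute (u ^ i) u := (Commute.refl u).zpow_left i
      rw [this.eq]
      group
    exact congrArg Subtype.val h2
  · right
    have hb : b ∉ zpowers u := hMC.hb
    have h2 : b⁻¹ * p₁ ∈ zpowers u := by
      rw [Subgroup.mul_mem_iff_of_index_two hMC.index_two]
      constructor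
      · intro h3
        exact absurd (Subgroup.inv_mem_iff _ |>.mp h3) hb
      · intro h3
        exact absurd h3 hpz
    obtain ⟨i, hi⟩ := h2
    have h3 : p₁ = b * u ^ i := by
      have hi' : u ^ i = b⁻¹ * p₁ := hi
      rw [hi']
      group
    have h4 : p₁ * u * p₁⁻¹ = u ^ k₀ := by
      rw [h3, ← hk]
      have : Commute (u ^ i) u := (Commute.refl u).zpow_left i
      calc b * u ^ i * u * (b * u ^ i)⁻¹ = b * (u ^ i * u) * (u ^ i)⁻¹ * b⁻¹ := by group
        _ = b * (u * u ^ i) * (u ^ i)⁻¹ * b⁻¹ := by rw [this.eq]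
        _ = b * u * b⁻¹ := by group
    have h5 := congrArg Subtype.val h4
    simp only [Subgroup.coe_mul, Subgroup.coe_inv, Subgroup.coe_pow] at h5
    exact h5

omit hk

/-- The class of `u` has even size. -/
theorem even_class : 2 ∣ (Subgroup.centralizer ({(u : G)} : Set G)).index := by
  classical
  haveI : Fact (Nat.Prime 2) := ⟨Nat.prime_two⟩
  by_contra hodd
  set g : G := (u : G) with hg
  let C : Subgroup G := Subgroup.centralizer ({g} : Set G)
  have hX : IsPGroup 2 ↥(P : Subgroup G) := P.isPGroup'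
  letI : MulAction ↥(P : Subgroup G) (G ⧸ C) := inferInstance
  have hcard : ¬ 2 ∣ Nat.card (G ⧸ C) := hodd
  obtain ⟨z, hz⟩ := hX.nonempty_fixed_point_of_prime_not_dvd_card (G ⧸ C) hcard
  obtain ⟨x, rfl⟩ := QuotientGroup.mk_surjective z
  set y : G := x * g * x⁻¹ with hy
  have hcomm : ∀ p ∈ (P : Subgroup G), p * y = y * p := by
    intro p hp
    have h1 := hz ⟨p, hp⟩
    have h2 : ((p * x : G) : G ⧸ C) = (x : G ⧸ C) := h1
    rw [QuotientGroup.eq] at h2
    have h3 : (p * x)⁻¹ * x ∈ C := h2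
    rw [Subgroup.mem_centralizer_iff] at h3
    have h4 := h3 g rfl
    have h5 : x⁻¹ * p⁻¹ * x * g = g * (x⁻¹ * p⁻¹ * x) := by
      have h6 : (p * x)⁻¹ * x = x⁻¹ * p⁻¹ * x := by group
      rw [h6] at h4
      exact h4.symm
    have h7 : p⁻¹ * y = y * p⁻¹ := by
      rw [hy]
      calc p⁻¹ * (x * g * x⁻¹) = x * ((x⁻¹ * p⁻¹ * x) * g) * x⁻¹ := by group
        _ = x * (g * (x⁻¹ * p⁻¹ * x)) * x⁻¹ := by rw [h5]
        _ = x * g * x⁻¹ * p⁻¹ := by group
    calc p * y = p * y * (p⁻¹ * p) := by group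
      _ = p * (y * p⁻¹) * p := by group
      _ = p * (p⁻¹ * y) * p := by rw [h7]
      _ = y * p := by group
  have hordg : orderOf g = 2 ^ m := by
    rw [hg, Subgroup.orderOf_coe]
    exact hMC.sc.hu
  have hordy : orderOf y = 2 ^ m := by
    have h1 := MulEquiv.orderOf_eq (MulAut.conj x) g
    rw [MulAut.conj_apply] at h1
    rw [hy, h1]
    exact hordg
  have hyP : y ∈ (P : Subgroup G) := by
    have hQ : IsPGroup 2 (zpowers y) := by
      apply IsPGroup.of_card (n := m)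
      rw [Nat.card_zpowers, hordy]
    have h1 : P ∈ MulAction.fixedPoints (zpowers y) (Sylow 2 G) := by
      rintro ⟨q, hq⟩
      have h2 : q ∈ Subgroup.normalizer ((P : Subgroup G) : Set G) := by
        apply Subgroup.centralizer_le_normalizer
        rw [Subgroup.mem_centralizer_iff]
        intro p hp
        obtain ⟨i, rfl⟩ := hq
        have : Commute p ((fun n : ℤ => y ^ n) i) := (Commute.zpow_right (hcomm p hp) i)
        exact this
      exact Sylow.smul_eq_iff_mem_normalizer.mpr h2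
    have h2 := (hQ.sylow_mem_fixedPoints_iff).mp h1
    exact h2 (mem_zpowers y)
  let y₁ : ↥(P : Subgroup G) := ⟨y, hyP⟩
  have hy₁u : y₁ * u = u * y₁ := Subtype.ext (hcomm _ u.2).symm
  obtain ⟨i, hi⟩ := hMC.sc.cent y₁ hy₁u
  have hi' : u ^ i = y₁ := hi
  obtain ⟨w, hwodd, hw⟩ := hMC.exists_w
  have hby : b * y₁ * b⁻¹ = y₁ := by
    apply Subtype.ext
    show (b : G) * y * (b : G)⁻¹ = y
    rw [hcomm b b.2]
    group
  have h1 : (b * u * b⁻¹) ^ i = u ^ i := by
    rw [conj_zpow, hi', hby]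
  rw [hw, ← zpow_natCast, ← zpow_mul] at h1
  have h2 : u ^ (((2 * w + 1 : ℕ) : ℤ) * i - i) = 1 := by
    rw [zpow_sub, h1, mul_inv_cancel]
  have h3 := orderOf_dvd_iff_zpow_eq_one.mpr h2
  rw [hMC.sc.hu] at h3
  have hm := hMC.hm
  have h4 : ((2 ^ m : ℕ) : ℤ) ∣ 2 * ((w : ℤ) * i) := by
    have : ((2 * w + 1 : ℕ) : ℤ) * i - i = 2 * ((w : ℤ) * i) := by
      push_cast
      ring
    rwa [this] at h3
  have h5 : ((2 ^ (m - 1) : ℕ) : ℤ) ∣ (w : ℤ) * i := by
    have h6 : ((2 ^ m : ℕ) : ℤ) = 2 * ((2 ^ (m - 1) : ℕ) : ℤ) := by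
      push_cast
      rw [← pow_succ']
      congr 1
      omega
    rw [h6] at h4
    exact (mul_dvd_mul_iff_left (by norm_num)).mp h4
  have h7 : IsCoprime ((2 ^ (m - 1) : ℕ) : ℤ) (w : ℤ) := by
    rw [Nat.isCoprime_iff_coprime]
    apply Nat.Coprime.pow_left
    exact Nat.coprime_two_left.mpr hwodd
  have h8 := h7.dvd_of_dvd_mul_left h5
  have h9 : y₁ ^ 2 = 1 := by
    rw [← hi', ← zpow_natCast, ← zpow_mul]
    apply orderOf_dvd_iff_zpow_eq_one.mp
    rw [hMC.sc.hu]
    have h6 : ((2 ^ m : ℕ) : ℤ) = ((2 ^ (m - 1) : ℕ) : ℤ) * 2 := by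
      push_cast
      rw [← pow_succ]
      congr 1
      omega
    rw [h6]
    push_cast
    exact mul_dvd_mul (by exact_mod_cast h8) (dvd_refl _)
  have h10 : orderOf y₁ ∣ 2 := orderOf_dvd_of_pow_eq_one h9
  have h11 : orderOf y₁ = 2 ^ m := by
    rw [← hordy]
    exact Subgroup.orderOf_mk y hyP
  rw [h11] at h10
  have h12 : 2 ^ 2 ∣ 2 ^ m := pow_dvd_pow 2 hm
  have h13 := h12.trans h10
  norm_num at h13

include hk

theorem field_eq {ζ : ℂ} (hζ : IsPrimitiveRoot ζ (2 ^ m)) (hk0 : k₀ < 2 ^ m) (hk1 : k₀ ≠ 1)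
    (hε : ζ ^ (k₀ + 1) = 1 ∨ ζ ^ (k₀ + 1) = -1) :
    IntermediateField.adjoin ℚ {z : ℂ | ∃ χ : IrrCharacter G, (χ : G → ℂ) (u : G) = z} =
      IntermediateField.adjoin ℚ {ζ + ζ ^ k₀} := by
  classical
  cases nonempty_fintype G
  set g : G := (u : G) with hg
  have hord : orderOf g = 2 ^ m := by
    rw [hg, Subgroup.orderOf_coe]
    exact hMC.sc.hu
  have hgN : g ^ 2 ^ m = 1 := by
    rw [← hord]
    exact pow_orderOf_eq_one g
  have hN : 0 < 2 ^ m := by positivity
  haveI : NeZero (2 ^ m) := ⟨hN.ne'⟩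
  have hbg : (b : G) * g * (b : G)⁻¹ = g ^ k₀ := by
    have h5 := congrArg Subtype.val hk
    simp only [Subgroup.coe_mul, Subgroup.coe_inv, Subgroup.coe_pow] at h5
    exact h5
  have hζ0 : ζ ≠ 0 := hζ.ne_zero hN.ne'
  apply le_antisymm
  · rw [IntermediateField.adjoin_le_iff]
    rintro _ ⟨χ, rfl⟩
    set F : IntermediateField ℚ ℂ := IntermediateField.adjoin ℚ {ζ + ζ ^ k₀} with hF
    have hw : ζ + ζ ^ k₀ ∈ F := IntermediateField.mem_adjoin_simple_self ℚ _
    have hεF : ζ ^ (k₀ + 1) ∈ F := by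
      rcases hε with h | h
      · rw [h]
        exact F.one_mem
      · rw [h]
        exact F.neg_mem F.one_mem
    have hc : ∀ i : ℕ, ζ ^ i + ζ ^ (i * k₀) ∈ F ∧ ζ ^ (i + 1) + ζ ^ ((i + 1) * k₀) ∈ F := by
      intro i
      induction i with
      | zero =>
        constructor
        · simp only [pow_zero, zero_mul]
          exact F.add_mem F.one_mem F.one_mem
        · simpa using hw
      | succ i ih =>
        refine ⟨ih.2, ?_⟩
        have h1 : ζ ^ (i + 1 + 1) + ζ ^ ((i + 1 + 1) * k₀) =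
            (ζ + ζ ^ k₀) * (ζ ^ (i + 1) + ζ ^ ((i + 1) * k₀)) - ζ ^ (k₀ + 1) * (ζ ^ i + ζ ^ (i * k₀)) := by
          ring
        rw [h1]
        exact F.sub_mem (F.mul_mem hw ih.2) (F.mul_mem hεF ih.1)
    obtain ⟨d, μ, hμ, hval⟩ := exists_eigen χ.2 hN hgN
    have hex : ∀ i, ∃ e : ℕ, ζ ^ e = μ i := by
      intro i
      obtain ⟨e, -, he⟩ := hζ.eq_pow_of_pow_eq_one (hμ i)
      exact ⟨e, he⟩
    choose e he using hex
    have h1 := hval 1
    simp only [pow_one] at h1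
    have h2 := hval k₀
    have h3 : (χ : G → ℂ) (g ^ k₀) = (χ : G → ℂ) g := by
      rw [← hbg]
      exact Cfsg.Agent.Lib.Char.Basic.isClassFunction_of_isCharacter
        (Cfsg.Agent.Lib.Char.Basic.isCharacter_of_isIrrCharacter χ.2) g b
    have h4 : (2 : ℂ) * (χ : G → ℂ) g = ∑ i, (ζ ^ (e i) + ζ ^ (e i * k₀)) := by
      rw [Finset.sum_add_distrib]
      have h5 : ∑ i, ζ ^ (e i) = (χ : G → ℂ) g := by
        rw [h1]
        exact Finset.sum_congr rfl fun i _ => he i
      have h6 : ∑ i, ζ ^ (e i * k₀) = (χ : G → ℂ) g := by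
        rw [← h3, h2]
        refine Finset.sum_congr rfl fun i _ => ?_
        rw [pow_mul, he i]
      rw [h5, h6]
      ring
    have h5 : (χ : G → ℂ) g = (2 : ℂ)⁻¹ * ∑ i, (ζ ^ (e i) + ζ ^ (e i * k₀)) := by
      rw [← h4]
      field_simp
    show (χ : G → ℂ) g ∈ F
    rw [h5]
    refine F.mul_mem (F.inv_mem (F.add_mem F.one_mem F.one_mem |> fun h => by
      have : (2 : ℂ) = 1 + 1 := by norm_num
      rw [this]
      exact h)) (F.sum_mem fun i _ => (hc (e i)).1)
  · rw [IntermediateField.adjoin_simple_le_iff]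
    set E : IntermediateField ℚ ℂ :=
      IntermediateField.adjoin ℚ {z : ℂ | ∃ χ : IrrCharacter G, (χ : G → ℂ) g = z} with hE
    letI : Fintype (IrrCharacter G) := Fintype.ofFinite _
    have hχE : ∀ χ : IrrCharacter G, (χ : G → ℂ) g ∈ E := fun χ =>
      IntermediateField.subset_adjoin ℚ _ ⟨χ, rfl⟩
    let N : ℕ := 2 ^ m
    let a : IrrCharacter G → ℂ := fun χ =>
      (N : ℂ)⁻¹ * ∑ j ∈ Finset.range N, ζ ^ j * conj ((χ : G → ℂ) (g ^ j))
    have hNc : (N : ℂ) ≠ 0 := by exact_mod_cast hN.ne'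
    -- the geometric sum
    have hgeom : ∀ μ : ℂ, μ ^ N = 1 →
        ∑ j ∈ Finset.range N, ζ ^ j * conj (μ ^ j) = if μ = ζ then (N : ℂ) else 0 := by
      intro μ hμ
      have hnorm : ‖μ‖ = 1 := Complex.norm_eq_one_of_pow_eq_one hμ hN.ne'
      have hμ0 : μ ≠ 0 := by
        intro h
        rw [h, norm_zero] at hnorm
        exact zero_ne_one hnorm
      have hconj : conj μ = μ⁻¹ := (Complex.inv_eq_conj hnorm).symm
      have h1 : ∀ j, ζ ^ j * conj (μ ^ j) = (ζ * μ⁻¹) ^ j := by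
        intro j
        rw [map_pow, hconj, mul_pow]
      simp only [h1]
      by_cases h : μ = ζ
      · rw [if_pos h, h, mul_inv_cancel₀ hζ0]
        simp [N]
      · rw [if_neg h]
        have hξ : ζ * μ⁻¹ ≠ 1 := by
          intro h2
          apply h
          field_simp at h2
          exact h2.symm
        have h3 := geom_sum_mul (ζ * μ⁻¹) N
        have h4 : (ζ * μ⁻¹) ^ N = 1 := by
          rw [mul_pow, inv_pow, hμ, hζ.pow_eq_one]
          simp
        rw [h4, sub_self] at h3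
        exact (mul_eq_zero.mp h3).resolve_right (sub_ne_zero.mpr hξ)
    have ha : ∀ χ, ∃ k : ℕ, a χ = k := by
      intro χ
      obtain ⟨d, μ, hμ, hval⟩ := exists_eigen χ.2 hN hgN
      refine ⟨(Finset.univ.filter fun i => μ i = ζ).card, ?_⟩
      show (N : ℂ)⁻¹ * _ = _
      have h1 : ∑ j ∈ Finset.range N, ζ ^ j * conj ((χ : G → ℂ) (g ^ j)) =
          ∑ i, ∑ j ∈ Finset.range N, ζ ^ j * conj (μ i ^ j) := by
        rw [Finset.sum_comm]
        refine Finset.sum_congr rfl fun j _ => ?_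
        rw [hval, map_sum, Finset.mul_sum]
      rw [h1]
      simp only [fun i => hgeom (μ i) (hμ i)]
      rw [Finset.sum_ite, Finset.sum_const, Finset.sum_const_zero, add_zero, nsmul_eq_mul, ← mul_assoc,
        mul_comm, ← mul_assoc]
      rw [mul_inv_cancel₀ hNc, one_mul]
    -- the orthogonality
    have hsum : ∑ χ : IrrCharacter G, a χ * (χ : G → ℂ) g =
        (N : ℂ)⁻¹ * (Nat.card (Subgroup.centralizer ({g} : Set G)) : ℂ) * (ζ + ζ ^ k₀) := by
      have h1 : ∀ j : ℕ, ∑ χ : IrrCharacter G, (χ : G → ℂ) g * conj ((χ : G → ℂ) (g ^ j)) =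
          if IsConj g (g ^ j) then (Nat.card (Subgroup.centralizer ({g} : Set G)) : ℂ) else 0 := by
        intro j
        split_ifs with h
        · exact Cfsg.Agent.Lib.Char.CompleteCor.column_orth_conj h
        · exact Cfsg.Agent.Lib.Char.CompleteCor.column_orth_not_conj h
      have h2 : ∑ χ : IrrCharacter G, a χ * (χ : G → ℂ) g =
          (N : ℂ)⁻¹ * ∑ j ∈ Finset.range N, ζ ^ j *
            ∑ χ : IrrCharacter G, (χ : G → ℂ) g * conj ((χ : G → ℂ) (g ^ j)) := by
        simp only [a, Finset.mul_sum, Finset.sum_mul]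
        rw [Finset.sum_comm]
        refine Finset.sum_congr rfl fun j _ => Finset.sum_congr rfl fun χ _ => ?_
        ring
      rw [h2]
      simp only [h1]
      have h3 : ∀ j ∈ Finset.range N, IsConj g (g ^ j) ↔ j = 1 ∨ j = k₀ := by
        intro j hj
        have hj' : j < 2 ^ m := Finset.mem_range.mp hj
        constructor
        · intro hc
          obtain ⟨x, hx⟩ := isConj_iff.mp hc
          rcases conj_classification P hMC hk x j hx with h4 | h4
          · left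
            have h5 : g ^ j = g ^ 1 := by rw [pow_one]; exact h4
            rw [pow_eq_pow_iff_modEq, hord] at h5
            have h1lt : 1 < 2 ^ m := Nat.one_lt_two_pow (by have := hMC.hm; omega)
            exact Nat.ModEq.eq_of_lt_of_lt h5 hj' h1lt
          · right
            rw [pow_eq_pow_iff_modEq, hord] at h4
            exact Nat.ModEq.eq_of_lt_of_lt h4 hj' hk0
        · rintro (rfl | rfl)
          · rw [pow_one]
          · exact isConj_iff.mpr ⟨b, hbg⟩
      have h4 : ∑ j ∈ Finset.range N, ζ ^ j *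
          (if IsConj g (g ^ j) then (Nat.card (Subgroup.centralizer ({g} : Set G)) : ℂ) else 0) =
          ∑ j ∈ ({1, k₀} : Finset ℕ), ζ ^ j * (Nat.card (Subgroup.centralizer ({g} : Set G)) : ℂ) := by
        have h1lt : 1 < 2 ^ m := Nat.one_lt_two_pow (by have := hMC.hm; omega)
        have hsub : ({1, k₀} : Finset ℕ) ⊆ Finset.range N := by
          intro j hj
          simp only [Finset.mem_insert, Finset.mem_singleton] at hj
          rw [Finset.mem_range]
          rcases hj with rfl | rfl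
          · exact h1lt
          · exact hk0
        rw [← Finset.sum_subset hsub]
        · refine Finset.sum_congr rfl fun j hj => ?_
          rw [if_pos ((h3 j (hsub hj)).mpr (by simpa using hj))]
        · intro j hj hj2
          rw [if_neg, mul_zero]
          intro h5
          apply hj2
          simpa using (h3 j hj).mp h5
      rw [h4, Finset.sum_pair (Ne.symm hk1), pow_one]
      ring
    have hcard : (Nat.card (Subgroup.centralizer ({g} : Set G)) : ℂ) ≠ 0 := by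
      exact_mod_cast Nat.card_pos.ne'
    have hw : ζ + ζ ^ k₀ = (Nat.card (Subgroup.centralizer ({g} : Set G)) : ℂ)⁻¹ * (N : ℂ) *
        ∑ χ : IrrCharacter G, a χ * (χ : G → ℂ) g := by
      rw [hsum]
      field_simp
    rw [hw]
    refine E.mul_mem (E.mul_mem (E.inv_mem (natCast_mem E _)) (natCast_mem E _)) (E.sum_mem fun χ _ => ?_)
    obtain ⟨k, hk'⟩ := ha χ
    rw [hk']
    exact E.mul_mem (natCast_mem E k) (hχE χ)

end Forward

open Cfsg.Agent.Lib.PGroup.Taussky Cfsg.Agent.Lib.PGroup.CyclicMax Subgroup in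
theorem exists_of_index (P : Sylow 2 G) {n : ℕ} (hn : 3 ≤ n) (hP : Nat.card P = 2 ^ n) {ζ : ℂ}
    (hζ : IsPrimitiveRoot ζ (2 ^ (n - 1))) (hidx : (commutator ↥P).index = 4) :
    ∃ g : G, g ∈ (P : Subgroup G) ∧ 2 ∣ (Subgroup.centralizer ({g} : Set G)).index ∧
      (IntermediateField.adjoin ℚ {z : ℂ | ∃ χ : IrrCharacter G, (χ : G → ℂ) g = z} = IntermediateField.adjoin ℚ ({ζ + ζ⁻¹} : Set ℂ) ∨
        IntermediateField.adjoin ℚ {z : ℂ | ∃ χ : IrrCharacter G, (χ : G → ℂ) g = z} = IntermediateField.adjoin ℚ ({ζ - ζ⁻¹} : Set ℂ)) := by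
  haveI : Fact (Nat.Prime 2) := ⟨Nat.prime_two⟩
  have hX : IsPGroup 2 ↥(P : Subgroup G) := P.isPGroup'
  obtain ⟨m, rfl⟩ : ∃ m, n = m + 1 := ⟨n - 1, by omega⟩
  rw [Nat.add_sub_cancel] at hζ
  have hm : 2 ≤ m := by omega
  replace hidx : (commutator ↥(P : Subgroup G)).index = 4 := hidx
  replace hP : Nat.card ↥(P : Subgroup G) = 2 ^ (m + 1) := hP
  have hna : ∃ x y : ↥(P : Subgroup G), x * y ≠ y * x := by
    by_contra hcon
    push Not at hcon
    have hb : commutator ↥(P : Subgroup G) = ⊥ := by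
      rw [eq_bot_iff, _root_.commutator_def, Subgroup.commutator_le]
      intro a _ c _
      rw [Subgroup.mem_bot, commutatorElement_eq_one_iff_mul_comm]
      exact hcon a c
    rw [hb, Subgroup.index_bot] at hidx
    change Nat.card ↥(P : Subgroup G) = 4 at hidx
    rw [hP] at hidx
    have h3 : 2 ^ 3 ≤ 2 ^ (m + 1) := Nat.pow_le_pow_right (by norm_num) (by omega)
    omega
  have hexp := (klein_of_index_le_four hX hna hidx.le).2
  obtain ⟨u, b, hMC⟩ := exists_MC hm hP hidx hexp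
  have hN : 0 < 2 ^ m := by positivity
  have hζ0 : ζ ≠ 0 := hζ.ne_zero hN.ne'
  have hζm : ζ ^ 2 ^ m = 1 := hζ.pow_eq_one
  refine ⟨(u : G), u.2, even_class P hMC, ?_⟩
  have h2m : 4 ≤ 2 ^ m := by
    calc 4 = 2 ^ 2 := by norm_num
      _ ≤ 2 ^ m := Nat.pow_le_pow_right (by norm_num) hm
  rcases hMC.hform with ⟨hf, _⟩ | ⟨h3, hf, _⟩
  · left
    have hk : b * u * b⁻¹ = u ^ (2 ^ m - 1) := by
      rw [hf]
      apply inv_eq_of_mul_eq_one_right
      rw [← pow_succ']
      rw [show 2 ^ m - 1 + 1 = 2 ^ m by omega, ← hMC.sc.hu, pow_orderOf_eq_one]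
    have hz : ζ ^ (2 ^ m - 1) = ζ⁻¹ := by
      apply eq_inv_of_mul_eq_one_left
      rw [← pow_succ, show 2 ^ m - 1 + 1 = 2 ^ m by omega, hζm]
    have hfe := field_eq P hMC hk hζ (by omega) (by omega) (Or.inl (by
      rw [show 2 ^ m - 1 + 1 = 2 ^ m by omega, hζm]))
    rw [hz] at hfe
    exact hfe
  · right
    obtain ⟨m', rfl⟩ : ∃ m', m = m' + 1 := ⟨m - 1, by omega⟩
    simp only [Nat.add_sub_cancel] at hf
    have hhalf : ζ ^ 2 ^ m' = -1 := pow_half hζ
    have h2m' : 4 ≤ 2 ^ m' := by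
      calc 4 = 2 ^ 2 := by norm_num
        _ ≤ 2 ^ m' := Nat.pow_le_pow_right (by norm_num) (by omega)
    have hz : ζ ^ (2 ^ m' - 1) = -ζ⁻¹ := by
      have h1 : ζ ^ (2 ^ m' - 1) * ζ = -1 := by
        rw [← pow_succ, show 2 ^ m' - 1 + 1 = 2 ^ m' by omega, hhalf]
      field_simp
      linear_combination h1
    have hlt : 2 ^ m' - 1 < 2 ^ (m' + 1) := by
      rw [pow_succ]
      omega
    have hfe := field_eq P hMC hf hζ hlt (by omega) (Or.inr (by
      rw [show 2 ^ m' - 1 + 1 = 2 ^ m' by omega, hhalf]))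
    rw [hz, ← sub_eq_add_neg] at hfe
    exact hfe

end Cfsg.Agent.Lib.Char.TwoField
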